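import Cfsg.Agent.TT.Base
import Cfsg.Agent.Chev.Dickson
/-!
# Two-transitive actions: root elements
-/
set_option autoImplicit false
set_option linter.unusedSectionVars false

namespace Cfsg.Agent.TT
open MulAction Cfsg.Agent.Stein Cfsg.Agent.Chev Matrix
open scoped commutatorElement MatrixGroups

/-- a Heisenberg triple of one-parameter groups -/
structure A2 (k G : Type*) [Field k] [Group G] where
  a : k → G
  b : k → G
  c : k → G
  a_add : ∀ s t, a (s + t) = a s * a t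
  b_add : ∀ s t, b (s + t) = b s * b t
  c_add : ∀ s t, c (s + t) = c s * c t
  ab : ∀ s t, a s * b t = b t * a s * c (s * t)
  ac : ∀ s t, a s * c t = c t * a s
  bc : ∀ s t, b s * c t = c t * b s

variable {G Ω : Type*} [Group G] [Finite G] [MulAction G Ω] [Finite Ω] {k : Type*} [Field k] [Finite k]

/-- the range of a one-parameter group -/
def rg (z : k → G) (h : ∀ s t, z (s + t) = z s * z t) : Subgroup G where
  carrier := Set.range z
  mul_mem' := by rintro _ _ ⟨s, rfl⟩ ⟨t, rfl⟩; exact ⟨s + t, h s t⟩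
  one_mem' := ⟨0, add_hom_zero h⟩
  inv_mem' := by rintro _ ⟨s, rfl⟩; exact ⟨-s, add_hom_neg h s⟩

theorem mem_rg {z : k → G} {h : ∀ s t, z (s + t) = z s * z t} {g : G} : g ∈ rg z h ↔ ∃ t, z t = g := Iff.rfl

theorem inj_of_add {z : k → G} (h : ∀ s t, z (s + t) = z s * z t) (h0 : ∀ t, z t = 1 → t = 0) :
    Function.Injective z := fun s t e => sub_eq_zero.1 (h0 _ (by
  rw [sub_eq_add_neg, h, add_hom_neg h, e, mul_inv_cancel]))

theorem card_rg {z : k → G} (h : ∀ s t, z (s + t) = z s * z t) (h0 : ∀ t, z t = 1 → t = 0) :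
    Nat.card (rg z h) = Nat.card k := (Nat.card_congr (Equiv.ofInjective z (inj_of_add h h0))).symm

theorem card_fix_conj {z z' : k → G} {g : G} {d : k} (hd : d ≠ 0) (h : ∀ t, g * z t * g⁻¹ = z' (d * t)) (x : Ω) :
    Nat.card {t // z t • x = x} = Nat.card {t // z' t • (g • x) = g • x} :=
  Nat.card_congr ((Equiv.mulLeft₀ d hd).subtypeEquiv fun t => by
    rw [Equiv.mulLeft₀_apply, ← h, mul_smul, mul_smul, inv_smul_smul, smul_left_cancel_iff])

namespace A2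
variable (T : A2 k G)

theorem c_comm (s t : k) : T.c s * T.c t = T.c t * T.c s := by rw [← T.c_add, ← T.c_add, add_comm]

theorem conj (s t : k) : (T.b s)⁻¹ * T.a t * (T.b s)⁻¹⁻¹ = T.a t * T.c (t * s) := by
  rw [inv_inv, mul_assoc, T.ab, mul_assoc, inv_mul_cancel_left]

/-- root elements have no fixed points if a transitive group normalises the root group -/
theorem nofix [FaithfulSMul G Ω] (hB : ∀ x y : Ω, ∃ g : G, g • x = y ∧ ∃ d ≠ 0, ∀ t, g * T.c t * g⁻¹ = T.c (d * t))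
    (h1 : ∃ g : G, ∃ d ≠ 0, ∀ t, g * T.a t * g⁻¹ = T.c (d * t)) (hc : T.c 1 ≠ 1) {t : k} (ht : t ≠ 0) (x : Ω) :
    T.c t • x ≠ x := by
  have k1 : ∀ y : Ω, Nat.card {t // T.c t • y = y} = Nat.card {t // T.c t • x = x} := fun y => by
    obtain ⟨g, rfl, d, hd, h⟩ := hB y x
    exact card_fix_conj hd h y
  have k2 : ∀ y : Ω, Nat.card {t // T.a t • y = y} = Nat.card {t // T.c t • x = x} := fun y => by
    obtain ⟨g, d, hd, h⟩ := h1
    rw [card_fix_conj hd h y, k1]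
  have k3 : ∀ y : Ω, Nat.card {t // T.c t • y = y} = 1 ∨ Nat.card {t // T.c t • y = y} = Nat.card k := fun y => by
    let A : AddSubgroup (k × k) :=
      { carrier := {v | (T.a v.1 * T.c v.2) • y = y}
        add_mem' := fun {u v} hu hv => by
          have e : T.a (u + v).1 * T.c (u + v).2 = T.a u.1 * T.c u.2 * (T.a v.1 * T.c v.2) := by
            rw [Prod.fst_add, Prod.snd_add, T.a_add, T.c_add, mul_assoc, mul_assoc, ← mul_assoc (T.a v.1), T.ac,
              mul_assoc]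
          change _ • y = y
          rw [e, mul_smul, show (T.a v.1 * T.c v.2) • y = y from hv]; exact hu
        zero_mem' := by
          change (T.a 0 * T.c 0) • y = y
          rw [add_hom_zero T.a_add, add_hom_zero T.c_add, one_mul, one_smul]
        neg_mem' := fun {u} hu => by
          change (T.a (-u.1) * T.c (-u.2)) • y = y
          rw [add_hom_neg T.a_add, add_hom_neg T.c_add, ← _root_.mul_inv_rev, ← T.ac, inv_smul_eq_iff]
          exact Eq.symm hu }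
    rw [k1]
    refine line A _ fun v hv => ?_
    change Nat.card {t // (fun t => T.a (t * v.1) * T.c (t * v.2)) t • y = y} = _
    by_cases h0 : v.1 = 0
    · have h2 : v.2 ≠ 0 := fun e => hv (Prod.ext h0 e)
      rw [card_fix_conj (g := 1) (z' := T.c) h2 (fun t => by
        rw [h0, mul_zero, add_hom_zero T.a_add, mul_comm t]; group), k1]
    · rw [card_fix_conj (g := T.b (v.2 / v.1)) (z' := T.a) h0 (fun t => by
        have := T.conj (v.2 / v.1) (t * v.1)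
        rw [mul_assoc t, mul_div_cancel₀ _ h0] at this
        rw [← this, mul_comm t]; group), k2]
  intro hx
  rcases k3 x with h | h
  · have := (Nat.card_eq_one_iff_unique.1 h).1
    exact ht (congrArg Subtype.val (Subsingleton.elim (⟨t, hx⟩ : {t // T.c t • x = x})
      ⟨0, by rw [add_hom_zero T.c_add, one_smul]⟩))
  · refine hc (eq_of_smul_eq_smul (α := Ω) fun y => ?_)
    have h2 := (k1 y).trans h
    have := (Nat.bijective_iff_injective_and_card (Subtype.val : {t // T.c t • y = y} → k)).2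
      ⟨Subtype.val_injective, h2⟩
    obtain ⟨s, hs⟩ := this.2 1
    rw [one_smul, ← hs]; exact s.2

/-- the Heisenberg group -/
def Y : Subgroup G where
  carrier := {g | ∃ s t u, g = T.b s * T.a t * T.c u}
  mul_mem' := by
    rintro _ _ ⟨s, t, u, rfl⟩ ⟨s', t', u', rfl⟩
    refine ⟨s + s', t + t', t * s' + u + u', ?_⟩
    rw [T.a_add, T.b_add, T.c_add, T.c_add]
    calc _ = T.b s * (T.a t * (T.c u * T.b s')) * T.a t' * T.c u' := by group
      _ = T.b s * (T.b s' * T.a t * (T.c (t * s') * T.c u * T.a t')) * T.c u' := by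
        rw [← T.bc, ← mul_assoc (T.a t), T.ab]; group
      _ = _ := by rw [← T.c_add, ← T.ac, T.c_add]; group
  one_mem' := ⟨0, 0, 0, by rw [add_hom_zero T.a_add, add_hom_zero T.b_add, add_hom_zero T.c_add]; group⟩
  inv_mem' := by
    rintro _ ⟨s, t, u, rfl⟩
    refine ⟨-s, -t, -t * -s + -u, ?_⟩
    rw [T.c_add, ← mul_assoc, ← T.ab, add_hom_neg T.a_add, add_hom_neg T.b_add, add_hom_neg T.c_add,
      ← _root_.mul_inv_rev, ← _root_.mul_inv_rev, ← mul_assoc, ← T.bc, mul_assoc, mul_assoc, T.ac]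

theorem Y_c {y : G} (hy : y ∈ T.Y) (t : k) : y * T.c t = T.c t * y := by
  obtain ⟨s, s', u, rfl⟩ := hy
  rw [mul_assoc, T.c_comm, ← mul_assoc, mul_assoc (T.b s), T.ac, ← mul_assoc, T.bc]; group

theorem comm_eq (s t u t' u' : k) : ⁅T.b s * T.a t * T.c u, T.a t' * T.c u'⁆ = T.c (-(t' * s)) := by
  have e1 : T.b s * T.a t * T.c u * (T.a t' * T.c u') * T.c (t' * s) = T.a t' * T.c u' * (T.b s * T.a t * T.c u) :=
    calc _ = T.b s * (T.a t * (T.c u * T.a t')) * (T.c u' * T.c (t' * s)) := by group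
      _ = T.b s * T.a t' * (T.a t * (T.c u * T.c (t' * s))) * T.c u' := by
        rw [← T.ac, ← mul_assoc (T.a t), ← T.a_add, add_comm, T.a_add, T.c_comm u']; group
      _ = T.b s * T.a t' * T.c (t' * s) * (T.a t * T.c u * T.c u') := by
        rw [T.c_comm u, ← mul_assoc (T.a t), T.ac]; group
      _ = T.a t' * (T.b s * T.a t * T.c u * T.c u') := by rw [← T.ab]; group
      _ = _ := by rw [T.Y_c ⟨s, t, u, rfl⟩]; group
  have h1 := T.Y_c (inv_mem (⟨s, t, u, rfl⟩ : _ ∈ T.Y)) (-(t' * s))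
  have h2 := T.Y_c (inv_mem (⟨0, t', u', rfl⟩ : _ ∈ T.Y)) (-(t' * s))
  have h3 := T.Y_c (mul_mem (⟨0, t', u', rfl⟩ : _ ∈ T.Y) (⟨s, t, u, rfl⟩ : _ ∈ T.Y)) (-(t' * s))
  rw [add_hom_zero T.b_add, one_mul] at h2 h3
  rw [commutatorElement_def, eq_mul_inv_of_mul_eq e1, ← add_hom_neg T.c_add, h3]; group

theorem le_relIndex (h0 : ∀ s t, T.a s * T.c t = 1 → s = 0) (K : Subgroup G) (hK : ∀ t, T.c t ∈ K → t = 0) :
    Nat.card k ^ 2 ≤ K.relIndex T.Y := by
  let z : k × k → G := fun v => T.a v.1 * T.c v.2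
  have hz : ∀ u v, z (u + v) = z u * z v := fun u v => by
    simp only [z]
    rw [Prod.fst_add, Prod.snd_add, T.a_add, T.c_add, mul_assoc, mul_assoc, ← mul_assoc (T.a v.1), T.ac, mul_assoc]
  let V : Subgroup G := (MonoidHom.mk' (M := Multiplicative (k × k)) (fun v => z v.toAdd) hz).range
  have hV : Nat.card V = Nat.card k ^ 2 := by
    rw [← Nat.card_congr (MonoidHom.ofInjective (f := MonoidHom.mk' (M := Multiplicative (k × k))
      (fun v => z v.toAdd) hz) ((injective_iff_map_eq_one _).2 fun v hv => ?_)).toEquiv]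
    · rw [Nat.card_congr Multiplicative.toAdd, Nat.card_prod, sq]
    · have h1 := h0 _ _ hv
      change T.a v.toAdd.1 * T.c v.toAdd.2 = 1 at hv
      rw [h1, add_hom_zero T.a_add, one_mul] at hv
      exact Prod.ext h1 (hK _ (hv ▸ one_mem K))
  have h1 : rg T.c T.c_add ⊓ K = ⊥ := eq_bot_iff.2 (by
    rintro _ ⟨⟨t, rfl⟩, h⟩
    rw [hK t h, add_hom_zero T.c_add]; exact one_mem _)
  have := heis (Y := T.Y) (V := V) (V0 := rg T.c T.c_add) (Z := rg T.c T.c_add)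
    (by rintro _ ⟨v, rfl⟩; exact ⟨0, v.toAdd.1, v.toAdd.2, by rw [add_hom_zero T.b_add, one_mul]; rfl⟩) le_rfl
    (by rintro _ ⟨t, rfl⟩; exact ⟨Multiplicative.ofAdd (0, t), by
      change T.a 0 * T.c t = _; rw [add_hom_zero T.a_add, one_mul]⟩)
    (by rintro _ ⟨u, rfl⟩ _ ⟨v, rfl⟩; rw [← map_mul, ← map_mul, mul_comm])
    (by rintro _ ⟨s, t, u, rfl⟩ _ ⟨v, rfl⟩; exact ⟨_, (T.comm_eq s t u _ _).symm⟩)
    (by rintro y hy _ ⟨t, rfl⟩; exact T.Y_c hy t)
    (by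
      rintro _ ⟨v, rfl⟩ hv _ ⟨t, rfl⟩
      have h2 : v.toAdd.1 ≠ 0 := fun e => hv ⟨v.toAdd.2, by
        change _ = T.a _ * T.c _; rw [e, add_hom_zero T.a_add, one_mul]⟩
      refine ⟨_, ⟨-t / v.toAdd.1, 0, 0, rfl⟩, (T.comm_eq _ _ _ _ _).trans ?_⟩
      rw [mul_div_cancel₀ _ h2, neg_neg]) K
    fun h => one_ne_zero (hK 1 (h ⟨1, rfl⟩))
  rwa [hV, h1, Subgroup.card_bot, one_mul] at this

/-- `q²` divides the number of fixed points of an element commuting with a Heisenberg group -/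
theorem dvd_fix {p : ℕ} [Fact p.Prime] [CharP k p] {U : Subgroup G} (hU : IsPGroup p U) (ha : ∀ t, T.a t ∈ U)
    (hb : ∀ t, T.b t ∈ U) (hc : ∀ t, T.c t ∈ U) (h0 : ∀ s t, T.a s * T.c t = 1 → s = 0)
    (nf : ∀ t ≠ 0, ∀ x : Ω, T.c t • x ≠ x) {g : G} (h1 : ∀ t, T.a t * g = g * T.a t)
    (h2 : ∀ t, T.b t * g = g * T.b t) (h3 : ∀ t, T.c t * g = g * T.c t) : Nat.card k ^ 2 ∣ fix Ω g := by
  obtain ⟨f, -, hf⟩ := Sys.exists_card_pow k p
  rw [hf, ← pow_mul]
  refine pow_dvd_fix (Y := T.Y) (hU.to_le (by rintro _ ⟨s, t, u, rfl⟩; exact mul_mem (mul_mem (hb _) (ha _)) (hc _)))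
    (fun x => ?_) ?_
  · rw [pow_mul, ← hf]
    exact T.le_relIndex h0 _ fun t ht => by_contra fun e => nf t e x ht
  · rintro _ ⟨s, t, u, rfl⟩
    rw [mul_assoc, h3, ← mul_assoc, mul_assoc (T.b s), h1, ← mul_assoc, h2]; group

end A2

/-- the degree minus one divides the number of root elements -/
theorem T2.dvd_root (h : T2 G Ω) {z : k → G} (hz : ∀ s t, z (s + t) = z s * z t) (P : Subgroup G)
    (hP : ∀ g ∈ P, ∃ d ≠ 0, ∀ t, g * z t * g⁻¹ = z (d * t)) (nf : ∀ t ≠ 0, ∀ x : Ω, z t • x ≠ x) :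
    (z '' {t | t ≠ 0}).ncard = Nat.card k - 1 ∧ ∃ lam, lam * (Nat.card Ω - 1) = P.index * (Nat.card k - 1) := by
  obtain ⟨x, -⟩ := h.nt
  have h0 : (z '' {t | t ≠ 0}).ncard = Nat.card k - 1 := by
    rw [Set.ncard_image_of_injective _ (inj_of_add hz fun t ht => by_contra fun e => nf t e x (by rw [ht, one_smul])),
      show {t : k | t ≠ 0} = Set.univ \ {0} by ext; simp, Set.ncard_sdiff_singleton_of_mem (Set.mem_univ _),
      Set.ncard_univ]
  obtain ⟨l, hl⟩ := h.dvd (z '' {t | t ≠ 0}) P (by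
    rintro g hg _ ⟨t, ht, rfl⟩
    obtain ⟨d, hd, e⟩ := hP g hg
    exact ⟨d * t, mul_ne_zero hd ht, (e t).symm⟩) 0 fun x => by
      rw [Set.ncard_eq_zero]
      exact Set.eq_empty_of_forall_notMem (by rintro _ ⟨⟨t, ht, rfl⟩, e⟩; exact nf t ht x e)
  exact ⟨h0, l, by rw [mul_comm, ← hl, h0, Nat.sub_zero]⟩

theorem exists_fix_ne (L : SL2Sys k G) {p a : ℕ} [Fact p.Prime] [CharP k p] (hn : Nat.card Ω = p ^ a) :
    ∃ s : k, s ≠ 0 ∧ fix Ω (L.x (-1) * L.y (-s)) ≠ 0 := by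
  have hx : ∀ t, L.fromSL2 (sl2X k t) = L.x t := L.fromSL2_x
  have hy : ∀ t, L.fromSL2 (sl2Y k t) = L.y t := L.fromSL2_y
  have key : ∀ (r j : ℕ) [Fact r.Prime] (s : k), r ≠ p → (sl2X k (-1) * sl2Y k (-s)) ^ r ^ j = 1 →
      fix Ω (L.x (-1) * L.y (-s)) ≠ 0 := fun r j _ s hr e h0 => by
    have := fix_mod (Ω := Ω) (g := L.x (-1) * L.y (-s)) (r := r) (j := j) (by
      rw [← hx, ← hy, ← map_mul, ← map_pow, e, map_one])
    rw [h0, hn] at this
    exact hr ((Nat.prime_dvd_prime_iff_eq Fact.out Fact.out).1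
      ((Fact.out : r.Prime).dvd_of_dvd_pow ((Nat.modEq_zero_iff_dvd).1 this.symm)))
  by_cases h3 : p = 3
  · subst h3
    have h2 : (2 : k) ≠ 0 := fun e => by
      have := (CharP.cast_eq_zero_iff k 3 2).1 (by exact_mod_cast e); omega
    refine ⟨-2, neg_ne_zero.2 h2, key 2 2 _ (by omega) ?_⟩
    apply SpecialLinearGroup.coeMonoidHom_injective
    rw [map_pow, map_mul, map_one, Matrix.one_fin_two]
    change (!![1, -1; 0, 1] * !![1, 0; - -2, 1] : Matrix (Fin 2) (Fin 2) k) ^ 4 = _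
    simp only [pow_succ, pow_zero, one_mul, Matrix.mul_fin_two]
    norm_num
  · have h2 : (3 : k) ≠ 0 := fun e => by
      have := (CharP.cast_eq_zero_iff k p 3).1 (by exact_mod_cast e)
      exact h3 ((Nat.prime_dvd_prime_iff_eq Fact.out Nat.prime_three).1 this)
    have := Fact.mk Nat.prime_three
    refine ⟨-3, neg_ne_zero.2 h2, key 3 1 _ (Ne.symm h3) ?_⟩
    apply SpecialLinearGroup.coeMonoidHom_injective
    rw [map_pow, map_mul, map_one, Matrix.one_fin_two]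
    change (!![1, -1; 0, 1] * !![1, 0; - -3, 1] : Matrix (Fin 2) (Fin 2) k) ^ 3 = _
    simp only [pow_succ, pow_zero, one_mul, Matrix.mul_fin_two]
    norm_num

/-- counting pairs of opposite root elements -/
theorem T2.pair_root (h : T2 G Ω) (L : SL2Sys k G) {p a : ℕ} [Fact p.Prime] [CharP k p] (hn : Nat.card Ω = p ^ a)
    (P : Subgroup G) (hP : ∀ g ∈ P, ∃ d ≠ 0, ∀ t, g * L.x t * g⁻¹ = L.x (d * t))
    (nf : ∀ t ≠ 0, ∀ x : Ω, L.x t • x ≠ x) {lam : ℕ} (hl : lam * (Nat.card Ω - 1) = P.index * (Nat.card k - 1))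
    (Q : Subgroup G) (hQP : Q ≤ P) (hQ : ∀ u ∈ Q, u * L.x 1 = L.x 1 * u) (hw : L.w 1 ∉ P)
    (hQw : ∀ u ∈ Q, (L.w 1)⁻¹ * u * L.w 1 ∈ P → u = 1) {m : ℕ} (hm : ∀ s t, m ∣ fix Ω (L.x s * L.y t)) :
    Nat.card Ω + Nat.card Q * m ≤ Nat.card Ω * lam := by
  obtain ⟨s, hs, h1⟩ := exists_fix_ne L hn
  have := h.pair (L.x '' {t | t ≠ 0}) P (by
    rintro g hg _ ⟨t, ht, rfl⟩
    obtain ⟨d, hd, e⟩ := hP g hg
    exact ⟨d * t, mul_ne_zero hd ht, (e t).symm⟩) (by rintro _ ⟨t, ht, rfl⟩; exact nf t ht)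
    (by rw [(h.dvd_root L.x_add P hP nf).1]; exact hl) ⟨1, one_ne_zero, rfl⟩ Q hQP hQ hw hQw {L.x s}
    (fun z hz => ⟨s, hs, (Finset.mem_singleton.1 hz).symm⟩)
  rw [Finset.sum_singleton, ← add_hom_neg L.x_add, SL2Sys.w, L.conj 1 s one_ne_zero, inv_one, one_pow,
    one_mul] at this
  exact le_trans (Nat.add_le_add_left (Nat.mul_le_mul_left _ (Nat.le_of_dvd (Nat.pos_of_ne_zero h1) (hm _ _))) _) this

/-- the Heisenberg bound in a group with central commutators -/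
theorem heis2 {Q R Z : Subgroup G} (hZ : Z ≤ R) (hR : R ≤ Q) (hc : ∀ a ∈ Q, ∀ b ∈ Q, ⁅a, b⁆ ∈ Z)
    (hz : ∀ y ∈ Q, ∀ z ∈ R, y * z = z * y) (hnd : ∀ v ∈ Q, v ∉ R → ∀ z ∈ Z, ∃ y ∈ Q, ⁅y, v⁆ = z)
    (K : Subgroup G) (hK : Z ⊓ K = ⊥) (h1 : Z ≠ ⊥) :
    Nat.card R * Nat.card Q ≤ (Nat.card ↥(R ⊓ K) * K.relIndex Q) ^ 2 := by
  have c1 : ∀ a ∈ Q ⊓ K, ∀ b ∈ Q ⊓ K, a * b = b * a := fun a ha b hb => by
    have : ⁅a, b⁆ ∈ Z ⊓ K := ⟨hc a ha.1 b hb.1,
      K.mul_mem (K.mul_mem (K.mul_mem ha.2 hb.2) (K.inv_mem ha.2)) (K.inv_mem hb.2)⟩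
    rwa [hK, Subgroup.mem_bot, commutatorElement_eq_one_iff_mul_comm] at this
  let f : R × ↥(Q ⊓ K) →* G := MonoidHom.mk' (fun v => v.1 * v.2) fun u v => by
    simp only [Prod.fst_mul, Prod.snd_mul, Subgroup.coe_mul]
    rw [mul_assoc, mul_assoc, ← mul_assoc (v.1 : G), ← hz _ u.2.2.1 _ v.1.2, mul_assoc]
  have h2 := heis (Y := Q) (V := f.range) (V0 := R) (Z := Z)
    (by rintro _ ⟨v, rfl⟩; exact Q.mul_mem (hR v.1.2) v.2.2.1) hZ (fun z hz => ⟨(⟨z, hz⟩, 1), mul_one z⟩)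
    (by
      rintro _ ⟨u, rfl⟩ _ ⟨v, rfl⟩
      rw [← map_mul, ← map_mul]
      congr 1
      exact Prod.ext (Subtype.ext (hz _ (hR u.1.2) _ v.1.2)) (Subtype.ext (c1 _ u.2.2 _ v.2.2)))
    (by rintro y hy _ ⟨v, rfl⟩; exact hc y hy _ (Q.mul_mem (hR v.1.2) v.2.2.1)) (fun y hy z h => hz y hy z (hZ h))
    (by rintro _ ⟨v, rfl⟩; exact hnd _ (Q.mul_mem (hR v.1.2) v.2.2.1)) K fun h => h1 (by rwa [inf_eq_left.2 h] at hK)
  have h3 : Nat.card f.ker ≤ Nat.card ↥(R ⊓ K) :=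
    Nat.card_le_card_of_injective (fun v => ⟨v.1.1, v.1.1.2, by
      rw [eq_inv_of_mul_eq_one_left (show (v.1.1 : G) * v.1.2 = 1 from v.2)]; exact K.inv_mem v.1.2.2.2⟩)
      fun u v e => by
        have e1 : (u.1.1 : G) = v.1.1 := congrArg (fun x : ↥(R ⊓ K) => (x : G)) e
        have e2 : (u.1.1 : G) * u.1.2 = v.1.1 * v.1.2 := (MonoidHom.mem_ker.1 u.2).trans (MonoidHom.mem_ker.1 v.2).symm
        rw [e1, mul_right_inj] at e2
        exact Subtype.ext (Prod.ext (Subtype.ext e1) (Subtype.ext e2))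
  have h4 : Nat.card f.ker * Nat.card f.range = Nat.card R * Nat.card ↥(Q ⊓ K) := by
    rw [← Subgroup.index_ker, Subgroup.card_mul_index, Nat.card_prod]
  have h5 : Nat.card ↥(Q ⊓ K) * K.relIndex Q = Nat.card Q := by
    rw [← Subgroup.card_mul_index (K.subgroupOf Q), Subgroup.relIndex, ← Subgroup.inf_subgroupOf_left,
      Nat.card_congr (Subgroup.subgroupOfEquivOfLe inf_le_left).toEquiv]
  rw [← h5, ← mul_assoc, ← h4, sq]
  calc _ ≤ Nat.card ↥(R ⊓ K) * (Nat.card ↥(R ⊓ K) * K.relIndex Q) * K.relIndex Q := by gcongr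
    _ = _ := by ring

end Cfsg.Agent.TT
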