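import Mathlib
/-!
# Arithmetic for two-transitive actions of exceptional groups
-/
set_option autoImplicit false

namespace Cfsg.Agent.TT

theorem ar_step {n lam a l0 c : ℤ} (ha : a ∣ n) (hn : 2 ≤ n) (hl : 0 ≤ lam) (h0 : l0 < a) (ha0 : 0 < a)
    (h : lam * (n - 1) = a * c - l0) : ∃ m j : ℤ, 1 ≤ m ∧ 0 ≤ j ∧ n = a * m ∧ lam = l0 + a * j ∧
      m * (l0 + a * j) = c + j := by
  obtain ⟨m, rfl⟩ := ha
  have h1 : lam = l0 + a * (lam * m - c) := by linarith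
  refine ⟨m, lam * m - c, by nlinarith, by nlinarith, rfl, h1, ?_⟩
  rw [← h1]; ring

theorem ar_one {n lam l0 N a : ℕ} (ha : a ∣ n) (hN : a ∣ N) (hn : 2 ≤ n) (hN1 : 1 ≤ N)
    (h : lam * (n - 1) = l0 * (N - 1)) (h0 : l0 < a) (h2 : 0 < l0) (h1 : l0 * N + l0 + a < (l0 + a) * a) :
    n = N ∧ lam = l0 := by
  obtain ⟨M, rfl⟩ := hN
  zify [hN1, (by omega : 1 ≤ n)] at h h0 h1 h2 hn ha ⊢
  obtain ⟨m, j, h3, h4, h5, h6, h7⟩ := ar_step (c := l0 * M) ha hn (Int.natCast_nonneg lam) h0 (by omega)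
    (by rw [h]; ring)
  obtain rfl : j = 0 := by
    by_contra h8
    have h9 : (1 : ℤ) ≤ j := by omega
    have : (l0 + a : ℤ) * (a - 1) ≤ lam * (n - 1) := by
      apply mul_le_mul <;> nlinarith
    nlinarith
  rw [mul_zero, add_zero, add_zero, mul_comm] at h7
  rw [h5, h6, mul_left_cancel₀ h2.ne' h7]; simp

theorem eq_of_dvd_small {x a : ℤ} (h : a ∣ x) (h1 : -a < x) (h2 : x < a) : x = 0 :=
  Int.eq_zero_of_abs_lt_dvd h (abs_lt.2 ⟨h1, h2⟩)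

theorem ar_F4 {n lam q : ℕ} (hq : 2 ≤ q) (ha : q ^ 7 ∣ n) (hn : 2 ≤ n)
    (h : lam * (n - 1) = (q ^ 12 - 1) * (q ^ 4 + 1)) : (n = q ^ 12 ∨ n = q ^ 8) ∧ n * lam < q ^ 17 := by
  zify [(by omega : 1 ≤ n), Nat.one_le_pow 12 q (by omega)] at h hn ha hq ⊢
  have q3 : (8 : ℤ) ≤ q ^ 3 := by calc (8 : ℤ) = 2 ^ 3 := by norm_num
    _ ≤ _ := by gcongr
  have q4 : (16 : ℤ) ≤ q ^ 4 := by calc (16 : ℤ) = 2 ^ 4 := by norm_num
    _ ≤ _ := by gcongr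
  have q0 : (0 : ℤ) < q := by omega
  obtain ⟨m, j, h3, h4, h5, h6, h7⟩ := ar_step (c := q ^ 9 + q ^ 5) (l0 := q ^ 4 + 1) ha hn (Int.natCast_nonneg lam)
    (by nlinarith) (by positivity) (by rw [h]; ring)
  have e17 : (q : ℤ) ^ 16 + q ^ 12 + q ^ 8 < q ^ 17 := by
    have : (q : ℤ) ^ 17 = q ^ 8 * (q ^ 4 * q ^ 4 * q) := by ring
    have : (q : ℤ) ^ 16 + q ^ 12 + q ^ 8 = q ^ 8 * (q ^ 4 * q ^ 4 + q ^ 4 + 1) := by ring
    simp only [*]
    gcongr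
    nlinarith
  rcases h4.eq_or_lt with rfl | h4
  · have : m = q ^ 5 := mul_right_cancel₀ (b := (q : ℤ) ^ 4 + 1) (by positivity) (by linarith)
    subst this
    have : (0 : ℤ) < q ^ 8 := by positivity
    exact ⟨Or.inl (by rw [h5]; ring), by rw [h5, h6]; nlinarith⟩
  · have q7 : (q : ℤ) ^ 7 = q ^ 3 * q ^ 4 := by ring
    have a1 : m * j ≤ q ^ 2 := by
      by_contra a
      have : (q ^ 2 + 1 : ℤ) * q ^ 7 ≤ m * j * q ^ 7 := by gcongr; omega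
      have a2 : j ≤ m * j := by nlinarith
      have a3 : (q : ℤ) ^ 5 * 2 ≤ q ^ 7 := by nlinarith [pow_pos q0 5]
      have : m * j * (q ^ 7 - 1) ≤ q ^ 9 + q ^ 5 := by nlinarith
      have : (q ^ 2 + 1 : ℤ) * (q ^ 7 - 1) ≤ m * j * (q ^ 7 - 1) := by gcongr <;> nlinarith
      nlinarith [pow_pos q0 2, pow_pos q0 3]
    have a2 : m = j := sub_eq_zero.1 (eq_of_dvd_small (a := q ^ 4)
      ⟨q ^ 5 + q - m - m * j * q ^ 3, by linarith⟩ (by nlinarith) (by nlinarith))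
    subst a2
    have a3 : (m - q) * ((m + q) * q ^ 3 + 1) * q ^ 4 = 0 := by linarith
    have a4 : m = q := by
      rcases mul_eq_zero.1 a3 with a | a
      · rcases mul_eq_zero.1 a with a | a
        · linarith
        · nlinarith
      · omega
    subst a4
    exact ⟨Or.inr (by rw [h5]; ring), by rw [h5, h6]; nlinarith⟩

theorem ar_G2 {n lam q : ℕ} (hq : 2 ≤ q) (ha : q ^ 2 ∣ n) (hn : 2 ≤ n) (h : lam * (n - 1) = q ^ 6 - 1) :
    n = q ^ 2 ∨ n = q ^ 3 ∨ (n = q ^ 6 ∧ lam = 1) := by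
  zify [(by omega : 1 ≤ n), Nat.one_le_pow 6 q (by omega)] at h hn ha hq ⊢
  have q0 : (0 : ℤ) < q := by omega
  have q2 : (4 : ℤ) ≤ q ^ 2 := by nlinarith
  obtain ⟨m, j, h3, h4, h5, h6, h7⟩ := ar_step (c := q ^ 4) (l0 := 1) ha hn (Int.natCast_nonneg lam)
    (by omega) (by positivity) (by rw [h]; ring)
  rcases h4.eq_or_lt with rfl | h4
  · exact Or.inr (Or.inr ⟨by rw [h5, show m = q ^ 4 by linarith]; ring, by simpa using h6⟩)
  rcases h3.eq_or_lt with rfl | h3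
  · exact Or.inl (by rw [h5, mul_one])
  have a1 : m * j ≤ q ^ 2 := by
    by_contra a
    have a2 : 2 * j ≤ m * j := by nlinarith
    have : (q ^ 2 + 1 : ℤ) * (2 * q ^ 2 - 1) ≤ m * j * (2 * q ^ 2 - 1) := by gcongr <;> omega
    nlinarith
  have a2 : m = j := sub_eq_zero.1 (eq_of_dvd_small (a := q ^ 2) ⟨q ^ 2 - m * j, by linarith⟩
    (by nlinarith) (by
      rcases (show (1 : ℤ) ≤ j by omega).eq_or_lt with rfl | a
      · linarith
      · nlinarith))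
  subst a2
  have a3 : (m - q) * (m + q) * q ^ 2 = 0 := by linarith
  have a4 : m = q := by
    rcases mul_eq_zero.1 a3 with a | a
    · rcases mul_eq_zero.1 a with a | a <;> linarith
    · omega
  exact Or.inr (Or.inl (by rw [h5, a4]; ring))

theorem ar_TF4 {n lam q : ℕ} (hq : 3 ≤ q) (ha : q ^ 5 ∣ n) (hn : 2 ≤ n)
    (h : lam * (n - 1) = (q ^ 6 + 1) * (q ^ 3 + 1) * (q + 1) * (q - 1)) : False := by
  zify [(by omega : 1 ≤ n), (by omega : 1 ≤ q)] at h hn ha hq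
  have q0 : (0 : ℤ) < q := by omega
  have q2 : (9 : ℤ) ≤ q ^ 2 := by nlinarith
  have q3 : 3 * (q : ℤ) ^ 2 ≤ q ^ 3 := by nlinarith
  have q5 : 9 * (q : ℤ) ^ 3 ≤ q ^ 5 := by nlinarith [pow_pos q0 3]
  obtain ⟨m, j, h3, h4, -, -, h7⟩ := ar_step (c := q ^ 6 - q ^ 4 + q ^ 3 - q + 1) (l0 := q ^ 3 - q ^ 2 + 1) ha hn
    (Int.natCast_nonneg lam) (by nlinarith) (by positivity) (by rw [h]; ring)
  rcases h4.eq_or_lt with rfl | h4
  · have := eq_of_dvd_small (a := q ^ 3 - q ^ 2 + 1) (x := (q - 2) * (q ^ 2 - 1))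
      ⟨m - (q ^ 3 + q ^ 2 - 1), by linarith⟩ (by nlinarith) (by nlinarith)
    nlinarith
  have a1 : m * j ≤ q - 1 := by
    by_contra a
    have a2 : j ≤ m * j := by nlinarith
    have : (q : ℤ) * (q ^ 5 - 1) ≤ m * j * (q ^ 5 - 1) := by gcongr <;> omega
    nlinarith
  have := eq_of_dvd_small (a := q ^ 2) (x := m - j + q - 1)
    ⟨q ^ 4 - q ^ 2 + q - m * (q - 1) - m * j * q ^ 3, by linarith⟩ (by nlinarith) (by nlinarith)
  nlinarith

end Cfsg.Agent.TT
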