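import Cfsg.Agent.TT.LD2
import Cfsg.Agent.Forms.LieTE
import Cfsg.Agent.Chev.Over4
/-!
# The data for untwisted and graph twisted groups
-/
set_option autoImplicit false
set_option linter.unusedSectionVars false

namespace Cfsg.Agent.TT
open Cfsg Cfsg.Lie Cfsg.Agent.Chev Cfsg.Agent.Tw Cfsg.Agent.Stein Cfsg.Agent.Forms Equiv MulAction
open scoped commutatorElement

theorem of_equiv {G K Ω : Type*} [Group G] [Group K] [MulAction G Ω] [FaithfulSMul G Ω] [Nontrivial K] (e : G ≃* K)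
    (h2 : IsMultiplyPretransitive G Ω 2) {P : Prop}
    (h : ∀ [MulAction K Ω] [FaithfulSMul K Ω], T2 K Ω → P) : P := by
  have := e.toEquiv.nontrivial
  letI := MulAction.compHom Ω e.symm.toMonoidHom
  haveI : FaithfulSMul K Ω := ⟨fun h => e.symm.injective (eq_of_smul_eq_smul h)⟩
  exact h ((T2.of_faithful h2).comp _ e.symm.surjective)

theorem SB.gen_of_comm {G I : Type*} [Group G] [Finite G] (S : SB G I) {p : ℕ} [Fact p.Prime] (hp : IsPGroup p S.U)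
    (hX : ∀ a ∈ S.H, ∀ i, ∀ x ∈ S.X i, a * x * a⁻¹ ∈ S.X i)
    (h : ∀ M ≤ S.U, (∀ i, S.X i ≤ M) → (∀ a ∈ S.U, ∀ b ∈ S.U, ⁅a, b⁆ ∈ M) →
      (∀ a ∈ S.H, ∀ g ∈ M, a * g * a⁻¹ ∈ M) → S.U ≤ M) : ⨆ i, S.X i = S.U := by
  refine le_antisymm (iSup_le S.X_le) (Subgroup.subgroupOf_eq_top.1 (by_contra fun h1 => ?_))
  have := hp.isNilpotent
  obtain ⟨l, h2, h3⟩ := exists_lin h1
  set M := ⨅ a : S.H, (l.ker.map S.U.subtype).comap (MulAut.conj (a : G)).toMonoidHom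
  have hM : ∀ g, g ∈ M ↔ ∀ a ∈ S.H, ∃ h : a * g * a⁻¹ ∈ S.U, l ⟨_, h⟩ = 1 := fun g => by
    simp [M, Subgroup.mem_iInf]
  have := h M (fun g hg => by simpa using ((hM g).1 hg 1 (one_mem _)).1) (fun i x hx => (hM x).2 fun a ha =>
    ⟨S.X_le i (hX a ha i x hx), h3 _ (Subgroup.mem_iSup_of_mem i (hX a ha i x hx))⟩)
    (fun x hx y hy => (hM _).2 fun a ha => ⟨S.H_U a ha _ (Subgroup.commutator_le_self _
      (Subgroup.commutator_mem_commutator hx hy)), by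
        rw [← commutatorElement_eq_one_iff_mul_comm.2 (mul_comm (l ⟨_, S.H_U a ha x hx⟩) (l ⟨_, S.H_U a ha y hy⟩)),
          ← map_commutatorElement]
        congr 1; ext; simp [commutatorElement_def, mul_assoc]⟩)
    fun a ha g hg => (hM _).2 fun b hb => by simpa [mul_assoc] using (hM g).1 hg _ (mul_mem hb ha)
  exact h2 (MonoidHom.ext fun u => by simpa using ((hM u).1 (this u.2) 1 (one_mem _)).2)

variable {D : ChevalleyDatum} {C : Cert D} {F : Type*} [Field F] {G : Type*} [Group G] {S : Sys C F G}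

theorem not_par {T : Stb S} {K : Subgroup G} (hK : T.BN K) (hρ : T.ρ C.top = C.top)
    (hs : ∀ i r, C.Pos r → C.InJ (T.orb i) r → ∃ j, r = C.sp j) (h0 : ∀ i, 0 < C.rc C.top i)
    (h : ∀ i, T.π i = i → C.rc C.top i = 1 → ∃ γ, T.ρ γ = γ ∧ C.A C.top γ = 0 ∧ 0 < C.rc γ i)
    (Ω : Type*) [MulAction K Ω] : ¬ (sb hK).Par Ω := by
  rintro ⟨-, i, -, h1⟩
  have key : ∀ w ∈ C.W, T.cj w = w → ∃ b : Perm (Rt D), ∀ r, 0 < C.rc r i.1 → w r = r.rev →
      ∃ j, b r = C.sp j ∧ ∀ l ∈ T.orb i.1, C.rc r l = if l = j then 1 else 0 := fun w hw e => by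
    obtain ⟨b, hb, -, h2⟩ := par_elim hK i h1 hw e
    refine ⟨b, fun r hr e => ?_⟩
    have h3 : 0 < Cert.lev (T.orb i.1)ᶜ (C.rc r) := Cert.lev_pos_iff.2
      ⟨Cert.pos_of_coord_pos hr, fun h => hr.ne' (h _ fun h => h (T.mem_orb _))⟩
    obtain ⟨h4, h5⟩ := h2 r h3 (by rw [e, C.rc_neg, map_neg]; omega)
    obtain ⟨j, hj⟩ := hs _ _ h4 h5
    exact ⟨j, hj, fun l hl => by rw [← Cert.rc_WJ hb r (fun h => h hl), hj, C.rc_sp_apply]⟩
  obtain ⟨b, h2⟩ := key _ (C.sr_mem_W C.top) (by rw [T.cj_sr, hρ])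
  obtain ⟨j, -, h3⟩ := h2 _ (h0 _) (by rw [C.sr_apply, C.refl_self])
  have h4 : ∀ l ∈ T.orb i.1, l = j := fun l hl => by_contra fun e => by
    have := h0 l
    rw [h3 l hl, if_neg e] at this; omega
  obtain ⟨γ, h5, h6, h7⟩ := h i.1 ((h4 _ (((T.stable_orb _) _).2 (T.mem_orb _))).trans (h4 _ (T.mem_orb _)).symm)
    (by rw [h3 _ (T.mem_orb _), if_pos (h4 _ (T.mem_orb _))])
  obtain ⟨b, h2⟩ := key _ (mul_mem (C.sr_mem_W C.top) (C.sr_mem_W γ)) (by rw [T.cj_mul, T.cj_sr, T.cj_sr, hρ, h5])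
  obtain ⟨j, e1, h8⟩ := h2 _ (h0 _) (by
    rw [Perm.mul_apply, C.sr_apply γ, C.refl_of_A_zero (C.A_eq_zero_comm.1 h6), C.sr_apply, C.refl_self])
  obtain ⟨l, e2, h9⟩ := h2 _ h7 (by
    rw [Perm.mul_apply, C.sr_apply γ, C.refl_self, C.sr_apply, C.refl_of_A_zero (by rw [C.A_rev_right, h6, neg_zero])])
  have a := h0 i.1
  rw [h8 _ (T.mem_orb _)] at a
  rw [h9 _ (T.mem_orb _)] at h7
  have : b C.top = b γ := by
    rw [e1, e2, ← (by_contra fun e => by simp [e] at a : i.1 = j), ← (by_contra fun e => by simp [e] at h7 : i.1 = l)]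
  rw [← b.injective this, C.A_self] at h6
  omega

theorem ht_le_top (r : Rt D) : C.ht r ≤ C.ht C.top := by
  by_contra h
  exact h (C.eq_top_of_ht (r := r) (by omega) ▸ le_rfl)

theorem LD.comm_eq {k : Type*} [Field k] (R : LD S k) {y v : R.K} (hy : y ∈ R.U) (hv : v ∈ R.U) {c : k}
    (e : y * v = v * y * R.L.x c) : ⁅y, v⁆ = R.L.x c := by
  rw [commutatorElement_def, e, mul_assoc v, R.U_x hy, ← mul_assoc v, R.U_x hv]; group

theorem LD.nontrivial {k : Type*} [Field k] (R : LD S k) : Nontrivial R.K :=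
  nontrivial_of_ne (R.L.x 1) 1 fun e => one_ne_zero (R.x_eq_one e)

/-! ### Untwisted groups -/

variable (C F) in
/-- The untwisted case. -/
def ldOne : LD (C.sys F) F where
  T := Stb.one _
  K := ⊤
  bn := ⟨Stb.good_one, fun i => ⟨(C.sys F).x (C.sp i) 1, ⟨(C.sys F).x_mem_U
    (And.intro (C.pos_sp i) (C.inJ_sp.2 (Stb.mem_orb _ i))) _, trivial⟩,
    fun e => one_ne_zero ((C.sys F).x_eq_one_iff.1 e)⟩⟩
  inj := C.sys_φ_inj F
  ι := RingHom.id F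
  top := rfl
  hx t := ⟨fun _ => ⟨t, rfl⟩, fun _ => trivial⟩
  hy _ := trivial
  card w hw _ := by rw [inf_top_eq, Sys.card_Uw _ (C.W_le_Aut hw)]
  gen M a1 a2 := by
    have := (C.sys F).eq_top_of (K := M.map (⊤ : Subgroup (D.group F)).subtype) fun r t => ⟨⟨_, trivial⟩,
      (em (C.Pos r)).elim (fun h => a1 ((C.sys F).x_mem_U h t)) fun h => a2 ((C.sys F).x_mem_U h t), rfl⟩
    refine eq_top_iff.2 fun g _ => ?_
    obtain ⟨x, hx, e⟩ := this.ge (Subgroup.mem_top (g : D.group F))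
    exact Subtype.ext e ▸ hx

theorem rat_one (r : Rt D) : (ldOne C F).Rat r := fun t => ⟨fun _ => ⟨t, rfl⟩, fun _ => trivial⟩

theorem orb_one' (i : Nd D) : (Stb.one S).orb i = {i} := Set.ext fun _ => Perm.sameCycle_one.trans eq_comm

theorem not_par_one (h0 : ∀ i, 0 < C.rc C.top i)
    (h : ∀ i, C.rc C.top i = 1 → ∃ γ, C.A C.top γ = 0 ∧ 0 < C.rc γ i)
    (Ω : Type*) [MulAction (ldOne C F).K Ω] : ¬ (sb (ldOne C F).bn).Par Ω :=
  not_par _ rfl (fun i _ h1 h2 => ⟨i, Cert.eq_sp_of_inJ_singleton h1 (orb_one' (S := C.sys F) i ▸ h2)⟩) h0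
    (fun i _ e => (h i e).imp fun _ h => ⟨rfl, h⟩) Ω

theorem hnd_one {A : Set (Rt D)} (h0 : C.top ∈ A)
    (hN : ∀ r s, s ∉ A → C.rc C.top = C.rc r + C.rc s → (C.N r s : F) ≠ 0) : ∀ v ∈ (ldOne C F).Q,
    (v : D.group F) ∉ (C.sys F).U A → ∀ z ∈ (ldOne C F).Z, ∃ y ∈ (ldOne C F).Q, ⁅y, v⁆ = z := by
  rintro v hv h _ ⟨c, rfl⟩
  obtain ⟨s, h1, h2, h3⟩ := exists_cd_ne hv h h0
  obtain ⟨r, e⟩ := exists_top_add h2
  have h4 : (rat_one r).x (c / (C.N r s * (C.sys F).cd s v)) ∈ (ldOne C F).Q :=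
    (C.sys F).x_mem_U (lng_top.A_eq_one e).ge _
  refine ⟨_, h4, LD.comm_eq _ (LD.Q_le_U _ h4) (LD.Q_le_U _ hv) (Subtype.ext ?_)⟩
  have := lng_top.heis (C.sys F) e (c / (C.N r s * (C.sys F).cd s v)) (u := v) hv
  rwa [mul_left_comm (C.N r s : F), div_mul_cancel₀ _ (mul_ne_zero (hN r s h1 e) (show (C.sys F).cd s v ≠ 0 from h3))] at this

theorem notMem_top {k : Type*} [Field k] (R : LD S k) {v : R.K} (h : v ∉ R.Z) : (v : G) ∉ S.U {C.top} := fun e => by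
  obtain ⟨t, ht⟩ := S.mem_U_singleton.1 e
  exact h (R.exists_x ht)

theorem gen_one_of [Finite F] (p : ℕ) [Fact p.Prime] [CharP F p]
    (h : ∀ M ≤ (C.sys F).Up, (∀ i t, (C.sys F).x (C.sp i) t ∈ M) → (∀ a ∈ (C.sys F).Up, ∀ b ∈ (C.sys F).Up, ⁅a, b⁆ ∈ M) →
      (∀ a ∈ (C.sys F).H, ∀ g ∈ M, a * g * a⁻¹ ∈ M) → (C.sys F).Up ≤ M) :
    ⨆ i, (sb (ldOne C F).bn).X i = (ldOne C F).U := by
  refine SB.gen_of_comm _ (LD.isPGroup_U (p := p) _) (fun a ha i x hx => Sys.H_conj_U ha hx) fun M h1 h2 h3 h4 u hu => ?_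
  obtain ⟨v, hv, e⟩ := h (M.map (⊤ : Subgroup (D.group F)).subtype) (by rintro _ ⟨x, hx, rfl⟩; exact h1 hx)
    (fun i t => by
      obtain ⟨j, hj⟩ := exists_rep (ldOne C F).T i
      exact ⟨⟨_, trivial⟩, h2 j ((C.sys F).x_mem_U (And.intro (C.pos_sp i) (C.inJ_sp.2 (hj ▸ Stb.mem_orb _ i))) _), rfl⟩)
    (fun a ha b hb => ⟨_, h3 ⟨a, trivial⟩ ha ⟨b, trivial⟩ hb, rfl⟩)
    (by rintro a ha _ ⟨x, hx, rfl⟩; exact ⟨_, h4 ⟨a, trivial⟩ ha x hx, rfl⟩) hu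
  exact Subtype.ext e ▸ hv

theorem gen_one_N [Finite F] (p : ℕ) [Fact p.Prime] [CharP F p]
    (hN : ∀ r s u, C.rc u = C.rc r + C.rc s → (C.N r s : F) ≠ 0) :
    ⨆ i, (sb (ldOne C F).bn).X i = (ldOne C F).U := by
  refine gen_one_of p fun M _ h2 h3 _ => (C.sys F).U_le.2 fun r hr => ?_
  induction hn : (C.ht C.top - C.ht r).toNat using Nat.strong_induction_on generalizing r with
  | _ n ih =>
  obtain ⟨i, rfl⟩ | ⟨a, b, e, ha, hb⟩ := sp_or_add hr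
  · exact h2 i
  intro t
  obtain ⟨z, hz, h4⟩ := (C.sys F).comm_first e (T := {s | C.ht r + 1 ≤ Cert.lev ∅ (C.rc s)}) (fun u hu => by
    have := C.one_le_ht ha; have := C.one_le_ht hb
    rcases hu with hu | hu <;> simp only [Set.mem_ofPred_eq, C.lev_empty, C.ht_add hu] <;> omega)
    ((Cert.stab_ge _ _).mono (by rintro _ (rfl | rfl) <;> exact Cert.lev_nonneg _ ‹_›)) (-t / C.N a b) 1
  have h5 := h3 _ (inv_mem ((C.sys F).x_mem_Up hb 1)) _ (inv_mem ((C.sys F).x_mem_Up ha (-t / C.N a b)))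
  rw [commutatorElement_def, inv_inv, inv_inv, h4, mul_div_cancel₀ _ (hN a b r e), mul_one, neg_neg] at h5
  refine (mul_mem_cancel_right ((C.sys F).U_le.2 (fun s hs => ?_) hz)).1 h5
  have h6 := C.one_le_ht hr
  have h7 := ht_le_top (C := C) s
  rw [Set.mem_ofPred_eq, C.lev_empty] at hs
  exact ih _ (by omega) s (C.pos_of_ht (by omega)) rfl

theorem gen_one_sep [Finite F] (p : ℕ) [Fact p.Prime] [CharP F p] {m : ℤ} (h : C.SepZ m) (hm : m + 1 < Nat.card F)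
    (hd : ∀ r, C.Pos r → (∀ i, r ≠ C.sp i) → C.Dec r) : ⨆ i, (sb (ldOne C F).bn).X i = (ldOne C F).U := by
  refine gen_one_of p fun M h1 h2 h3 h4 => (C.sys F).UJ_empty.ge.trans
    ((C.sys F).UJ_le_of_sep (J := ∅) (fun g hg y hy => ?_) (fun i _ => ⟨1, one_ne_zero, 1, one_mem _, by simpa using h2 i 1⟩)
      (fun r s hr _ hs e _ => Or.inl ((C.sys F).sep_of_sepZ h hm hr hs e)) hd)
  rw [Sys.P_empty] at hg
  obtain ⟨u, hu, a, ha, rfl⟩ := (Sys.mem_B _).1 hg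
  simpa [commutatorElement_def, mul_assoc] using mul_mem (h3 u hu _ (h1 (h4 a ha y hy))) (h4 a ha y hy)

/-! ### Graph twisted groups -/

section
variable {k : Type*} [Field k] (R : LR S k)

theorem lr_top : R.T.ρ C.top = C.top := C.eq_top_of_ht (R.ht_ρ _).ge

theorem sb_orb (i : Nd D) : R.Sb {r | C.Pos r ∧ C.InJ (R.T.orb i) r} := fun r hr =>
  ⟨(R.T.pos r).2 hr.1, ((R.T.stable_orb i).inJ r).2 hr.2⟩

theorem sb_A {b : Rt D} (h : R.T.ρ b = b) : R.Sb {a | 1 ≤ C.A b a} := fun a ha => by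
  rwa [Set.mem_ofPred_eq, R.A_fix h]

theorem exists_nm_one {r : Rt D} (hr : C.Pos r) : ∃ t, S.cd r (R.nm r t) = 1 :=
  R.exists_cd_nm (ht_inv R) (Sys.ht_pos hr) fun _ => map_one _

/-- The twisted case. -/
def ldR (gen : ∀ M, R.UK {r | C.Pos r} ≤ M → R.UK {r | ¬ C.Pos r} ≤ M → M = ⊤) : LD S k where
  T := R.T
  K := R.K
  bn := ⟨R.good, fun i => by
    obtain ⟨t, ht⟩ := exists_nm_one R (C.pos_sp i)
    exact ⟨_, ⟨R.nm_mem (sb_orb R i) ⟨C.pos_sp i, C.inJ_sp.2 (R.T.mem_orb i)⟩ t, (R.nm _ t).2⟩, fun e => by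
      rw [e, S.cd_one] at ht; exact zero_ne_one ht⟩⟩
  inj := R.inj
  ι := R.ι
  top := lr_top R
  hx t := ⟨fun h => (R.exists_X (lr_top R) (g := ⟨_, h⟩) rfl).imp fun _ h => h.1, by
    rintro ⟨s, rfl⟩; exact R.X_coe (lr_top R) s ▸ (R.X _ s).2⟩
  hy s := R.X_coe (R.fix_rev (lr_top R)) s ▸ (R.X _ s).2
  card := R.card
  gen := gen

variable (gen : ∀ M, R.UK {r | C.Pos r} ≤ M → R.UK {r | ¬ C.Pos r} ≤ M → M = ⊤)

theorem rat_R {r : Rt D} (h : R.T.ρ r = r) : (ldR R gen).Rat r := fun _ =>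
  ⟨fun h1 => (R.exists_X h (g := ⟨_, h1⟩) rfl).imp fun _ h => h.1, by
    rintro ⟨s, rfl⟩; exact R.X_coe h s ▸ (R.X _ s).2⟩

theorem hnd_R : ∀ v ∈ (ldR R gen).Q, v ∉ (ldR R gen).Z → ∀ z ∈ (ldR R gen).Z, ∃ y ∈ (ldR R gen).Q, ⁅y, v⁆ = z := by
  rintro v hv h _ ⟨c, rfl⟩
  obtain ⟨s, -, h2, h3⟩ := exists_cd_ne hv (notMem_top _ h) rfl
  obtain ⟨r, e⟩ := exists_top_add h2
  obtain ⟨t, ht⟩ := R.heis (lr_top R) e (u := v) hv h3 c
  have h4 : R.nm r t ∈ (ldR R gen).Q := R.nm_mem (sb_A R (lr_top R)) (lng_top.A_eq_one e).ge t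
  exact ⟨_, h4, LD.comm_eq _ (LD.Q_le_U _ h4) (LD.Q_le_U _ hv)
    (ht.trans (congrArg _ (Subtype.ext (R.X_coe (lr_top R) c))))⟩

theorem simple_R (i : Nd D) (r : Rt D) (hr : C.Pos r) (h : C.InJ (R.T.orb i) r) : ∃ j, r = C.sp j := by
  induction hn : (C.ht r).toNat using Nat.strong_induction_on generalizing r with
  | _ n ih =>
  refine (sp_or_add hr).resolve_right fun ⟨a, b, e, ha, hb⟩ => ?_
  have h1 := C.one_le_ht ha
  have h2 := C.one_le_ht hb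
  have h3 := C.ht_add e
  have h4 : ∀ j ∉ R.T.orb i, C.rc a j = 0 ∧ C.rc b j = 0 := fun j hj => by
    have := congrFun e j
    have := h j hj
    have := ha j
    have := hb j
    simp only [Pi.add_apply] at *; omega
  obtain ⟨j, rfl⟩ := ih _ (by omega) a ha (fun j hj => (h4 j hj).1) rfl
  obtain ⟨l, rfl⟩ := ih _ (by omega) b hb (fun j hj => (h4 j hj).2) rfl
  obtain ⟨m, hm⟩ := Perm.SameCycle.exists_nat_pow_eq ((C.inJ_sp.1 fun j hj => (h4 j hj).1).symm.trans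
    (C.inJ_sp.1 fun j hj => (h4 j hj).2))
  have h5 : ∀ m : ℕ, R.T.ρ^[m] (C.sp j) = C.sp ((R.T.π ^ m) j) := fun m => by
    induction m with
    | zero => rfl
    | succ m ih => rw [Function.iterate_succ_apply', ih, R.T.sp, pow_succ', Perm.mul_apply]
  have h6 := R.orb (C.sp j) m
  have h7 := (R.lng r).A_eq_one e
  rw [h5, hm] at h6
  rw [(R.lng r).A_symm (R.lng _), A_add' e, C.A_self] at h7
  omega

theorem ρ_per (r : Rt D) : R.T.ρ^[R.d] r = r := by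
  obtain ⟨c, hc⟩ := R.σ_iter_x r R.d 1
  exact (S.eq_of_x_eq one_ne_zero (congrArg S.φ ((R.per _).symm.trans hc))).symm

theorem A_le_of_ht {r s : Rt D} (h : C.ht r = C.ht s) (e : s ≠ r) : C.A r s ≤ 0 := not_lt.1 fun h1 => by
  obtain ⟨u, hu⟩ := C.exists_sub_of_A_pos e h1
  have h2 := C.ht_add (r := u) (s := r) (u := s) (by rw [hu, sub_add_cancel])
  by_cases h3 : C.Pos u
  · have := C.one_le_ht h3; omega
  · have := ht_neg h3; omega

theorem add_Ob {r a b a' b' u : Rt D} (e : C.rc r = C.rc a + C.rc b) (ha : a' ∈ R.Ob a) (hb : b' ∈ R.Ob b)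
    (e' : C.rc u = C.rc a' + C.rc b') : u ∈ R.Ob r := by
  set g : Rt D → ℤ := fun s => ∑ j ∈ Finset.range R.d, C.A (R.T.ρ^[j] r) s
  have h1 : ∀ s, g (R.T.ρ s) = g s := fun s => by
    have := Finset.sum_range_succ' (fun j => C.A (R.T.ρ^[j] r) (R.T.ρ s)) R.d
    simp only [Finset.sum_range_succ, ρ_per, Function.iterate_succ_apply', R.A_ρ, Function.iterate_zero, id] at this
    exact add_right_cancel this
  have h2 : g u = g r := by
    have : ∀ {x y z}, C.rc z = C.rc x + C.rc y → g z = g x + g y := fun e => by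
      simp only [g, A_add' e, Finset.sum_add_distrib]
    rw [this e, this e', R.Ob_inv h1 ha, R.Ob_inv h1 hb]
  by_contra h3
  have h4 : g u ≤ 0 := Finset.sum_nonpos fun j _ => A_le_of_ht (by
    rw [R.Ob_inv R.ht_ρ ⟨j, rfl⟩, C.ht_add e, C.ht_add e', R.Ob_inv R.ht_ρ ha, R.Ob_inv R.ht_ρ hb])
    fun e => h3 ⟨j, e.symm⟩
  have := Finset.single_le_sum (f := fun j => C.A (R.T.ρ^[j] r) r) (fun j _ => R.A_Ob ⟨j, rfl⟩ (R.mem_Ob r))
    (Finset.mem_range.2 R.d_pos)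
  simp only [Function.iterate_zero, id, C.A_self] at this
  change 2 ≤ g r at this
  omega

theorem exists_tor {r : Rt D} (h : R.T.ρ r ≠ r) (c : Fˣ) : ∃ z : R.K, (z : G) ∈ S.H ∧ S.chi z r = c ^ 2 := by
  have h1 : ∀ j, R.T.σ^[j] (S.h r c) ∈ S.H ∧ ∀ s, C.A r s = 0 → S.chi (R.T.σ^[j] (S.h r c)) (R.T.ρ^[j] s) = 1 :=
    fun j => by
      induction j with
      | zero => exact ⟨S.h_mem r c, fun s hs => by simp [S.chi_h, hs]⟩
      | succ j ih =>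
        simp only [Function.iterate_succ_apply']
        exact ⟨R.T.σ_H ih.1, fun s hs => by rw [Stb.chi_σ ih.1, ih.2 s hs, map_one]⟩
  have h2 : ∀ n, n < R.d → R.pn (n + 1) (S.h r c) ∈ S.H ∧ S.chi (R.pn (n + 1) (S.h r c)) r = c ^ 2 := fun n hn => by
    induction n with
    | zero => simp [LR.pn, S.h_mem, S.chi_h, C.A_self]
    | succ n ih =>
      have h3 : R.T.ρ^[R.d - (n + 1)] r ∈ R.Ob r := ⟨_, rfl⟩
      have := (h1 (n + 1)).2 _ (le_antisymm (A_le_of_ht (R.Ob_inv R.ht_ρ h3).symm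
        ((R.free r).resolve_left h _ (by omega) (by omega))) (R.orb r _))
      rw [← Function.iterate_add_apply, Nat.add_sub_cancel' hn.le, ρ_per] at this
      rw [LR.pn_succ, S.chi_mul (ih (by omega)).1 (h1 _).1, (ih (by omega)).2, this, mul_one]
      exact ⟨mul_mem (ih (by omega)).1 (h1 _).1, rfl⟩
  have h3 := h2 (R.d - 1) (by have := R.d_pos; omega)
  rw [Nat.sub_add_cancel R.d_pos] at h3
  refine ⟨⟨_, R.mem _ ?_⟩, h3⟩
  have h4 := (R.pn_succ R.d (S.h r c)).symm.trans (R.pn_succ' _ _)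
  rw [R.per, S.H_comm R.inj h3.1 (S.h_mem r c)] at h4
  exact (mul_left_cancel h4).symm

theorem nm_zero (r : Rt D) : R.nm r 0 = 1 := add_hom_zero (R.nm_add r)

theorem nm_mem_of_ne [Finite F] {M : Subgroup R.K} (hH : ∀ a : R.K, (a : G) ∈ S.H → ∀ g ∈ M, a * g * a⁻¹ ∈ M) {r : Rt D}
    (h : R.T.ρ r ≠ r) {v : F} (hv : v ≠ 0) (h1 : R.nm r v ∈ M) (t : F) : R.nm r t ∈ M := by
  have h2 : ∀ c : F, R.nm r (c ^ 2 * v) ∈ M := fun c => by
    by_cases hc : c = 0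
    · rw [hc, zero_pow two_ne_zero, zero_mul, nm_zero]; exact one_mem _
    obtain ⟨z, hz, e⟩ := exists_tor R h (Units.mk0 c hc)
    simpa [R.nm_conj hz, e] using hH z hz _ h1
  obtain ⟨a, b, e⟩ := exists_sq_sub_sq (t / v)
  refine (mul_mem_cancel_right (h2 b)).1 ?_
  rw [← R.nm_add, show t + b ^ 2 * v = a ^ 2 * v by rw [← div_mul_cancel₀ t hv, e]; ring]
  exact h2 a

theorem exists_cd_comm {q : ℕ} [Finite F] (hφ : ∀ t, R.φ t = t ^ q) (hF : Nat.card F = q ^ R.d) {r a b : Rt D}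
    (e : C.rc r = C.rc b + C.rc a) (ha : C.Pos a) (hb : C.Pos b) {y : G} (hy : y ∈ S.U (R.Ob b)) (h0 : S.cd b y ≠ 0) :
    ∃ s, S.cd r ⁅(R.nm a s : G), y⁆ ≠ 0 := by
  classical
  have hy' : y ∈ S.U {s | C.ht b ≤ Cert.lev ∅ (C.rc s)} :=
    S.U_mono (fun s hs => by rw [Set.mem_ofPred_eq, C.lev_empty, R.Ob_inv R.ht_ρ hs]) hy
  have a1 := C.one_le_ht ha
  have a2 := C.one_le_ht hb
  have h1 : ∀ j, ∃ c, ∀ s, R.T.σ^[j] (S.x a s) = S.x (R.T.ρ^[j] a) (c * s ^ q ^ j) := fun j => by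
    induction j with
    | zero => exact ⟨1, by simp⟩
    | succ j ih =>
      obtain ⟨c, hc⟩ := ih
      exact ⟨R.T.e (R.T.ρ^[j] a) * R.φ c, fun s => by
        simp only [Function.iterate_succ_apply', hc, R.T.σ_x, R.f_eq, hφ, mul_pow, ← pow_mul, pow_succ, mul_assoc]⟩
  have h2 : ∀ j, ∃ κ : F, ∀ s, S.cd r ⁅R.T.σ^[j] (S.x a s), y⁆ = κ * s ^ q ^ j := fun j => by
    obtain ⟨c, hc⟩ := h1 j
    have h3 : Cert.lev ∅ (C.rc (R.T.ρ^[j] a)) = C.ht a := by rw [C.lev_empty, R.Ob_inv R.ht_ρ ⟨j, rfl⟩]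
    refine ⟨∑ β, if C.rc r = C.rc β + C.rc (R.T.ρ^[j] a) then C.N (R.T.ρ^[j] a) β * c * S.cd β y else 0, fun s => ?_⟩
    rw [hc, commutatorElement_def, S.cd_comm_x (Cert.lev ∅) (k := C.ht b) (by omega) (by omega)
      (by rw [h3, C.lev_empty, C.ht_add e]) _ hy', Finset.sum_mul]
    exact Finset.sum_congr rfl fun β _ => by split_ifs <;> ring
  choose κ hκ using h2
  have h3 : κ 0 ≠ 0 := fun h => by
    have := hκ 0 1
    rw [h, zero_mul, Function.iterate_zero, id, commutatorElement_def, S.cd_comm_of_add (Cert.lev ∅) (k := C.ht b)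
      (by omega) (by rw [C.lev_empty]; omega) (C.lev_empty b) e _ hy', mul_one] at this
    exact mul_ne_zero (N_ne (R.lng a) (R.lng b) (e.trans (add_comm _ _))) h0 this
  have h4 : ∀ s n, S.cd r ⁅R.pn n (S.x a s), y⁆ = ∑ j ∈ Finset.range n, κ j * s ^ q ^ j := fun s n => by
    have h5 : R.Sb {s | C.ht a ≤ Cert.lev ∅ (C.rc s)} := fun s hs => by rwa [Set.mem_ofPred_eq, ht_inv]
    have h6 : S.x a s ∈ S.U {s | C.ht a ≤ Cert.lev ∅ (C.rc s)} := S.x_mem_U (C.lev_empty a).ge _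
    induction n with
    | zero => simp [LR.pn, S.cd_one]
    | succ n ih =>
      rw [LR.pn_succ, commutatorElement_def, S.cd_comm_mul (Cert.lev ∅) (k := C.ht b) (m := C.ht a) (by omega) (by omega)
        (by rw [C.lev_empty, C.ht_add e]) (R.pn_mem h5 h6 n) (R.iter_mem h5 h6 n) hy', Finset.sum_range_succ, ← ih, ← hκ]
      rfl
  by_contra! h5
  have := Fintype.ofFinite F
  have hd := R.d_pos
  have hq : 1 < q := (Nat.one_lt_pow_iff hd.ne').1 (hF ▸ Finite.one_lt_card)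
  have := Polynomial.eq_zero_of_natDegree_lt_card_of_eval_eq_zero
    (∑ j ∈ Finset.range R.d, Polynomial.monomial (q ^ j) (κ j) : Polynomial F) Function.injective_id
    (fun t => by simpa [Polynomial.eval_finsetSum, R.nm_coe, h4] using h5 t)
    (lt_of_le_of_lt (Polynomial.natDegree_sum_le_of_forall_le _ _ (n := q ^ (R.d - 1)) fun j hj =>
      (Polynomial.natDegree_monomial_le _).trans (Nat.pow_le_pow_right hq.le (by have := Finset.mem_range.1 hj; omega)))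
      (by rw [← Nat.card_eq_fintype_card, hF]; exact Nat.pow_lt_pow_right hq (by omega)))
  have h6 := congrArg (Polynomial.coeff · (q ^ 0)) this
  simp only [Polynomial.finsetSum_coeff, Polynomial.coeff_monomial, (Nat.pow_right_injective hq).eq_iff,
    Finset.sum_ite_eq', Finset.mem_range, hd, if_true, Polynomial.coeff_zero] at h6
  exact h3 h6

theorem UK_le_of_comm [Finite F] (hφ : (∀ r, R.T.ρ r = r) ∨ ∃ q, (∀ t, R.φ t = t ^ q) ∧ Nat.card F = q ^ R.d)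
    {M : Subgroup R.K} (h2 : ∀ i t, R.nm (C.sp i) t ∈ M) (h3 : ∀ a b : R.K, (a : G) ∈ S.Up → (b : G) ∈ S.Up → ⁅a, b⁆ ∈ M)
    (h4 : ∀ a : R.K, (a : G) ∈ S.H → ∀ g ∈ M, a * g * a⁻¹ ∈ M) : R.UK {r | C.Pos r} ≤ M := by
  refine R.UK_le (fun r hr => (R.T.pos r).2 hr) C.closed_pos (fun _ h => h) fun r hr => ?_
  induction hn : (C.ht C.top - C.ht r).toNat using Nat.strong_induction_on generalizing r with
  | _ n ih =>
  obtain ⟨i, rfl⟩ | ⟨a, b, e, ha, hb⟩ := sp_or_add hr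
  · exact h2 i
  have hp : ∀ {a}, C.Pos a → ∀ t, (R.nm a t : G) ∈ S.Up := fun h =>
    R.nm_mem (A := {r | C.Pos r}) (fun r hr => (R.T.pos r).2 hr) h
  obtain ⟨u, hu⟩ := exists_nm_one R hb
  by_cases h5 : R.T.ρ r = r
  · intro t
    obtain ⟨c, hc⟩ := R.nm_eq_X h5 t
    obtain ⟨s, hs⟩ := R.heis h5 e (u := R.nm b u) (R.nm_mem (sb_A R h5)
      ((R.lng r).A_eq_one (e.trans (add_comm _ _))).ge u) (by rw [hu]; exact one_ne_zero) c
    have := h3 (R.nm a s)⁻¹ (R.nm b u)⁻¹ (inv_mem (hp ha s)) (inv_mem (hp hb u))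
    rw [commutatorElement_def, inv_inv, inv_inv, mul_assoc, hs] at this
    simpa [hc, mul_assoc] using this
  obtain ⟨q, hφ, hF⟩ := hφ.resolve_left fun h => h5 (h r)
  obtain ⟨s, hs⟩ := exists_cd_comm R hφ hF (e.trans (add_comm _ _)) ha hb (R.nm_mem (R.sb_Ob b) (R.mem_Ob b) u)
    (by rw [hu]; exact one_ne_zero)
  have a1 := C.one_le_ht hr
  set Z := R.Ob r ∪ {s | C.ht r + 1 ≤ Cert.lev ∅ (C.rc s)}
  have hZ : ∀ s ∈ Z, C.ht r ≤ Cert.lev ∅ (C.rc s) := by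
    rintro s (hs | hs)
    · rw [C.lev_empty, R.Ob_inv R.ht_ρ hs]
    · exact (Int.le_add_one le_rfl).trans hs
  have hZ' : ∀ s ∈ Z, C.Pos s := fun s hs => C.pos_of_ht (by have := hZ s hs; rw [C.lev_empty] at this; omega)
  have hO : ∀ {a}, C.Pos a → ∀ s ∈ R.Ob a, C.Pos s := fun h s hs =>
    (R.Ob_inv (f := C.Pos) (fun r => propext (R.T.pos r)) hs).symm ▸ h
  have hS : C.Stab {r | C.Pos r} Z := fun x hx y hy u e => Or.inr (by
    have := hZ x hx; have := C.one_le_ht hy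
    simp only [Set.mem_ofPred_eq, C.lev_empty, C.ht_add e] at *; omega)
  have h6 : (⁅R.nm a s, R.nm b u⁆ : R.K).1 ∈ S.U Z := by
    simpa [commutatorElement_def] using comm_two S (hS.mono hZ') (hS.mono (hO ha)) (hS.mono (hO hb))
      (fun x hx h => C.not_pos_rev (hO ha x hx) (hZ' _ h)) (fun x hx h => C.not_pos_rev (hO hb x hx) (hZ' _ h))
      (fun x hx y hy e => C.not_pos_rev (hO hb y hy) (e ▸ hO ha x hx))
      (fun x hx y hy u e' => Or.inl (add_Ob R e hx hy (e'.trans (add_comm _ _))))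
      (inv_mem (R.nm_mem (R.sb_Ob a) (R.mem_Ob a) s)) (inv_mem (R.nm_mem (R.sb_Ob b) (R.mem_Ob b) u))
  have h7 := h3 _ _ (hp ha s) (hp hb u)
  change S.cd r (⁅R.nm a s, R.nm b u⁆ : R.K).1 ≠ 0 at hs
  generalize ⁅R.nm a s, R.nm b u⁆ = c at h6 h7 hs
  refine nm_mem_of_ne R h4 h5 hs ((mul_mem_cancel_left (inv_mem h7)).1 (R.UK_le
    (A := {s | C.ht r + 1 ≤ Cert.lev ∅ (C.rc s)}) (fun s hs => by rwa [Set.mem_ofPred_eq, ht_inv])
    (Cert.closed_ge _ (by omega)) (fun s hs => hZ' s (Or.inr hs)) (fun s hs => ?_) ?_))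
  · have h7 := ht_le_top (C := C) s
    rw [Set.mem_ofPred_eq, C.lev_empty] at hs
    exact ih _ (by omega) s (C.pos_of_ht (by omega)) rfl
  have h8 : (R.nm r (S.cd r c) : G) ∈ S.U Z := S.U_mono Set.subset_union_left (R.nm_mem (R.sb_Ob r) (R.mem_Ob r) _)
  have h9 : Cert.lev ∅ (C.rc r) < 2 * C.ht r := by rw [C.lev_empty]; omega
  refine peel (f := Cert.lev ∅) (k := C.ht r) (by omega) (hS.mono hZ') (Cert.nil_of_pos hZ') hZ
    (mul_mem (inv_mem h6) h8) fun x hx => hx.symm.imp_right fun hx => ⟨by rw [C.lev_empty, R.Ob_inv R.ht_ρ hx]; omega,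
      cd_Ob R (ht_inv R) (m := C.ht r) (by omega) (S.U_mono hZ (mul_mem (inv_mem h6) h8)) (R.σ_coe (c⁻¹ * _)) h9 ?_ hx⟩
  rw [S.cd_mul (by omega) hZ h9 (inv_mem h6) h8, S.cd_inv (by omega) hZ h9 h6,
    R.cd_nm (ht_inv R) (Sys.ht_pos hr) h5, neg_add_cancel]

theorem gen_R [Finite G] [Finite F] [Finite k] (p : ℕ) [Fact p.Prime] [CharP F p]
    (hφ : (∀ r, R.T.ρ r = r) ∨ ∃ q, (∀ t, R.φ t = t ^ q) ∧ Nat.card F = q ^ R.d) :
    ⨆ i, (sb (ldR R gen).bn).X i = (ldR R gen).U :=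
  SB.gen_of_comm _ (LD.isPGroup_U (p := p) _) (fun _ ha _ _ hx => Sys.H_conj_U ha hx) fun _ _ h2 h3 h4 =>
    UK_le_of_comm R hφ (fun i t => by
      obtain ⟨j, hj⟩ := exists_rep R.T i
      exact h2 j (R.nm_mem (sb_orb R j.1) ⟨C.pos_sp i, C.inJ_sp.2 (hj ▸ R.T.mem_orb i)⟩ t))
      (fun a b ha hb => h3 a ha b hb) h4

theorem not_par_R (h0 : ∀ i, 0 < C.rc C.top i)
    (h : ∀ i, R.T.π i = i → C.rc C.top i = 1 → ∃ γ, R.T.ρ γ = γ ∧ C.A C.top γ = 0 ∧ 0 < C.rc γ i)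
    (Ω : Type*) [MulAction (ldR R gen).K Ω] : ¬ (sb (ldR R gen).bn).Par Ω :=
  not_par _ (lr_top R) (simple_R R) h0 h Ω

theorem conj_top (h : R.Inv2) {b : Rt D} (h1 : C.Pos b) (h2 : R.T.ρ b = b) : ∃ w ∈ C.W, R.T.cj w = w ∧ w b = C.top := by
  obtain ⟨i, hi, w, hw, e, rfl, -⟩ := R.exists_pt h h1 h2
  obtain ⟨v, hv, e', h3, -⟩ := R.pt_top h hi
  exact ⟨v * w⁻¹, mul_mem hv (inv_mem hw), by rw [R.T.cj_mul, e', R.cj_inv e], by simpa using h3⟩

variable [Finite G] [Finite F] [Finite k] {Ω : Type*} [Finite Ω] [MulAction (ldR R gen).K Ω] [FaithfulSMul (ldR R gen).K Ω]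

/-- long root elements have no fixed points -/
theorem nofix_R (hB : (ldR R gen).BT Ω) {r s : Rt D} (e : C.rc C.top = C.rc r + C.rc s) (hr : R.T.ρ r = r)
    (hs : R.T.ρ s = s) {w : Perm (Rt D)} (hw : w ∈ C.W) (h1 : R.T.cj w = w) (h2 : w r = C.top) :
    (ldR R gen).rat_top.NF Ω :=
  LD.nofix (ε := C.N r s) hB (by rw [map_intCast]; exact tri_lng lng_top e (N_ne (R.lng r) (R.lng s) e))
    (rat_R R gen hr) (rat_R R gen hs) _ (fun _ hu t => S.Up_commute_top hu t) hw h1 h2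

/-- the simply laced groups of large rank -/
theorem kill_R (p : ℕ) [Fact p.Prime] [CharP F p] (h : T2 (ldR R gen).K Ω) (hB : (ldR R gen).BT Ω) (hI : R.Inv2)
    {r s : Rt D} (e : C.rc C.top = C.rc r + C.rc s) (hr : R.T.ρ r = r) (hs : R.T.ρ s = s) {a b c : Rt D}
    (e' : C.rc c = C.rc a + C.rc b) (ha : R.T.ρ a = a) (hb : R.T.ρ b = b) (h1 : C.Pos a ∧ C.Pos b ∧ C.Pos c)
    (h2 : C.A C.top a = 0 ∧ C.A C.top b = 0 ∧ C.A C.top c = 0) {m : ℕ} (hm : (Qt C).ncard = 2 * m + 1) {l : ℕ}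
    (h3 : (ldR R gen).P.index * (Nat.card k - 1) = l * (Nat.card k ^ (m + 2) - 1))
    (h4 : Nat.card k * l + 2 ≤ Nat.card k ^ (m + 1) + l) : False := by
  obtain ⟨w, hw, h5, h6⟩ := conj_top R hI (C.pos_of_top (e.trans (add_comm _ _))) hr
  have nf := nofix_R R gen hB e hr hs hw h5 h6
  have hc := R.fix_add ha hb e'
  obtain ⟨w, hw, h5, h6⟩ := conj_top R hI h1.2.2 hc
  exact LD.kill p h nf (hnd_R R gen) hm h3 h4 (LD.dvd_levi (ε := C.N a b) p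
    (by rw [map_intCast]; exact tri_lng (R.lng c) e' (N_ne (R.lng a) (R.lng b) e'))
    (rat_R R gen ha) (rat_R R gen hb) (rat_R R gen hc) h1 (nf.conj _ hw h5 h6) h2)

end

end Cfsg.Agent.TT
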