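import Cfsg.Agent.TT.QT
import Cfsg.Agent.TT.LRk
import Cfsg.Agent.Forms.LieD4
import Cfsg.Agent.Tw.Eqv
/-!
# Two-transitive actions of `³D₄(q)`
-/
set_option autoImplicit false
set_option linter.unusedSectionVars false

namespace Cfsg.Agent.TT
open Cfsg Cfsg.Lie Cfsg.Agent.Chev Cfsg.Agent.Tw Cfsg.Agent.Stein Cfsg.Agent.Forms Equiv MulAction
open scoped commutatorElement

variable {D : ChevalleyDatum} {C : Cert D} {F : Type*} [Field F] {G : Type*} [Group G] {S : Sys C F G}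

theorem ncard_Qt7 : (Qt C).ncard = (Finset.univ.filter fun r => 1 ≤ C.A C.top r).card := by
  rw [← Set.ncard_coe_finset]; congr 1; ext r; simp [Qt]

theorem one_le_lev (r : Rt D) : 1 ≤ Cert.lev ∅ (C.rc r) ↔ C.Pos r :=
  ⟨fun h => (Cert.lev_pos_iff.1 h).1, Sys.ht_pos⟩

theorem sum_pow_eq {α : Type*} [Fintype α] {P : α → Prop} (Q : α → Prop) {iP : DecidablePred P} [DecidablePred Q]
    (hPQ : ∀ s, P s ↔ Q s) (nf : α → ℕ) (q : ℕ) (l : List ℕ) (h : (Finset.univ.filter Q).val.map nf = l) :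
    ∑ s ∈ @Finset.filter _ P iP Finset.univ, q ^ nf s = (l.map (q ^ ·)).sum := by
  rw [Finset.filter_congr (q := Q) fun s _ => hPQ s, ← Multiset.sum_coe, ← Multiset.map_coe, ← h, Multiset.map_map]
  rfl

section
variable {k : Type*} [Field k] (R : LR S k)

theorem exists_cd_comm' {q : ℕ} [Finite F] (hφ : ∀ t, R.φ t = t ^ q) (hF : Nat.card F = q ^ R.d) {r a b : Rt D}
    (e : C.rc r = C.rc b + C.rc a) (ha : C.Pos a) (hb : C.Pos b) {y : G}
    (hy' : y ∈ S.U {s | C.ht b ≤ Cert.lev ∅ (C.rc s)}) (h0 : S.cd b y ≠ 0) :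
    ∃ s, S.cd r ⁅(R.nm a s : G), y⁆ ≠ 0 := by
  classical
  have a1 := C.one_le_ht ha
  have a2 := C.one_le_ht hb
  have h1 : ∀ j, ∃ c, ∀ s, R.T.σ^[j] (S.x a s) = S.x (R.T.ρ^[j] a) (c * s ^ q ^ j) := fun j => by
    induction j with
    | zero => exact ⟨1, by simp⟩
    | succ j ih =>
      obtain ⟨c, hc⟩ := ih
      exact ⟨R.T.e (R.T.ρ^[j] a) * R.φ c, fun s => by
        simp only [Function.iterate_succ_apply', hc, R.T.σ_x, R.f_eq, hφ, mul_pow, ← pow_mul, pow_succ, mul_assoc]⟩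
  have h2 : ∀ j, ∃ κ : F, ∀ s, S.cd r ⁅R.T.σ^[j] (S.x a s), y⁆ = κ * s ^ q ^ j := fun j => by
    obtain ⟨c, hc⟩ := h1 j
    have h3 : Cert.lev ∅ (C.rc (R.T.ρ^[j] a)) = C.ht a := by rw [C.lev_empty, R.Ob_inv R.ht_ρ ⟨j, rfl⟩]
    refine ⟨∑ β, if C.rc r = C.rc β + C.rc (R.T.ρ^[j] a) then C.N (R.T.ρ^[j] a) β * c * S.cd β y else 0, fun s => ?_⟩
    rw [hc, commutatorElement_def, S.cd_comm_x (Cert.lev ∅) (k := C.ht b) (by omega) (by omega)
      (by rw [h3, C.lev_empty, C.ht_add e]) _ hy', Finset.sum_mul]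
    exact Finset.sum_congr rfl fun β _ => by split_ifs <;> ring
  choose κ hκ using h2
  have h3 : κ 0 ≠ 0 := fun h => by
    have := hκ 0 1
    rw [h, zero_mul, Function.iterate_zero, id, commutatorElement_def, S.cd_comm_of_add (Cert.lev ∅) (k := C.ht b)
      (by omega) (by rw [C.lev_empty]; omega) (C.lev_empty b) e _ hy', mul_one] at this
    exact mul_ne_zero (N_ne (R.lng a) (R.lng b) (e.trans (add_comm _ _))) h0 this
  have h4 : ∀ s n, S.cd r ⁅R.pn n (S.x a s), y⁆ = ∑ j ∈ Finset.range n, κ j * s ^ q ^ j := fun s n => by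
    have h5 : R.Sb {s | C.ht a ≤ Cert.lev ∅ (C.rc s)} := fun s hs => by rwa [Set.mem_ofPred_eq, ht_inv]
    have h6 : S.x a s ∈ S.U {s | C.ht a ≤ Cert.lev ∅ (C.rc s)} := S.x_mem_U (C.lev_empty a).ge _
    induction n with
    | zero => simp [LR.pn, S.cd_one]
    | succ n ih =>
      rw [LR.pn_succ, commutatorElement_def, S.cd_comm_mul (Cert.lev ∅) (k := C.ht b) (m := C.ht a) (by omega) (by omega)
        (by rw [C.lev_empty, C.ht_add e]) (R.pn_mem h5 h6 n) (R.iter_mem h5 h6 n) hy', Finset.sum_range_succ, ← ih, ← hκ]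
      rfl
  by_contra! h5
  have := Fintype.ofFinite F
  have hd := R.d_pos
  have hq : 1 < q := (Nat.one_lt_pow_iff hd.ne').1 (hF ▸ Finite.one_lt_card)
  have := Polynomial.eq_zero_of_natDegree_lt_card_of_eval_eq_zero
    (∑ j ∈ Finset.range R.d, Polynomial.monomial (q ^ j) (κ j) : Polynomial F) Function.injective_id
    (fun t => by simpa [Polynomial.eval_finsetSum, R.nm_coe, h4] using h5 t)
    (lt_of_le_of_lt (Polynomial.natDegree_sum_le_of_forall_le _ _ (n := q ^ (R.d - 1)) fun j hj =>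
      (Polynomial.natDegree_monomial_le _).trans (Nat.pow_le_pow_right hq.le (by have := Finset.mem_range.1 hj; omega)))
      (by rw [← Nat.card_eq_fintype_card, hF]; exact Nat.pow_lt_pow_right hq (by omega)))
  have h6 := congrArg (Polynomial.coeff · (q ^ 0)) this
  simp only [Polynomial.finsetSum_coeff, Polynomial.coeff_monomial, (Nat.pow_right_injective hq).eq_iff,
    Finset.sum_ite_eq', Finset.mem_range, hd, if_true, Polynomial.coeff_zero] at h6
  exact h3 h6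

variable (gen : ∀ M, R.UK {r | C.Pos r} ≤ M → R.UK {r | ¬ C.Pos r} ≤ M → M = ⊤)
variable [Finite G] [Finite F] [Finite k] {Ω : Type*} [Finite Ω] [MulAction (ldR R gen).K Ω]

theorem trans_Q (ut : ∀ x y : Ω, ∃ u ∈ (ldR R gen).U, u • x = y) (hc : ∀ r, 2 ≤ C.ht r → 1 ≤ C.A C.top r)
    (hs : ∀ r, 0 < C.ht r → R.T.ρ r = r → 1 ≤ C.A C.top r)
    (hlt : ∀ x : Ω, Nat.card Ω < Nat.card F * (stabilizer (ldR R gen).K x).relIndex (ldR R gen).Q) (x y : Ω) :
    ∃ a ∈ (ldR R gen).Q, a • x = y := by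
  have h1 : R.UK {r | C.Pos r} ≤ @OK _ Ω _ ‹_› (ldR R gen).Q := by
    refine R.UK_le (fun r hr => (R.T.pos r).2 hr) C.closed_pos (fun _ h => h) fun r hr => ?_
    by_cases h : r ∈ Qt C
    · exact fun t => le_OK Ω (ldR R gen).Q (R.nm_mem (sb_A R (lr_top R)) h t)
    obtain ⟨s, t, e, z, w, hw, h2⟩ := exists_ne_orb (G := (ldR R gen).K) (R.nm r) _ x (hlt x)
    have h3 : (R.nm r s)⁻¹ * R.nm r t = R.nm r (-s + t) := by rw [R.nm_add, add_hom_neg (R.nm_add r)]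
    refine nm_mem_of_ne R (fun a ha g => OK_conj (G := (ldR R gen).K) fun w => LD.P_Q (S.H_le_P _ ha))
      (fun e => h (hs r (C.one_le_ht hr) e)) (v := -s + t) (by rwa [ne_eq, neg_add_eq_zero])
      (mem_OK (G := (ldR R gen).K) ut (fun a ha w => LD.P_Q (LD.U_le_P _ ha)) (fun a ha => ?_) hw (h3 ▸ h2))
    exact S.U_mono (fun r (hr : 1 + 1 ≤ Cert.lev ∅ (C.rc r)) => hc r (C.lev_empty r ▸ hr))
      (TwM.comm_ge S (Cert.lev ∅) zero_le_one one_pos (S.U_mono (fun r hr => Sys.ht_pos hr) ha)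
        (R.nm_mem (fun s hs => by rwa [Set.mem_ofPred_eq, ht_inv]) (Sys.ht_pos hr) _))
  obtain ⟨u, hu, rfl⟩ := ut x y
  obtain ⟨w, hw, e⟩ := h1 hu x
  exact ⟨w, hw, e.symm⟩

end

theorem d43_false [Finite F] {φ : F ≃+* F} {q : ℕ} (hφ : ∀ t, φ t = t ^ q) (hF : Nat.card F = q ^ 3) (p : ℕ)
    [Fact p.Prime] [CharP F p] (gen) {Ω : Type*} [Finite Ω] [MulAction (ldR (Forms.lrD4 hφ hF) gen).K Ω]
    [FaithfulSMul (ldR (Forms.lrD4 hφ hF) gen).K Ω] (h : T2 (ldR (Forms.lrD4 hφ hF) gen).K Ω) : False := by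
  classical
  have hq := card_fixF hφ hF
  have h2 := one_lt_of_card hF
  have hB := LD.btrans _ p h (gen_R _ gen p (Or.inr ⟨q, hφ, hF⟩)) (not_par_R _ gen (by decide +kernel)
    (fun i a b => absurd b ((by decide +kernel : ∀ i, triD4.ν i = i → certD4.rc certD4.top i ≠ 1) i a)) Ω)
  have e : certD4.rc certD4.top = certD4.rc ⟨22, by decide⟩ + certD4.rc ⟨14, by decide⟩ := funext (by decide +kernel)
  have e' : certD4.wd (wD4 1) ⟨22, by decide⟩ = certD4.top := Fin.ext (by rw [Cert.wd_table ssD4]; decide +kernel)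
  have nf := nofix_R _ gen hB e rfl rfl (certD4.wd_mem_W _) (cj_wD4 φ 1) e'
  have hm : (Qt certD4).ncard = 9 := ncard_Qt7.trans (by decide +kernel)
  have h3 := LD.card_eq p h nf (hnd_R _ gen) (m := 4) hm (l := q ^ 4 - q ^ 2 + 1) (by
    rw [LD.index_P _ (nf := fun r => if 12 ≤ (r : ℕ) then (5 - certD4.ht r).toNat else (4 - certD4.ht r).toNat)
      (by decide +kernel) (fun s _ j => by
        rw [show certD4.ss j s = ⟨reflD4 j s, ssD4 j s ▸ (certD4.ss j s).2⟩ from Fin.ext (ssD4 j s)]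
        revert s j; decide +kernel), hq, sum_pow_eq (fun s => triD4.ρ s = s)
          (fun s => by exact and_iff_right (lenD4_eq s _)) _ _ [0, 1, 4, 5, 8, 9] (by decide +kernel)]
    zify [h2.le, Nat.pow_le_pow_right h2.le (show 2 ≤ 4 by omega), Nat.one_le_pow _ _ (zero_lt_one.trans h2)]
    simp; ring) (by
      rw [hq]
      obtain ⟨r, rfl⟩ := Nat.exists_eq_add_of_le' h2
      rw [show (r + 2) ^ 4 - (r + 2) ^ 2 = (r + 2) ^ 2 * ((r + 1) * (r + 3)) from Nat.sub_eq_of_eq_add (by ring)]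
      ring_nf; omega)
  obtain ⟨a, ha⟩ := LD.exists_pow (ldR _ gen) p h3
  have h4 := LD.le_relIndex _ nf (hnd_R _ gen) (m := 5) (by rw [hm])
  rw [hq] at h3 h4
  obtain ⟨x, -⟩ := h.nt
  refine LD.qt_false nf (trans_Q _ gen (LD.utrans _ h ha) (by decide +kernel)
    (by change ∀ r, _ → triD4.ρ r = r → _; decide +kernel) fun x => ?_) x
    (by rw [LD.card_Q, hm, hq, h3]; exact Nat.pow_lt_pow_right h2 (by omega)) (Cert.lev ∅) one_le_lev
    (ε := certD4.N _ _) (by rw [map_intCast]; exact tri_lng lng_top e (N_ne ((Forms.lrD4 hφ hF).lng _) ((Forms.lrD4 hφ hF).lng _) e))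
    (rat_R _ gen rfl) (rat_R _ gen rfl) (nf.conj _ (certD4.wd_mem_W _) (cj_wD4 φ 1) e')
    (certD4.pos_of_ht (by decide +kernel)) (by simp only [Cert.lev_empty]; decide +kernel) fun r h5 h6 v h7 _ h8 => ?_
  · rw [hF, h3]
    exact (Nat.pow_lt_pow_right h2 (by omega)).trans_le ((pow_add q 3 5).le.trans (Nat.mul_le_mul_left _ (h4 x)))
  · simp only [Cert.lev_empty] at h6
    obtain ⟨a, δ, b1, b2, b3⟩ := (by decide +kernel : ∀ r, 1 ≤ certD4.A certD4.top r →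
      certD4.ht r < certD4.ht ⟨22, by decide⟩ → ∃ a δ, 0 < certD4.ht a ∧ δ ≠ certD4.top ∧
        ∀ i, certD4.rc δ i = certD4.rc r i + certD4.rc a i) r h5 h6
    obtain ⟨s, hs⟩ := exists_cd_comm' (Forms.lrD4 hφ hF) hφ hF (funext b3) (certD4.pos_of_ht b1) (Qt_pos h5)
      (certD4.lev_empty r ▸ h7) h8
    exact ⟨_, LR.nm_mem _ (A := {r | certD4.Pos r}) (fun r hr => ((Forms.lrD4 hφ hF).T.pos r).2 hr)
      (certD4.pos_of_ht b1) s, LD.not_mem_Z b2 hs⟩

theorem fam_D43 {G Ω : Type*} [Group G] [MulAction G Ω] [FaithfulSMul G Ω] [Finite Ω] {K : Type} [Field K] [Fintype K]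
    (p : ℕ) [Fact p.Prime] [CharP K p] {q : ℕ} (hK : Fintype.card K = q ^ 3) (e : G ≃* twistedD4 K q)
    (h2 : IsMultiplyPretransitive G Ω 2) : False := by
  rw [← Nat.card_eq_fintype_card] at hK
  obtain ⟨φ, hφ⟩ := exists_frob K hK
  have gen := gen_of_words (Forms.lrD4 hφ hK) rfl (d4Words_sign q)
  have := LD.nontrivial (ldR _ gen)
  exact of_equiv (K := (ldR _ gen).K) (e.trans (eqD4 K q).symm) h2 fun h => d43_false hφ hK p gen h

end Cfsg.Agent.TT
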