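import Cfsg.Agent.TT.LRk
import Cfsg.Agent.Chev.ReflE7
/-!
# The groups of type `E` have no two-transitive actions
-/
set_option autoImplicit false
set_option linter.unusedSectionVars false

namespace Cfsg.Agent.TT
open Cfsg Cfsg.Lie Cfsg.Agent.Chev Cfsg.Agent.Tw Cfsg.Agent.Stein Cfsg.Agent.Forms Equiv MulAction
open scoped commutatorElement

variable {D : ChevalleyDatum} {C : Cert D} {F : Type*} [Field F] {G : Type*} [Group G] {S : Sys C F G}

theorem A_tab {co ca : ℕ → ℕ → ℤ} (h : dataOK D co ca = true) (r s : Rt D) :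
    C.A r s = sumLt D.rank fun i => co r i * ca i s := by
  rw [C.A_eq_sum, sumLt_eq, ← Fin.sum_univ_eq_sum_range (fun i => co r i * ca i s)]
  exact Finset.sum_congr rfl fun i _ => by
    rw [C.A_sp, (dataOK_spec h).2.2 i i.2 s s.2, ← ((dataOK_spec h).2.1 r r.2).2 i i.2]; rfl

theorem ncard_Qt : (Qt C).ncard = (Finset.univ.filter fun r => 1 ≤ C.A C.top r).card := by
  rw [← Set.ncard_coe_finset]; congr 1; ext; simp [Qt]

theorem sum_list {p : Rt D → Prop} [DecidablePred p] (f : Rt D → Bool) (h : ∀ s, p s ↔ f s = true) (nf : Rt D → ℕ)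
    (q : ℕ) : ∑ s ∈ Finset.univ.filter p, q ^ nf s =
      (List.map (q ^ ·) (((List.finRange D.nroots).filter f).map nf)).sum := by
  rw [List.map_map, ← List.sum_toFinset _ ((List.nodup_finRange _).filter _)]
  exact Finset.sum_congr (by ext s; simp [h]) fun _ _ => rfl

variable (C) in
/-- lengths of the minimal coset representatives -/
def nfS (s : Rt D) : ℕ := (C.ht C.top - C.ht s - if 0 < C.ht s then 0 else 1).toNat

theorem index_sl {k : Type*} [Field k] (R : LD S k) [Finite G] (hl : ∀ r s, C.len r = C.len s) (f : Rt D → Bool)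
    (hf : ∀ s, R.T.ρ s = s ↔ f s = true) {L : List ℕ} (h : ((List.finRange D.nroots).filter f).map (nfS C) = L) :
    R.P.index = (L.map (Nat.card k ^ ·)).sum := by
  classical
  have hL : ∀ r, Lng C r := fun r u => (hl u r).le
  rw [R.index_P (nf := nfS C) (by simp [nfS, C.one_le_ht C.pos_top |> Int.lt_of_lt_of_le Int.zero_lt_one])
    (fun s _ j hj => ?_), ← h]
  · exact sum_list f (fun s => (and_iff_right (hl s C.top)).trans (hf s)) _ _
  have h1 := ht_ss (C := C) j s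
  have h2 := ht_le_top (C := C) s
  by_cases e : s = C.sp j
  · rw [e, C.A_self, C.ht_sp] at h1
    rw [e, C.ht_sp] at h2
    simp only [nfS, e, h1, C.ht_sp]; omega
  have h3 := (hL (C.sp j)).le e
  have h4 : ∀ r, C.ht r ≠ 0 := fun r => by
    by_cases h : C.Pos r
    · have := C.one_le_ht h; omega
    · have := ht_neg h; omega
  have := h4 s
  have := h4 (C.ss j s)
  have := C.one_le_ht C.pos_top
  simp only [nfS]; split_ifs <;> omega

theorem mul_pred_eq {a l q N : ℕ} (hq : 2 ≤ q) (h : (a : ℤ) * (q - 1) = l * (q ^ N - 1)) :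
    a * (q - 1) = l * (q ^ N - 1) := by
  zify [show 1 ≤ q by omega, Nat.one_le_pow N q (by omega)]; exact h

section
variable {k : Type*} [Field k] (R : LR S k)

theorem heis_eq {b r s : Rt D} (hb : R.T.ρ b = b) (e : C.rc b = C.rc r + C.rc s) {u : R.K}
    (hu : (u : G) ∈ S.U {a | 1 ≤ C.A b a}) (t : F) : (R.nm r t : G) * u =
      u * R.nm r t * S.x b (∑ j ∈ Finset.range R.d, R.φ^[j] (C.N r s * (t * S.cd s u))) := by
  have h1 := (R.lng b).heis S e t hu
  simp only [R.nm_coe]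
  induction R.d with
  | zero => simp [LR.pn, S.x_zero]
  | succ n ih =>
    have h2 := congrArg R.T.σ^[n] h1
    rw [R.σ_iter_mul, R.σ_iter_mul, R.σ_iter_mul, R.σ_iter_coe, R.σ_iter_fix hb] at h2
    rw [R.pn_succ, mul_assoc, h2, ← mul_assoc, ← mul_assoc, ih, Finset.sum_range_succ, S.x_add, mul_assoc _ (S.x b _),
      commute_U S (fun r hr => (R.lng b).commute S hr _) (R.iter_mem (sb_A R hb)
        (S.x_mem_U ((R.lng b).A_eq_one e).ge _) n)]
    simp only [mul_assoc]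

/-- a Heisenberg group in the twisted group -/
noncomputable def a2R {b r s : Rt D} (hb : R.T.ρ b = b) (e : C.rc b = C.rc r + C.rc s) (hs : R.T.ρ s ≠ s)
    (h0 : C.Pos s) {α : F} (hα : ∑ j ∈ Finset.range R.d, R.φ^[j] α = 1) : A2 k R.K where
  a t := R.nm r (C.N r s * α * R.ι t)
  b u := R.nm s (R.ι u)
  c := R.X b
  a_add s t := by rw [map_add, mul_add, R.nm_add]
  b_add s t := by rw [map_add, R.nm_add]
  c_add := R.X_add b
  ab t u := Subtype.ext (by
    have n0 : (C.N r s : F) * C.N r s = 1 := by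
      exact_mod_cast congrArg (Int.cast : ℤ → F) ((R.lng r).N_sq (R.lng s) e)
    simp only [Subgroup.coe_mul]
    rw [heis_eq R hb e (R.nm_mem (sb_A R hb) ((R.lng b).A_eq_one (e.trans (add_comm _ _))).ge _),
      R.cd_nm (ht_inv R) (Sys.ht_pos h0) hs, R.X_coe hb, Finset.sum_congr rfl fun j _ =>
        show R.φ^[j] _ = R.ι (t * u) * R.φ^[j] α by
          rw [← Function.iterate_fixed ((R.range _).2 ⟨t * u, rfl⟩) j, ← iterate_map_mul, map_mul]
          congr 1; linear_combination α * R.ι t * R.ι u * n0,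
      ← Finset.mul_sum, hα, mul_one])
  ac t u := Subtype.ext (by
    simp only [Subgroup.coe_mul, R.X_coe hb]
    exact (commute_U S (fun r hr => (R.lng b).commute S hr _) (R.nm_mem (sb_A R hb) ((R.lng b).A_eq_one e).ge _)).symm)
  bc t u := Subtype.ext (by
    simp only [Subgroup.coe_mul, R.X_coe hb]
    exact (commute_U S (fun r hr => (R.lng b).commute S hr _) (R.nm_mem (sb_A R hb)
      ((R.lng b).A_eq_one (e.trans (add_comm _ _))).ge _)).symm)

variable (gen : ∀ M, R.UK {r | C.Pos r} ≤ M → R.UK {r | ¬ C.Pos r} ≤ M → M = ⊤) [Finite G] [Finite F] [Finite k]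

theorem dvd_levi_R {Ω : Type*} [Finite Ω] [MulAction (ldR R gen).K Ω] (p : ℕ) [Fact p.Prime] [CharP F p] {b r s : Rt D}
    (hb : R.T.ρ b = b) (e : C.rc b = C.rc r + C.rc s) (hr : R.T.ρ r ≠ r) (hs : R.T.ρ s ≠ s)
    (h1 : C.Pos r ∧ C.Pos s ∧ C.Pos b) (nf : (rat_R R gen hb).NF Ω)
    (h2 : C.A C.top r = 0 ∧ C.A C.top s = 0 ∧ C.A C.top b = 0) (t u : k) :
    Nat.card k ^ 2 ∣ fix Ω ((ldR R gen).L.x t * (ldR R gen).L.y u) := by
  have := (ldR R gen).charP (p := p)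
  obtain ⟨α, hα⟩ := R.tr 1
  rw [map_one] at hα
  have hp : R.Sb {r | C.Pos r} := fun r hr => (R.T.pos r).2 hr
  have hz : R.Sb {r | C.A C.top r = 0} := fun r hr => by rwa [Set.mem_ofPred_eq, R.A_fix (lr_top R)]
  have hc : ∀ g : (ldR R gen).K, (g : G) ∈ S.U {r | C.A C.top r = 0} → g * ((ldR R gen).L.x t * (ldR R gen).L.y u) =
      ((ldR R gen).L.x t * (ldR R gen).L.y u) * g := fun g hg => Subtype.ext (by
    refine (commute_U S (fun a ha c => ?_) hg).symm
    change S.x _ _ * S.x _ _ * _ = _ * (S.x _ _ * S.x _ _)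
    rw [← mul_assoc, commute_orth lng_top ha, mul_assoc, mul_assoc,
      commute_orth lng_top.rev (by rw [C.A_rev_left, ha, neg_zero])])
  refine A2.dvd_fix (show A2 k (ldR R gen).K from a2R R hb e hs h1.2.1 hα) ((ldR R gen).isPGroup_U (p := p))
    (fun _ => R.nm_mem hp h1.1 _) (fun _ => R.nm_mem hp h1.2.1 _) (fun _ => R.X_mem h1.2.2 _) (fun c d h => ?_)
    (fun c hc x => ?_) (fun _ => hc _ (R.nm_mem hz h2.1 _)) (fun _ => hc _ (R.nm_mem hz h2.2.1 _))
    fun _ => hc _ (R.X_mem h2.2.2 _)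
  · have h3 : (R.nm r (C.N r s * α * R.ι c) : G) * R.X b d = 1 := congrArg Subtype.val h
    rw [mul_eq_one_iff_eq_inv, R.X_coe hb, ← S.x_neg] at h3
    have h4 := R.cd_nm (ht_inv R) (Sys.ht_pos h1.1) hr (C.N r s * α * R.ι c)
    rw [h3, S.cd_x_ne fun e : b = r => hr (e ▸ hb), eq_comm, mul_eq_zero, mul_eq_zero, map_eq_zero] at h4
    refine h4.resolve_left (not_or.2 ⟨N_ne (R.lng r) (R.lng s) e, fun e => ?_⟩)
    simp [e] at hα
  · have := nf c hc x
    rwa [show (rat_R R gen hb).x c = R.X b c from Subtype.ext (R.X_coe hb c).symm] at this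

end

theorem no_one [Finite F] (p : ℕ) [Fact p.Prime] [CharP F p] (hl : ∀ r s, C.len r = C.len s)
    (h0 : ∀ i, 0 < C.rc C.top i ∧ (C.rc C.top i = 1 → C.A C.top (C.sp i) = 0)) {r s a b c : Rt D}
    (e : Dc C C.top r s ∧ Dc C c a b ∧ (0 < C.ht a ∧ 0 < C.ht b ∧ 0 < C.ht c) ∧
      C.A C.top a = 0 ∧ C.A C.top b = 0 ∧ C.A C.top c = 0) {m : ℕ}
    (hm : (Finset.univ.filter fun r => 1 ≤ C.A C.top r).card = 2 * m + 1) {L : List ℕ}
    (hL : ((List.finRange D.nroots).filter fun _ => true).map (nfS C) = L) (l : ℕ → ℕ)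
    (h3 : ∀ q : ℕ, ((L.map (q ^ ·)).sum : ℕ) * (q - 1 : ℤ) = l q * (q ^ (m + 2) - 1))
    (h4 : ∀ r, (r + 2) * l (r + 2) + 2 ≤ (r + 2) ^ (m + 1) + l (r + 2)) {Γ Ω : Type*} [Group Γ] [MulAction Γ Ω]
    [FaithfulSMul Γ Ω] [Finite Ω] (hG : Nonempty (Γ ≃* D.group F)) (h2 : IsMultiplyPretransitive Γ Ω 2) : False := by
  set R := ldR (lrOne F hl) (ldOne C F).gen
  have := R.nontrivial
  have hq : 2 ≤ Nat.card F := Finite.one_lt_card
  refine of_equiv (K := R.K) (hG.some.trans Subgroup.topEquiv.symm) h2 fun h =>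
    kill_R _ _ p h (R.btrans p h (gen_R _ _ p (Or.inl fun _ => rfl)) (not_par_R _ _ (fun i => (h0 i).1)
      (fun i _ e => ⟨_, rfl, (h0 i).2 e, by simp [C.rc_sp_apply]⟩) Ω)) (fun _ => Or.inl rfl) (funext e.1) rfl rfl
      (funext e.2.1) rfl rfl ⟨C.pos_of_ht e.2.2.1.1, C.pos_of_ht e.2.2.1.2.1, C.pos_of_ht e.2.2.1.2.2⟩ e.2.2.2
      (ncard_Qt.trans hm) (l := l (Nat.card F)) (mul_pred_eq hq ?_) ?_
  · rw [index_sl R hl _ (fun _ => ⟨fun _ => rfl, fun _ => rfl⟩) hL, h3]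
  · simpa [Nat.sub_add_cancel hq] using h4 (Nat.card F - 2)

variable [Finite F] (p : ℕ) [Fact p.Prime] [CharP F p] {Γ Ω : Type*} [Group Γ] [MulAction Γ Ω] [FaithfulSMul Γ Ω]
  [Finite Ω]
include p

theorem no_E6 (hG : Nonempty (Γ ≃* chevE6.group F)) (h2 : IsMultiplyPretransitive Γ Ω 2) : False :=
  no_one p lenE6_eq (by simp only [A_tab dataOKE6]; decide +kernel) (r := ⟨70, by decide⟩) (s := ⟨46, by decide⟩)
    (a := ⟨37, by decide⟩) (b := ⟨36, by decide⟩) (c := ⟨38, by decide⟩) (by simp only [A_tab dataOKE6]; decide +kernel)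
    (m := 10) (by simp only [A_tab dataOKE6]; decide +kernel)
    (L := [21, 20, 19, 18, 17, 18, 17, 16, 16, 15, 14, 15, 14, 13, 12, 11, 17, 16, 15, 15, 14, 13, 14, 13, 12, 11, 14,
      13, 12, 11, 13, 12, 11, 12, 11, 11, 10, 10, 9, 10, 9, 8, 10, 9, 8, 7, 10, 9, 8, 7, 8, 7, 6, 6, 5, 4, 10, 9, 8, 7,
      6, 7, 6, 5, 5, 4, 3, 4, 3, 2, 1, 0]) (by decide +kernel) (fun q => (q ^ 6 + q ^ 3 + 1) * (q ^ 4 + 1))
    (fun q => by simp only [List.map, List.sum_cons, List.sum_nil]; push_cast; ring)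
    (fun r => by zify; rw [← sub_nonneg]; ring_nf; positivity) hG h2

theorem no_E7 (hG : Nonempty (Γ ≃* chevE7.group F)) (h2 : IsMultiplyPretransitive Γ Ω 2) : False :=
  no_one p lenE7_eq (by simp only [A_tab dataOKE7]; decide +kernel) (r := ⟨124, by decide⟩) (s := ⟨93, by decide⟩)
    (a := ⟨64, by decide⟩) (b := ⟨63, by decide⟩) (c := ⟨65, by decide⟩) (by simp only [A_tab dataOKE7]; decide +kernel)
    (m := 16) (by simp only [A_tab dataOKE7]; decide +kernel)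
    (L := [33, 32, 31, 30, 29, 28, 27, 29, 28, 27, 26, 27, 26, 25, 25, 24, 23, 26, 25, 24, 24, 23, 22, 23, 22, 21, 20,
      22, 21, 20, 19, 18, 17, 25, 24, 23, 23, 22, 21, 22, 21, 20, 19, 21, 20, 19, 18, 17, 21, 20, 19, 18, 17, 20, 19,
      18, 17, 19, 18, 17, 18, 17, 17, 16, 16, 15, 16, 15, 14, 16, 15, 14, 13, 16, 15, 14, 13, 12, 16, 15, 14, 13, 12,
      14, 13, 12, 11, 12, 11, 10, 10, 9, 8, 16, 15, 14, 13, 12, 11, 13, 12, 11, 10, 11, 10, 9, 9, 8, 7, 10, 9, 8, 8, 7,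
      6, 7, 6, 5, 4, 6, 5, 4, 3, 2, 1, 0]) (by decide +kernel)
    (fun q => q ^ 16 + q ^ 12 + q ^ 10 + q ^ 8 + q ^ 6 + q ^ 4 + 1)
    (fun q => by simp only [List.map, List.sum_cons, List.sum_nil]; push_cast; ring)
    (fun r => by zify; rw [← sub_nonneg]; ring_nf; positivity) hG h2

set_option maxRecDepth 4000 in
theorem no_E8 (hG : Nonempty (Γ ≃* chevE8.group F)) (h2 : IsMultiplyPretransitive Γ Ω 2) : False :=
  no_one p lenE8_eq (by simp only [A_tab dataOKE8]; decide +kernel) (r := ⟨238, by decide⟩) (s := ⟨120, by decide⟩)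
    (a := ⟨123, by decide⟩) (b := ⟨121, by decide⟩) (c := ⟨124, by decide⟩)
    (by simp only [A_tab dataOKE8]; decide +kernel) (m := 28) (by simp only [A_tab dataOKE8]; decide +kernel)
    (L := [57, 56, 55, 54, 53, 52, 51, 51, 50, 49, 48, 47, 46, 45, 50, 49, 48, 47, 46, 45, 44, 47, 46, 45, 44, 43, 45,
      44, 43, 42, 43, 42, 41, 41, 40, 39, 44, 43, 42, 41, 42, 41, 40, 40, 39, 38, 41, 40, 39, 39, 38, 37, 38, 37, 36,
      35, 40, 39, 38, 38, 37, 36, 37, 36, 35, 34, 36, 35, 34, 33, 32, 35, 34, 33, 32, 31, 30, 29, 39, 38, 37, 37, 36,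
      35, 36, 35, 34, 33, 35, 34, 33, 32, 31, 34, 33, 32, 31, 30, 29, 34, 33, 32, 31, 30, 29, 33, 32, 31, 30, 29, 32,
      31, 30, 29, 31, 30, 29, 30, 29, 29, 28, 28, 27, 28, 27, 26, 28, 27, 26, 25, 28, 27, 26, 25, 24, 28, 27, 26, 25,
      24, 23, 28, 27, 26, 25, 24, 23, 26, 25, 24, 23, 22, 24, 23, 22, 21, 22, 21, 20, 20, 19, 18, 28, 27, 26, 25, 24,
      23, 22, 25, 24, 23, 22, 21, 23, 22, 21, 20, 21, 20, 19, 19, 18, 17, 22, 21, 20, 19, 20, 19, 18, 18, 17, 16, 19,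
      18, 17, 17, 16, 15, 16, 15, 14, 13, 18, 17, 16, 16, 15, 14, 15, 14, 13, 12, 14, 13, 12, 11, 10, 13, 12, 11, 10,
      9, 8, 7, 12, 11, 10, 9, 8, 7, 6, 6, 5, 4, 3, 2, 1, 0]) (by decide +kernel)
    (fun q => (q ^ 12 + 1) * (q ^ 10 + 1) * (q ^ 6 + 1))
    (fun q => by simp only [List.map, List.sum_cons, List.sum_nil]; push_cast; ring)
    (fun r => by zify; rw [← sub_nonneg]; ring_nf; positivity) hG h2

theorem no_TE6 {q : ℕ} (hF : Nat.card F = q ^ 2) (hG : Nonempty (Γ ≃* twistedE6 F q))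
    (h2 : IsMultiplyPretransitive Γ Ω 2) : False := by
  obtain ⟨φ, hφ⟩ := exists_frob F hF
  have H := kdE6 hφ hF
  set R := ldR (lrE6 hφ hF) H.gen
  have := R.nontrivial
  have hq : 2 ≤ Nat.card (fixF φ) := Finite.one_lt_card
  refine of_equiv (K := R.K) (hG.some.trans (eqE6 F q).symm) h2 fun h => ?_
  have hB := R.btrans p h (gen_R _ _ p (Or.inr ⟨q, hφ, hF⟩)) (not_par_R _ _ (by decide +kernel)
    (fun i h e => absurd e (by revert i; change ∀ i, symE6.ν i = i → _; decide +kernel)) Ω)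
  obtain ⟨w, hw, h5, h6⟩ := conj_top _ H.inv2 (b := ⟨70, by decide⟩) (certE6.pos_of_ht (by decide +kernel)) rfl
  have nf := nofix_R _ _ hB (s := ⟨46, by decide⟩) (funext (by decide +kernel)) rfl rfl hw h5 h6
  obtain ⟨w, hw, h5, h6⟩ := conj_top _ H.inv2 (b := ⟨60, by decide⟩) (certE6.pos_of_ht (by decide +kernel)) rfl
  refine LD.kill p h nf (hnd_R _ _) (m := 10) (ncard_Qt.trans (by simp only [A_tab dataOKE6]; decide +kernel))
    (l := (Nat.card (fixF φ) ^ 6 - Nat.card (fixF φ) ^ 3 + 1) * (Nat.card (fixF φ) ^ 4 + 1)) (mul_pred_eq hq ?_) ?_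
    (dvd_levi_R _ _ p (r := ⟨36, by decide⟩) (s := ⟨59, by decide⟩) rfl (funext (by decide +kernel))
      (by change symE6.ρ _ ≠ _; decide +kernel) (by change symE6.ρ _ ≠ _; decide +kernel)
      ⟨certE6.pos_of_ht (by decide +kernel), certE6.pos_of_ht (by decide +kernel), certE6.pos_of_ht (by decide +kernel)⟩
      (nf.conj _ hw h5 h6) (by simp only [A_tab dataOKE6]; decide +kernel))
  · rw [index_sl R lenE6_eq (fun s => decide (symE6.ρ s = s)) (fun _ => decide_eq_true_iff.symm)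
      (L := [21, 20, 19, 17, 16, 15, 15, 14, 12, 11, 13, 11, 10, 8, 10, 9, 7, 6, 6, 5, 4, 2, 1, 0]) (by decide +kernel)]
    simp only [List.map, List.sum_cons, List.sum_nil]
    push_cast [Nat.pow_le_pow_right (show 0 < Nat.card (fixF φ) by omega) (show 3 ≤ 6 by omega)]
    ring
  · obtain ⟨r, hr⟩ := Nat.exists_eq_add_of_le' hq
    rw [hr]
    zify [Nat.pow_le_pow_right (show 0 < r + 2 by omega) (show 3 ≤ 6 by omega)]
    rw [← sub_nonneg]; ring_nf; positivity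

end Cfsg.Agent.TT
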