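import Cfsg.Agent.TT.Base
import Cfsg.Agent.Forms.URep
import Cfsg.Agent.Chev.CentF4
import Cfsg.Agent.Chev.Order
import Cfsg.Agent.CharLib.Induce
import Cfsg.Agent.Lang.SpecF4
/-!
# The minimal degree of `F₄(2)`
-/
set_option autoImplicit false
set_option linter.unusedSectionVars false

namespace Cfsg.Agent.TT
open Cfsg Cfsg.Lie Cfsg.Agent.Chev Cfsg.Agent.Forms Module MulAction

namespace F42

/-- the roots in the commutator formula over the field with two elements -/
def cw (r s : ℕ) : List ℕ := ((chevF4.commTerms r s).filter fun c => decide (c.2.1 % 2 ≠ 0)).map (·.1)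

/-- admissible pairs of roots -/
def ok (r s : ℕ) : Bool := decide (r < 48) && decide (s < 48) && decide (s ≠ r) && decide (r + s + 1 ≠ 48)

/-- the sign -/
def sg (b : Bool) : ℂ := bif b then -1 else 1

theorem sg_xor (a b : Bool) : sg (a ^^ b) = sg a * sg b := by cases a <;> cases b <;> simp [sg]

/-- the value of a state -/
def val (l : List (ℕ × Bool)) (c : ℕ) : Bool := decide ((c, true) ∈ l)

/-- the parity of a list of roots -/
def par (l : List (ℕ × Bool)) (cs : List ℕ) : Bool := cs.foldr (fun c b => val l c ^^ b) false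

/-- the root element `r` maps the weight space `l` to `l'` -/
def chk (r : ℕ) (l l' : List (ℕ × Bool)) : Bool := l'.all fun p => ok r p.1 &&
  (cw r p.1).all (fun c => decide ((c, val l c) ∈ l)) && decide ((p.1, p.2 ^^ par l (cw r p.1)) ∈ l)

/-- the image of a state -/
def mv (r : ℕ) (l : List (ℕ × Bool)) : List (ℕ × Bool) := l.map fun p => (p.1, p.2 ^^ par l (cw r p.1))

/-- paths -/
def pth : List (ℕ × Bool) → List ℕ → List (ℕ × Bool) → Bool
  | l, [], l' => decide (l = l')
  | l, r :: rs, l' => chk r l (mv r l) && pth (mv r l) rs l'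

/-- Heisenberg pairs -/
def hv : List (ℕ × ℕ) → List (ℕ × Bool) → Bool
  | [], _ => true
  | p :: ps, l => chk p.1 l l && chk p.2 ((p.1, false) :: l) ((p.1, true) :: l) &&
      chk p.2 ((p.1, true) :: l) ((p.1, false) :: l) && hv ps ((p.1, false) :: l)

/-- all refinements -/
def lv : List ℕ → List (ℕ × Bool) → List (List (ℕ × Bool))
  | [], l => [l]
  | r :: A, l => lv A ((r, false) :: l) ++ lv A ((r, true) :: l)

/-- the refinements are admissible -/
def sp : List ℕ → List (ℕ × Bool) → Bool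
  | [], _ => true
  | r :: A, l => chk r l l && sp A ((r, false) :: l) && sp A ((r, true) :: l)

/-- the two base states -/
def bs (b : Bool) : List (ℕ × Bool) := bif b then
  [(44, false), (40, false), (39, true), (38, true), (36, false), (29, false), (47, true)] else
  [(44, false), (40, false), (39, false), (38, false), (36, false), (29, false), (47, true)]

/-- all states are connected to a base state -/
def al : List (List (ℕ × Bool)) → List (Bool × List ℕ) → Bool
  | [], [] => true
  | l :: L, t :: T => pth l t.2 (bs t.1) && pth (bs t.1) t.2.reverse l && al L T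
  | _, _ => false

/-- the paths -/
def tab : List (Bool × List ℕ) :=
  [(false, []), (false, [33, 14, 27, 20, 22]), (false, [27, 20, 22]), (false, [14, 27, 20, 22]), (false, [22]),
  (false, [33, 14, 20, 22]), (false, [20, 22]), (false, [14, 20, 22]), (false, [25]), (false, [33, 14, 25, 27,
  20, 22]), (false, [25, 27, 20, 22]), (false, [14, 25, 27, 20, 22]), (true, []), (true, [33, 14, 20]), (true,
  [20]), (true, [14, 20]), (false, [25, 27, 25]), (false, [22, 20, 14, 20, 22, 25, 27, 25]), (true, [27, 20,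
  27]), (true, [14, 27, 20, 27]), (false, [22, 25, 27, 25]), (false, [20, 14, 20, 22, 25, 27, 25]), (true, [20,
  27]), (true, [14, 20, 27]), (false, [27, 25]), (false, [27, 33, 14, 25, 27, 20, 22]), (true, [27, 20]), (true,
  [14, 27, 20]), (true, [27]), (true, [20, 14, 20, 27]), (false, [20, 22, 25, 27, 25]), (false, [14, 20, 22, 25,
  27, 25]), (false, [25, 27, 33, 27, 25]), (true, [33, 14, 27, 20, 33, 27]), (false, [27, 20, 22, 25, 27, 33,
  27, 25]), (true, [14, 27, 20, 33, 27]), (false, [22, 25, 27, 33, 27, 25]), (true, [33, 14, 20, 33, 27]),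
  (false, [20, 22, 25, 27, 33, 27, 25]), (true, [14, 20, 33, 27]), (false, [27, 33, 27, 25]), (true, [33, 14,
  33, 27, 20]), (false, [27, 20, 22, 25, 33, 27, 25]), (true, [14, 33, 27, 20]), (true, [27, 33, 27]), (false,
  [33, 14, 20, 22, 25, 33, 27, 25]), (true, [20, 27, 33, 27]), (false, [14, 20, 22, 25, 33, 27, 25]), (false,
  [25, 33, 27, 25]), (true, [33, 14, 27, 20, 27]), (true, [27, 20, 33, 27]), (false, [14, 27, 20, 22, 25, 27,
  33, 27, 25]), (false, [22, 25, 33, 27, 25]), (true, [33, 14, 20, 27]), (true, [20, 33, 27]), (false, [14, 20,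
  22, 25, 27, 33, 27, 25]), (false, [33, 27, 25]), (true, [33, 14, 27, 20]), (true, [33, 27, 20]), (false, [14,
  27, 20, 22, 25, 33, 27, 25]), (true, [33, 27]), (false, [33, 14, 20, 22, 25, 27, 25]), (false, [20, 22, 25,
  33, 27, 25]), (true, [14, 20, 27, 33, 27])]

theorem c1 : sp [29, 36, 38, 39, 40, 44] [(47, true)] = true := by decide +kernel
theorem c2 : al (lv [29, 36, 38, 39, 40, 44] [(47, true)]) tab = true := by decide +kernel
theorem c3 : ∀ b, hv [(24, 46), (26, 45), (31, 43), (32, 42)] (bs b) = true := by decide +kernel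
theorem c4 : tab.countP (·.1) = 28 ∧ tab.countP (!·.1) = 36 := by decide +kernel

variable {G V : Type*} [Group G] [AddCommGroup V] [Module ℂ V] [FiniteDimensional ℂ V]
  (ρ : Representation ℂ G V) (y : ℕ → G)

/-- weight spaces -/
def E (l : List (ℕ × Bool)) : Submodule ℂ V where
  carrier := {v | ∀ p ∈ l, ρ (y p.1) v = sg p.2 • v}
  add_mem' := fun ha hb p hp => by rw [map_add, ha p hp, hb p hp, smul_add]
  zero_mem' := fun p _ => by simp
  smul_mem' := fun c v hv p hp => by rw [map_smul, hv p hp, smul_comm]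

/-- their dimensions -/
noncomputable def dm (l : List (ℕ × Bool)) : ℕ := finrank ℂ (E ρ y l)

variable {ρ y} (h2 : ∀ r, y r * y r = 1)
  (hs : ∀ r s, ok r s = true → y s * y r = y r * y s * ((cw r s).map y).prod)

theorem prod_ap {l : List (ℕ × Bool)} {v : V} (hv : v ∈ E ρ y l) (cs : List ℕ)
    (h : ∀ c ∈ cs, (c, val l c) ∈ l) : ρ (cs.map y).prod v = sg (par l cs) • v := by
  induction cs with
  | nil => simp [par, sg]
  | cons c cs ih =>
    rw [List.map_cons, List.prod_cons, mul_ap, ih fun c hc => h c (List.mem_cons_of_mem _ hc), map_smul,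
      hv _ (h c List.mem_cons_self), smul_smul, mul_comm, ← sg_xor]
    rfl

include hs in
theorem chk_mem {r : ℕ} {l l' : List (ℕ × Bool)} (h : chk r l l' = true) :
    ∀ v ∈ E ρ y l, ρ (y r) v ∈ E ρ y l' := fun v hv p hp => by
  simp only [chk, List.all_eq_true, Bool.and_eq_true, decide_eq_true_eq] at h
  obtain ⟨⟨h1, h3⟩, h4⟩ := h p hp
  rw [← mul_ap, hs _ _ h1, mul_ap, mul_ap, prod_ap hv _ h3, map_smul, hv _ h4, smul_smul, ← sg_xor, map_smul]
  congr 2
  cases p.2 <;> cases par l (cw r p.1) <;> rfl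

include hs in
theorem chk_le {r : ℕ} {l l' : List (ℕ × Bool)} (h : chk r l l' = true) : dm ρ y l ≤ dm ρ y l' :=
  finrank_le_of_map ρ _ (chk_mem hs h)

include h2 in
theorem split' {r : ℕ} {l : List (ℕ × Bool)} (h : ∀ v ∈ E ρ y l, ρ (y r) v ∈ E ρ y l) :
    dm ρ y l = dm ρ y ((r, false) :: l) + dm ρ y ((r, true) :: l) := by
  have h1 : E ρ y ((r, false) :: l) ⊔ E ρ y ((r, true) :: l) = E ρ y l := by
    refine le_antisymm (sup_le (fun v hv p hp => hv p (List.mem_cons_of_mem _ hp))
      fun v hv p hp => hv p (List.mem_cons_of_mem _ hp)) fun v hv => ?_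
    have e : ρ (y r) (ρ (y r) v) = v := by rw [← mul_ap, h2, one_ap]
    refine Submodule.mem_sup.2 ⟨(2⁻¹ : ℂ) • (v + ρ (y r) v), Submodule.smul_mem _ _ ?_,
      (2⁻¹ : ℂ) • (v - ρ (y r) v), Submodule.smul_mem _ _ ?_, ?_⟩
    · exact List.forall_mem_cons.2 ⟨by simp [sg, e, add_comm], add_mem hv (h v hv)⟩
    · exact List.forall_mem_cons.2 ⟨by simp [sg, e], sub_mem hv (h v hv)⟩
    · module
  have h3 : E ρ y ((r, false) :: l) ⊓ E ρ y ((r, true) :: l) = ⊥ := eq_bot_iff.2 fun v hv => by
    have e := (hv.1 (r, false) List.mem_cons_self).symm.trans (hv.2 (r, true) List.mem_cons_self)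
    simp only [sg, cond_false, cond_true, one_smul, neg_smul] at e
    have : (2 : ℂ) • v = 0 := by rw [two_smul]; nth_rewrite 1 [e]; simp
    simpa using this
  have := Submodule.finrank_sup_add_finrank_inf_eq (E ρ y ((r, false) :: l)) (E ρ y ((r, true) :: l))
  rw [h1, h3, finrank_bot, add_zero] at this
  exact this

include hs in
theorem pth_le {l l' : List (ℕ × Bool)} {rs : List ℕ} (h : pth l rs l' = true) : dm ρ y l ≤ dm ρ y l' := by
  induction rs generalizing l with
  | nil => rw [of_decide_eq_true h]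
  | cons r rs ih =>
    rw [pth, Bool.and_eq_true] at h
    exact (chk_le hs h.1).trans (ih h.2)

include h2 hs in
theorem hv_dvd {ps : List (ℕ × ℕ)} {l : List (ℕ × Bool)} (h : hv ps l = true) : 2 ^ ps.length ∣ dm ρ y l := by
  induction ps generalizing l with
  | nil => simp
  | cons p ps ih =>
    simp only [hv, Bool.and_eq_true] at h
    rw [split' h2 (chk_mem hs h.1.1.1), ← (chk_le hs h.1.1.2).antisymm (chk_le hs h.1.2), ← two_mul,
      List.length_cons, pow_succ']
    exact Nat.mul_dvd_mul_left _ (ih h.2)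

include h2 hs in
theorem sp_sum {A : List ℕ} {l : List (ℕ × Bool)} (h : sp A l = true) :
    dm ρ y l = ((lv A l).map (dm ρ y)).sum := by
  induction A generalizing l with
  | nil => simp [lv]
  | cons r A ih =>
    simp only [sp, Bool.and_eq_true] at h
    rw [split' h2 (chk_mem hs h.1.1), lv, List.map_append, List.sum_append, ← ih h.1.2, ← ih h.2]

include hs in
theorem al_sum {L : List (List (ℕ × Bool))} {T : List (Bool × List ℕ)} (h : al L T = true) :
    (L.map (dm ρ y)).sum = T.countP (·.1) * dm ρ y (bs true) + T.countP (!·.1) * dm ρ y (bs false) := by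
  induction L generalizing T with
  | nil => cases T <;> simp_all [al]
  | cons l L ih =>
    rcases T with _ | ⟨⟨b, rs⟩, T⟩
    · simp [al] at h
    simp only [al, Bool.and_eq_true] at h
    rw [List.map_cons, List.sum_cons, ih h.2, (pth_le hs h.1.1).antisymm (pth_le hs h.1.2)]
    cases b <;> simp [List.countP_cons] <;> ring

include h2 hs in
theorem bound (h : ∃ v, ρ (y 47) v ≠ v) : 448 ≤ finrank ℂ V := by
  have h1 := split' (ρ := ρ) h2 (r := 47) (l := []) fun v _ p hp => by simp at hp
  have h3 : dm ρ y [] = finrank ℂ V := by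
    rw [dm, show E ρ y [] = ⊤ from eq_top_iff.2 fun v _ p hp => by simp at hp, finrank_top]
  have h4 : dm ρ y [(47, true)] ≠ 0 := fun e => by
    rw [e, add_zero] at h1
    obtain ⟨v, hv⟩ := h
    have := (Submodule.eq_top_of_finrank_eq (h1.symm.trans h3)).ge (Submodule.mem_top (x := v)) _ List.mem_cons_self
    exact hv (by simpa [sg] using this)
  rw [sp_sum h2 hs c1, al_sum hs c2, c4.1, c4.2] at h4
  rw [sp_sum h2 hs c1, al_sum hs c2, c4.1, c4.2] at h1
  obtain ⟨a, ha⟩ := hv_dvd (ρ := ρ) h2 hs (c3 true)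
  obtain ⟨b, hb⟩ := hv_dvd (ρ := ρ) h2 hs (c3 false)
  simp only [List.length_cons, List.length_nil] at ha hb
  rcases Nat.eq_zero_or_pos a with h5 | h5 <;> rcases Nat.eq_zero_or_pos b with h6 | h6 <;> omega

/-- the numerical check -/
def nb (n : ℕ) : Bool := decide (n < 448) || decide (n % 2 = 1) ||
  decide (3311126603366400 % (n * (n - 1)) ≠ 0) || decide (n = 4096)

theorem num : ∀ a < 25, ∀ b < 7, ∀ c < 3, ∀ d < 3, ∀ e < 2, ∀ f < 2,
    nb (2 ^ a * (3 ^ b * (5 ^ c * (7 ^ d * (13 ^ e * 17 ^ f))))) = true := by decide +kernel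

theorem num' {n : ℕ} (h1 : 448 ≤ n) (h2 : 2 ∣ n) (h3 : n * (n - 1) ∣ 3311126603366400) : n = 2 ^ 12 := by
  have h4 : n ∣ 2 ^ 24 * (3 ^ 6 * (5 ^ 2 * (7 ^ 2 * (13 ^ 1 * 17 ^ 1)))) := Dvd.dvd.trans ⟨_, rfl⟩ h3
  have h5 : nb n = true := by
    obtain ⟨a, n1, ha, h5, rfl⟩ := exists_dvd_and_dvd_of_dvd_mul h4
    obtain ⟨b, n2, hb, h6, rfl⟩ := exists_dvd_and_dvd_of_dvd_mul h5
    obtain ⟨c, n3, hc, h7, rfl⟩ := exists_dvd_and_dvd_of_dvd_mul h6
    obtain ⟨d, n4, hd, h8, rfl⟩ := exists_dvd_and_dvd_of_dvd_mul h7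
    obtain ⟨e, f, he, hf, rfl⟩ := exists_dvd_and_dvd_of_dvd_mul h8
    obtain ⟨a, a1, rfl⟩ := (Nat.dvd_prime_pow (by norm_num)).1 ha
    obtain ⟨b, b1, rfl⟩ := (Nat.dvd_prime_pow (by norm_num)).1 hb
    obtain ⟨c, c1, rfl⟩ := (Nat.dvd_prime_pow (by norm_num)).1 hc
    obtain ⟨d, d1, rfl⟩ := (Nat.dvd_prime_pow (by norm_num)).1 hd
    obtain ⟨e, e1, rfl⟩ := (Nat.dvd_prime_pow (by norm_num)).1 he
    obtain ⟨f, f1, rfl⟩ := (Nat.dvd_prime_pow (by norm_num)).1 hf
    exact num a (by omega) b (by omega) c (by omega) d (by omega) e (by omega) f (by omega)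
  simp only [nb, Bool.or_eq_true, decide_eq_true_eq] at h5
  have := Nat.mod_eq_zero_of_dvd h3
  omega

end F42

variable {F : Type*} [Field F] [Fintype F]

/-- every representation of `F₄(2)` on which a long root element acts non-trivially has degree at least 448 -/
theorem f42_dim (hF : Fintype.card F = 2) {G V : Type*} [Group G] [AddCommGroup V] [Module ℂ V]
    [FiniteDimensional ℂ V] (S : Sys certF4 F G) (ρ : Representation ℂ G V)
    (h : ∃ v, ρ (S.x (rF 47) 1) v ≠ v) : 448 ≤ finrank ℂ V := by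
  haveI : CharP F 2 := charP_of_card_eq_prime hF
  have h2 : (1 : F) + 1 = 0 := CharTwo.add_self_eq_zero 1
  refine F42.bound (y := fun r => if h : r < chevF4.nroots then S.x ⟨r, h⟩ 1 else 1) (fun r => ?_)
    (fun r s hrs => ?_) h
  · split_ifs
    · rw [← S.x_add, h2, S.x_zero]
    · exact one_mul 1
  · simp only [F42.ok, Bool.and_eq_true, decide_eq_true_eq] at hrs
    obtain ⟨⟨⟨h3, h4⟩, h5⟩, h6⟩ := hrs
    have h7 := S.comm ⟨r, h3⟩ ⟨s, h4⟩ (fun e => h5 (congrArg Fin.val e)) (fun e => h6 (by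
      have := congrArg Fin.val e
      rw [Fin.val_rev] at this
      change s = 48 - (r + 1) at this
      omega)) 1 1
    rw [dif_pos (show r < chevF4.nroots from h3), dif_pos (show s < chevF4.nroots from h4)]
    refine Eq.trans (by group : _ = S.x ⟨r, h3⟩ 1 * S.x ⟨s, h4⟩ 1 * ((S.x ⟨s, h4⟩ 1)⁻¹ * (S.x ⟨r, h3⟩ 1)⁻¹ *
      S.x ⟨s, h4⟩ 1 * S.x ⟨r, h3⟩ 1)) ?_
    rw [h7, commWord_def, F42.cw]
    congr 1
    generalize chevF4.commTerms r s = L
    induction L with
    | nil => rfl
    | cons c L ih =>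
      rw [List.map_cons, List.map_cons, List.prod_cons, ih, List.filter_cons]
      by_cases h8 : c.2.1 % 2 = 0
      · rw [(CharP.intCast_eq_zero_iff F 2 _).2 (Int.dvd_of_emod_eq_zero h8)]
        simp [h8, S.x_zero]
      · have h9 : ((c.2.1 : ℤ) : F) = 1 := by
          have : ((c.2.1 - 1 : ℤ) : F) = 0 := (CharP.intCast_eq_zero_iff F 2 _).2 (by omega)
          push_cast at this
          exact sub_eq_zero.1 this
        rw [h9, CharTwo.neg_eq]
        simp [h8]

theorem f42_card (hF : Fintype.card F = 2) : Nat.card (chevF4.group F) = 3311126603366400 := by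
  have h1 := card_group_of_mem (c := (chevF4, [2, 6, 8, 12])) (by simp) F
  rw [Lang.card_cenT_of_cdet certF4 rfl, mul_one, Nat.card_eq_fintype_card (α := F), hF] at h1
  exact h1

theorem f42_le (hF : Fintype.card F = 2) {Ω : Type*} [Finite Ω] [MulAction (chevF4.group F) Ω]
    [FaithfulSMul (chevF4.group F) Ω] : 448 ≤ Nat.card Ω := by
  classical
  have := Fintype.ofFinite Ω
  have h1 := f42_dim hF (certF4.sys F) (CharLib.permRep (toPermHom (chevF4.group F) Ω)) (by
    by_contra! h
    refine one_ne_zero (((certF4.sys F).x_eq_one_iff (r := rF 47) (t := 1)).1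
      (inv_eq_one.1 (eq_of_smul_eq_smul (α := Ω) fun x => ?_)))
    have := congrFun (h (Pi.single x 1)) x
    simp only [CharLib.permRep, MonoidHom.coe_mk, OneHom.coe_mk, LinearMap.funLeft_apply,
      toPermHom_apply, toPerm_apply, Pi.single_apply] at this
    by_contra e
    rw [if_neg (by simpa using e)] at this
    simp at this)
  simpa [Nat.card_eq_fintype_card] using h1

theorem f42_small (hF : Fintype.card F = 2) {Ω : Type*} [Finite Ω] [MulAction (chevF4.group F) Ω]
    [FaithfulSMul (chevF4.group F) Ω] (h : T2 (chevF4.group F) Ω) (h2 : 2 ∣ Nat.card Ω) :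
    Nat.card Ω = 2 ^ 12 := by
  haveI : Finite (chevF4.group F) := Nat.finite_of_card_ne_zero (by rw [f42_card hF]; norm_num)
  exact F42.num' (f42_le hF) h2 (f42_card hF ▸ h.dvd_card)

end Cfsg.Agent.TT
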