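import Cfsg.Agent.TT.E678
import Cfsg.Agent.TT.F42
import Cfsg.Agent.Chev.ReflF4
/-!
# The groups `F₄(q)` have no two-transitive actions
-/
set_option autoImplicit false
set_option linter.unusedSectionVars false

namespace Cfsg.Agent.TT
open Cfsg Cfsg.Lie Cfsg.Agent.Chev Cfsg.Agent.Tw Cfsg.Agent.Stein Cfsg.Agent.Forms Equiv MulAction
open scoped commutatorElement

section
variable {D : ChevalleyDatum} {C : Cert D} {F : Type*} [Field F] {G : Type*} [Group G]

/-- commuting in characteristic two -/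
def Cm2 (r s : Rt D) : Prop := s ≠ r.rev ∧ ∀ c ∈ D.commTerms r s, c.2.1 % 2 = 0

instance instDecCm2 (r s : Rt D) : Decidable (Cm2 r s) := by unfold Cm2; infer_instance

/-- a Heisenberg triple in characteristic two -/
def Tr2 (r s b : Rt D) : Prop := s ≠ r ∧ s ≠ r.rev ∧ r ≠ b ∧
  (D.commTerms r s = [(b.1, 1, 1, 1)] ∨ D.commTerms r s = [(b.1, -1, 1, 1)]) ∧ Cm2 r b ∧ Cm2 s b

instance instDecTr2 (r s b : Rt D) : Decidable (Tr2 r s b) := by unfold Tr2; infer_instance

theorem Tri.conj {S : Sys C F G} {r s b : Rt D} {ε : F} (h : Tri S r s b ε) (t u : F) :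
    S.x r t * S.x s u * (S.x r t)⁻¹ = S.x s u * S.x b (ε * (t * u)) := by
  rw [h.sw, mul_assoc _ (S.x r t), h.c1]; group

variable [CharP F 2] (S : Sys C F G)

theorem Cm2.commute {r s : Rt D} (h : Cm2 r s) (t u : F) : S.x r t * S.x s u = S.x s u * S.x r t := by
  by_cases h1 : s = r
  · subst h1; exact S.x_comm_self _ _ _
  have := S.comm r s h1 h.1 t u
  rw [commWord_def, List.prod_eq_one (by
    simp only [List.map_map, List.mem_map, Function.comp]
    rintro _ ⟨c, hc, rfl⟩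
    rw [(CharP.intCast_eq_zero_iff F 2 _).2 (Int.dvd_of_emod_eq_zero (h.2 c hc))]
    simp [S.x_zero])] at this
  calc _ = S.x r t * S.x s u * ((S.x s u)⁻¹ * (S.x r t)⁻¹ * S.x s u * S.x r t) := by rw [this, mul_one]
    _ = _ := by group

theorem Tr2.tri {r s b : Rt D} (h : Tr2 r s b) : Tri S r s b 1 where
  ne := one_ne_zero
  rb := h.2.2.1
  sw t u := by
    have := S.comm r s h.1 h.2.1 t u
    have h1 : (S.x s u)⁻¹ * (S.x r t)⁻¹ * S.x s u * S.x r t = S.x b (t * u) := by
      rcases h.2.2.2.1 with e | e <;> simp [this, commWord_def, e, CharTwo.neg_eq]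
    rw [one_mul, ← CharTwo.neg_eq (t * u), S.x_neg, ← h1]; group
  c1 := h.2.2.2.2.1.commute S
  c2 := h.2.2.2.2.2.commute S

end

/-- roots of `F₄` -/
def r4 (k : ℕ) (h : k < 48 := by decide) : Rt chevF4 := ⟨k, h⟩

/-- lengths of minimal coset representatives -/
def nf4 (k : ℕ) : ℕ := [15, 14, 13, 0, 12, 11, 10, 0, 0, 0, 0, 0, 0, 0, 0, 11, 10, 9, 0, 0, 0, 9, 8, 8, 7, 7, 6, 0, 0, 0,
  6, 5, 4, 0, 0, 0, 0, 0, 0, 0, 0, 5, 4, 3, 0, 2, 1, 0].getD k 0

variable {F : Type} [Field F] [Finite F]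

theorem index_F4 : (ldOne certF4 F).P.index * (Nat.card F - 1) = (Nat.card F ^ 12 - 1) * (Nat.card F ^ 4 + 1) := by
  classical
  rw [mul_comm (_ - 1)]
  refine mul_pred_eq Finite.one_lt_card ?_
  rw [LD.index_P _ (nf := fun s => nf4 s) rfl (by simp only [Cert.A_sp, cartanF4, ssF4]; decide +kernel),
    sum_list (fun s => decide (certF4.len s = 2)) (fun s => (and_iff_left (show (ldOne certF4 F).T.ρ s = s from rfl)).trans
      (decide_eq_true_iff (p := certF4.len s = certF4.len certF4.top)).symm),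
    show List.map (fun s : Rt chevF4 => nf4 s) _ =
      [15, 14, 13, 12, 11, 10, 11, 10, 9, 9, 8, 8, 7, 7, 6, 6, 5, 4, 5, 4, 3, 2, 1, 0] by decide +kernel]
  simp only [List.map, List.sum_cons, List.sum_nil]; push_cast; ring

theorem ncard_F4 : (Qt certF4).ncard = 15 := ncard_Qt.trans (by simp only [A_tab dataOKF4]; decide +kernel)

theorem lng_F4 {r : Rt chevF4} (h : certF4.len r = 2) : Lng certF4 r := fun u => h ▸ certF4.len_le_top u

theorem N_F4 (h2 : (2 : F) ≠ 0) (r s u : Rt chevF4) (e : certF4.rc u = certF4.rc r + certF4.rc s) :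
    (certF4.N r s : F) ≠ 0 := by
  have h1 := certF4.N_ne_zero_of_add e
  have h3 := (by decide +kernel : ∀ r s, -2 ≤ certF4.N r s ∧ certF4.N r s ≤ 2) r s
  generalize certF4.N r s = n at *
  obtain ⟨h3, h4⟩ := h3
  interval_cases n <;> simp_all

variable {Ω : Type*} [Finite Ω] [MulAction (ldOne certF4 F).K Ω] [FaithfulSMul (ldOne certF4 F).K Ω]

theorem np_F4 : ¬ (sb (ldOne certF4 F).bn).Par Ω :=
  not_par_one (by decide +kernel) (fun i h => absurd h (by revert i; decide +kernel)) Ω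

theorem conj_F4 {r s : Rt chevF4} (nf : (rat_one (C := certF4) (F := F) r).NF Ω) (h : certF4.len s = certF4.len r) :
    (rat_one (C := certF4) (F := F) s).NF Ω := by
  obtain ⟨w, hw, e⟩ := certF4.exists_conj_of_len h
  exact nf.conj _ hw rfl e

theorem bt_F4 (p : ℕ) [Fact p.Prime] [CharP F p] (h : T2 (ldOne certF4 F).K Ω) : (ldOne certF4 F).BT Ω := by
  by_cases h2 : (2 : F) ≠ 0
  · exact LD.btrans _ p h (gen_one_N p (N_F4 h2)) np_F4
  have : CharP F 2 := (CharP.charP_iff_prime_eq_zero Nat.prime_two).2 (by simpa using h2)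
  by_cases h3 : 3 < Nat.card F
  · exact LD.btrans _ 2 h (gen_one_sep 2 sepF4 (by omega) decF4) np_F4
  obtain ⟨f, h4, h5⟩ := Sys.exists_card_pow F 2
  have := Fintype.ofFinite F
  have h6 : Fintype.card F = 2 := by
    rw [← Nat.card_eq_fintype_card]
    obtain rfl : f = 1 := by
      by_contra h7
      have := Nat.pow_le_pow_right two_pos (show 2 ≤ f by omega)
      omega
    exact h5
  have h7 := ((sb (ldOne certF4 F).bn).par_or (hN_of (ldOne certF4 F).bn.toGood (ldOne certF4 F).gen) h).resolve_left np_F4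
  have h8 : 2 ^ 1 ∣ Nat.card Ω := pow_dvd_card ((ldOne certF4 F).isPGroup_U (p := 2)) fun x => by
    obtain ⟨u, hu, e⟩ := h7 x
    have := mt Subgroup.relIndex_eq_one.1 fun h : (ldOne certF4 F).U ≤ stabilizer _ x => e (h hu)
    have : (stabilizer _ x).relIndex (ldOne certF4 F).U ≠ 0 := Subgroup.index_ne_zero_of_finite
    omega
  have : Nontrivial (chevF4.group F) := Subgroup.topEquiv.symm.toEquiv.nontrivial_congr.2 (ldOne certF4 F).nontrivial
  have h9 := of_equiv (G := (ldOne certF4 F).K) Subgroup.topEquiv h.mult fun h' => f42_small h6 h' h8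
  exact fun x y => by
    obtain ⟨u, hu, e⟩ := (ldOne certF4 F).utrans h h9 x y
    exact ⟨u, hu, 1, one_mem _, by rwa [mul_one]⟩

theorem nf_F4 (hB : (ldOne certF4 F).BT Ω) : (ldOne certF4 F).rat_top.NF Ω := by
  obtain ⟨w, hw, e⟩ := certF4.exists_conj_of_len (r := r4 46) (s := certF4.top) rfl
  have e' : certF4.rc certF4.top = certF4.rc (r4 46) + certF4.rc (r4 24) := funext (by decide +kernel)
  exact LD.nofix hB (tri_lng lng_top e' (N_ne (lng_F4 rfl) (lng_F4 rfl) e')) (rat_one _) (rat_one _) _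
    (fun _ hu t => (certF4.sys F).Up_commute_top hu t) hw rfl e

theorem fin_F4 (p : ℕ) [Fact p.Prime] [CharP F p] (h : T2 (ldOne certF4 F).K Ω) (nf : (ldOne certF4 F).rat_top.NF Ω)
    (h1 : Nat.card F ^ 7 ∣ Nat.card Ω)
    (hl : ∀ t u, Nat.card F ^ 2 ∣ fix Ω ((ldOne certF4 F).L.x t * (ldOne certF4 F).L.y u)) : False := by
  obtain ⟨lam, h2⟩ := LD.exists_lam h nf
  obtain ⟨h3, h4⟩ := ar_F4 Finite.one_lt_card h1 h.two_le (h2.trans index_F4)
  obtain ⟨a, ha⟩ := h3.elim ((ldOne certF4 F).exists_pow p) ((ldOne certF4 F).exists_pow p)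
  have := (ldOne certF4 F).pair h ha nf h2 hl
  rw [LD.card_Q, ncard_F4, ← pow_add] at this
  exact absurd (this.trans_lt h4) (not_lt.2 (Nat.le_add_left _ _))

theorem odd_F4 (p : ℕ) [Fact p.Prime] [CharP F p] (h2 : (2 : F) ≠ 0) (h : T2 (ldOne certF4 F).K Ω) : False := by
  have nf := nf_F4 (bt_F4 p h)
  have e : certF4.rc (r4 41) = certF4.rc (r4 33) + certF4.rc (r4 37) := funext (by decide +kernel)
  have h3 := LD.pow_dvd _ p (LD.le_relIndex _ nf (fun v hv h1 => hnd_one (A := {certF4.top}) rfl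
    (fun r s _ e => N_F4 h2 r s _ e) v hv (notMem_top _ h1)) (m := 8) (by rw [ncard_F4]))
  have h4 := tri_lng (S := certF4.sys F) (lng_F4 (by decide +kernel)) e (N_F4 h2 _ _ _ e)
  exact fin_F4 p h nf ((pow_dvd_pow _ (by omega)).trans h3) (LD.dvd_levi (ε := certF4.N (r4 33) (r4 37)) p h4
    (rat_one _) (rat_one _) (rat_one _)
    ⟨certF4.pos_of_ht (by decide +kernel), certF4.pos_of_ht (by decide +kernel), certF4.pos_of_ht (by decide +kernel)⟩
    (conj_F4 nf (by decide +kernel)) (by simp only [A_tab dataOKF4]; decide +kernel))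

theorem card_U4 {A : Finset (Rt chevF4)} (h : (∀ a ∈ A, ∀ r ∈ A, ∀ u, Dc certF4 u a r → u ∈ A) ∧ ∀ a ∈ A, 0 < certF4.ht a) :
    Nat.card (((certF4.sys F).U A).subgroupOf (ldOne certF4 F).K) = Nat.card F ^ A.card := by
  rw [LD.card_sub, show (ldOne certF4 F).K = ⊤ from rfl, inf_top_eq, Sys.card_U_pos _
    (fun a ha r hr u e => h.1 a ha r hr u (congrFun e)) (fun a ha => certF4.pos_of_ht (h.2 a ha)), Set.ncard_coe_finset]

theorem even_F4 [CharP F 2] (h : T2 (ldOne certF4 F).K Ω) : False := by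
  have hB := bt_F4 2 h
  have nf := nf_F4 hB
  set S := certF4.sys F
  have t1 := Tr2.tri S (r := r4 33) (s := r4 40) (b := r4 44) (by decide +kernel)
  obtain ⟨w, hw, e⟩ := certF4.exists_conj_of_len (r := r4 33) (s := r4 44) rfl
  have n44 : (rat_one (C := certF4) (F := F) (r4 44)).NF Ω := LD.nofix (ε := 1) hB t1 (rat_one _) (rat_one _) _
    (fun u (hu : u ∈ S.U {r | certF4.Pos r}) t => (commute_U S (fun r hr => ((by decide +kernel : ∀ r : Rt chevF4, 0 < certF4.ht r →
      Cm2 (r4 44) r) r (certF4.one_le_ht hr)).commute S t) hu).symm) hw rfl e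
  refine fin_F4 2 h nf (LD.pow_dvd (ldOne certF4 F) 2 fun x => ?_) (LD.dvd_levi (ε := 1) 2 (Tr2.tri S (r := r4 33) (s := r4 27)
    (b := r4 34) (by decide +kernel)) (rat_one _) (rat_one _) (rat_one _) ⟨certF4.pos_of_ht (by decide +kernel),
      certF4.pos_of_ht (by decide +kernel), certF4.pos_of_ht (by decide +kernel)⟩ (conj_F4 n44 rfl)
    (by simp only [A_tab dataOKF4]; decide +kernel))
  set A : Finset (Rt chevF4) := {r4 29, r4 36, r4 38, r4 39, r4 40, r4 44, r4 47}
  set B : Finset (Rt chevF4) := {r4 39, r4 44, r4 40}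
  have hA := card_U4 (F := F) (A := A) (by decide +kernel)
  have hB := card_U4 (F := F) (A := B) (by decide +kernel)
  have h0 : certF4.top ∈ (A : Set _) := by change _ ∈ A; decide +kernel
  have h1 := heis2 (Q := (ldOne certF4 F).Q) (R := (S.U A).subgroupOf (ldOne certF4 F).K) (by rintro _ ⟨t, rfl⟩; exact S.x_mem_U h0 _)
    (Subgroup.comap_mono (S.U_mono (by
      change ∀ a ∈ A, 1 ≤ certF4.A _ a; simp only [A_tab dataOKF4]; decide +kernel)))
    (fun _ ha _ => LD.comm_Q _ ha) (fun y hy z hz => Subtype.ext (commute_U S (fun a ha t => (commute_U S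
      (fun r hr => Cm2.commute S ((by simp only [A_tab dataOKF4]; decide +kernel :
        ∀ a ∈ A, ∀ r, 1 ≤ certF4.A certF4.top r → Cm2 a r) a ha r hr) t) hy).symm) hz))
    (hnd_one h0 fun r s hs e => by
      obtain ⟨h1, h2⟩ := (by decide +kernel : ∀ r, ∀ s ∉ A, Dc certF4 certF4.top r s →
        certF4.len r = 2 ∧ certF4.len s = 2) r s hs (congrFun e)
      exact N_ne (lng_F4 h1) (lng_F4 h2) e) _ (LD.inf_stab _ nf x) (LD.Z_ne _)
  have h2 : Disjoint ((S.U A).subgroupOf (ldOne certF4 F).K ⊓ stabilizer _ x) ((S.U B).subgroupOf _) := by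
    rw [Subgroup.disjoint_def]
    rintro g ⟨-, hx⟩ hg
    obtain ⟨t, -, e⟩ := S.exists_nf_pos (T := B) (l := [r4 39, r4 44, r4 40]) (fun a ha r hr u e =>
      ((by decide +kernel : ∀ a ∈ B, ∀ r ∈ B, ∀ u, ¬ Dc certF4 u a r) a ha r hr u (congrFun e)).elim)
      (fun a ha => certF4.pos_of_ht ((by decide +kernel : ∀ a ∈ B, 0 < certF4.ht a) a ha)) (by decide +kernel)
      (by change ∀ a ∈ B, _; decide +kernel) hg
    simp only [Sys.nf_cons, Sys.nf_nil, mul_one] at e
    have key : ∀ (r : Rt chevF4) (c : F) (m : chevF4.group F), certF4.len r = 1 → m * S.x r c * m⁻¹ = g → c = 0 :=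
      fun r c m hr e => by_contra fun hc => conj_F4 n44 (s := r) hr c hc ((⟨m, trivial⟩ : (ldOne certF4 F).K)⁻¹ • x) (by
        rw [smul_smul, eq_inv_smul_iff, smul_smul, ← mul_assoc]
        exact (congrArg (· • x) (Subtype.ext e)).trans hx)
    have a1 : t (r4 39) = 0 := by_contra fun a => a (key (r4 39) _ (S.x (r4 34) (t (r4 44) / t (r4 39)) *
      S.x (r4 27) (t (r4 40) / t (r4 39))) rfl (by
        have b1 := (Tr2.tri S (r := r4 27) (s := r4 39) (b := r4 40) (by decide +kernel)).conj (t (r4 40) / t (r4 39))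
          (t (r4 39))
        have b2 := (Tr2.tri S (r := r4 34) (s := r4 39) (b := r4 44) (by decide +kernel)).conj (t (r4 44) / t (r4 39))
          (t (r4 39))
        rw [one_mul, div_mul_cancel₀ _ a] at b1 b2
        rw [mul_inv_rev, mul_assoc, mul_assoc, ← mul_assoc (S.x (r4 39) _), ← mul_assoc (S.x (r4 27) _),
          ← mul_assoc (S.x (r4 27) _), b1, ← mul_assoc, ← mul_assoc, mul_inv_eq_iff_eq_mul.1 b2,
          mul_assoc _ (S.x (r4 34) _), Cm2.commute S (r := r4 34) (by decide +kernel), ← mul_assoc, mul_inv_cancel_right]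
        exact (mul_assoc _ _ _).trans e.symm))
    rw [a1, S.x_zero, one_mul, ← t1.c2] at e
    have a2 : t (r4 40) = 0 := by_contra fun a => a (key (r4 40) _ (S.x (r4 33) (t (r4 44) / t (r4 40))) rfl (by
      rw [t1.conj, one_mul, div_mul_cancel₀ _ a]; exact e.symm))
    rw [a2, S.x_zero, one_mul] at e
    rw [key (r4 44) (t (r4 44)) 1 rfl (by rw [one_mul, inv_one, mul_one]; exact e.symm), S.x_zero] at e
    exact Subtype.ext e
  have h3 := Nat.card_le_card_of_injective (β := (S.U A).subgroupOf (ldOne certF4 F).K) (fun g => ⟨_, mul_mem g.1.2.1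
    (S.U_mono (by change ∀ a ∈ B, a ∈ A; decide +kernel) g.2.2)⟩) fun _ _ e =>
      Subgroup.mul_injective_of_disjoint h2 (congrArg Subtype.val e)
  rw [hA, LD.card_Q, ncard_F4, show A.card = 7 by decide +kernel] at h1
  rw [Nat.card_prod, hA, hB, show A.card = 4 + 3 by decide +kernel, show B.card = 3 by decide +kernel, pow_add] at h3
  have hq : 0 < Nat.card F := Nat.card_pos
  have h4 := h1.trans (Nat.pow_le_pow_left (Nat.mul_le_mul_right _ (Nat.le_of_mul_le_mul_right h3 (by positivity))) 2)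
  rw [show Nat.card F ^ 7 * Nat.card F ^ 15 = (Nat.card F ^ 4 * Nat.card F ^ 7) ^ 2 by ring] at h4
  exact Nat.le_of_mul_le_mul_left ((Nat.pow_le_pow_iff_left two_ne_zero).1 h4) (by positivity)

theorem no_F4 (p : ℕ) [Fact p.Prime] [CharP F p] {Γ Ω : Type*} [Group Γ] [MulAction Γ Ω] [FaithfulSMul Γ Ω] [Finite Ω]
    (hG : Nonempty (Γ ≃* chevF4.group F)) (h2 : IsMultiplyPretransitive Γ Ω 2) : False := by
  have := (ldOne certF4 F).nontrivial
  refine of_equiv (K := (ldOne certF4 F).K) (hG.some.trans Subgroup.topEquiv.symm) h2 fun h => ?_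
  by_cases h2 : (2 : F) ≠ 0
  · exact odd_F4 p h2 h
  have : CharP F 2 := (CharP.charP_iff_prime_eq_zero Nat.prime_two).2 (by simpa using h2)
  exact even_F4 h

end Cfsg.Agent.TT
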