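import Cfsg.Agent.TT.D43
import Cfsg.Agent.Forms.LieG2a
import Cfsg.Agent.Chev.Cent3
/-!
# Two-transitive actions of `G₂(q)`
-/
set_option autoImplicit false
set_option linter.unusedSectionVars false

namespace Cfsg.Agent.TT
open Cfsg Cfsg.Lie Cfsg.Agent.Chev Cfsg.Agent.Tw Cfsg.Agent.Stein Cfsg.Agent.Forms Equiv MulAction
open scoped commutatorElement

theorem relIndex_le_card {G Ω : Type*} [Group G] [MulAction G Ω] [Finite Ω] (K : Subgroup G) (x : Ω) :
    (stabilizer G x).relIndex K ≤ Nat.card Ω := by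
  rw [orb_card]; exact Set.ncard_le_card _

theorem commute_in {D : ChevalleyDatum} {C : Cert D} {F : Type*} [Field F] {G : Type*} [Group G] {S : Sys C F G}
    (p : ℕ) [CharP F p] {A B : Set (Rt D)} (h : ∀ a ∈ A, ∀ b ∈ B, commIn D p [] a b = true) {u v : G}
    (hu : u ∈ S.U A) (hv : v ∈ S.U B) : u * v = v * u :=
  commute_U S (fun b hb s => (commute_U S (fun a ha t => by
    have := S.comm_mem_of_in p (h a ha b hb) t s
    simp only [List.not_mem_nil, Set.ofPred_false, S.U_empty, Subgroup.mem_bot] at this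
    rw [eq_comm, ← inv_mul_eq_one, mul_inv_rev, ← mul_assoc, this]) hu).symm) hv

variable {F : Type*} [Field F]

local notation "SG" => Cert.sys certG2 F
local notation "RG" => ldOne certG2 F
local notation "q" => Nat.card F

theorem sw78 {G : Type*} [Group G] (S : Sys certG2 F G) (t a b c d : F) :
    (xi S 7 t)⁻¹ * wd S [(8, a), (9, b), (10, c), (11, d)] * xi S 7 t = wd S [(8, a), (9, 2 * t * a),
      (10, -3 * t ^ 2 * a), (11, -3 * t * a ^ 2), (9, b), (10, -3 * t * b), (10, c), (11, d)] := by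
  rw [mul_assoc, inv_mul_eq_iff_eq_mul, ← mul_one (xi S 7 t)]
  simp only [wd_cons, wd_nil, mul_assoc, one_mul]
  rw [xi_comm S (r := 7) (s := 11) (by decide +kernel), xi_comm S (r := 7) (s := 10) (by decide +kernel),
    ← mul_assoc (xi S 9 b), sw79, mul_assoc, ← mul_assoc (xi S 8 a),
    xi_swap S (L := [(9, -2, 1, 1), (10, -3, 2, 1), (11, 3, 1, 2)]) (by decide +kernel)]
  simp only [List.map, wd_cons, wd_nil, mul_assoc, one_mul]
  repeat' first | with_reducible rfl | refine xi_congr (by push_cast; ring) ?_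

theorem posG {k : ℕ} (h : k < 12) (h' : 6 ≤ k) : certG2.Pos (rG k h) :=
  (certG2.pos_iff_val _).2 (by change 12 ≤ 2 * k; omega)

theorem N_G2 (h3 : (3 : F) ≠ 0) {r s : Rt chevG2} (h : certG2.N r s ∈ [1, -1, 3, -3]) : (certG2.N r s : F) ≠ 0 := by
  simp only [List.mem_cons, List.not_mem_nil, or_false] at h
  rcases h with h | h | h | h <;> simp [h, h3]

theorem top_G : certG2.rc certG2.top = certG2.rc (rG 10) + certG2.rc (rG 6) := funext (by decide +kernel)

theorem triG : Tri SG (rG 10) (rG 6) certG2.top ((RG).ι (certG2.N (rG 10) (rG 6))) :=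
  tri_lng lng_top top_G (by rw [show certG2.N (rG 10) (rG 6) = -1 by decide +kernel]; simp)

theorem ss_G : certG2.ss (nG 1) (rG 10) = certG2.top := Fin.ext (by rw [ssG2]; decide +kernel)

theorem cj_G (w : Perm (Rt chevG2)) : (RG).T.cj w = w := by simp [Stb.cj, ldOne, Stb.one]

theorem Qt_G : (Qt certG2).ncard = 5 := ncard_Qt7.trans (by decide +kernel)

variable [Finite F]

theorem index_G : (RG).P.index * (q - 1) = q ^ 6 - 1 := by
  classical
  have h2 : 1 ≤ q := Nat.card_pos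
  rw [LD.index_P _ (nf := fun r => [5, 4, 0, 0, 0, 3, 2, 0, 0, 0, 1].getD r 0) (by decide +kernel) (fun s h j => by
    rw [ssG2]; revert s j; decide +kernel), sum_pow_eq (fun s => certG2.len s = certG2.len certG2.top)
      (fun s => by exact and_iff_left rfl) _ _ [0, 1, 2, 3, 4, 5] (by decide +kernel)]
  zify [h2, Nat.one_le_pow _ _ h2]
  simp; ring

theorem gen_G (p : ℕ) [Fact p.Prime] [CharP F p] (hq : 4 ≤ q) (h : (3 : F) ≠ 0 ∨ 4 < q) :
    ⨆ i, (sb (RG).bn).X i = (RG).U := by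
  rcases h with h | h
  swap
  · exact gen_one_sep p sepG2 (by exact_mod_cast h) decG2
  refine gen_one_of p fun M h1 h2 h3 h4 => (SG).UJ_empty.ge.trans
    ((SG).UJ_le_of_sep (J := ∅) (fun g hg y hy => ?_) (fun i _ => ⟨1, one_ne_zero, 1, one_mem _, by simpa using h2 i 1⟩)
      (fun r s hr _ hs e e' => ?_) decG2)
  · rw [Sys.P_empty] at hg
    obtain ⟨u, hu, a, ha, rfl⟩ := (Sys.mem_B _).1 hg
    simpa [commutatorElement_def, mul_assoc] using mul_mem (h3 u hu _ (h1 (h4 a ha y hy))) (h4 a ha y hy)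
  rcases G2_sep r s (certG2.one_le_ht hr) e e' with ⟨u, a1, a2, a3⟩ | ⟨-, rfl | rfl⟩
  · exact Or.inl ((SG).sep_of a1 a2 (by omega))
  · refine Or.inr fun t => ?_
    have := h3 _ (inv_mem ((SG).x_mem_Up (posG (k := 9) (by omega) (by omega)) t))
      _ (inv_mem ((SG).x_mem_Up (posG (k := 7) (by omega) (by omega)) (-3⁻¹)))
    rw [commutatorElement_def, inv_inv, inv_inv, ← xi_val, ← xi_val, mul_assoc, mul_assoc] at this
    erw [sw79] at this
    rw [← xi_val]
    simpa [rG, h] using this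
  · refine Or.inr fun t => ?_
    have := h3 _ (inv_mem ((SG).x_mem_Up (posG (k := 10) (by omega) (by omega)) t))
      _ (inv_mem ((SG).x_mem_Up (posG (k := 6) (by omega) (by omega)) (-1)))
    rw [commutatorElement_def, inv_inv, inv_inv, mul_assoc, mul_assoc, triG.sw,
      show certG2.N (rG 10) (rG 6) = -1 by decide +kernel] at this
    change (SG).x certG2.top t ∈ M
    simpa [mul_assoc, ldOne] using this

variable {Ω : Type*} [Finite Ω] [MulAction (ldOne certG2 F).K Ω] [FaithfulSMul (ldOne certG2 F).K Ω]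

theorem np_G : ¬ (sb (RG).bn).Par Ω :=
  not_par_one (by decide +kernel) (fun i h => absurd h ((by decide +kernel : ∀ i, certG2.rc certG2.top i ≠ 1) i)) Ω

theorem g2_six (p : ℕ) [Fact p.Prime] [CharP F p] (h : T2 (RG).K Ω) (nf : (RG).rat_top.NF Ω)
    (hn : Nat.card Ω = q ^ 6) : False := by
  obtain ⟨a, ha⟩ := LD.exists_pow RG p hn
  have := LD.pair RG h ha nf (lam := 1) (by rw [index_G, hn, one_mul]) (m := 1) fun _ _ => one_dvd _
  have h1 : 0 < Nat.card (RG).Q := Nat.card_pos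
  omega

theorem g2_B (p : ℕ) [Fact p.Prime] [CharP F p] (h : T2 (RG).K Ω) (hB : (RG).BT Ω) :
    (RG).rat_top.NF Ω ∧ (Nat.card Ω = q ^ 2 ∨ Nat.card Ω = q ^ 3) := by
  have nf := LD.nofix hB triG (rat_one _) (rat_one _) (RG).rat_top (fun _ hu t => (SG).Up_commute_top hu t)
    (certG2.ss_mem_W _) (cj_G _) ss_G
  obtain ⟨l, hl⟩ := LD.exists_lam h nf
  have := LD.dvd_fix p triG (rat_one _) (rat_one _) (RG).rat_top ⟨posG _ (by omega), posG _ (by omega), certG2.pos_top⟩
    nf (g := 1) fun _ _ _ => by simp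
  rcases ar_G2 Finite.one_lt_card (fix_one (G := (RG).K) (Ω := Ω) ▸ this) h.two_le (hl.trans index_G) with e | e | e
  exacts [⟨nf, Or.inl e⟩, ⟨nf, Or.inr e⟩, (g2_six p h nf e.1).elim]

theorem g2_three [CharP F 3] (h : T2 (RG).K Ω) {a : ℕ} (ha : Nat.card Ω = 3 ^ a) :
    (RG).rat_top.NF Ω ∧ q ^ 4 ≤ Nat.card Ω := by
  have := Fact.mk Nat.prime_three
  have h3 : (3 : F) = 0 := CharP.cast_eq_zero F 3
  have cen : ∀ z : (RG).K, z.1 ∈ (SG).U {r | (r : ℕ) ∈ [9, 11]} → ∀ x : Ω, z • x = x → z = 1 := fun z hz x e =>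
    eq_of_smul_eq_smul (α := Ω) fun y => by
      obtain ⟨u, hu, rfl⟩ := LD.utrans RG h ha x y
      rw [one_smul, ← mul_smul, ← show u * z = z * u from Subtype.ext (commute_in 3 (by
        simp only [Set.mem_ofPred_eq, certG2.pos_iff_val]; decide +kernel) hu hz), mul_smul, e]
  have nf : (RG).rat_top.NF Ω := fun t ht x e => ht ((RG).x_eq_one (cen _ ((SG).x_mem_U (by decide +kernel) _) x e))
  obtain ⟨x, -⟩ := h.nt
  have h1 : ((SG).U {r | (r : ℕ) ∈ [8, 9, 11]}).subgroupOf (RG).K ⊓ stabilizer (RG).K x = ⊥ := by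
    refine eq_bot_iff.2 fun v hv => ?_
    obtain ⟨t, ht⟩ := exists_wd' SG (u := v.1) (by decide +kernel) hv.1
    by_cases h0 : t 8 = 0
    · refine cen v ?_ x hv.2
      rw [ht, List.map_cons, wd_cons, h0, xi_zero, one_mul]
      exact wd_mem_list (by simp)
    have h2 : (2 : F) ≠ 0 := fun e => one_ne_zero (α := F) (by linear_combination h3 - e)
    let g : (RG).K := ⟨(SG).n (certG2.sp (nG 0)) 1 * (xi SG 7 (-t 9 / (2 * t 8)))⁻¹, trivial⟩
    have := cen (g * v * g⁻¹) (by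
      have e := sw78 SG (-t 9 / (2 * t 8)) (t 8) (t 9) 0 (t 11)
      simp only [wd_cons, wd_nil, h3, neg_zero, zero_mul, xi_zero, one_mul, xi_add'] at e
      rw [show 2 * (-t 9 / (2 * t 8)) * t 8 + t 9 = 0 by field_simp; ring, xi_zero, one_mul] at e
      have := ((SG).over_ns (nG 0) 1).acts.conj_mem (T := {r | (r : ℕ) ∈ [8, 11]}) (T' := {r | (r : ℕ) ∈ [9, 11]})
        (by simp only [Set.mem_ofPred_eq, ssG2]; decide +kernel)
        (Set.mem_of_eq_of_mem e (wd_mem_list (S := SG) (l := [8, 11]) (w := [(8, t 8), (11, t 11)]) (by simp)))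
      simpa [ht, mul_assoc, wd_cons, wd_nil, g] using this) (g • x) (by rw [mul_smul, mul_smul, inv_smul_smul, hv.2])
    simpa using this
  have h2 := heis2 (Q := (RG).Q) (R := ((SG).U {r | (r : ℕ) ∈ [8, 9, 11]}).subgroupOf (RG).K)
    (by rintro _ ⟨t, rfl⟩; exact (SG).x_mem_U (by decide +kernel) _)
    (Subgroup.comap_mono ((SG).U_mono (show _ ⊆ Qt certG2 by
      simp only [Qt, Set.ofPred_subset_ofPred]; decide +kernel)))
    (fun _ ha _ => (RG).comm_Q ha) (fun y hy z hz => Subtype.ext (commute_in 3 (by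
      simp only [Qt, Set.mem_ofPred_eq]; decide +kernel) hy hz))
    (hnd_one (by decide +kernel) fun r s a b => by
      rcases (by decide +kernel : ∀ r s : Rt chevG2, (s : ℕ) ∉ [8, 9, 11] → (∀ i, certG2.rc certG2.top i =
        certG2.rc r i + certG2.rc s i) → certG2.N r s = 1 ∨ certG2.N r s = -1) r s a (congrFun b) with e | e <;>
        simp [e]) _ (LD.inf_stab RG nf x) (RG).Z_ne
  rw [h1, Subgroup.card_bot, one_mul, LD.card_Q, Qt_G, LD.card_sub, show _ ⊓ (RG).K = _ from inf_top_eq _,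
    card_U_list (by decide +kernel), ← pow_add] at h2
  exact ⟨nf, le_trans ((Nat.pow_le_pow_iff_left two_ne_zero).1 (by rwa [← pow_mul])) (relIndex_le_card _ x)⟩

theorem g2_ne (p : ℕ) [Fact p.Prime] [CharP F p] (h3 : (3 : F) ≠ 0) (hq : 2 < q) (h : T2 (RG).K Ω)
    (nf : (RG).rat_top.NF Ω) (hn : Nat.card Ω ≤ q ^ 3) : False := by
  have h1 := LD.le_relIndex RG nf (fun v hv h => hnd_one (A := {certG2.top}) rfl (fun r s a b => N_G2 h3
    ((by decide +kernel : ∀ r s : Rt chevG2, (∀ i, certG2.rc certG2.top i = certG2.rc r i + certG2.rc s i) →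
      certG2.N r s ∈ [1, -1, 3, -3]) r s (congrFun b))) v hv (notMem_top _ h)) (m := 3) (by rw [Qt_G])
  obtain ⟨x, -⟩ := h.nt
  refine LD.qt_false nf (trans_of_le fun x => hn.trans (h1 x)) x
    (by rw [LD.card_Q, Qt_G]; exact hn.trans_lt (Nat.pow_lt_pow_right (by omega) (by omega))) (Cert.lev ∅) one_le_lev
    triG (rat_one _) (rat_one _) (nf.conj _ (certG2.ss_mem_W _) (cj_G _) ss_G) (posG _ (by omega))
    (by simp only [Cert.lev_empty]; decide +kernel) fun r h5 h6 v h7 h8 h9 => ?_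
  have a1 : ∀ t, (rat_one (rG 7)).x t ∈ (RG).U := fun t => (SG).x_mem_Up (posG _ (by omega)) _
  simp only [Cert.lev_empty] at h6
  rcases (by decide +kernel : ∀ r, 1 ≤ certG2.A certG2.top r → certG2.ht r < certG2.ht (rG 10) → r = rG 8 ∨
    ∃ δ, δ ≠ certG2.top ∧ (∀ i, certG2.rc δ i = certG2.rc r i + certG2.rc (rG 7) i) ∧
      certG2.N (rG 7) r ∈ [1, -1, 3, -3]) r h5 h6 with rfl | ⟨δ, b1, b2, b3⟩
  · by_contra! h0
    obtain ⟨t, ht⟩ := exists_wd' SG (l := [8, 9, 10, 11]) (by decide +kernel) ((SG).U_mono (by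
      simp only [Cert.lev_empty, Set.ofPred_subset_ofPred]; decide +kernel) h7)
    have a2 : ∀ r ∈ Qt certG2, 1 ≤ certG2.prL certG2.top (certG2.rc r) := fun r hr => by rwa [Cert.prL_rc]
    have a3 : ∀ {r : Rt chevG2}, certG2.A certG2.top r < 2 * 1 → ∀ {w : List (ℕ × F)}, (∀ r ∈ w.map Prod.fst,
        r ∈ [8, 9, 10, 11]) → _ := fun {r} hr {w} hw => cd_wd SG zero_le_one a2 (r := r) (by rwa [Cert.prL_rc]) (w := w)
      fun p hp => (by decide +kernel : ∀ r ∈ [8, 9, 10, 11], ∀ h, 1 ≤ certG2.A certG2.top ⟨r, h⟩) _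
        (hw _ (List.mem_map_of_mem hp))
    have a4 : ∀ s, s * (s * t 8 + t 9) = 0 := fun s => by_contra fun e => by
      refine LD.not_mem_Z (r := rG 10) (by decide +kernel) ?_ (h0 _ (inv_mem (a1 s)))
      change (SG).cd _ (((SG).x (rG 7) s)⁻¹ * v * ((SG).x (rG 7) s)⁻¹⁻¹ * (v.1)⁻¹) ≠ 0
      have b1 : certG2.A certG2.top (rG 10) < 2 * 1 := by decide +kernel
      rw [inv_inv, ht, ← xi_val]
      erw [sw78]
      rw [(SG).cd_mul zero_le_one a2 (by rwa [Cert.prL_rc]) (a3 b1 (by simp)).1 (inv_mem (a3 b1 (by simp)).1),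
        (SG).cd_inv zero_le_one a2 (by rwa [Cert.prL_rc]) (a3 b1 (by simp)).1, (a3 b1 (by simp)).2, (a3 b1 (by simp)).2]
      simp only [rG]
      simpa using fun e' => mul_ne_zero h3 e (by linear_combination -e')
    obtain ⟨s, b2⟩ := exists_pow_ne F (n := 2) one_lt_two hq
    rw [ht, (a3 (by decide +kernel) (by simp)).2] at h9
    refine mul_ne_zero (sub_ne_zero.2 b2) h9 ?_
    simp only [rG]
    simpa using (by linear_combination a4 s - s * a4 1 : (s ^ 2 - s) * t 8 = 0)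
  · refine ⟨_, a1 1, LD.not_mem_Z b1 ?_⟩
    change (SG).cd δ ((SG).x (rG 7) 1 * v * ((SG).x (rG 7) 1)⁻¹ * (v.1)⁻¹) ≠ 0
    rw [(SG).cd_comm_of_add (Cert.lev ∅) (Sys.ht_pos (Qt_pos h5)) (Sys.ht_pos (posG _ (by omega))) rfl (funext b2) 1 h7,
      mul_one]
    exact mul_ne_zero (N_G2 h3 b3) h9

theorem g2_false (p : ℕ) [Fact p.Prime] [CharP F p] (hq : 3 ≤ q) (h : T2 (RG).K Ω) : False := by
  obtain ⟨f, -, hf⟩ := Sys.exists_card_pow F p
  by_cases hp : p = 3
  · subst hp
    rcases hq.eq_or_lt with hq | hq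
    · have h1 := ((sb (RG).bn).par_or (hN_of (RG).bn.toGood (RG).gen) h).resolve_left np_G
      have h2 := (LD.isPGroup_U (p := 3) RG).card_modEq_card_fixedPoints Ω
      rw [Set.eq_empty_of_forall_notMem (s := fixedPoints (RG).U Ω) fun x hx => by
        obtain ⟨u, hu, e⟩ := h1 x
        exact e (hx ⟨u, hu⟩)] at h2
      have h3 := card_group_of_mem (c := (chevG2, [2, 6])) (by simp [degList]) F
      have h4 := h.dvd_card.trans (((RG).K.card_subgroup_dvd_card).trans (Dvd.intro _ h3))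
      rw [← hq, show chevG2.nroots / 2 = 6 by decide +kernel] at h4
      have h5 := Nat.le_of_dvd (by norm_num) h4
      have h6 := h.two_le
      rcases (by decide +kernel : ∀ n : ℕ, n < 2062 → n % 3 = 0 ∧ n * (n - 1) ∣ 4245696 ∧ 2 ≤ n →
        n = 3 ^ 1 ∨ n = 3 ^ 2 ∨ n = 3 ^ 3 ∨ n = 3 ^ 6) _ (by
          norm_num at h5
          by_contra e
          have := Nat.mul_le_mul (not_lt.1 e) (show 2061 ≤ Nat.card Ω - 1 by omega)
          omega) ⟨by simpa [Nat.ModEq] using h2, by simpa using h4, h6⟩ with e | e | e | e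
      iterate 3 exact absurd (e ▸ hq ▸ (g2_three h e).2) (by norm_num)
      exact g2_six 3 h (g2_three h e).1 (hq ▸ e)
    · have h4 : q ≠ 4 := fun e => by
        rw [e] at hf
        have : 2 ∣ 3 ^ f := hf ▸ by norm_num
        exact absurd (Nat.prime_two.dvd_of_dvd_pow this) (by norm_num)
      obtain ⟨-, h1⟩ := g2_B 3 h (LD.btrans RG 3 h (gen_G 3 hq (Or.inr (by omega))) np_G)
      rcases h1 with h1 | h1 <;> obtain ⟨a, ha⟩ := LD.exists_pow RG 3 h1 <;>
        exact absurd (h1 ▸ (g2_three h ha).2) (not_le.2 (Nat.pow_lt_pow_right (by omega) (by omega)))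
  · have h3 : (3 : F) ≠ 0 := fun e => hp ((Nat.prime_dvd_prime_iff_eq Fact.out Nat.prime_three).1
      ((CharP.cast_eq_zero_iff F p 3).1 (by exact_mod_cast e)))
    have h4 : q ≠ 3 := fun e => hp (Nat.Prime.pow_eq_iff Nat.prime_three |>.1 (hf.symm.trans e)).1
    obtain ⟨nf, h1⟩ := g2_B p h (LD.btrans RG p h (gen_G p (by omega) (Or.inl h3)) np_G)
    exact g2_ne p h3 (by omega) h nf (h1.elim (fun e => e.trans_le (Nat.pow_le_pow_right (by omega) (by omega))) Eq.le)

theorem fam_G2 {G Ω : Type*} [Group G] [MulAction G Ω] [FaithfulSMul G Ω] [Finite Ω] {K : Type} [Field K] [Fintype K]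
    (p : ℕ) [Fact p.Prime] [CharP K p] (hq : 3 ≤ Fintype.card K) (e : G ≃* chevG2.group K)
    (h2 : IsMultiplyPretransitive G Ω 2) : False := by
  have := LD.nontrivial (ldOne certG2 K)
  exact of_equiv (K := (ldOne certG2 K).K) (e.trans Subgroup.topEquiv.symm) h2 fun h =>
    g2_false p (by rwa [Nat.card_eq_fintype_card]) h

end Cfsg.Agent.TT
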