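import Cfsg.Agent.TT.Base
import Cfsg.Agent.Forms.PermNorm
import Cfsg.Agent.GL2Char.SLCount
import Cfsg.Agent.GL2Char.Half
import Cfsg.Agent.S2087
import Cfsg.Agent.S2431
/-!
# Two-transitive actions of the two-dimensional linear groups
-/
set_option autoImplicit false
set_option linter.unusedSectionVars false

namespace Cfsg.Agent.TT
open Cfsg MulAction Cfsg.Agent.CharLib

section irr
variable {G Ω : Type*} [Group G] [Finite G] [MulAction G Ω] [Finite Ω]

theorem l2_orb_one (R X : Type*) [Group R] [MulAction R X] [Nonempty X] [IsPretransitive R X] :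
    Nat.card (orbitRel.Quotient R X) = 1 :=
  Nat.card_eq_one_iff_unique.2 ⟨(pretransitive_iff_subsingleton_quotient _ _).1 inferInstance,
    ⟨Quotient.mk _ (Classical.arbitrary X)⟩⟩

/-- the permutation character minus the trivial character is irreducible -/
theorem T2.isIrr (h : T2 G Ω) : IsIrrCharacter G fun g => (fix Ω g : ℂ) - 1 := by
  classical
  have := Fintype.ofFinite G
  have := h.nt
  have e : (fun g => (fix Ω g : ℂ) - 1) = (fun g : G => (Nat.card (fixedBy Ω g) : ℂ)) -
      fun g => (Nat.card (fixedBy Unit g) : ℂ) := by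
    funext g
    simp [fix, show fixedBy Unit g = Set.univ from Set.eq_univ_of_forall fun _ => rfl]
  refine isIrr_of_norm_one ⟨_, _, isChar_fixedBy _, isChar_fixedBy _, e⟩ ?_ ?_
  · have : IsPretransitive G (Ω × Unit) := ⟨fun a b => (h.trans a.1 b.1).imp fun _ e => Prod.ext e rfl⟩
    have : IsPretransitive G (Unit × Ω) := ⟨fun a b => (h.trans a.2 b.2).imp fun _ e => Prod.ext rfl e⟩
    have : IsPretransitive G (Unit × Unit) := ⟨fun a b => ⟨1, rfl⟩⟩
    have h2 : Nat.card (orbitRel.Quotient G (Ω × Ω)) = 2 := by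
      obtain ⟨x, y, hxy⟩ := exists_pair_ne Ω
      refine Nat.card_eq_two_iff.2 ⟨Quotient.mk _ (x, x), Quotient.mk _ (x, y), fun e => ?_,
        Set.eq_univ_of_forall fun c => ?_⟩
      · obtain ⟨g, e⟩ := Quotient.exact e.symm
        exact hxy ((congrArg Prod.fst e).symm.trans (congrArg Prod.snd e))
      · obtain ⟨⟨a, b⟩, rfl⟩ := Quotient.exists_rep c
        by_cases h1 : a = b
        · obtain ⟨g, rfl⟩ := h.trans x a
          exact Or.inl (Quotient.sound ⟨g, by simp [← h1]⟩)
        · obtain ⟨g, g1, g2⟩ := h.two x y a b hxy h1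
          exact Or.inr (Quotient.sound ⟨g, Prod.ext g1 g2⟩)
    rw [e]
    simp only [CharLib.inner_sub_left, CharLib.inner_sub_right, Forms.inner_fixedBy, l2_orb_one, h2]
    norm_num
  · have := h.two_le
    simp only [fix_one, Complex.sub_re, Complex.natCast_re, Complex.one_re, sub_nonneg]
    exact_mod_cast (by omega)

theorem l2_dvd_fact [FaithfulSMul G Ω] : Nat.card G ∣ (Nat.card Ω).factorial := by
  rw [← Nat.card_perm]
  exact Subgroup.card_dvd_of_injective (toPermHom G Ω) toPerm_injective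

theorem l2_alt [FaithfulSMul G Ω] (hG : Nat.card G = 60) (h : Nat.card Ω = 5) :
    Nonempty (G ≃* alternatingGroup (Fin 5)) := by
  let e : Ω ≃ Fin 5 := Finite.equivFinOfCardEq h
  let ψ : G →* Equiv.Perm (Fin 5) := (Equiv.permCongrHom e).toMonoidHom.comp (toPermHom G Ω)
  have hψ : Function.Injective ψ := (Equiv.permCongrHom e).injective.comp toPerm_injective
  have h2 : ψ.range.index = 2 := by
    have a := ψ.range.card_mul_index
    rw [← Nat.card_congr (MonoidHom.ofInjective hψ).toEquiv, hG, Nat.card_perm] at a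
    simp only [Nat.card_eq_fintype_card, Fintype.card_fin] at a
    norm_num [Nat.factorial] at a
    omega
  rw [← Equiv.Perm.eq_alternatingGroup_of_index_eq_two h2]
  exact ⟨MonoidHom.ofInjective hψ⟩

end irr

section deg
open Cfsg.Agent.GL2Char Cfsg.Agent.SL2

theorem l2_seq {z : ℂˣ} {f : ℕ → ℕ} {N : ℕ} (hN : 5 ≤ N)
    (h : ∀ j, ¬ N ∣ 2 * j → ((z ^ j : ℂˣ) : ℂ) + ((z ^ j)⁻¹ : ℂˣ) = 1 - f j) : N = 6 ∨ N = 8 ∨ N = 12 := by
  have hz : (z : ℂ) * (z⁻¹ : ℂˣ) = 1 := by simp
  have hd : ∀ j, 0 < j → 2 * j < N → ¬ N ∣ 2 * j := fun j h1 h2 e => by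
    have := Nat.le_of_dvd (by omega) e
    omega
  have h1 := h 1 (hd 1 (by omega) (by omega))
  have h2 := h 2 (hd 2 (by omega) (by omega))
  simp only [← inv_pow, Units.val_pow_eq_pow_val, pow_one] at h h1 h2
  generalize (z : ℂ) = x at *
  generalize ((z⁻¹ : ℂˣ) : ℂ) = y at *
  have e2 : ((1 - f 1) ^ 2 + f 2 : ℤ) = 3 := by
    have : ((1 - f 1) ^ 2 + f 2 : ℂ) = 3 := by
      linear_combination h2 - (x + y + (1 - f 1)) * h1 + 2 * hz
    exact_mod_cast this
  have e3 : ∀ j, x ^ j + y ^ j = 2 → N ∣ 2 * j := fun j e => by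
    by_contra h3
    have h4 : ((f j : ℂ) + 1) = 0 := by linear_combination h j h3 - e
    have h5 : f j + 1 = 0 := by exact_mod_cast h4
    omega
  have e4 : f 1 = 0 ∨ f 1 = 1 ∨ f 1 = 2 := by
    by_contra h3
    have : (3 : ℤ) ≤ f 1 := by omega
    have : (0 : ℤ) ≤ f 2 := by positivity
    nlinarith
  have key : ∀ k, N ∣ k → k = 12 ∨ k = 8 ∨ k = 6 → N = 6 ∨ N = 8 ∨ N = 12 := fun k e hk => by
    have h5 := Nat.le_of_dvd (by omega) e
    have h6 : N ≤ 12 := by omega
    rcases hk with rfl | rfl | rfl <;> interval_cases N <;> omega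
  rcases e4 with e | e | e <;> rw [e] at h1 <;> push_cast at h1
  · refine key _ (e3 6 ?_) (by simp)
    have a3 : x ^ 3 + y ^ 3 = -2 := by
      linear_combination (x ^ 2 - x * y + y ^ 2 + 3 * x * y + (x + y) + 1 - 3 * x * y) * h1 - 3 * hz
    linear_combination (x ^ 3 + y ^ 3 - 2) * a3 - 2 * (x ^ 2 * y ^ 2 + x * y + 1) * hz
  · refine key _ (e3 4 ?_) (by simp)
    have a2 : x ^ 2 + y ^ 2 = -2 := by linear_combination (x + y) * h1 - 2 * hz
    linear_combination (x ^ 2 + y ^ 2 - 2) * a2 - 2 * (x * y + 1) * hz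
  · refine key _ (e3 3 ?_) (by simp)
    linear_combination ((x + y) ^ 2 - (x + y) + 1 - 3 * x * y) * h1 + 3 * hz

variable {F : Type*} [Field F] [Fintype F] {Ω : Type*} [MulAction (SL2 F) Ω] [Finite Ω]

theorem l2_deg (hq : 4 ≤ Fintype.card F) (h : T2 (SL2 F) Ω) :
    Nat.card Ω = 2 ∨ Nat.card Ω = Fintype.card F + 1 ∨ Nat.card Ω = Fintype.card F + 2 ∨
    (Nat.card Ω = Fintype.card F ∧ (Fintype.card F = 5 ∨ Fintype.card F = 7 ∨ Fintype.card F = 11)) ∨
    2 * Nat.card Ω = Fintype.card F + 3 := by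
  classical
  obtain ⟨K, _, _, _, _, _⟩ := exists_quad F
  rcases isIrr_SL2_cases K h.isIrr with e | e | ⟨α, -, e⟩ | ⟨θ, -, e⟩ | ⟨α, -, -, χ', h1⟩ |
    ⟨θ, -, -, χ', h1⟩
  · have := congrFun e 1
    simp only [fix_one] at this
    exact Or.inl (by exact_mod_cast (by linear_combination this : (Nat.card Ω : ℂ) = 2))
  · have := congrFun e 1
    simp only [fix_one, stSL_apply_one] at this
    exact Or.inr (Or.inl (by
      exact_mod_cast (by linear_combination this : (Nat.card Ω : ℂ) = Fintype.card F + 1)))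
  · have := congrFun e 1
    simp only [fix_one, psSL_apply_one] at this
    exact Or.inr (Or.inr (Or.inl (by
      exact_mod_cast (by linear_combination this : (Nat.card Ω : ℂ) = Fintype.card F + 2))))
  · have := congrFun e 1
    simp only [fix_one, cuspSL_apply_one] at this
    refine Or.inr (Or.inr (Or.inr (Or.inl ⟨by
      exact_mod_cast (by linear_combination this : (Nat.card Ω : ℂ) = Fintype.card F), ?_⟩)))
    obtain ⟨w, hw⟩ := IsCyclic.exists_ofOrder_eq_natCard (α := mu F K)
    rw [card_mu] at hw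
    have hg : ∀ z : mu F K, ∃ g : SL2 F, ((z : Kˣ) : K) ^ Fintype.card F ≠ (z : Kˣ) →
        cuspSL F θ g = -((resMu F θ z : ℂ) + ((resMu F θ z)⁻¹ : ℂˣ)) := fun z => by
      obtain ⟨g, hg⟩ : ∃ g : SL2 F, (g : Mat F) = iota F K ((z : Kˣ) : K) :=
        ⟨⟨_, (iota_det _).trans (mem_mu.1 z.2)⟩, rfl⟩
      refine ⟨g, fun h1 => ?_⟩
      rw [(vals_cuspSL θ).el g _ h1 (by rw [hg, iota_trace]) (by rw [hg, iota_det]), cusp_val_mu]
    choose g hg using hg
    have := l2_seq (z := resMu F θ w) (f := fun j => fix Ω (g (w ^ j))) (N := Fintype.card F + 1)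
      (by omega) fun j hj => by
        have h1 := congrFun e (g (w ^ j))
        rw [hg _ (fun h2 => hj ?_), map_pow] at h1
        · linear_combination h1
        · rw [pow_q_of_mem_mu] at h2
          rw [← hw, orderOf_dvd_iff_pow_eq_one, two_mul, pow_add, mul_eq_one_iff_eq_inv]
          exact (Subtype.ext (Units.ext h2)).symm
    omega
  · have := h1.degree
    simp only [fix_one, psSL_apply_one] at this
    exact Or.inr (Or.inr (Or.inr (Or.inr (by
      exact_mod_cast (by linear_combination this : (2 * Nat.card Ω : ℂ) = Fintype.card F + 3)))))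
  · exfalso
    have h2 := h1.degree
    simp only [fix_one, cuspSL_apply_one] at h2
    have h3 : 2 * Nat.card Ω = Fintype.card F + 1 := by
      exact_mod_cast (by linear_combination h2 : (2 * Nat.card Ω : ℂ) = Fintype.card F + 1)
    obtain ⟨x, hx⟩ := h1.cnj
    obtain ⟨a, ha⟩ := toGL_range_normal.conj_mem _ ⟨upT (1 : F), rfl⟩ x⁻¹
    have h4 := hx a (upT 1) (by rw [ha]; group)
    have h5 := congrFun h1.eq (upT 1)
    obtain ⟨d1, d2, d3⟩ := upT_data (F := F) one_ne_zero
    rw [(vals_cuspSL θ).un _ 1 d1 d2 d3, Pi.add_apply, h4] at h5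
    simp only [map_one] at h5
    have h6 : fix Ω (upT (1 : F)) + fix Ω a = 1 := by
      exact_mod_cast (by linear_combination -h5 : (fix Ω (upT (1 : F)) + fix Ω a : ℂ) = 1)
    obtain ⟨p, hp, n, hpp, hn⟩ := FiniteField.card' F
    haveI : Fact p.Prime := ⟨hpp⟩
    have h7 : (upT (1 : F)) ^ p ^ 1 = 1 := by
      have : ∀ k : ℕ, (upT (1 : F)) ^ k = upT (k : F) := fun k => by
        induction k with
        | zero => simp [upT_zero]
        | succ k ih => rw [pow_succ, ih, ← upT_add]; simp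
      rw [pow_one, this, CharP.cast_eq_zero, upT_zero]
    have h8 := (fix_mod (Ω := Ω) h7).mul_left 2
    rw [h3] at h8
    have h9 : p ∣ Fintype.card F := hn ▸ dvd_pow_self p n.ne_zero
    have h10 := h8.trans ((Nat.modEq_zero_iff_dvd.2 h9).add_right 1)
    have h11 : p ∣ 1 := by
      rcases (by omega : fix Ω (upT (1 : F)) = 0 ∨ fix Ω (upT (1 : F)) = 1) with e | e <;> rw [e] at h10
      · exact (Nat.modEq_iff_dvd' (by omega)).1 h10
      · exact (Nat.modEq_iff_dvd' (by omega)).1 h10.symm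
    exact hpp.one_lt.ne' (Nat.dvd_one.1 h11)

end deg

section iso
open Matrix Cfsg.Agent.SL2

/-- isomorphic groups have isomorphic central quotients -/
def l2_congr {L L' : Type*} [Group L] [Group L'] (e : L ≃* L') :
    (L ⧸ Subgroup.center L) ≃* (L' ⧸ Subgroup.center L') :=
  QuotientGroup.congr _ _ e (by
    ext y
    obtain ⟨x, rfl⟩ := e.surjective y
    refine (Subgroup.mem_map_iff_mem e.injective).trans ?_
    simp only [Subgroup.mem_center_iff]
    exact ⟨fun h g => by obtain ⟨g, rfl⟩ := e.surjective g; rw [← map_mul, h, map_mul],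
      fun h g => e.injective (by rw [map_mul, map_mul, h])⟩)

theorem l2_card (F : Type*) [Field F] [Fintype F] :
    Nat.card (PSLT F) * Nat.gcd 2 (Fintype.card F - 1) = Fintype.card F * (Fintype.card F ^ 2 - 1) := by
  rw [← card_center, card_psl_mul, card_sl]

theorem l2_four (F : Type*) [Field F] [Fintype F] (h : Fintype.card F = 4) :
    Nonempty (PSLT F ≃* alternatingGroup (Fin 5)) := by
  refine l2_alt (Ω := Projectivization F (Fin 2 → F)) ?_ ?_
  · have := l2_card F
    rw [h] at this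
    simpa using this
  · rw [Projectivization.card_of_finrank_two _ _ (by simp), Nat.card_eq_fintype_card, h]

theorem l2_five (F : Type*) [Field F] [Fintype F] (h : Fintype.card F = 5) :
    Nonempty (PSLT F ≃* alternatingGroup (Fin 5)) := by
  classical
  haveI := Matrix.ProjectiveSpecialLinearGroup.rank_two_simple (F := F) (by simp [h])
  obtain ⟨S⟩ : Nonempty (Sylow 2 (SLT F)) := inferInstance
  obtain ⟨-, -, h3⟩ := S2431.result (by rw [h]; decide) S
  replace h3 := h3 (by simp [h])
  rw [GL2Char.card_sylow_two_eq_eight (by simp [h]) S] at h3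
  set N := Subgroup.normalizer ((S : Subgroup (SLT F)) : Set (SLT F))
  have h4 : N.index = 5 := by
    have := N.card_mul_index
    rw [h3, card_sl, h] at this
    omega
  have h5 : (N.map pr).index = 5 := by
    rw [Subgroup.index_map_eq N pr_surjective ((pr_ker (F := F)).trans_le (Subgroup.center_le_normalizer _)), h4]
  haveI : FaithfulSMul (PSLT F) (PSLT F ⧸ N.map pr) := by
    rw [faithfulSMul_iff]
    intro g hg
    have h6 : g ∈ (N.map pr).normalCore := by
      rw [Subgroup.normalCore_eq_ker]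
      exact Equiv.ext hg
    rcases (N.map pr).normalCore_normal.eq_bot_or_eq_top with e | e
    · rwa [e] at h6
    · rw [top_le_iff.1 (e.symm.trans_le (N.map pr).normalCore_le), Subgroup.index_top] at h5
      omega
  refine l2_alt (Ω := PSLT F ⧸ N.map pr) ?_ h5
  have := l2_card F
  rw [h] at this
  norm_num [-Nat.card_eq_fintype_card] at this
  omega

theorem l2_seven (F : Type*) [Field F] [Fintype F] (h : Fintype.card F = 7) :
    Nonempty (PSLT F ≃* ProjectiveSpecialLinearGroup (Fin 3) (ZMod 2)) := by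
  have h2 : Subgroup.center (SpecialLinearGroup (Fin 3) (ZMod 2)) = ⊥ := by
    rw [eq_bot_iff]
    intro g hg
    obtain ⟨r, hr, hg'⟩ := Matrix.SpecialLinearGroup.mem_center_iff.1 hg
    have h3 : r = 1 := by
      clear hg'
      revert hr; revert r; decide
    rw [h3, map_one] at hg'
    exact Subtype.ext hg'.symm
  exact ⟨(l2_congr (Stein.slEquiv (ZMod.ringEquivOfPrime F (by norm_num) h))).symm.trans
    ((QuotientGroup.quotientMulEquivOfEq S2087.ker_eq.symm).trans
      ((QuotientGroup.quotientKerEquivOfSurjective _ S2087.surj).trans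
        (QuotientGroup.quotientBot.symm.trans (QuotientGroup.quotientMulEquivOfEq h2.symm))))⟩

end iso

variable {G Ω : Type*} [Group G] [Finite G] [MulAction G Ω] [FaithfulSMul G Ω] [Finite Ω]

theorem fam_L2 {F : Type} [Field F] [Fintype F] (hq : 4 ≤ Fintype.card F)
    (e : G ≃* Matrix.ProjectiveSpecialLinearGroup (Fin 2) F)
    (h2 : MulAction.IsMultiplyPretransitive G Ω 2) : Concl G (Nat.card Ω) := by
  haveI : Nontrivial G := e.toEquiv.nontrivial
  have h := T2.of_faithful h2
  have ht := h.comp (e.symm.toMonoidHom.comp SL2.pr) (e.symm.surjective.comp SL2.pr_surjective)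
  have hd := @l2_deg F _ _ Ω (MulAction.compHom Ω (e.symm.toMonoidHom.comp SL2.pr)) _ hq ht
  have h3 := h.dvd_card
  have h4 := l2_dvd_fact (G := G) (Ω := Ω)
  have h5 := l2_card F
  rw [← Nat.card_congr e.toEquiv] at h5
  have h6 : Nat.gcd 2 (Fintype.card F - 1) ≤ 2 := Nat.gcd_le_left _ two_pos
  haveI : Fact (Nat.Prime 2) := ⟨Nat.prime_two⟩
  haveI : Fact (Nat.Prime 5) := ⟨by norm_num⟩
  rcases hd with hd | hd | hd | ⟨hd, h7 | h7 | h7⟩ | hd
  · exfalso
    rw [hd] at h4
    have h7 := Nat.le_of_dvd (by decide) h4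
    have h8 : 15 ≤ Fintype.card F ^ 2 - 1 := by
      have := Nat.pow_le_pow_left hq 2
      omega
    have h9 := Nat.mul_le_mul h7 h6
    have h10 := Nat.mul_le_mul hq h8
    simp only [Nat.factorial] at h9
    omega
  · exact Or.inr (Or.inl ⟨F, inferInstance, inferInstance, hq, ⟨e⟩, hd⟩)
  · have h7 : Fintype.card F = 4 := by
      have h8 := h3.trans (Dvd.intro _ h5)
      obtain ⟨r, hr⟩ : ∃ r, Fintype.card F = r + 1 := ⟨Fintype.card F - 1, by omega⟩
      rw [hd, hr, show (r + 1) ^ 2 - 1 = r * (r + 2) by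
        rw [Nat.sub_eq_iff_eq_add (Nat.one_le_pow _ _ (by omega))]; ring,
        show r + 1 + 2 - 1 = r + 2 by omega, ← mul_assoc, Nat.mul_dvd_mul_iff_right (by omega)] at h8
      have h9 : r + 3 ∣ 6 := by
        have : (r + 1) * r + 2 * (r + 3) = 6 + (r + 3) * r := by ring
        exact (Nat.dvd_add_left (dvd_mul_right _ _)).1 (this ▸ dvd_add h8 (dvd_mul_left _ _))
      have := Nat.le_of_dvd (by norm_num) h9
      omega
    obtain ⟨e1⟩ := l2_four F h7
    obtain ⟨e2⟩ := l2_five (ZMod 5) (ZMod.card 5)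
    exact Or.inr (Or.inl ⟨ZMod 5, inferInstance, inferInstance, by simp, ⟨e.trans (e1.trans e2.symm)⟩, by simp [hd, h7]⟩)
  · haveI := Fintype.ofFinite (GaloisField 2 2)
    have h8 : Fintype.card (GaloisField 2 2) = 4 :=
      Nat.card_eq_fintype_card.symm.trans (GaloisField.card 2 2 (by omega))
    obtain ⟨e1⟩ := l2_five F h7
    obtain ⟨e2⟩ := l2_four _ h8
    exact Or.inr (Or.inl ⟨GaloisField 2 2, inferInstance, inferInstance, h8.ge, ⟨e.trans (e1.trans e2.symm)⟩, by rw [hd, h7, h8]⟩)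
  · obtain ⟨e1⟩ := l2_seven F h7
    exact Or.inl ⟨ZMod 2, inferInstance, inferInstance, 3, le_rfl, ⟨e.trans e1⟩, by simp [hd, h7]⟩
  · exact Or.inr (Or.inr (Or.inr (Or.inr (Or.inr (Or.inr (Or.inl ⟨F, inferInstance, inferInstance, h7, ⟨e⟩, hd.trans h7⟩))))))
  · obtain ⟨r, hr⟩ : ∃ r, Nat.card Ω = r + 2 := ⟨Nat.card Ω - 2, by omega⟩
    have h7 : Fintype.card F = 2 * r + 1 := by omega
    rw [h7, show 2 * r + 1 - 1 = 2 * r by omega, Nat.gcd_mul_right_right, show (2 * r + 1) ^ 2 - 1 =
      r * (r + 1) * 2 * 2 by rw [Nat.sub_eq_iff_eq_add (Nat.one_le_pow _ _ (by omega))]; ring, ← mul_assoc,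
      Nat.mul_left_inj two_ne_zero] at h5
    rw [hr, h5, show r + 2 - 1 = r + 1 by omega, show (2 * r + 1) * (r * (r + 1) * 2) =
      (2 * r + 1) * r * 2 * (r + 1) by ring, Nat.mul_dvd_mul_iff_right (by omega)] at h3
    have h9 : r + 2 ∣ 12 := by
      have : (2 * r + 1) * r * 2 + 6 * (r + 2) = 12 + (r + 2) * (4 * r) := by ring
      exact (Nat.dvd_add_left (dvd_mul_right _ _)).1 (this ▸ dvd_add h3 (dvd_mul_left _ _))
    have h10 := Nat.le_of_dvd (by norm_num) h9
    have h11 : r = 2 ∨ r = 4 ∨ r = 10 := by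
      have : 2 ≤ r := by omega
      have : r ≤ 10 := by omega
      interval_cases r <;> omega
    rcases h11 with rfl | rfl | rfl
    · rw [hr, h5] at h4
      exact absurd h4 (by decide)
    · exact Or.inr (Or.inr (Or.inr (Or.inr (Or.inr (Or.inl ⟨F, inferInstance, inferInstance, h7, ⟨e⟩, hr⟩)))))
    · have := FiniteField.isPrimePow_card F
      rw [h7] at this
      exact absurd this (by decide +kernel)

end Cfsg.Agent.TT
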