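import Cfsg.Agent.S2087
/-!
# The isomorphism of `PSL₃(2)` and `PSL₂(7)`
-/
set_option autoImplicit false

namespace Cfsg.Agent.TT
open Matrix Subgroup Cfsg.Agent.Stein Cfsg.Agent.S2087

theorem l32 {F : Type*} [Field F] [Fintype F] (hF : Fintype.card F = 2) :
    Nonempty (Matrix.ProjectiveSpecialLinearGroup (Fin 3) F ≃*
      Matrix.ProjectiveSpecialLinearGroup (Fin 2) (ZMod 7)) := by
  have h2 : center (SpecialLinearGroup (Fin 3) F) = ⊥ := by
    rw [eq_bot_iff]
    intro g hg
    obtain ⟨r, hr, hg'⟩ := Matrix.SpecialLinearGroup.mem_center_iff.1 hg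
    have h0 : r ≠ 0 := by rintro rfl; simp at hr
    have h3 : r = 1 := by simpa [hF] using FiniteField.pow_card_sub_one_eq_one r h0
    rw [h3, map_one] at hg'
    exact Subtype.ext hg'.symm
  exact ⟨((QuotientGroup.quotientMulEquivOfEq h2).trans QuotientGroup.quotientBot).trans
    ((slEquiv (ZMod.ringEquivOfPrime F Nat.prime_two hF)).symm.trans
      ((QuotientGroup.quotientKerEquivOfSurjective _ surj).symm.trans
        (QuotientGroup.quotientMulEquivOfEq ker_eq)))⟩

end Cfsg.Agent.TT
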