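import Cfsg.Agent.TT.SBc
import Cfsg.Agent.TT.SB2
import Cfsg.Agent.TT.Abs
import Cfsg.Agent.Tw.TwCard
import Cfsg.Agent.Forms.LieFam
/-!
# The highest root subgroup of a (twisted) Chevalley group and two-transitive actions
-/
set_option autoImplicit false
set_option linter.unusedSectionVars false

namespace Cfsg.Agent.TT
open Cfsg Cfsg.Lie Cfsg.Agent.Chev Cfsg.Agent.Tw Cfsg.Agent.Stein Cfsg.Agent.Forms Equiv MulAction
open scoped commutatorElement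

variable {D : ChevalleyDatum} {C : Cert D} {F : Type*} [Field F] {G : Type*} [Group G] {S : Sys C F G}

variable (C) in
/-- nodes orthogonal to the highest root -/
def Jt : Set (Nd D) := {j | C.A C.top (C.sp j) = 0}

variable (C) in
/-- roots of the unipotent radical -/
def Qt : Set (Rt D) := {r | 1 ≤ C.A C.top r}

theorem lng_top : Lng C C.top := C.len_le_top

theorem inJ_Jt {r : Rt D} : C.InJ (Jt C) r ↔ C.A C.top r = 0 := by
  have := Cert.eq_zero_iff_inJ (C := C) (f := C.prL C.top)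
    (fun j => by rw [C.prL_rc]; exact C.dom_top.A_nonneg' (C.pos_sp j)) (r := r)
  simp only [C.prL_rc] at this
  exact this.symm

theorem top_fix {w : Perm (Rt D)} (hw : w ∈ C.WJ (Jt C)) : w C.top = C.top :=
  Cert.fix_of_mem_WJ (fun _ hj => C.A_eq_zero_comm.1 hj) hw

theorem mem_WJ_top {w : Perm (Rt D)} (hw : w ∈ C.W) (h : w C.top = C.top) : w ∈ C.WJ (Jt C) :=
  C.WJ_mono (fun _ hj => C.A_eq_zero_comm.1 hj.2) (Cert.mem_WJ_of_fix (fun j _ => C.dom_top j) hw h)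

theorem Qt_eq : Qt C = {r | C.Pos r ∧ ¬ C.Pos (C.sr C.top r)} := by
  ext r
  refine ⟨fun (h : 1 ≤ C.A C.top r) => ⟨C.dom_top.pos_of_A_pos (by omega), fun h1 => ?_⟩, fun h => by_contra
    fun (h1 : ¬ 1 ≤ C.A C.top r) => h.2 ?_⟩
  · have := C.dom_top.A_nonneg' h1
    rw [C.sr_apply, C.A_refl_self] at this; omega
  · have := C.dom_top.A_nonneg' h.1
    rw [C.sr_apply, C.refl_of_A_zero (by omega)]; exact h.1

theorem Qt_pos {r : Rt D} (h : r ∈ Qt C) : C.Pos r := (Qt_eq ▸ h : r ∈ {r | C.Pos r ∧ _}).1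

theorem top_mem_Qt : C.top ∈ Qt C := by change 1 ≤ C.A _ _; rw [C.A_self]; omega

theorem closed_Qt : C.Closed (Qt C) := Qt_eq ▸ Cert.closed_inv (C.sr_mem_Aut _)

theorem UJ_Jt : S.UJ (Jt C) = S.U (Qt C) := by
  rw [Sys.UJ]; congr 1; ext r
  refine ⟨fun h => ?_, fun (h : 1 ≤ C.A C.top r) => ⟨Qt_pos h, by rw [inJ_Jt]; omega⟩⟩
  have := C.dom_top.A_nonneg' h.1
  have := mt inJ_Jt.2 h.2
  change 1 ≤ C.A _ _; omega

theorem P_conj_top {g : G} (hg : g ∈ S.P (Jt C)) : ∃ d : Fˣ, ∀ t, g * S.x C.top t * g⁻¹ = S.x C.top (d * t) := by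
  obtain ⟨w, hw, u, hu, m, hm, u', hu', rfl⟩ := Sys.mem_P_iff.1 hg
  obtain ⟨d, hd⟩ := hm.acts C.top
  refine ⟨d, fun t => ?_⟩
  calc _ = u * (m * (u' * S.x C.top t * u'⁻¹) * m⁻¹) * u⁻¹ := by group
    _ = _ := by rw [top_commute hu', hd, top_fix hw, top_commute hu]

theorem comm_Qt {a b : G} (ha : a ∈ S.U (Qt C)) (hb : b ∈ S.U (Qt C)) : ∃ t, ⁅a, b⁆ = S.x C.top t := by
  have h1 : C.Stab (Qt C) {C.top} := by
    rintro _ rfl r hr v e; exact absurd e (lng_top.not_add hr v)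
  have h2 : ∀ r ∈ Qt C, r.rev ∉ ({C.top} : Set _) := fun r (hr : 1 ≤ C.A C.top r) e => by
    have := C.A_rev_right C.top r
    rw [e, C.A_self] at this; omega
  have := S.mem_U_singleton.1 (comm_two S (Cert.closed_singleton _) h1 h1 h2 h2
    (fun r (hr : 1 ≤ C.A C.top r) s (hs : 1 ≤ C.A C.top s) => ne_rev_of_A (C := C) (b := C.top) (by omega))
    (fun r (hr : 1 ≤ C.A C.top r) s (hs : 1 ≤ C.A C.top s) v e => by_contra fun h => by
      have := lng_top.le (C := C) h; have := A_add' e C.top; omega) (inv_mem ha) (inv_mem hb))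
  rwa [inv_inv, inv_inv] at this

theorem exists_cd_ne {u : G} (hu : u ∈ S.U (Qt C)) {A : Set (Rt D)} (h : u ∉ S.U A) (h0 : C.top ∈ A) :
    ∃ s, s ∉ A ∧ C.A C.top s = 1 ∧ S.cd s u ≠ 0 := by
  by_contra! h1
  refine h (peel (f := C.prL C.top) zero_le_one closed_Qt (Cert.nil_of_pos fun _ => Qt_pos)
    (fun r hr => by rw [C.prL_rc]; exact hr) hu fun r (hr : 1 ≤ C.A C.top r) => or_iff_not_imp_left.2 fun h2 => ?_)
  have := lng_top.le (C := C) (u := r) fun e => h2 (e ▸ h0)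
  exact ⟨by rw [C.prL_rc]; omega, h1 r h2 (by omega)⟩

theorem exists_top_add {s : Rt D} (h : C.A C.top s = 1) : ∃ r, C.rc C.top = C.rc r + C.rc s := by
  obtain ⟨r, hr⟩ := C.exists_sub_of_A_pos (r := s) (s := C.top)
    (fun e => by rw [← e, C.A_self] at h; omega) (C.A_pos_comm.1 (by omega))
  exact ⟨r, by rw [hr, sub_add_cancel]⟩

theorem ln_min {nf : Rt D → ℕ} (h0 : nf C.top = 0)
    (h1 : ∀ s, C.len s = C.len C.top → ∀ j, 0 < C.A (C.sp j) s → nf (C.ss j s) = nf s + 1) {d : Perm (Rt D)}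
    (hd : d ∈ C.W) : (∀ j ∈ Jt C, C.Pos (d (C.sp j))) → C.ln d = nf (d C.top) := by
  refine Cert.ln_induction_left (P := fun d => (∀ j ∈ Jt C, C.Pos (d (C.sp j))) → C.ln d = nf (d C.top))
    (fun _ => by rw [C.ln_one, Perm.one_apply, h0]) (fun w hw j hj ih h => ?_) hd
  have hA := C.W_le_Aut hw
  have h2 : ∀ i ∈ Jt C, C.Pos (w (C.sp i)) := fun i hi => by_contra fun h3 => by
    have h4 := C.eq_sp_of_not_pos_ss (i := j) ((C.pos_rev_iff _).2 h3) (by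
      rw [Cert.Aut.pos_rev_iff (C.ss_mem_Aut j), not_not]; exact h i hi)
    rw [← h4, ← Cert.Aut.map_rev hA, Perm.coe_inv, symm_apply_apply] at hj
    exact C.not_pos_rev (C.pos_sp i) hj
  have h3 : C.A (C.sp j) (w C.top) = C.A (w⁻¹ (C.sp j)) C.top := by
    rw [← Cert.Aut.A_map hA (w⁻¹ (C.sp j))]; simp
  have h4 : C.A (w⁻¹ (C.sp j)) C.top ≠ 0 := fun e => by
    have := Cert.pos_of_min (mul_mem (C.ss_mem_Aut j) hA) h hj (inJ_Jt.2 (C.A_eq_zero_comm.1 e))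
    rw [Perm.mul_apply, Perm.coe_inv, apply_symm_apply] at this
    exact C.not_pos_ss_sp j this
  have h5 := C.dom_top.A_nonneg hj
  rw [Cert.Aut.ln_ss_mul_of_pos hA hj, ih h2, Perm.mul_apply, h1 _ (Cert.Aut.len_map hA _) j (by omega)]

theorem stable_Jt (T : Stb S) (hρ : T.ρ C.top = C.top) : T.Stable (Jt C) := by
  have := Stb.stable_desc (T := T) (w := C.sr C.top) (by rw [T.cj_sr, hρ])
  convert this using 1
  ext j
  have h1 := C.dom_top.A_nonneg' (C.pos_sp j)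
  have h2 := Set.ext_iff.1 (Qt_eq (C := C)) (C.sp j)
  simp only [Qt, Set.mem_ofPred_eq, C.pos_sp, true_and] at h2
  simp only [Jt, Set.mem_ofPred_eq, ← not_iff_not (a := C.A _ _ = 0), ← h2]; omega

open Classical in
theorem sum_fix (T : Stb S) (hρ : T.ρ C.top = C.top) (q : ℕ) {nf : Rt D → ℕ} (h0 : nf C.top = 0)
    (h1 : ∀ s, C.len s = C.len C.top → ∀ j, 0 < C.A (C.sp j) s → nf (C.ss j s) = nf s + 1) :
    ∑ w ∈ Finset.univ.filter (fun w => w ∈ C.WJ Set.univ ∧ T.cj w = w), q ^ C.ln w =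
      (∑ s ∈ Finset.univ.filter (fun s => C.len s = C.len C.top ∧ T.ρ s = s), q ^ nf s) *
        ∑ w ∈ Finset.univ.filter (fun w => w ∈ C.WJ (Jt C) ∧ T.cj w = w), q ^ C.ln w := by
  rw [← Finset.sum_fiberwise_of_maps_to (g := fun w => w C.top)
    (t := Finset.univ.filter (fun s => C.len s = C.len C.top ∧ T.ρ s = s)) (fun w hw => by
      simp only [Finset.mem_filter, Finset.mem_univ, true_and] at hw ⊢
      exact ⟨Cert.Aut.len_map (C.W_le_Aut hw.1) _, by rw [← T.cj_apply, hw.2, hρ]⟩), Finset.sum_mul]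
  refine Finset.sum_congr rfl fun s hs => ?_
  simp only [Finset.mem_filter, Finset.mem_univ, true_and] at hs
  obtain ⟨w, hw, e⟩ := Cert.exists_conj_of_len hs.1.symm
  obtain ⟨v, hv, h2⟩ := Cert.exists_min_coset (Jt C) (C.W_le_Aut hw)
  have hd : w * v ∈ C.W := mul_mem hw (C.WJ_le_W _ hv)
  have h3 : (w * v) C.top = s := by rw [Perm.mul_apply, top_fix hv, e]
  generalize w * v = d at h2 hd h3
  have h4 : T.cj d = d := by
    have h5 : d⁻¹ * T.cj d ∈ C.WJ (Jt C) := mem_WJ_top (mul_mem (inv_mem hd) (T.cj_W hd)) (by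
      rw [Perm.mul_apply, Perm.inv_eq_iff_eq, h3, ← hs.2, ← h3, ← T.cj_apply, hρ])
    have := Cert.min_coset_unique (C.W_le_Aut hd) h2 h5 fun j hj => by
      obtain ⟨i, rfl⟩ := T.π.surjective j
      rw [mul_inv_cancel_left, ← T.sp, T.cj_apply, T.pos]
      exact h2 i ((stable_Jt T hρ i).1 hj)
    exact (inv_mul_eq_one.1 this).symm
  rw [Finset.mul_sum]
  symm
  refine Finset.sum_bij (fun v _ => d * v) (fun v hv => ?_) (fun a _ b _ h => mul_left_cancel h) (fun w hw => ?_)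
    fun v hv => ?_
  · simp only [Finset.mem_filter, Finset.mem_univ, true_and] at hv ⊢
    exact ⟨⟨mul_mem hd (C.WJ_le_W _ hv.1), by rw [T.cj_mul, h4, hv.2]⟩, by rw [Perm.mul_apply, top_fix hv.1, h3]⟩
  · simp only [Finset.mem_filter, Finset.mem_univ, true_and] at hw ⊢
    exact ⟨d⁻¹ * w, ⟨mem_WJ_top (mul_mem (inv_mem hd) hw.1.1) (by
      rw [Perm.mul_apply, hw.2, ← h3]; simp), by rw [T.cj_mul, T.cj_inv, h4, hw.1.2]⟩, by simp⟩
  · simp only [Finset.mem_filter, Finset.mem_univ, true_and] at hv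
    rw [Cert.ln_min_mul (C.W_le_Aut hd) h2 hv.1, pow_add, ln_min h0 h1 hd h2, h3]

/-- groups with a highest root subgroup defined over `k` -/
structure LD (S : Sys C F G) (k : Type*) [Field k] where
  T : Stb S
  K : Subgroup G
  bn : T.BN K
  inj : Function.Injective S.φ
  ι : k →+* F
  top : T.ρ C.top = C.top
  hx : ∀ t, S.x C.top t ∈ K ↔ ∃ s, ι s = t
  hy : ∀ s, S.x C.top.rev (ι s) ∈ K
  card : ∀ w ∈ C.W, T.cj w = w → Nat.card ↥(S.Uw w ⊓ K) = Nat.card k ^ C.ln w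
  gen : ∀ M : Subgroup K, S.Up.subgroupOf K ≤ M → S.Um.subgroupOf K ≤ M → M = ⊤

theorem hN_of {T : Stb S} {K : Subgroup G} (hK : T.Good K)
    (gen : ∀ M : Subgroup K, S.Up.subgroupOf K ≤ M → S.Um.subgroupOf K ≤ M → M = ⊤) (M : Subgroup K)
    (hM : M.Normal) (h : S.Up.subgroupOf K ≤ M) : M = ⊤ := by
  obtain ⟨m, hm, h1⟩ := hK.ex_w0
  refine gen M h fun u hu => ?_
  have h2 : (⟨m, hm⟩ * u * ⟨m, hm⟩⁻¹ : K) ∈ S.Up.subgroupOf K :=
    h1.acts.conj_mem (T' := {r | C.Pos r}) (fun r hr => Cert.pos_w0_univ_iff.2 hr) hu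
  simpa [mul_assoc] using hM.conj_mem' _ (h h2) ⟨m, hm⟩

namespace LD
variable {k : Type*} [Field k] (R : LD S k)

/-- the fundamental `SL₂` -/
def L : SL2Sys k R.K where
  x t := ⟨S.x C.top (R.ι t), (R.hx _).2 ⟨t, rfl⟩⟩
  y t := ⟨S.x C.top.rev (R.ι t), R.hy t⟩
  x_add t u := Subtype.ext (by simp [S.x_add])
  y_add t u := Subtype.ext (by simp [S.x_add])
  conj t u ht := Subtype.ext (by simpa [Sys.sl2] using (S.sl2 C.top).conj (R.ι t) (R.ι u) (by simpa))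

theorem x_coe (t : k) : (R.L.x t : G) = S.x C.top (R.ι t) := rfl
theorem y_coe (t : k) : (R.L.y t : G) = S.x C.top.rev (R.ι t) := rfl
theorem w_coe : (R.L.w 1 : G) = S.n C.top 1 := by simp [SL2Sys.w, x_coe, y_coe, Sys.n]

/-- the Sylow subgroup -/
abbrev U : Subgroup R.K := S.Up.subgroupOf R.K
/-- the long root parabolic subgroup -/
abbrev P : Subgroup R.K := (S.P (Jt C)).subgroupOf R.K
/-- its unipotent radical -/
abbrev Q : Subgroup R.K := (S.U (Qt C)).subgroupOf R.K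
/-- the highest root group -/
abbrev Z : Subgroup R.K := rg R.L.x R.L.x_add

theorem exists_x {g : R.K} {t : F} (h : (g : G) = S.x C.top t) : ∃ s, R.L.x s = g := by
  obtain ⟨s, rfl⟩ := (R.hx t).1 (h ▸ g.2)
  exact ⟨s, Subtype.ext h.symm⟩

theorem x_eq_one {t : k} (h : R.L.x t = 1) : t = 0 :=
  (map_eq_zero R.ι).1 (S.x_eq_one_iff.1 (congrArg Subtype.val h))

theorem Q_le_U : R.Q ≤ R.U := Subgroup.comap_mono (S.U_le_Up fun _ => Qt_pos)
theorem U_le_P : R.U ≤ R.P := Subgroup.comap_mono (S.Up_le_P _)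
theorem Z_le_Q : R.Z ≤ R.Q := by rintro _ ⟨t, rfl⟩; exact S.x_mem_U top_mem_Qt _
theorem U_x {u : R.K} (hu : u ∈ R.U) (t : k) : u * R.L.x t = R.L.x t * u := Subtype.ext (S.Up_commute_top hu _)
theorem comm_Q {a b : R.K} (ha : a ∈ R.Q) (hb : b ∈ R.Q) : ⁅a, b⁆ ∈ R.Z := by
  obtain ⟨t, ht⟩ := comm_Qt (S := S) ha hb
  exact R.exists_x (t := t) ht

theorem P_conj {g : R.K} (hg : g ∈ R.P) : ∃ d ≠ 0, ∀ t, g * R.L.x t * g⁻¹ = R.L.x (d * t) := by
  obtain ⟨d, hd⟩ := P_conj_top (S := S) hg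
  obtain ⟨c, hc⟩ := (R.hx (d * R.ι 1)).1 (hd _ ▸ (g * R.L.x 1 * g⁻¹).2)
  rw [map_one, mul_one] at hc
  exact ⟨c, fun e => d.ne_zero (by rw [← hc, e, map_zero]), fun t => Subtype.ext (by
    rw [x_coe, map_mul, hc, ← hd]; rfl)⟩

theorem card_sub (A : Subgroup G) : Nat.card (A.subgroupOf R.K) = Nat.card ↥(A ⊓ R.K) := by
  rw [← Subgroup.inf_subgroupOf_right]
  exact Nat.card_congr (Subgroup.subgroupOfEquivOfLe inf_le_right).toEquiv

theorem card_Q : Nat.card R.Q = Nat.card k ^ (Qt C).ncard := by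
  rw [card_sub, Qt_eq, ← Sys.Uw, R.card _ (C.sr_mem_W _) (by rw [R.T.cj_sr, R.top]), Cert.ln,
    ← Set.ncard_coe_finset]
  congr 2; ext r; simp [C.mem_inv]

open Classical in
theorem index_P [Finite G] {nf : Rt D → ℕ} (h0 : nf C.top = 0)
    (h1 : ∀ s, C.len s = C.len C.top → ∀ j, 0 < C.A (C.sp j) s → nf (C.ss j s) = nf s + 1) :
    R.P.index = ∑ s ∈ Finset.univ.filter (fun s => C.len s = C.len C.top ∧ R.T.ρ s = s), Nat.card k ^ nf s := by
  have e : ∀ J, Nat.card ↥(S.P J ⊓ R.K) = Nat.card ↥(S.B ⊓ R.K) *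
      ∑ w ∈ Finset.univ.filter (fun w => w ∈ C.WJ J ∧ R.T.cj w = w), Nat.card k ^ C.ln w := fun J => by
    rw [R.bn.card_P J]
    congr 1
    refine Finset.sum_congr (by congr) fun w hw => ?_
    simp only [Finset.mem_filter, Finset.mem_univ, true_and] at hw
    exact R.card w (C.WJ_le_W _ hw.1) hw.2
  have h2 := R.P.index_mul_card
  have h3 := e Set.univ
  rw [S.P_univ, top_inf_eq, sum_fix R.T R.top _ h0 h1, mul_left_comm, ← e, ← card_sub] at h3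
  exact Nat.eq_of_mul_eq_mul_right Nat.card_pos (h2.trans h3)

variable [Finite G] [Finite F] [Finite k] {Ω : Type*} [Finite Ω] [MulAction R.K Ω] {p : ℕ} [Fact p.Prime] [CharP F p]

include R in
theorem charP : CharP k p := R.ι.charP R.ι.injective p

theorem isPGroup_U : IsPGroup p R.U := (S.isPGroup_Up p).comap_subtype

/-- a Borel subgroup is transitive -/
theorem btrans (p : ℕ) [Fact p.Prime] [CharP F p] (h : T2 R.K Ω) (gen : ⨆ i, (sb R.bn).X i = R.U)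
    (np : ¬ (sb R.bn).Par Ω) (x y : Ω) : ∃ u ∈ R.U, ∃ a : R.K, (a : G) ∈ S.H ∧ (u * a) • x = y :=
  (((sb R.bn).main (p := p) R.isPGroup_U gen (hN_of R.bn.toGood R.gen) h).resolve_left np).2 x y

theorem utrans (h : T2 R.K Ω) {a : ℕ} (hn : Nat.card Ω = p ^ a) (x y : Ω) : ∃ u ∈ R.U, u • x = y :=
  h.trans_of_pow R.U (R.bn.sylow R.inj p).not_dvd_index hn x y

theorem pair (h : T2 R.K Ω) {a : ℕ} (hn : Nat.card Ω = p ^ a) (nf : ∀ t ≠ 0, ∀ x : Ω, R.L.x t • x ≠ x) {lam : ℕ}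
    (hl : lam * (Nat.card Ω - 1) = R.P.index * (Nat.card k - 1)) {m : ℕ}
    (hm : ∀ s t, m ∣ fix Ω (R.L.x s * R.L.y t)) : Nat.card Ω + Nat.card R.Q * m ≤ Nat.card Ω * lam := by
  have := R.charP (p := p)
  refine h.pair_root R.L hn R.P (fun _ => R.P_conj) nf hl R.Q (R.Q_le_U.trans R.U_le_P)
    (fun u hu => R.U_x (R.Q_le_U hu) 1) (fun hw => ?_) (fun u hu h1 => ?_) hm
  · rw [Subgroup.mem_subgroupOf, w_coe, (S.over_n _ _).mem_P_iff] at hw
    have := top_fix hw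
    rw [C.sr_apply, C.refl_self] at this
    exact C.rev_ne _ this
  · have h2 : (S.n C.top 1)⁻¹ * u * S.n C.top 1 ∈ S.P (Jt C) := R.w_coe ▸ h1
    have := S.eq_one_of_QM_P ((S.acts_n _ _).inv_conj_mem (fun r (hr : 1 ≤ C.A C.top r) => ?_) hu) h2
    · exact Subtype.ext (by
        rw [show (u : G) = S.n C.top 1 * ((S.n C.top 1)⁻¹ * u * S.n C.top 1) * (S.n C.top 1)⁻¹ by group,
          show (S.n C.top 1)⁻¹ * (u : G) * S.n C.top 1 = 1 from this]
        simp)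
    · rw [C.sr_inv]
      exact ⟨((Set.ext_iff.1 (Qt_eq (C := C)) r).1 hr).2, by rw [inJ_Jt, C.sr_apply, C.A_refl_self]; omega⟩

theorem inf_stab {z : k → R.K} {hz : ∀ s t, z (s + t) = z s * z t} (nf : ∀ t ≠ 0, ∀ x : Ω, z t • x ≠ x) (x : Ω) :
    rg z hz ⊓ stabilizer R.K x = ⊥ := eq_bot_iff.2 (by
  rintro _ ⟨⟨t, rfl⟩, h⟩
  rw [by_contra fun e : ¬ t = 0 => nf t e x h, add_hom_zero hz]; exact one_mem _)

theorem Z_ne : R.Z ≠ ⊥ := fun h => one_ne_zero (R.x_eq_one (Subgroup.mem_bot.1 (h ▸ ⟨1, rfl⟩)))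

/-- orbits of an extraspecial radical -/
theorem le_relIndex (nf : ∀ t ≠ 0, ∀ x : Ω, R.L.x t • x ≠ x)
    (hnd : ∀ v ∈ R.Q, v ∉ R.Z → ∀ z ∈ R.Z, ∃ y ∈ R.Q, ⁅y, v⁆ = z) {m : ℕ} (hm : (Qt C).ncard + 1 = 2 * m) (x : Ω) :
    Nat.card k ^ m ≤ (stabilizer R.K x).relIndex R.Q := by
  have := heis2 le_rfl R.Z_le_Q (fun _ ha _ => R.comm_Q ha) (by rintro y hy _ ⟨t, rfl⟩; exact R.U_x (R.Q_le_U hy) t)
    hnd _ (R.inf_stab nf x) R.Z_ne
  rw [R.inf_stab nf x, Subgroup.card_bot, one_mul, card_rg _ fun _ => R.x_eq_one, R.card_Q, ← pow_succ', hm,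
    mul_comm, pow_mul] at this
  exact (Nat.pow_le_pow_iff_left two_ne_zero).1 this

theorem pow_dvd (p : ℕ) [Fact p.Prime] [CharP F p] {m : ℕ}
    (h : ∀ x : Ω, Nat.card k ^ m ≤ (stabilizer R.K x).relIndex R.Q) : Nat.card k ^ m ∣ Nat.card Ω := by
  have := R.charP (p := p)
  obtain ⟨f, -, hf⟩ := Sys.exists_card_pow k p
  rw [hf, ← pow_mul] at h ⊢
  exact pow_dvd_card (R.isPGroup_U.to_le R.Q_le_U) h

end LD

end Cfsg.Agent.TT
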