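import Cfsg.Agent.TT.LD
import Cfsg.Agent.TT.Ar
/-!
# Root elements without fixed points
-/
set_option autoImplicit false
set_option linter.unusedSectionVars false

namespace Cfsg.Agent.TT
open Cfsg Cfsg.Lie Cfsg.Agent.Chev Cfsg.Agent.Tw Cfsg.Agent.Stein Cfsg.Agent.Forms Equiv MulAction
open scoped commutatorElement

variable {D : ChevalleyDatum} {C : Cert D} {F : Type*} [Field F] {G : Type*} [Group G] {S : Sys C F G}

variable (S) in
/-- three root groups forming a Heisenberg group -/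
structure Tri (r s b : Rt D) (ε : F) : Prop where
  ne : ε ≠ 0
  rb : r ≠ b
  sw : ∀ t u, S.x r t * S.x s u = S.x s u * S.x r t * S.x b (ε * (t * u))
  c1 : ∀ t u, S.x r t * S.x b u = S.x b u * S.x r t
  c2 : ∀ t u, S.x s t * S.x b u = S.x b u * S.x s t

theorem tri_lng {r s b : Rt D} (hb : Lng C b) (e : C.rc b = C.rc r + C.rc s) (h : (C.N r s : F) ≠ 0) :
    Tri S r s b (C.N r s) where
  ne := h
  rb e' := by have := hb.A_eq_one e; rw [e', C.A_self] at this; omega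
  sw := hb.swap S e
  c1 t u := (hb.commute S (hb.A_eq_one e).ge u t).symm
  c2 t u := (hb.commute S (hb.A_eq_one (e.trans (add_comm _ _))).ge u t).symm

theorem N_ne {r s b : Rt D} (hr : Lng C r) (hs : Lng C s) (e : C.rc b = C.rc r + C.rc s) : (C.N r s : F) ≠ 0 :=
  fun h => by
    have := congrArg (Int.cast : ℤ → F) (hr.N_sq hs e)
    rw [Int.cast_mul, h, zero_mul, Int.cast_one] at this
    exact zero_ne_one this

theorem commute_orth {b r : Rt D} (hb : Lng C b) (h : C.A b r = 0) (t u : F) : S.x r t * S.x b u = S.x b u * S.x r t :=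
  S.commute_of_not_add (fun e => by rw [e, C.A_rev_left, C.A_self] at h; omega) (fun v e => by
    have := hb.le (u := v) fun e' => C.rc_ne_zero r (by rw [e'] at e; simpa using e)
    rw [A_add' e, h, C.A_self] at this; omega) t u

namespace LD
variable {k : Type*} [Field k] (R : LD S k)

/-- the root group is defined over `k` -/
def Rat (r : Rt D) : Prop := ∀ t, S.x r t ∈ R.K ↔ ∃ s, R.ι s = t

theorem rat_top : R.Rat C.top := R.hx

variable {R}

/-- root elements -/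
def Rat.x {r : Rt D} (h : R.Rat r) (t : k) : R.K := ⟨S.x r (R.ι t), (h _).2 ⟨t, rfl⟩⟩

theorem Rat.x_add {r : Rt D} (h : R.Rat r) (s t : k) : h.x (s + t) = h.x s * h.x t :=
  Subtype.ext (by simp [Rat.x, S.x_add])

theorem Rat.conj {r s : Rt D} (h : R.Rat r) (h' : R.Rat s) {g : R.K} {w : Perm (Rt D)} (hg : S.Acts g w)
    (e : w r = s) : ∃ d ≠ 0, ∀ t, g * h.x t * g⁻¹ = h'.x (d * t) := by
  obtain ⟨d, hd⟩ := hg r
  rw [e] at hd
  obtain ⟨c, hc⟩ := (h' (d * R.ι 1)).1 (hd _ ▸ (g * h.x 1 * g⁻¹).2)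
  rw [map_one, mul_one] at hc
  exact ⟨c, fun e => d.ne_zero (by rw [← hc, e, map_zero]), fun t => Subtype.ext (by
    simp only [Rat.x, map_mul, hc, ← hd]; rfl)⟩

theorem Rat.conjW {r s : Rt D} (h : R.Rat r) (h' : R.Rat s) {w : Perm (Rt D)} (hw : w ∈ C.W) (h1 : R.T.cj w = w)
    (e : w r = s) : ∃ g : R.K, ∃ d ≠ 0, ∀ t, g * h.x t * g⁻¹ = h'.x (d * t) := by
  obtain ⟨m, hm, h2⟩ := R.bn.ex_over w hw h1
  exact ⟨⟨m, hm⟩, h.conj h' h2.acts e⟩

/-- the Heisenberg triple -/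
def a2 {r s b : Rt D} {ε : k} (h : Tri S r s b (R.ι ε)) (hr : R.Rat r) (hs : R.Rat s) (hb : R.Rat b) : A2 k R.K where
  a t := hr.x (ε⁻¹ * t)
  b := hs.x
  c := hb.x
  a_add s t := by rw [mul_add, hr.x_add]
  b_add := hs.x_add
  c_add := hb.x_add
  ab t u := Subtype.ext (by
    simp only [Rat.x, Subgroup.coe_mul, h.sw, map_mul, map_inv₀]
    rw [← mul_assoc (R.ι ε), mul_inv_cancel_left₀ h.ne])
  ac t u := Subtype.ext (h.c1 _ _)
  bc t u := Subtype.ext (h.c2 _ _)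

variable [Finite G] [Finite F] [Finite k] {Ω : Type*} [Finite Ω] [MulAction R.K Ω]

variable (R Ω) in
/-- a Borel subgroup is transitive -/
def BT : Prop := ∀ x y : Ω, ∃ u ∈ R.U, ∃ a : R.K, (a : G) ∈ S.H ∧ (u * a) • x = y

variable (Ω) in
/-- no fixed points -/
def Rat.NF {r : Rt D} (h : R.Rat r) : Prop := ∀ t ≠ 0, ∀ x : Ω, h.x t • x ≠ x

theorem Rat.NF.conj {r s : Rt D} {h : R.Rat r} (h' : R.Rat s) (nf : h.NF Ω) {w : Perm (Rt D)} (hw : w ∈ C.W)
    (h1 : R.T.cj w = w) (e : w s = r) : h'.NF Ω := fun t ht x hx => by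
  obtain ⟨g, d, hd, h2⟩ := h'.conjW h hw h1 e
  exact nf _ (mul_ne_zero hd ht) (g • x) (by rw [← h2, mul_smul, mul_smul, inv_smul_smul, hx])

theorem nofix [FaithfulSMul R.K Ω] (hB : R.BT Ω) {r s b : Rt D} {ε : k} (h : Tri S r s b (R.ι ε)) (hr : R.Rat r)
    (hs : R.Rat s) (hb : R.Rat b) (hU : ∀ u ∈ S.Up, ∀ t, u * S.x b t = S.x b t * u) {w : Perm (Rt D)} (hw : w ∈ C.W)
    (h1 : R.T.cj w = w) (e : w r = b) : hb.NF Ω := fun t ht x => by
  refine (a2 h hr hs hb).nofix (fun x y => ?_) ?_ (fun e => ?_) ht x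
  · obtain ⟨u, hu, a, ha, e⟩ := hB x y
    obtain ⟨d, hd, h2⟩ := hb.conj hb (Sys.over_of_mem_H ha).acts rfl
    refine ⟨_, e, d, hd, fun t => ?_⟩
    calc _ = u * (a * hb.x t * a⁻¹) * u⁻¹ := by simp only [a2]; group
      _ = _ := by rw [h2, mul_inv_eq_iff_eq_mul]; exact Subtype.ext (hU u hu _)
  · obtain ⟨g, d, hd, h2⟩ := hr.conjW hb hw h1 e
    exact ⟨g, d * ε⁻¹, mul_ne_zero hd (inv_ne_zero fun e => h.ne (by rw [e, map_zero])), fun t => by
      rw [mul_assoc d]; exact h2 _⟩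
  · have := S.x_eq_one_iff.1 (congrArg Subtype.val e)
    rw [map_one] at this; exact one_ne_zero this

theorem dvd_fix (p : ℕ) [Fact p.Prime] [CharP F p] {r s b : Rt D} {ε : k} (h : Tri S r s b (R.ι ε)) (hr : R.Rat r)
    (hs : R.Rat s) (hb : R.Rat b) (h1 : C.Pos r ∧ C.Pos s ∧ C.Pos b) (nf : hb.NF Ω) {g : R.K}
    (hg : ∀ a, a = r ∨ a = s ∨ a = b → ∀ t, S.x a t * g = g * S.x a t) : Nat.card k ^ 2 ∣ fix Ω g := by
  have := R.charP (p := p)
  refine (a2 h hr hs hb).dvd_fix (R.isPGroup_U (p := p)) (fun _ => S.x_mem_Up h1.1 _) (fun _ => S.x_mem_Up h1.2.1 _)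
    (fun _ => S.x_mem_Up h1.2.2 _) (fun t u e => by_contra fun ht => h.rb ?_) nf
    (fun _ => Subtype.ext (hg _ (Or.inl rfl) _)) (fun _ => Subtype.ext (hg _ (Or.inr (Or.inl rfl)) _))
    fun _ => Subtype.ext (hg _ (Or.inr (Or.inr rfl)) _)
  have e1 : S.x r (R.ι (ε⁻¹ * t)) * S.x b (R.ι u) = 1 := congrArg Subtype.val e
  rw [mul_eq_one_iff_eq_inv, ← S.x_neg] at e1
  exact S.eq_of_x_eq ((map_ne_zero _).2 (mul_ne_zero (inv_ne_zero fun e => h.ne (by rw [e, map_zero])) ht))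
    (congrArg S.φ e1)

theorem dvd_levi (p : ℕ) [Fact p.Prime] [CharP F p] {r s b : Rt D} {ε : k} (h : Tri S r s b (R.ι ε)) (hr : R.Rat r)
    (hs : R.Rat s) (hb : R.Rat b) (h1 : C.Pos r ∧ C.Pos s ∧ C.Pos b) (nf : hb.NF Ω)
    (h2 : C.A C.top r = 0 ∧ C.A C.top s = 0 ∧ C.A C.top b = 0) (t u : k) :
    Nat.card k ^ 2 ∣ fix Ω (R.L.x t * R.L.y u) := by
  refine dvd_fix p h hr hs hb h1 nf fun a ha c => ?_
  have h3 : C.A C.top a = 0 := by rcases ha with rfl | rfl | rfl; exacts [h2.1, h2.2.1, h2.2.2]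
  rw [Subgroup.coe_mul, x_coe, y_coe, ← mul_assoc, commute_orth lng_top h3, mul_assoc,
    commute_orth lng_top.rev (by rw [C.A_rev_left, h3, neg_zero]), mul_assoc]

theorem exists_lam (h : T2 R.K Ω) (nf : R.rat_top.NF Ω) : ∃ lam, lam * (Nat.card Ω - 1) = R.P.index * (Nat.card k - 1) :=
  (h.dvd_root R.L.x_add R.P (fun _ => R.P_conj) nf).2

variable (R) in
include R in
theorem exists_pow (p : ℕ) [Fact p.Prime] [CharP F p] {n N : ℕ} (h : n = Nat.card k ^ N) : ∃ a, n = p ^ a := by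
  have := R.charP (p := p)
  obtain ⟨f, -, hf⟩ := Sys.exists_card_pow k p
  exact ⟨f * N, by rw [h, hf, pow_mul]⟩

/-- the degree in the generic case -/
theorem card_eq (p : ℕ) [Fact p.Prime] [CharP F p] (h : T2 R.K Ω) (nf : R.rat_top.NF Ω)
    (hnd : ∀ v ∈ R.Q, v ∉ R.Z → ∀ z ∈ R.Z, ∃ y ∈ R.Q, ⁅y, v⁆ = z) {m : ℕ} (hm : (Qt C).ncard = 2 * m + 1) {l : ℕ}
    (h1 : R.P.index * (Nat.card k - 1) = l * (Nat.card k ^ (m + 2) - 1))
    (h2 : Nat.card k * l + 2 ≤ Nat.card k ^ (m + 1) + l) : Nat.card Ω = Nat.card k ^ (m + 2) := by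
  obtain ⟨lam, h3⟩ := exists_lam h nf
  have hq : 2 ≤ Nat.card k := Finite.one_lt_card
  have h0 : 0 < l := Nat.pos_of_ne_zero fun e => by
    rw [e, zero_mul, mul_eq_zero] at h1
    exact h1.elim R.P.index_ne_zero_of_finite (by omega)
  have h4 : l < Nat.card k ^ (m + 1) := by nlinarith
  refine (ar_one (R.pow_dvd p (R.le_relIndex nf hnd (m := m + 1) (by omega)))
    (pow_dvd_pow _ (by omega)) h.two_le (Nat.one_le_pow _ _ (by omega)) (h3.trans h1) h4 h0 ?_).1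
  rw [pow_succ _ (m + 1)]
  generalize Nat.card k ^ (m + 1) = x at *
  have := Nat.mul_le_mul_right x h2
  nlinarith

/-- the generic argument -/
theorem kill (p : ℕ) [Fact p.Prime] [CharP F p] (h : T2 R.K Ω) (nf : R.rat_top.NF Ω)
    (hnd : ∀ v ∈ R.Q, v ∉ R.Z → ∀ z ∈ R.Z, ∃ y ∈ R.Q, ⁅y, v⁆ = z) {m : ℕ} (hm : (Qt C).ncard = 2 * m + 1) {l : ℕ}
    (h1 : R.P.index * (Nat.card k - 1) = l * (Nat.card k ^ (m + 2) - 1))
    (h2 : Nat.card k * l + 2 ≤ Nat.card k ^ (m + 1) + l)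
    (hl : ∀ t u, Nat.card k ^ 2 ∣ fix Ω (R.L.x t * R.L.y u)) : False := by
  have h4 := card_eq p h nf hnd hm h1 h2
  obtain ⟨a, ha⟩ := R.exists_pow p h4
  have := R.pair h ha nf (lam := l) (by rw [h1, h4]) hl
  have hq : 2 ≤ Nat.card k := Finite.one_lt_card
  rw [R.card_Q, hm, h4] at this
  generalize Nat.card k = q at *
  have e : q ^ (2 * m + 1) * q ^ 2 = q ^ (m + 2) * q ^ (m + 1) := by ring
  have : q ^ (m + 2) * q ^ (m + 1) ≤ q ^ (m + 2) * l := by omega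
  have := Nat.le_of_mul_le_mul_left this (by positivity)
  nlinarith

end LD

end Cfsg.Agent.TT
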