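import Cfsg.Agent.TT.Cl
import Cfsg.Agent.TT.Abs
import Cfsg.Agent.TT.Ar
import Cfsg.Agent.Polar.MinO
import Mathlib.FieldTheory.ChevalleyWarning

set_option autoImplicit false

/-! Two-transitive actions of orthogonal groups: the radical of a point stabilizer is semiregular. -/

namespace Cfsg.Agent.TT
open Module Cfsg.Agent.Polar Cfsg.Agent.Polar.PQ Cfsg.Agent.Cl MvPolynomial

theorem cw_bilin {K A M : Type*} [Field K] [Finite K] [AddCommGroup A] [Module K A] [AddCommGroup M] [Module K M]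
    [Module.Finite K A] [Module.Finite K M] (B : A →ₗ[K] A →ₗ[K] M) (h : ∀ a, B a a = 0 → a = 0) :
    finrank K A ≤ 2 * finrank K M := by
  classical
  obtain ⟨p, hp⟩ := CharP.exists K
  have := Fintype.ofFinite K
  let b := Module.finBasis K A
  let β := Module.finBasis K M
  refine not_lt.1 fun hlt => ?_
  let f : Fin (finrank K M) → MvPolynomial (Fin (finrank K A)) K := fun j =>
    ∑ i, ∑ k, C (β.coord j (B (b i) (b k))) * (X i * X k)
  have hd : ∀ j, (f j).totalDegree ≤ 2 := fun j =>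
    totalDegree_finsetSum_le fun i _ => totalDegree_finsetSum_le fun k _ =>
      (totalDegree_mul _ _).trans (by
        rw [totalDegree_C, zero_add]
        exact (totalDegree_mul _ _).trans (by rw [totalDegree_X, totalDegree_X]))
  have hev : ∀ x j, eval x (f j) = β.coord j (B (∑ i, x i • b i) (∑ i, x i • b i)) := fun x j => by
    simp only [f, map_sum, map_mul, eval_C, eval_X, LinearMap.sum_apply, map_smul, LinearMap.smul_apply,
      smul_eq_mul]
    rw [Finset.sum_comm]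
    refine Finset.sum_congr rfl fun i _ => ?_
    rw [Finset.mul_sum]
    exact Finset.sum_congr rfl fun k _ => by ring
  have := char_dvd_card_solutions_of_fintype_sum_lt p (f := f) (by
    refine lt_of_le_of_lt (Finset.sum_le_card_nsmul _ _ 2 fun j _ => hd j) ?_
    simpa [mul_comm] using hlt)
  have e : Nat.card {x : Fin (finrank K A) → K // ∀ j, eval x (f j) = 0} = 1 := by
    refine Nat.card_eq_one_iff_exists.2 ⟨⟨0, fun j => by rw [hev]; simp⟩, fun ⟨x, hx⟩ => Subtype.ext ?_⟩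
    exact funext (Fintype.linearIndependent_iff.1 b.linearIndependent x
      (h _ (β.forall_coord_eq_zero_iff.1 fun j => by rw [← hev, hx])))
  rw [Fintype.card_eq_nat_card, e] at this
  exact (CharP.char_is_prime K p).one_lt.ne' (Nat.dvd_one.1 this)

variable {F : Type*} [Field F] [Finite F] {V : Type*} [AddCommGroup V] [Module F V] [Finite V]
  {P : PQ (oFP F) V}

theorem card_aniso_aux {K : Type*} [Field K] [Finite K] [Algebra K F] {A : AddSubgroup V} [Module K A]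
    (hs : ∀ (c : K) (a : A), ((c • a : A) : V) = (algebraMap K F c) • (a : V))
    (hA : ∀ a ∈ A, P.Sing a → a = 0) : Nat.card A ≤ Nat.card F ^ 2 := by
  haveI : FiniteDimensional F V := Module.Finite.of_finite
  obtain ⟨B', hB⟩ := LinearMap.BilinMap.toQuadraticMap_surjective P.toQuad
  have hB' : ∀ v, B' v v = P.Q v := fun v => by
    rw [← toQuad_apply, ← hB]; rfl
  let B : A →ₗ[K] A →ₗ[K] F := LinearMap.mk₂ K (fun a b : A => B' a b) (by simp)
    (fun c a b => by simp [hs, Algebra.smul_def]) (by simp) (fun c a b => by simp [hs, Algebra.smul_def])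
  haveI : Module.Finite K A := Module.Finite.of_finite
  haveI : Module.Finite K F := Module.Finite.of_finite
  have := cw_bilin B fun a ha => Subtype.ext (hA _ a.2 (o_sing_iff.2 (by rw [← hB']; exact ha)))
  rw [Module.natCard_eq_pow_finrank (K := K) (V := A), Module.natCard_eq_pow_finrank (K := K) (V := F),
    ← pow_mul, mul_comm]
  exact Nat.pow_le_pow_right Nat.card_pos this

/-- An anisotropic additive subgroup has at most `q²` elements -/
theorem card_aniso_le {A : AddSubgroup V} (hA : ∀ a ∈ A, P.Sing a → a = 0) :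
    Nat.card A ≤ Nat.card F ^ 2 := by
  obtain ⟨p, hp⟩ := CharP.exists F
  haveI : Fact p.Prime := ⟨CharP.char_is_prime F p⟩
  letI := ZMod.algebra F p
  letI : Module (ZMod p) A := AddCommGroup.zmodModule fun a => Subtype.ext (by
    rw [AddSubgroup.coe_nsmul, ← Nat.cast_smul_eq_nsmul F, CharP.cast_eq_zero, zero_smul]; rfl)
  refine card_aniso_aux (K := ZMod p) (fun c a => ?_) hA
  obtain ⟨n, rfl⟩ := ZMod.natCast_zmod_surjective c
  rw [Nat.cast_smul_eq_nsmul, map_natCast, Nat.cast_smul_eq_nsmul, AddSubgroup.coe_nsmul]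

theorem o_hr (W : Submodule F V) (h : 3 ≤ finrank F W) : ∃ z ∈ W, z ≠ 0 ∧ P.Sing z := by
  haveI : FiniteDimensional F V := Module.Finite.of_finite
  obtain ⟨z, h0, hz⟩ := o_exists_sing (P.res W) h
  exact ⟨z, z.2, fun e => h0 (Subtype.ext e), hz⟩

theorem aniso_or (hP : P.ND) (h7 : 7 ≤ finrank F V) {e f : V} (h : P.Hyp e f) (T : AddSubgroup V) (k : ℕ)
    (hk : ∀ s ∈ P.sing0 (P.perp {e, f}), Nat.card {t : F // t • s ∈ T} = k) :
    (∀ s ∈ P.perp {e, f}, s ∈ T → P.Sing s → s = 0) ∨ ∀ s ∈ P.perp {e, f}, s ∈ T := by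
  haveI : FiniteDimensional F V := Module.Finite.of_finite
  obtain ⟨v, v', h2⟩ := exists_hyp2 hP o_hr (by omega) h
  obtain ⟨w, w', h3⟩ := exists_hyp3 hP o_hr (by omega) h2
  have hv : v ∈ P.perp {e, f} := mem_perp_pair.2 ⟨h2.we, h2.we'⟩
  have hw : w ∈ P.perp {e, f} := mem_perp_pair.2 ⟨h3.ev.we, h3.ev.we'⟩
  let φ : F × F →ₗ[F] V := (LinearMap.toSpanSingleton F V v).coprod (LinearMap.toSpanSingleton F V w)
  rcases line (T.comap φ.toAddMonoidHom) k fun a ha => by
    rw [← hk (φ a) ⟨add_mem (Submodule.smul_mem _ _ hv) (Submodule.smul_mem _ _ hw), fun e0 => ha ?_,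
      (h2.h2.left.smul _).add (h3.wv.h2.left.smul _) (by simp [B_swap_zero h3.wv.we])⟩]
    · simp
    · have e1 := congrArg (P.B · v') e0
      have e2 := congrArg (P.B · w') e0
      simp [φ, h2.h2.pair, h3.wv.h2.pair, h3.wv.we', B_swap_zero h3.wv.w'e] at e1 e2
      exact Prod.ext e1 e2
    with rfl | rfl
  · refine Or.inl fun s hs hT h1 => by_contra fun h0 => ?_
    have := (Nat.card_eq_one_iff_unique.1 (hk s ⟨hs, h0, h1⟩)).1.elim ⟨0, by simp⟩ ⟨1, by simpa using hT⟩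
    simp at this
  · refine Or.inr fun s hs => h2.h2.mem_of_sing hv (mem_perp_pair.2 ⟨h2.w'e, h2.w'e'⟩) (fun x hx h1 => ?_) hs
    by_cases h0 : x = 0
    · rw [h0]; exact zero_mem _
    · have := (Set.eq_univ_iff_ncard {t : F | t • x ∈ T}).2 (hk x ⟨hx, h0, h1⟩)
      simpa using Set.eq_univ_iff_forall.1 this 1

variable {Ω : Type*} [MulAction P.EG Ω]

variable (P) in
/-- the point stabilizer as a group of isometries -/
def stI (x : Ω) : Subgroup P.Iso := (MulAction.stabilizer P.EG x).map P.EG.subtype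

omit [Finite F] [Finite V] in
theorem mem_stI {x : Ω} {g : P.EG} : g.1 ∈ stI P x ↔ g • x = x :=
  Subgroup.mem_map_iff_mem Subtype.val_injective

omit [Finite F] [Finite V] in
theorem relIndex_stI (x : Ω) (K : Subgroup P.Iso) (hK : K ≤ P.EG) :
    (stI P x).relIndex K = (MulAction.stabilizer P.EG x).relIndex (K.subgroupOf P.EG) := by
  conv_lhs => rw [← Subgroup.map_subgroupOf_eq_of_le hK]
  exact Subgroup.relIndex_map_map_of_injective _ _ Subtype.val_injective

omit [Finite F] [Finite V] in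
theorem vecs_move {e : V} (he : P.Sing e) {g : P.EG} {t : F} (ht : t ≠ 0) (hg : g.1 • e = t • e) {x : Ω} {a : V}
    (ha : a ∈ P.vecs (stI P x) he) : t • g.1 • a ∈ P.vecs (stI P (g • x)) he := by
  obtain ⟨c, o, h⟩ := ha
  obtain ⟨o', e1⟩ := conj_eich_pst o ht hg
  refine ⟨_, o', e1 ▸ (mem_stI (g := g * ⟨_, eich_mem_EG e a c⟩ * g⁻¹)).2 ?_⟩
  rw [mul_smul, mul_smul, inv_smul_smul, (mem_stI (g := ⟨_, eich_mem_EG e a c⟩)).1 h]

omit [Finite F] [Finite V] in
theorem vecs_move' {e : V} (he : P.Sing e) {g : P.EG} {t : F} (ht : t ≠ 0) (hg : g.1 • e = t • e) {x : Ω} {a : V} :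
    t • g.1 • a ∈ P.vecs (stI P (g • x)) he ↔ a ∈ P.vecs (stI P x) he := by
  refine ⟨fun h => ?_, vecs_move he ht hg⟩
  have := vecs_move he (g := g⁻¹) (inv_ne_zero ht) (by
    rw [Subgroup.coe_inv, inv_smul_eq_iff, act_smul, hg, inv_smul_smul₀ ht]) h
  rwa [inv_smul_smul, act_smul, Subgroup.coe_inv, inv_smul_smul, inv_smul_smul₀ ht] at this

theorem card_scale {p q : F → Prop} {d : F} (hd : d ≠ 0) (h : ∀ r, p r ↔ q (d * r)) :
    Nat.card {r // p r} = Nat.card {r // q r} := Nat.card_congr ((Equiv.mulLeft₀ d hd).subtypeEquiv h)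

variable (P Ω) in
/-- the stabilizers of flags are transitive -/
def FT (e f : V) : Prop := ∀ (x y : Ω), ∀ s ∈ P.sing0 (P.perp {e, f}), ∀ s' ∈ P.sing0 (P.perp {e, f}),
  ∃ (g : P.EG) (t c u : F), t ≠ 0 ∧ u ≠ 0 ∧ g.1 • e = t • e ∧ g.1 • s = c • e + u • s' ∧ g • x = y

theorem exists_FT [Finite Ω] (hP : P.ND) (h7 : 7 ≤ finrank F V) (h : T2 P.EG Ω) :
    ∃ e f, P.Hyp e f ∧ FT P Ω e f := by
  haveI : FiniteDimensional F V := Module.Finite.of_finite
  obtain ⟨p, hp⟩ := CharP.exists F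
  haveI : Fact p.Prime := ⟨CharP.char_is_prime F p⟩
  obtain ⟨z, h0, hz⟩ := o_exists_sing P (by omega)
  obtain ⟨m, sh, ⟨Φ⟩⟩ := exists_frame hP hz h0
  have h1 := Φ.finrank_V0 hP
  have h2 : finrank F Φ.V0 < 3 := not_le.1 fun h => by
    obtain ⟨x, hx, h0, hs⟩ := o_hr (P := P) _ h
    exact h0 (Φ.aniso x hx hs)
  obtain ⟨e, f, w, w', k, ht⟩ := cl_trans Φ (p := p) hP (hP.rich (by omega)) (fun c hc => ⟨0, by simpa using hc⟩)
    (by omega) (fun hs => by
      have : Φ.V0 = ⊥ := eq_bot_iff.2 fun x hx => Φ.aniso x hx (o_sing_iff.2 (by_contra fun h0 => by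
        simpa [hs] using Φ.short.2 ⟨x, hx, _, h0, QEq.self x⟩))
      rw [this, finrank_bot] at h1
      omega) h
  have hv : (P.res (P.perp {e, f})).VTrans :=
    o_vTrans (k.h1.emb.nd hP) (by have := k.h1.finrank_perp; omega)
  have hw : w ∈ P.sing0 (P.perp {e, f}) := ⟨mem_perp_pair.2 ⟨k.we, k.we'⟩, k.h2.left_ne_zero, k.h2.left⟩
  refine ⟨e, f, k.h1, fun x y s hs s' hs' => ?_⟩
  obtain ⟨l, hl, e1⟩ := k.h1.exists_Lv hv hs hw
  obtain ⟨l', hl', e2⟩ := k.h1.exists_Lv hv hw hs'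
  obtain ⟨⟨a1, -⟩, a2⟩ := mem_Lv.1 hl
  obtain ⟨⟨b1, -⟩, b2⟩ := mem_Lv.1 hl'
  obtain ⟨g, ⟨t, t0, e3⟩, ⟨c, u, u0, e4⟩, e5⟩ := ht ((⟨l, a2⟩ : P.EG) • x) ((⟨l', b2⟩ : P.EG)⁻¹ • y)
  refine ⟨⟨l', b2⟩ * g * ⟨l, a2⟩, t, c, u, t0, u0, ?_, ?_, ?_⟩
  · simp only [Subgroup.coe_mul, mul_smul, a1, e3, act_smul, b1]
  · simp only [Subgroup.coe_mul, mul_smul, e1, e4, act_smul, b1, smul_add, e2]
  · rw [mul_smul, mul_smul, e5, smul_inv_smul]

theorem FT.semireg [Finite Ω] (hP : P.ND) (h7 : 7 ≤ finrank F V) (h : T2 P.EG Ω) {e f : V} (k : P.Hyp e f)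
    (ht : FT P Ω e f) (x : Ω) : stI P x ⊓ P.U e = ⊥ := by
  haveI : FiniteDimensional F V := Module.Finite.of_finite
  obtain ⟨s0, a1, a2, a3⟩ := o_hr (P := P) (P.perp {e, f}) (by have := k.finrank_perp; omega)
  have h1 : ∀ (x y : Ω), ∀ s ∈ P.sing0 (P.perp {e, f}), Nat.card {t : F // t • s ∈ P.vecs (stI P x) k.left} =
      Nat.card {t : F // t • s0 ∈ P.vecs (stI P y) k.left} := fun x y s hs => by
    obtain ⟨g, t, c, u, t0, u0, e1, e2, rfl⟩ := ht x y s hs s0 ⟨a1, a2, a3⟩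
    refine card_scale (mul_ne_zero t0 u0) fun r => ?_
    rw [← vecs_move' k.left t0 e1, act_smul, e2, ← AddSubgroup.add_mem_cancel_left _
      (smul_mem_vecs k.left (-(t * r * c)))]
    congr! 1; module
  have h2 : ∀ a ∈ k.Yv (stI P x), P.Sing a → a = 0 := by
    rcases aniso_or hP h7 k _ _ (h1 x x) with h2 | h2
    · exact fun a ha => h2 a ha.2 ha.1
    have h3 : ∀ y : Ω, P.U e ≤ stI P y := fun y => by
      refine k.U_le_of_vecs (fun c hc => by rw [(mem_oFP_lam c).1 hc, eich_zero]; exact one_mem _) ?_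
      refine (aniso_or hP h7 k _ _ (h1 y x)).resolve_left fun h4 => a2 (h4 s0 a1 ?_ a3)
      have := h1 y x s0 ⟨a1, a2, a3⟩
      rw [Nat.card_congr (Equiv.subtypeUnivEquiv fun t => h2 _ (Submodule.smul_mem _ t a1))] at this
      simpa using Set.eq_univ_iff_forall.1 ((Set.eq_univ_iff_ncard {t : F | t • s0 ∈ P.vecs (stI P y) k.left}).2 this) 1
    exact absurd (top_of_U hP (hP.rich (by omega)) k.left k.left_ne_zero fun g u hu => by
      rw [MulAction.mem_stabilizer_iff, mul_smul, mul_smul, mem_stI.1 (h3 _ hu), smul_inv_smul])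
      (h.stab_ne_top x)
  obtain ⟨ψ, hψ, -⟩ := exists_addChar_ker (D := (⊥ : AddSubgroup F)) (c := 1) (by simp)
  let T : Ω → AddSubgroup V := fun y => (isBich_B (P := P) ψ).ann (P.perp {e, f}).toAddSubgroup (k.Yv (stI P y))
  have hT : ∀ (y : Ω) {s}, s ∈ P.perp {e, f} → (s ∈ T y ↔ ∀ a ∈ P.vecs (stI P y) k.left, ψ (P.B a s) = 1) :=
    fun y s hs => ⟨fun h a ha => by
      rw [← Hyp.B_hproj_right (e := e) (f := f) a hs, o_swap]; exact h.2 _ (k.hproj_mem_Yv ha),
      fun h => ⟨hs, fun a ha => by rw [← h a ha.1, o_swap]⟩⟩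
  have h4 := (isBich_B (P := P) ψ).card_mul_card_ann (k.Yv_le (stI P x)) (k.nd_bich_B hP hψ)
  have h5 : Nat.card (P.perp {e, f}).toAddSubgroup = Nat.card F ^ (finrank F V - 2) := k.card_perp
  rcases aniso_or hP h7 k (T x) (Nat.card {t : F // t • s0 ∈ T x}) fun s hs => by
    obtain ⟨g, t, c, u, t0, u0, e1, e2, e3⟩ := ht x x s0 ⟨a1, a2, a3⟩ s hs
    refine card_scale (mul_ne_zero t0 (inv_ne_zero u0)) fun r => ?_
    have key : ∀ a ∈ P.vecs (stI P x) k.left, P.B (t • g.1 • a) (r • s) = P.B a ((t * u⁻¹ * r) • s0) := by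
      rintro a ⟨_, o, -⟩
      have b1 : P.B (g.1 • a) e = 0 := by
        rw [← inv_smul_smul₀ t0 e, ← e1, B_smul_right, B_smul_smul, o.perp, mul_zero]
      have b2 := B_smul_smul g.1 a s0
      rw [e2] at b2
      simp only [map_add, LinearMap.map_smulₛₗ, RingHom.id_apply, smul_eq_mul, b1, LinearMap.smul_apply] at b2 ⊢
      rw [← b2]; field_simp; ring
    rw [hT x (Submodule.smul_mem _ _ hs.1), hT x (Submodule.smul_mem _ _ a1)]
    refine ⟨fun h a ha => ?_, fun h a ha => ?_⟩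
    · rw [← key a ha]; exact h _ (e3 ▸ vecs_move k.left t0 e1 ha)
    · have b1 : t • g.1 • t⁻¹ • g.1⁻¹ • a = a := by rw [act_smul, smul_inv_smul, smul_inv_smul₀ t0]
      have b2 := (vecs_move' k.left t0 e1 (x := x) (a := t⁻¹ • g.1⁻¹ • a)).1 (by rwa [b1, e3])
      rw [← b1, key _ b2]; exact h _ b2
    with h6 | h6
  · have b1 := card_aniso_le h2
    have b2 := card_aniso_le (P := P) (A := T x) fun a ha => h6 a ha.1 ha
    have b3 := Nat.mul_le_mul b1 b2
    rw [h4, h5, ← pow_add] at b3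
    have := (Nat.pow_le_pow_iff_right Finite.one_lt_card).1 b3
    omega
  · have b1 : T x = (P.perp {e, f}).toAddSubgroup := le_antisymm (fun a ha => ha.1) h6
    change _ * Nat.card (T x) = _ at h4
    rw [b1] at h4
    have b2 : k.Yv (stI P x) = ⊥ := AddSubgroup.card_eq_one.1
      (Nat.eq_of_mul_eq_mul_right Nat.card_pos (h4.trans (one_mul _).symm))
    refine eq_bot_iff.2 fun u hu => ?_
    obtain ⟨w, hw, c, o, rfl⟩ := k.mem_U_iff.1 hu.2
    obtain rfl : w = 0 := by simpa [b2] using k.mem_Yv.2 ⟨⟨c, o, hu.1⟩, hw⟩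
    rw [← o_QEq_iff.1 o.val, o_Q_zero, eich_zero]; exact one_mem _

end Cfsg.Agent.TT
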