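import Cfsg.Agent.TT.OA
import Cfsg.Agent.Polar.Std

set_option autoImplicit false

/-! Orthogonal groups of dimension at least seven have no two-transitive action. -/

namespace Cfsg.Agent.TT
open Module Cfsg.Agent.Polar Cfsg.Agent.Polar.PQ Cfsg.Agent.Cl Cfsg.Agent.Stein
open scoped commutatorElement

theorem ar_oo {q M N n : ℕ} (hq : 2 ≤ q) (hM : 2 ≤ M) (hn : 2 ≤ n) (h1 : q * M ∣ n) (h2 : n - 1 ∣ N * (q * M - 1))
    (h3 : n - 1 ∣ N * (M - 1)) (h4 : (q - 1) * N + 1 = (q - 1) * (q * M) + q * M) : n = q * (q * M) := by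
  have h5 : n - 1 ∣ (q * (q * M) - 1) * M := by
    convert Nat.dvd_sub h2 h3 using 1
    have : 1 ≤ q * M := by nlinarith
    have : 1 ≤ q * (q * M) := by nlinarith
    have : N * (M - 1) ≤ N * (q * M - 1) := Nat.mul_le_mul_left _ (Nat.sub_le_sub_right (by nlinarith) _)
    zify [*, show 1 ≤ q by omega, show 1 ≤ M by omega] at h4 ⊢
    linear_combination (-M) * h4
  have h6 : Nat.Coprime (n - 1) M := by
    refine Nat.Coprime.coprime_dvd_right ((Dvd.intro_left _ rfl).trans h1) ?_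
    rw [Nat.coprime_self_sub_left (by omega)]; simp
  obtain ⟨l, hl⟩ := h6.dvd_of_dvd_mul_right h5
  have h7 : 4 ≤ q * M := by nlinarith
  have h8 : 8 ≤ q * (q * M) := by nlinarith
  exact (ar_one (lam := l) (l0 := 1) h1 (Dvd.intro_left _ rfl) hn (by omega) (by rw [one_mul, hl, mul_comm])
    (by omega) one_pos (by nlinarith [Nat.mul_le_mul hM (le_refl (q * (q * M)))])).1

theorem ar_oe {q c M N n s t : ℕ} (hq : 2 ≤ q) (hc : 2 ≤ c) (hn : 2 ≤ n) (h1 : (q * c) ^ 2 ∣ n)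
    (h2 : n - 1 ∣ N * ((q * c) ^ 2 - 1)) (h3 : n - 1 ∣ N * (M - 1)) (hM : 1 ≤ M)
    (h4 : (q - 1) * N + 1 = (q - 1) * (q * c) ^ 2 + q * M) (h5 : q * M + s * (q * c) = (q * c) ^ 2 + t * (q * c))
    (h6 : s = 1 ∧ t = q ∨ s = q ∧ t = 1) : n = (q * c) ^ 2 := by
  have h7 : 4 ≤ q * c := by nlinarith
  have h8 : 1 ≤ (q * c) ^ 2 := by nlinarith
  obtain ⟨l0, e1, e2, e3⟩ : ∃ l0, 0 < l0 ∧ l0 ≤ q * (q * c) + 1 ∧ n - 1 ∣ l0 * ((q * c) ^ 2 - 1) := by
    have h9 := Int.natCast_dvd_natCast.2 h2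
    have h10 := Int.natCast_dvd_natCast.2 h3
    have h11 : 1 < q * (q * c) := by nlinarith
    rcases h6 with ⟨rfl, rfl⟩ | ⟨rfl, rfl⟩
    · refine ⟨t * (t * c) - 1, by omega, by omega, Int.natCast_dvd_natCast.1 ?_⟩
      refine (dvd_sub (h10.mul_left t) h9).trans (dvd_of_eq ?_)
      zify [h8, hM, h11.le, show 1 ≤ t by omega] at h4 h5 ⊢
      linear_combination (t * c - 1) * h4 + ((t * c - 1) + N) * h5
    · refine ⟨s * (s * c) + 1, by omega, by omega, Int.natCast_dvd_natCast.1 ?_⟩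
      refine (dvd_sub h9 (h10.mul_left s)).trans (dvd_of_eq ?_)
      zify [h8, hM, show 1 ≤ s by omega] at h4 h5 ⊢
      linear_combination (s * c + 1) * h4 + ((s * c + 1) - N) * h5
  obtain ⟨l, hl⟩ := e3
  have h12 : l0 < (q * c) ^ 2 := by nlinarith [Nat.mul_le_mul hc (le_refl (q * (q * c)))]
  exact (ar_one (lam := l) h1 dvd_rfl hn h8 (by rw [hl, mul_comm]) h12 e1 (by nlinarith)).1

theorem A2.c_mem {G k : Type*} [Group G] [Finite G] [Field k] [Finite k] (T : A2 k G)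
    (h0 : ∀ s t, T.a s * T.c t = 1 → s = 0 ∧ t = 0) (K : Subgroup G) (hK : K.relIndex T.Y ≤ Nat.card k) (t : k) :
    T.c t ∈ K := by
  by_contra h
  let z : k × k → G := fun v => T.a v.1 * T.c v.2
  have hz : ∀ u v, z (u + v) = z u * z v := fun u v => by
    simp only [z]
    rw [Prod.fst_add, Prod.snd_add, T.a_add, T.c_add, mul_assoc, mul_assoc, ← mul_assoc (T.a v.1), T.ac, mul_assoc]
  let V : Subgroup G := (MonoidHom.mk' (M := Multiplicative (k × k)) (fun v => z v.toAdd) hz).range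
  have hV : Nat.card V = Nat.card k * Nat.card k := by
    rw [← Nat.card_congr (MonoidHom.ofInjective (f := MonoidHom.mk' (M := Multiplicative (k × k))
      (fun v => z v.toAdd) hz) ((injective_iff_map_eq_one _).2 fun v hv => ?_)).toEquiv]
    · rw [Nat.card_congr Multiplicative.toAdd, Nat.card_prod]
    · exact Prod.ext (h0 _ _ hv).1 (h0 _ _ hv).2
  have := heis (Y := T.Y) (V := V) (V0 := rg T.c T.c_add) (Z := rg T.c T.c_add)
    (by rintro _ ⟨v, rfl⟩; exact ⟨0, v.toAdd.1, v.toAdd.2, by rw [add_hom_zero T.b_add, one_mul]; rfl⟩) le_rfl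
    (by rintro _ ⟨t, rfl⟩; exact ⟨Multiplicative.ofAdd (0, t), by
      change T.a 0 * T.c t = _; rw [add_hom_zero T.a_add, one_mul]⟩)
    (by rintro _ ⟨u, rfl⟩ _ ⟨v, rfl⟩; rw [← map_mul, ← map_mul, mul_comm])
    (by rintro _ ⟨s, t, u, rfl⟩ _ ⟨v, rfl⟩; exact ⟨_, (T.comm_eq s t u _ _).symm⟩)
    (by rintro y hy _ ⟨t, rfl⟩; exact T.Y_c hy t)
    (by
      rintro _ ⟨v, rfl⟩ hv _ ⟨t, rfl⟩
      have h2 : v.toAdd.1 ≠ 0 := fun e => hv ⟨v.toAdd.2, by
        change _ = T.a _ * T.c _; rw [e, add_hom_zero T.a_add, one_mul]⟩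
      refine ⟨_, ⟨-t / v.toAdd.1, 0, 0, rfl⟩, (T.comm_eq _ _ _ _ _).trans ?_⟩
      rw [mul_div_cancel₀ _ h2, neg_neg]) K fun h' => h (h' ⟨t, rfl⟩)
  have h1 : Nat.card ↥(rg T.c T.c_add ⊓ K) < Nat.card k := by
    rw [← card_rg T.c_add fun t ht => (h0 0 t (by rw [add_hom_zero T.a_add, ht, one_mul])).2]
    refine lt_of_le_of_ne (Subgroup.card_le_of_le inf_le_left) fun e => h ?_
    exact ((Subgroup.eq_of_le_of_card_ge inf_le_left e.ge).ge (⟨t, rfl⟩ : T.c t ∈ rg T.c T.c_add)).2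
  rw [hV] at this
  exact absurd (this.trans (Nat.mul_le_mul_left _ hK)) (not_le.2 (Nat.mul_lt_mul_of_pos_right h1 Nat.card_pos))

variable {F : Type*} [Field F] {V : Type*} [AddCommGroup V] [Module F V] {P : PQ (oFP F) V}

theorem o_ok {s x : V} (hs : P.Sing s) (h : P.B x s = 0) (r : F) : P.EOk s (r • x) (P.Q (r • x)) :=
  EOk.of_perp hs (by rw [B_smul_left, h, mul_zero])

theorem o_add {s x : V} (hs : P.Sing s) (h : P.B x s = 0) (r r' : F) :
    P.eich s ((r + r') • x) (P.Q ((r + r') • x)) =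
      P.eich s (r • x) (P.Q (r • x)) * P.eich s (r' • x) (P.Q (r' • x)) := by
  rw [(o_ok hs h r).eich_mul (o_ok hs h r'), add_smul, o_Q_add, o_swap]

/-- a Heisenberg group of Eichler transformations -/
noncomputable def oA2 {s s' t t' x u : V} (h : Hyp2 P s s' t t') (hx : x ∈ h.W) (hu : u ∈ h.W) (h1 : P.B u x = 1) :
    A2 F P.Iso :=
  have xs : P.B x s = 0 := (mem_perp_pair.1 hx.1).1
  have xt : P.B x t = 0 := (mem_perp_pair.1 hx.2).1
  have us : P.B u s = 0 := (mem_perp_pair.1 hu.1).1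
  have ut : P.B u t = 0 := (mem_perp_pair.1 hu.2).1
  have ac : ∀ a b : F, Commute (P.eich s (a • x) (P.Q (a • x))) (P.eich s (b • t) 0) := fun a b =>
    commute_eich_eich (o_ok h.h1.left xs a) (eOk_smul h.ok b) h.h1.left.B_self (by simp [B_swap_zero xs])
      (by simp [h.we]) (by simp [B_swap_zero xt])
  have bc : ∀ a b : F, Commute (P.eich t (a • u) (P.Q (a • u))) (P.eich s (b • t) 0) := fun a b =>
    commute_eich_eich (o_ok h.h2.left ut a) (eOk_smul h.ok b) (B_swap_zero h.we) (by simp [B_swap_zero us])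
      (by simp [h.h2.left.B_self]) (by simp [B_swap_zero ut])
  { a r := P.eich s (r • x) (P.Q (r • x))
    b r := P.eich t (r • u) (P.Q (r • u))
    c r := P.eich s (r • t) 0
    a_add := o_add h.h1.left xs
    b_add := o_add h.h2.left ut
    c_add := eich_long_add h.ok
    ab a b := by
      have := comm_Ae h.ok (o_ok h.h1.left xs a) (by simp [xt]) (o_ok h.h2.left ut b) (by simp [us])
      rw [B_smul_left, B_smul_right, h1, mul_one, RingHom.id_apply, RingHom.id_apply, mul_comm b] at this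
      rw [← ((bc b _).mul_left (ac a _)).eq.symm, ← this, commutatorElement_def]; group
    ac a b := (ac a b).eq
    bc a b := (bc a b).eq }

theorem oA2_inj {s s' t t' x u : V} (h : Hyp2 P s s' t t') (hx : x ∈ h.W) (hu : u ∈ h.W) (h1 : P.B u x = 1)
    (a b : F) (e : (oA2 h hx hu h1).a a * (oA2 h hx hu h1).c b = 1) : a = 0 ∧ b = 0 := by
  have o := o_ok h.h1.left ((mem_perp_pair.1 hx.1).1) a
  change P.eich s _ _ * P.eich s _ _ = 1 at e
  rw [o.eich_mul (eOk_smul h.ok b), ← eich_zero (P := P) s] at e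
  have e1 := (h.h1.eich_inj (o.add (eOk_smul h.ok b)) (by simp [h.we', (mem_perp_pair.1 hx.1).2]) (EOk.zero h.h1.left)
    (by simp) e).1
  have e2 := congrArg (P.B u) e1
  have e3 := congrArg (P.B · t') e1
  simp [h1, (mem_perp_pair.1 hu.2).1, (mem_perp_pair.1 hx.2).2, h.h2.pair] at e2 e3
  exact ⟨e2, e3⟩

variable [Finite F] [Finite V] {Ω : Type*} [MulAction P.EG Ω] [Finite Ω]

theorem exists_oA2 (hP : P.ND) (h7 : 7 ≤ finrank F V) {e f s s' t t' : V} (h : Hyp3 P e f s s' t t') :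
    ∃ T : A2 F P.Iso, (∀ a b, T.a a * T.c b = 1 → a = 0 ∧ b = 0) ∧ T.Y ≤ P.Lv e f ∧
      ∀ r, T.c r = P.eich s (r • t) 0 := by
  haveI : FiniteDimensional F V := Module.Finite.of_finite
  obtain ⟨u, hu, x, hx, h1⟩ := ((h.nds hP).np' (by have := h.finrank_W; omega)).exists_eq 1
  have hs : s ∈ P.perp {e, f} := mem_perp_pair.2 ⟨h.ew.we, h.ew.we'⟩
  refine ⟨oA2 h.wv ⟨hx.1.2, hx.2⟩ ⟨hu.1.2, hu.2⟩ h1, oA2_inj _ _ _ _, ?_, fun _ => rfl⟩
  rintro _ ⟨a, b, c, rfl⟩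
  exact mul_mem (mul_mem (eich_mem_Lv h.v_mem.1 (Submodule.smul_mem _ _ hu.1.1)
    (o_ok h.wv.h2.left (mem_perp_pair.1 hu.2).1 _)) (eich_mem_Lv hs (Submodule.smul_mem _ _ hx.1.1)
    (o_ok h.wv.h1.left (mem_perp_pair.1 hx.1.2).1 _)))
    (eich_mem_Lv hs (Submodule.smul_mem _ _ h.v_mem.1) (eOk_smul h.wv.ok _))

theorem o_nontriv (hP : P.ND) (h7 : 7 ≤ finrank F V) {G : Type*} [Group G] (φ : G ≃* P.EG) :
    Nontrivial (G ⧸ Subgroup.center G) := by
  haveI : FiniteDimensional F V := Module.Finite.of_finite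
  obtain ⟨e, h0, he⟩ := o_exists_sing P (by omega)
  obtain ⟨f, h⟩ := hP.exists_hyp he h0
  obtain ⟨v, v', h2⟩ := exists_hyp2 hP o_hr (by omega) h
  obtain ⟨w, w', h3⟩ := exists_hyp3 hP o_hr (by omega) h2
  obtain ⟨T, h4, h5, -⟩ := exists_oA2 hP h7 h3
  refine QuotientGroup.nontrivial_iff.2 fun hc => mul_ne_zero one_ne_zero one_ne_zero (h4 0 (1 * 1) ?_).2
  have h6 : T.a 1 ∈ P.EG := (mem_Lv.1 (h5 ⟨0, 1, 0, by
    rw [add_hom_zero T.b_add, add_hom_zero T.c_add, one_mul, mul_one]⟩)).2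
  have h7 : T.b 1 ∈ P.EG := (mem_Lv.1 (h5 ⟨1, 0, 0, by
    rw [add_hom_zero T.a_add, add_hom_zero T.c_add, mul_one, mul_one]⟩)).2
  have h8 := congrArg (fun g => (φ g).1) (Subgroup.mem_center_iff.1 (hc ▸ Subgroup.mem_top (φ.symm ⟨_, h6⟩))
    (φ.symm ⟨_, h7⟩))
  simp only [map_mul, MulEquiv.apply_symm_apply, Subgroup.coe_mul] at h8
  rw [add_hom_zero T.a_add, one_mul, ← mul_right_inj (T.b 1 * T.a 1), ← T.ab, h8, mul_one]

theorem o_dvd (h : T2 P.EG Ω) {e f : V} (k : P.Hyp e f) (sr : ∀ x : Ω, stI P x ⊓ P.U e = ⊥) (S : Set P.Iso)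
    (hS : S ⊆ P.U e) (h1 : 1 ∈ S) (hc : ∀ g ∈ P.pst e, ∀ a ∈ S, g * a * g⁻¹ ∈ S) :
    Nat.card Ω - 1 ∣ (P.pst e).relIndex P.EG * (S.ncard - 1) := by
  rw [← Set.ncard_preimage_of_injective_subset_range (f := P.EG.subtype) Subtype.val_injective
    fun a ha => ⟨⟨a, k.U_le_EG (hS ha)⟩, rfl⟩]
  refine h.dvd _ ((P.pst e).subgroupOf P.EG) (fun g hg a ha => hc _ hg _ ha) 1 fun x => ?_
  refine Set.ncard_eq_one.2 ⟨1, Set.eq_singleton_iff_unique_mem.2 ⟨⟨h1, one_smul _ _⟩, fun a ha => ?_⟩⟩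
  exact Subtype.ext (Subgroup.mem_bot.1 (sr x ▸ ⟨mem_stI.2 ha.2, hS ha.1⟩))

omit [Finite Ω] in
theorem o_card_U {e f : V} (k : P.Hyp e f) : Nat.card (P.U e) = Nat.card F ^ (finrank F V - 2) := by
  rw [k.card_U, k.card_perp, card_oLam, mul_one]

omit [Finite Ω] in
theorem o_rel_U {e f : V} (k : P.Hyp e f) {x : Ω} (sr : stI P x ⊓ P.U e = ⊥) :
    (stI P x).relIndex (P.U e) = Nat.card F ^ (finrank F V - 2) := by
  rw [← o_card_U k, ← relIndex_mul_card (stI P x), sr, Subgroup.card_bot, mul_one]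

theorem o_count (hP : P.ND) (h7 : 7 ≤ finrank F V) (h : T2 P.EG Ω) {e f : V} (k : P.Hyp e f)
    (sr : ∀ x : Ω, stI P x ⊓ P.U e = ⊥) : ∃ N, Nat.card F ^ (finrank F V - 2) ∣ Nat.card Ω ∧
      Nat.card Ω - 1 ∣ N * (Nat.card F ^ (finrank F V - 2) - 1) ∧
      Nat.card Ω - 1 ∣ N * ((P.res (P.perp {e, f})).nq 0 - 1) ∧
      (Nat.card F - 1) * N + 1 = (Nat.card F - 1) * Nat.card F ^ (finrank F V - 2) +
        Nat.card F * (P.res (P.perp {e, f})).nq 0 := by
  obtain ⟨p, hp⟩ := CharP.exists F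
  haveI : Fact p.Prime := ⟨CharP.char_is_prime F p⟩
  refine ⟨(P.pst e).relIndex P.EG, ?_, ?_, ?_, ?_⟩
  · obtain ⟨j, -, hj⟩ := Chev.Sys.exists_card_pow F p
    rw [hj, ← pow_mul]
    refine pow_dvd_card (Y := (P.U e).subgroupOf P.EG) (isPGroup_Ue k).comap_subtype fun x => ?_
    rw [← relIndex_stI x _ k.U_le_EG, o_rel_U k (sr x), hj, pow_mul]
  · rw [← o_card_U k]
    exact o_dvd h k sr _ subset_rfl (one_mem _) fun g hg a ha => conj_mem_U_of_pst hg ha
  · convert o_dvd h k sr {u | ∃ s, P.EOk e s 0 ∧ u = P.eich e s 0} (by rintro _ ⟨s, -, rfl⟩; exact eich_mem_U ..)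
      ⟨0, EOk.zero k.left, (eich_zero e).symm⟩ (by
        rintro g ⟨t, ht, hg⟩ _ ⟨s, o, rfl⟩
        obtain ⟨o', e1⟩ := conj_eich_pst o ht hg
        rw [mul_zero] at o' e1
        exact ⟨_, o', e1⟩) using 3
    have ok : ∀ w : P.perp {e, f}, (P.res _).QEq w 0 → P.EOk e w 0 := fun w hw =>
      ⟨k.left, (mem_perp_pair.1 w.2).1, hw⟩
    refine (nq_eq_ncard 0).trans (Set.ncard_congr (fun w _ => P.eich e w 0) (fun w hw => ⟨_, ok w hw, rfl⟩)
      (fun w w' hw hw' e1 => Subtype.ext (k.eich_inj (ok w hw) (mem_perp_pair.1 w.2).2 (ok w' hw')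
        (mem_perp_pair.1 w'.2).2 e1).1) ?_)
    rintro _ ⟨s, o, rfl⟩
    obtain ⟨c, o', e1⟩ := exists_eich_perp f o
    have := (o'.add_smul_e (P.B s f)).val
    rw [← Hyp.eq_of_perp o.perp] at this
    obtain rfl : c = 0 := by simpa using this.sub_mem o.val
    exact ⟨⟨_, k.hproj_mem s⟩, o'.val, e1.symm⟩
  · rw [o_sing_index hP (by omega) k.left k.left_ne_zero, k.nq_rec, card_oLam, mul_one]

omit [Finite F] in
theorem rel_stI (h : T2 P.EG Ω) (x : Ω) : (stI P x).relIndex P.EG = Nat.card Ω := by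
  rw [relIndex_stI x _ le_rfl, Subgroup.subgroupOf_self, Subgroup.relIndex_top_right, h.index_stab]

theorem o_even (hP : P.ND) {m : ℕ} (hd : finrank F V = 2 * (m + 4)) (h : T2 P.EG Ω) : False := by
  obtain ⟨e, f, k, ht⟩ := exists_FT hP (by omega) h
  obtain ⟨N, h1, h2, h3, h4⟩ := o_count hP (by omega) h k (ht.semireg hP (by omega) h k)
  have hq : 2 ≤ Nat.card F := Finite.one_lt_card
  have hW := k.finrank_perp
  have hM := ncard_sing0_add_one (P := P.res (P.perp {e, f}))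
  have e1 : Nat.card F ^ (finrank F V - 2) = (Nat.card F * Nat.card F ^ (m + 2)) ^ 2 := by
    rw [hd, show 2 * (m + 4) - 2 = (m + 3) * 2 by omega, pow_mul, pow_succ' _ (m + 2)]
  rw [e1] at h1 h2 h4
  have hn : Nat.card Ω = (Nat.card F * Nat.card F ^ (m + 2)) ^ 2 := by
    have hc : 2 ≤ Nat.card F ^ (m + 2) := hq.trans (Nat.le_self_pow (by omega) _)
    by_cases hs : (P.res (P.perp {e, f})).Spl (m + 3)
    · have := (o_count_plus (m + 3) _ _ (k.emb.nd hP) (by omega) hs).1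
      rw [pow_succ'] at this
      exact ar_oe hq hc h.two_le h1 h2 h3 (by omega) h4 this (Or.inl ⟨rfl, rfl⟩)
    · have := (o_count_minus (m + 3) _ _ (k.emb.nd hP) (by omega) hs).1
      rw [pow_succ'] at this
      exact ar_oe hq hc h.two_le h1 h2 h3 (by omega) h4 this (Or.inr ⟨rfl, rfl⟩)
  obtain ⟨x, -⟩ := h.nt
  have e2 : Nat.card Ω = Nat.card F * (Nat.card F ^ 2 * Nat.card F ^ (2 * m + 3)) := by rw [hn]; ring
  have e3 : 0 < Nat.card F ^ (2 * m + 3) := by positivity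
  rcases o_fix hP (k := 2 * m + 3) (by omega) (by omega) (H := stI P x)
    (fun hH => h.stab_ne_top x (eq_top_iff.2 fun g _ => mem_stI.1 (hH g.2)))
    (by rw [rel_stI h, e2]; exact Nat.mul_lt_mul_of_pos_right (by omega) (by positivity))
    (fun _ _ _ => by rw [rel_stI h, e2, ← mul_assoc]; exact Nat.mul_lt_mul_of_pos_right (by nlinarith) e3)
    with ⟨v, hv, hH⟩ | hH
  · have h5 := Subgroup.relIndex_dvd_of_le_left P.EG hH
    rw [rel_stI h, hn, ← pow_succ', ← pow_mul] at h5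
    have h6 := o_nonsing_index hP (by omega) hv
    have h7 : {t : F | t * t = 1}.ncard ∣ 2 := by
      by_cases h2 : (2 : F) = 0
      · rw [ncard_sq_one' h2]; exact one_dvd _
      · rw [ncard_sq_one h2]
    have h8 : 16 ≤ Nat.card F ^ (m + 4) :=
      (show 2 ^ 4 ≤ _ from Nat.pow_le_pow_right two_pos (by omega)).trans (Nat.pow_le_pow_left hq _)
    have key : ∀ c, Nat.Coprime c (Nat.card F ^ (m + 4)) → c ∣ Nat.card F * P.nq (P.Q v) → c ≤ 2 := fun c h9 h10 => by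
      have h11 := (Nat.coprime_pow_right_iff (by omega) _ _).1 h9
      rw [h6] at h10
      exact Nat.le_of_dvd two_pos ((((h11.pow_right _).coprime_dvd_right h5).dvd_of_dvd_mul_left
        (h11.dvd_of_dvd_mul_left h10)).trans h7)
    have h9 := mt o_sing_iff.2 hv
    by_cases hs : P.Spl (m + 4)
    · have := (o_count_plus (m + 4) _ _ hP hd hs).2 _ h9
      have := key (Nat.card F ^ (m + 4) - 1) (by rw [Nat.coprime_self_sub_left (by omega)]; simp)
        ⟨Nat.card F ^ (m + 4), by zify [show 1 ≤ Nat.card F ^ (m + 4) by omega] at this ⊢; linear_combination this⟩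
      omega
    · have := (o_count_minus (m + 4) _ _ hP hd hs).2 _ h9
      have := key (Nat.card F ^ (m + 4) + 1) (Nat.coprime_self_add_left.2 (Nat.coprime_one_left _))
        ⟨Nat.card F ^ (m + 4), by linear_combination this⟩
      omega
  · have h5 := ncard_sing0_add_one (P := P)
    rw [k.nq_rec, card_oLam, mul_one, e1, ← hn] at h5
    rw [rel_stI h] at hH
    nlinarith

theorem ext_le_Kc (hP : P.ND) (h7 : 7 ≤ finrank F V) {e f : V} (k : P.Hyp e f) {H : Subgroup P.Iso}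
    (hH : (P.Kc H e).relIndex (P.Gam e) ≤ Nat.card F) {g : (P.res (P.perp {e, f})).Iso}
    (hg : g ∈ (P.res (P.perp {e, f})).EG) : k.emb.ext g ∈ P.Kc H e := by
  haveI : FiniteDimensional F V := Module.Finite.of_finite
  rw [← o_LG_eq_EG (k.emb.nd hP) (by have := k.finrank_perp; omega)] at hg
  refine LG_le (H := (P.Kc H e).comap k.emb.ext) (fun s t o => ?_) hg
  rw [Subgroup.mem_comap, k.emb.ext_eich o]
  have o' := k.emb.eOk_i o
  rw [k.emb_i, k.emb_i] at o' ⊢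
  by_cases h0 : (s : V) = 0
  · have := (eOk_swap o').eich_swap
    rw [this, h0, smul_zero, neg_zero, eich_zero]; exact one_mem _
  obtain ⟨s', hs', k'⟩ := k.exists_hyp_perp hP s.2 h0 o'.sing
  have k2 : Hyp2 P e f s s' := ⟨k, k', (mem_perp_pair.1 s.2).1, (mem_perp_pair.1 s.2).2, (mem_perp_pair.1 hs').1,
    (mem_perp_pair.1 hs').2⟩
  obtain ⟨c, o2, e1⟩ := exists_eich_perp s' o'
  have h1 := (o2.add_smul_e (P.B t s')).val
  rw [← Hyp.eq_of_perp o'.perp] at h1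
  obtain rfl : c = 0 := by simpa using h1.sub_mem o'.val
  have h2 : P.hproj s s' t ∈ k2.W := by
    have := k2.proj_mem t
    rwa [hproj_of_mem t.2] at this
  rw [e1]
  generalize P.hproj s s' t = w at h2 o2
  by_cases h3 : w = 0
  · rw [h3, eich_zero]; exact one_mem _
  obtain ⟨w', h4, k3⟩ := (k2.nds hP).exists_hyp h2 h3 o2.val
  obtain ⟨T, h5, h6, h8⟩ := exists_oA2 hP h7 (⟨k2, ⟨k, k3, (mem_perp_pair.1 h2.1).1, (mem_perp_pair.1 h2.1).2,
    (mem_perp_pair.1 h4.1).1, (mem_perp_pair.1 h4.1).2⟩, ⟨k', k3, (mem_perp_pair.1 h2.2).1, (mem_perp_pair.1 h2.2).2,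
    (mem_perp_pair.1 h4.2).1, (mem_perp_pair.1 h4.2).2⟩⟩ : Hyp3 P e f s s' w w')
  have := T.c_mem h5 _ ((relIndex_mono_right _ (h6.trans (Lv_le_Gam e f))).trans hH) 1
  rwa [h8, one_smul] at this

theorem pow_mem_Kc (hP : P.ND) (h7 : 7 ≤ finrank F V) {e f : V} (k : P.Hyp e f) {H : Subgroup P.Iso}
    (hH : (P.Kc H e).relIndex (P.Gam e) ≤ Nat.card F) {g : P.Iso} (hg : g ∈ P.Gam e) :
    g ^ ((Nat.card F - 1) * 2) ∈ P.Kc H e := by
  haveI : FiniteDimensional F V := Module.Finite.of_finite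
  have := Fintype.ofFinite F
  obtain ⟨⟨t, ht, e1⟩, -⟩ := hg
  have h1 : ∀ n : ℕ, g ^ n • e = t ^ n • e := fun n => by
    induction n with
    | zero => simp
    | succ n ih => rw [pow_succ, mul_smul, e1, act_smul, ih, smul_smul, pow_succ']
  have h2 := h1 (Nat.card F - 1)
  rw [Nat.card_eq_fintype_card (α := F), FiniteField.pow_card_sub_one_eq_one t ht, one_smul,
    ← Nat.card_eq_fintype_card] at h2
  rw [pow_mul]
  generalize g ^ (Nat.card F - 1) = g at h2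
  have h3 : P.B f e = P.B (g • f) e := by rw [← B_smul_smul g f e, h2]
  obtain ⟨u, hu, e2⟩ := exists_U_smul k.left (by rw [← h3, k.pair']; exact one_ne_zero) h3 (k.right.act g) k.right
  obtain ⟨l, hl⟩ := k.mem_range_ext hP (g := u * g) (by rw [mul_smul, h2, hu.1]) (by rw [mul_smul, e2])
  have h4 : P.U e ≤ P.Kc H e := le_cov _ _ _
  have h5 := ext_le_Kc hP h7 k hH (o_sq_mem_EG (k.emb.nd hP) (by have := k.finrank_perp; omega) l)
  rw [map_pow, hl] at h5
  convert mul_mem (h4 (inv_mem (mul_mem hu (conj_mem_U_of_pst (mem_pst_of_fix h2) hu)))) h5 using 1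
  rw [sq, sq]; group

theorem o_odd (hP : P.ND) {m : ℕ} (hd : finrank F V = 2 * (m + 3) + 1) (h2 : (2 : F) ≠ 0) (h : T2 P.EG Ω) :
    False := by
  obtain ⟨e, f, k, ht⟩ := exists_FT hP (by omega) h
  have sr := ht.semireg hP (by omega) h k
  obtain ⟨N, h1, h3, h4, h5⟩ := o_count hP (by omega) h k sr
  have hq : 2 ≤ Nat.card F := Finite.one_lt_card
  have hW := k.finrank_perp
  have e1 : Nat.card F ^ (finrank F V - 2) = Nat.card F * (P.res (P.perp {e, f})).nq 0 := by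
    rw [(o_count_odd (m + 2) _ _ (k.emb.nd hP) (by omega)).1, hd, show 2 * (m + 3) + 1 - 2 = (m + 2) * 2 + 1 by omega]
    ring
  have e2 : 2 ≤ (P.res (P.perp {e, f})).nq 0 := by
    rw [(o_count_odd (m + 2) _ _ (k.emb.nd hP) (by omega)).1, ← pow_mul]
    exact hq.trans (Nat.le_self_pow (by omega) _)
  rw [e1] at h1 h3 h5
  have hn := ar_oo hq e2 h.two_le h1 h3 h4 h5
  obtain ⟨x, -⟩ := h.nt
  obtain ⟨s, hs⟩ := o_hr (P := P) (P.perp {e, f}) (by omega)
  have h6 := k.relIndex_Gam (stI P x)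
  have : MulAction.IsPretransitive ((P.Gam e).subgroupOf P.EG) Ω := ⟨fun y z => by
    obtain ⟨g, t, -, -, t0, -, a, -, b⟩ := ht y z s hs s hs
    exact ⟨⟨g, ⟨t, t0, a⟩, g.2⟩, b⟩⟩
  rw [relIndex_stI x _ (Gam_le_EG e), o_rel_U k (sr x), e1] at h6
  have h7 : (P.Kc (stI P x) e).relIndex (P.Gam e) = Nat.card F := Nat.eq_of_mul_eq_mul_right (by positivity)
    (h6.symm.trans ((MulAction.index_stabilizer_of_transitive ((P.Gam e).subgroupOf P.EG) x).trans hn))
  obtain ⟨p, hp⟩ := CharP.exists F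
  haveI : Fact p.Prime := ⟨CharP.char_is_prime F p⟩
  obtain ⟨j, j0, hj⟩ := Chev.Sys.exists_card_pow F p
  obtain ⟨S⟩ : Nonempty (Sylow p (P.Gam e)) := inferInstance
  have hpq : p ∣ Nat.card F := hj ▸ dvd_pow_self p j0.ne'
  refine S.not_dvd_index ((hpq.trans h7.symm.dvd).trans
    (Subgroup.index_dvd_of_le (K := (P.Kc (stI P x) e).subgroupOf (P.Gam e)) fun g hg => ?_))
  obtain ⟨i, hi⟩ := S.isPGroup'.exists_card_eq
  have h8 : Nat.Coprime ((Nat.card F - 1) * 2) (orderOf g) := by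
    refine Nat.Coprime.coprime_dvd_right (hi ▸ Subgroup.orderOf_dvd_natCard _ hg) (Nat.Coprime.pow_right _ ?_)
    refine Nat.Coprime.mul_left (Nat.Coprime.coprime_dvd_right hpq ?_)
      ((Nat.coprime_primes Nat.prime_two Fact.out).2 fun e => h2 (by subst e; exact CharP.cast_eq_zero F 2))
    rw [Nat.coprime_self_sub_left (by omega)]; simp
  obtain ⟨r, hr⟩ := exists_pow_eq_self_of_coprime h8
  rw [← hr]
  exact pow_mem (Subgroup.mem_subgroupOf.2 (pow_mem_Kc hP (by omega) k h7.le g.2)) r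

omit [Finite Ω] [MulAction P.EG Ω] in
theorem o_T2 (hP : P.ND) (h7 : 7 ≤ finrank F V) {G L : Type*} [Group G] [Group L] [MulAction G Ω] [FaithfulSMul G Ω]
    (φ : L ≃* P.EG) (ψ : G ≃* L ⧸ Subgroup.center L) (h2 : MulAction.IsMultiplyPretransitive G Ω 2) :
    ∃ _ : MulAction P.EG Ω, T2 P.EG Ω := by
  have := o_nontriv hP h7 φ
  have := ψ.toEquiv.nontrivial
  exact ⟨_, (T2.of_faithful h2).comp ((ψ.symm.toMonoidHom.comp (QuotientGroup.mk' _)).comp φ.symm.toMonoidHom)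
    ((ψ.symm.surjective.comp (QuotientGroup.mk'_surjective _)).comp φ.symm.surjective)⟩

section fam
open Cfsg.Agent.Forms
variable {G Ω : Type*} [Group G] [Finite G] [MulAction G Ω] [FaithfulSMul G Ω] [Finite Ω] {p : ℕ} [Fact p.Prime]

theorem fam_POdd (hG : IsPOmegaOddChar p G) (h2 : MulAction.IsMultiplyPretransitive G Ω 2) :
    Concl G (Nat.card Ω) := by
  obtain ⟨F, _, _, _, m, hm, hq, ⟨e⟩⟩ := hG
  obtain ⟨m, rfl⟩ := Nat.exists_eq_add_of_le' hm
  have h3 : (2 : F) ≠ 0 := two_ne_zero_of_odd (by rwa [Nat.card_eq_fintype_card])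
  have hQ := QOdd_nondegenerate (F := F) (m + 3) h3
  obtain ⟨_, h⟩ := o_T2 (ofQuad_nd hQ) (by simp; omega) (omegaEquiv hQ (by simp; omega)) e h2
  exact (o_odd (m := m) (ofQuad_nd hQ) (by simp; omega) h3 h).elim

theorem fam_PPlus (hG : IsPOmegaPlusChar p G) (h2 : MulAction.IsMultiplyPretransitive G Ω 2) :
    Concl G (Nat.card Ω) := by
  obtain ⟨F, _, _, _, m, hm, ⟨e⟩⟩ := hG
  obtain ⟨m, rfl⟩ := Nat.exists_eq_add_of_le' hm
  have hQ := QPlus_nondegenerate (F := F) (m + 4)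
  obtain ⟨_, h⟩ := o_T2 (ofQuad_nd hQ) (by simp; omega) (omegaEquiv hQ (by simp; omega)) e h2
  exact (o_even (m := m) (ofQuad_nd hQ) (by simp; omega) h).elim

theorem fam_PMinus (hG : IsPOmegaMinusChar p G) (h2 : MulAction.IsMultiplyPretransitive G Ω 2) :
    Concl G (Nat.card Ω) := by
  obtain ⟨F, _, _, _, m, a, b, hm, hab, ⟨e⟩⟩ := hG
  obtain ⟨m, rfl⟩ := Nat.exists_eq_add_of_le' hm
  have hQ := QMinus_nondegenerate (F := F) (m + 4 - 1) hab
  obtain ⟨_, h⟩ := o_T2 (ofQuad_nd hQ) (by simp; omega) (omegaEquiv hQ (by simp; omega)) e h2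
  exact (o_even (m := m) (ofQuad_nd hQ) (by simp; omega) h).elim

end fam

end Cfsg.Agent.TT
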