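import Cfsg.Agent.TT.LD2
import Cfsg.Agent.Chev.Over2
import Cfsg.Agent.Polar.Idx
/-!
# Transitive unipotent radicals
-/
set_option autoImplicit false
set_option linter.unusedSectionVars false

namespace Cfsg.Agent.TT
open Cfsg Cfsg.Lie Cfsg.Agent.Chev Cfsg.Agent.Tw Cfsg.Agent.Stein Cfsg.Agent.Forms Equiv MulAction
open scoped commutatorElement

section
variable {G : Type*} (Ω : Type*) [Group G] [MulAction G Ω]

/-- elements preserving every orbit of `B` -/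
def OK (B : Subgroup G) : Subgroup G where
  carrier := {g | ∀ z : Ω, ∃ w ∈ B, g • z = w • z}
  mul_mem' := fun {a b} ha hb z => by
    obtain ⟨w, hw, e⟩ := hb z
    obtain ⟨w', hw', e'⟩ := ha (b • z)
    exact ⟨w' * w, mul_mem hw' hw, by rw [mul_smul, e', e, mul_smul]⟩
  one_mem' z := ⟨1, one_mem _, rfl⟩
  inv_mem' := fun {a} ha z => by
    obtain ⟨w, hw, e⟩ := ha (a⁻¹ • z)
    exact ⟨w⁻¹, inv_mem hw, by rw [eq_inv_smul_iff, ← e, smul_inv_smul]⟩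

theorem le_OK (B : Subgroup G) : B ≤ OK Ω B := fun g hg _ => ⟨g, hg, rfl⟩

variable {Ω}

theorem OK_conj {B : Subgroup G} {a g : G} (ha : ∀ w ∈ B, a * w * a⁻¹ ∈ B) (hg : g ∈ OK Ω B) :
    a * g * a⁻¹ ∈ OK Ω B := fun z => by
  obtain ⟨w, hw, e⟩ := hg (a⁻¹ • z)
  exact ⟨_, ha w hw, by simp only [mul_smul, e]⟩

theorem mem_OK {A B : Subgroup G} (ht : ∀ x y : Ω, ∃ a ∈ A, a • x = y) (hA : ∀ a ∈ A, ∀ w ∈ B, a * w * a⁻¹ ∈ B)
    {g : G} (hg : ∀ a ∈ A, ⁅a, g⁆ ∈ B) {y : Ω} {w : G} (hw : w ∈ B) (e : g • y = w • y) : g ∈ OK Ω B := fun z => by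
  obtain ⟨a, ha, rfl⟩ := ht y z
  exact ⟨_, hA a ha _ (mul_mem (hg _ (inv_mem ha)) hw), by
    simp only [commutatorElement_def, mul_smul, inv_smul_smul, ← e, inv_inv, smul_inv_smul]⟩

theorem orb_card (K : Subgroup G) (x : Ω) :
    (stabilizer G x).relIndex K = ((fun g => g • x) '' (K : Set G)).ncard :=
  Polar.relIndex_eq_ncard _ _ _ fun g _ k _ => by rw [mem_stabilizer_iff, mul_smul, inv_smul_eq_iff, eq_comm]

variable [Finite Ω]

theorem trans_of_le {K : Subgroup G} (h : ∀ x : Ω, Nat.card Ω ≤ (stabilizer G x).relIndex K) (x y : Ω) :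
    ∃ a ∈ K, a • x = y := by
  have := Set.eq_of_subset_of_ncard_le (Set.subset_univ ((fun g => g • x) '' (K : Set G)))
    (by rw [← orb_card, Set.ncard_univ]; exact h x)
  exact this.ge (Set.mem_univ y)

theorem exists_ne_orb {α : Type*} [Finite α] (z : α → G) (K : Subgroup G) (x : Ω)
    (h : Nat.card Ω < Nat.card α * (stabilizer G x).relIndex K) :
    ∃ s t, s ≠ t ∧ ∃ y : Ω, ∃ w ∈ K, ((z s)⁻¹ * z t) • y = w • y := by
  rw [orb_card, ← Nat.card_coe_set_eq, ← Nat.card_prod] at h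
  obtain ⟨⟨t, _, a, ha, rfl⟩, ⟨s, _, b, hb, rfl⟩, e, h1⟩ := Function.not_injective_iff.1 fun e =>
    h.not_ge (Nat.card_le_card_of_injective (fun v : α × ((fun g => g • x) '' (K : Set G)) => z v.1 • v.2.1) e)
  refine ⟨s, t, fun e' => h1 ?_, a • x, b * a⁻¹, mul_mem hb (inv_mem ha), ?_⟩
  · subst e'
    exact Prod.ext rfl (Subtype.ext (smul_left_cancel _ e))
  · rw [mul_smul, mul_smul, inv_smul_smul, inv_smul_eq_iff]; exact e

end

variable {D : ChevalleyDatum} {C : Cert D} {F : Type*} [Field F] {G : Type*} [Group G] {S : Sys C F G}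

theorem cd_comm_mul (f : (Nd D → ℤ) →ₗ[ℤ] ℤ) {k : ℤ} (hk : 0 < k) {δ : Rt D} (hδ : f (C.rc δ) = k + 1) {a b v : G}
    (ha : a ∈ S.U {r | 1 ≤ f (C.rc r)}) (hb : b ∈ S.U {r | 1 ≤ f (C.rc r)}) (hv : v ∈ S.U {r | k ≤ f (C.rc r)}) :
    S.cd δ ⁅a * b, v⁆ = S.cd δ ⁅a, v⁆ + S.cd δ ⁅b, v⁆ := by
  have h1 := TwM.comm_ge S f zero_le_one hk ha hv
  have h2 := TwM.comm_ge S f zero_le_one hk hb hv
  rw [commutatorElement_mul_left_eq_conj_mul, S.cd_mul (f := f) (k := k + 1) (by omega) (fun r hr => hr) (by omega)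
    (S.conj_ge f (by omega) (Subgroup.mem_sup_left (S.U_mono (fun r (hr : 1 ≤ f _) => show 0 ≤ f _ by omega) ha)) h2)
    h1, S.cd_conj_ge f zero_le_one (by omega) ha h2 (by omega) (by omega), add_comm]

theorem cd_comm_smul (f : (Nd D → ℤ) →ₗ[ℤ] ℤ) {k : ℤ} (hk : 0 < k) {γ δ : Rt D} (hγ : f (C.rc γ) = 1)
    (hδ : f (C.rc δ) = k + 1) (c : F) {v : G} (hv : v ∈ S.U {r | k ≤ f (C.rc r)}) :
    S.cd δ ⁅S.x γ c, v⁆ = c * S.cd δ ⁅S.x γ 1, v⁆ := by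
  rw [commutatorElement_def, commutatorElement_def, S.cd_comm_x f hk (by omega) (by omega) c hv,
    S.cd_comm_x f hk (by omega) (by omega) 1 hv, Finset.mul_sum]
  exact Finset.sum_congr rfl fun β _ => by split_ifs <;> ring

namespace LD
variable {k : Type*} [Field k] {R : LD S k}

theorem P_Q {g u : R.K} (hg : g ∈ R.P) (hu : u ∈ R.Q) : g * u * g⁻¹ ∈ R.Q := by
  have := S.P_conj_UJ hg ((UJ_Jt (S := S)).ge hu)
  rwa [UJ_Jt] at this

theorem P_Z {g u : R.K} (hg : g ∈ R.P) (hu : u ∈ R.Z) : g * u * g⁻¹ ∈ R.Z := by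
  obtain ⟨t, rfl⟩ := hu
  obtain ⟨d, -, h⟩ := R.P_conj hg
  exact ⟨_, (h t).symm⟩

theorem not_mem_Z {u : R.K} {r : Rt D} (hr : r ≠ C.top) (h : S.cd r u ≠ 0) : u ∉ R.Z := by
  rintro ⟨t, rfl⟩
  exact h (S.cd_x_ne hr.symm _)

variable [Finite G] [Finite F] [Finite k] {Ω : Type*} [Finite Ω] [MulAction R.K Ω]

/-- the radical of the long root parabolic is not transitive -/
theorem qt_false (nf : R.rat_top.NF Ω) (ht : ∀ x y : Ω, ∃ a ∈ R.Q, a • x = y) (x : Ω)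
    (hn : Nat.card Ω < Nat.card R.Q) (f : (Nd D → ℤ) →ₗ[ℤ] ℤ) (hf : ∀ r, 1 ≤ f (C.rc r) ↔ C.Pos r) {β b : Rt D} {ε : k}
    (h : Tri S β b C.top (R.ι ε)) (hβ : R.Rat β) (hb : R.Rat b) (nβ : hβ.NF Ω) (h1 : C.Pos β)
    (hm : ∀ r, f (C.rc β) ≤ f (C.rc r) → r = β ∨ r = C.top)
    (step : ∀ r, r ∈ Qt C → f (C.rc r) < f (C.rc β) → ∀ v : R.K, (v : G) ∈ S.U {s | f (C.rc r) ≤ f (C.rc s)} →
      v ∈ R.Q → S.cd r v ≠ 0 → ∃ u ∈ R.U, ⁅u, v⁆ ∉ R.Z) : False := by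
  have a0 : ∀ u ∈ S.Up, u ∈ S.U {s | 1 ≤ f (C.rc s)} := fun u hu => S.U_mono (fun r hr => (hf r).2 hr) hu
  have key : ∀ j, 1 ≤ j → j ≤ f (C.rc β) → ∃ v ∈ R.Q, v ∈ OK Ω R.Z ∧ v ∉ R.Z ∧ (v : G) ∈ S.U {s | j ≤ f (C.rc s)} := by
    intro j hj
    induction j, hj using Int.leInduction with
    | base =>
      obtain ⟨s, t, e, y, w, hw, h2⟩ := exists_ne_orb (fun a : R.Q => (a : R.K)) ⊥ x (by simpa)
      have h3 := mul_mem (inv_mem s.2) t.2
      refine fun _ => ⟨_, h3, mem_OK ht (fun a ha w => P_Z (R.U_le_P (R.Q_le_U ha))) (fun a ha => R.comm_Q ha h3)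
        (one_mem _) (Subgroup.mem_bot.1 hw ▸ h2), fun h4 => e (Subtype.ext (inv_mul_eq_one.1 ?_)), a0 _ (R.Q_le_U h3)⟩
      exact Subgroup.mem_bot.1 (R.inf_stab nf y ▸ ⟨h4, by simpa [Subgroup.mem_bot.1 hw] using h2⟩)
    | succ j hj ih =>
      intro h2
      obtain ⟨v, a, b, c, d⟩ := ih (by omega)
      by_cases h3 : ∃ r ∈ Qt C, f (C.rc r) = j ∧ S.cd r v ≠ 0
      · obtain ⟨r, hr, rfl, h4⟩ := h3
        obtain ⟨u, hu, h5⟩ := step r hr (by omega) v d a h4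
        exact ⟨_, mul_mem (P_Q (R.U_le_P hu) a) (inv_mem a), mul_mem (OK_conj (fun w => P_Z (R.U_le_P hu)) b)
          (inv_mem b), h5, TwM.comm_ge S f zero_le_one (by omega) (a0 _ hu) d⟩
      · push Not at h3
        refine ⟨v, a, b, c, peel (by omega) (Cert.closed_ge f (by omega)) (Cert.nil_of_fun f fun r (hr : j ≤ f _) => by
          omega) (fun _ h => h) d fun r (hr : j ≤ f _) => or_iff_not_imp_left.2 fun (h4 : ¬ j + 1 ≤ f _) =>
            ⟨by omega, ?_⟩⟩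
        by_cases h5 : r ∈ Qt C
        · exact h3 r h5 (by omega)
        · have := C.dom_top.A_nonneg' ((hf r).1 (by omega))
          exact S.cd_eq_zero (f := C.prL C.top) zero_le_one (fun r hr => by rw [C.prL_rc]; exact hr)
            (by rw [C.prL_rc]; exact not_le.1 h5) a
  have a1 := (hf β).2 h1
  obtain ⟨v, -, a2, a3, a4⟩ := key _ a1 le_rfl
  obtain ⟨t, -, e⟩ := S.exists_nf (l := [β, C.top]) (Cert.closed_ge f (by omega))
    (Cert.nil_of_fun f fun r (hr : _ ≤ f _) => by omega) (by simpa using h.rb) (fun r hr => by simpa using hm r hr) a4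
  rw [S.nf_cons, S.nf_cons, S.nf_nil, mul_one] at e
  obtain ⟨s, hs⟩ := (R.hx (R.ι ε * (t β * 1))).1 (by
    convert (v⁻¹ * ((hb.x 1)⁻¹ * v * hb.x 1)).2 using 1
    simp only [Subgroup.coe_mul, Subgroup.coe_inv, Rat.x, map_one, e]
    rw [mul_assoc (S.x b 1)⁻¹, mul_assoc (S.x β _), ← h.c2, ← mul_assoc (S.x β _), h.sw, mul_assoc (S.x b 1),
      mul_assoc (S.x b 1), inv_mul_cancel_left, mul_assoc (S.x β _), ← S.x_add, add_comm, S.x_add,
      ← mul_assoc (S.x β _), inv_mul_cancel_left])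
  have a5 : t β = R.ι (ε⁻¹ * s) := by rw [map_mul, map_inv₀, hs, mul_one, inv_mul_cancel_left₀ h.ne]
  obtain ⟨c, hc⟩ := R.exists_x (g := (hβ.x (ε⁻¹ * s))⁻¹ * v) (t := t C.top) (by simp [Rat.x, e, a5])
  obtain ⟨_, ⟨d, rfl⟩, h2⟩ := a2 x
  have a6 : s ≠ 0 := fun e => a3 ⟨c, by rw [hc, e, mul_zero, add_hom_zero hβ.x_add, inv_one, one_mul]⟩
  have a7 := (LD.a2 h hβ hb R.rat_top).conj ((-d + c) / s) s
  rw [mul_div_cancel₀ _ a6, inv_inv] at a7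
  refine nβ (ε⁻¹ * s) (mul_ne_zero (inv_ne_zero fun e => h.ne (by rw [e, map_zero])) a6) (hb.x ((-d + c) / s) • x) ?_
  rw [← inv_smul_eq_iff, ← mul_smul, ← mul_smul]
  refine (congrArg (· • x) a7).trans ?_
  change (hβ.x (ε⁻¹ * s) * R.L.x (-d + c)) • x = x
  rw [R.L.x_add, hc, ← mul_assoc, R.U_x (show hβ.x _ ∈ R.U from S.x_mem_Up h1 _), mul_assoc, mul_inv_cancel_left,
    mul_smul, h2, add_hom_neg R.L.x_add, inv_smul_smul]

end LD

end Cfsg.Agent.TT
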