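import Cfsg.Agent.TT.R1
import Cfsg.Agent.AH.Rank1
import Cfsg.Agent.Forms.LieRee
import Cfsg.Agent.R3.Base
import Cfsg.Agent.CharLib.Induce
/-!
# Two-transitive actions of the small Ree groups
-/
set_option autoImplicit false
set_option linter.unusedSectionVars false

namespace Cfsg.Agent.TT
open Cfsg MulAction Cfsg.Agent.Tw
open scoped commutatorElement

theorem ree_arith {q k s n : ℕ} (hq : q = k * s) (hs : 3 ∣ s) (h0 : 0 < q) (hk : (n - 1).Coprime k)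
    (h1 : q * s ∣ n) (h2 : n - 1 ∣ (q ^ 3 + 1) * (q - k)) (h3 : q * (q - 1) + 1 ≤ n) :
    n = q ^ 2 ∧ k = 1 := by
  have hs0 : 0 < s := Nat.pos_of_mul_pos_left (hq ▸ h0)
  have hk0 : 0 < k := Nat.pos_of_mul_pos_right (hq ▸ h0)
  have hs3 : 3 ≤ s := Nat.le_of_dvd hs0 hs
  obtain ⟨r, rfl⟩ : ∃ r, s = r + 1 := ⟨s - 1, by omega⟩
  have e1 : q - k = k * r := by rw [hq, mul_add, mul_one, Nat.add_sub_cancel]
  rw [e1, mul_left_comm] at h2
  obtain ⟨l, hl⟩ := hk.dvd_of_dvd_mul_left h2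
  obtain ⟨e, he⟩ := h1
  obtain ⟨p, rfl⟩ : ∃ p, q = p + 1 := ⟨q - 1, by omega⟩
  obtain ⟨n, rfl⟩ : ∃ m, n = m + 1 := ⟨n - 1, by omega⟩
  simp only [Nat.add_sub_cancel] at hl h3 ⊢
  have hsq : r ≤ p := by nlinarith
  have h4 : (p + 1) * (r + 1) ∣ l + r := by
    have e2 : ((l + r : ℕ) : ℤ) = ((p + 1) * (r + 1) : ℕ) * (l * e - (p + 1) ^ 2 + k * (p + 1)) := by
      zify at hl he hq
      push_cast
      linear_combination hl + l * he + (p + 1) ^ 2 * hq
    exact Int.natCast_dvd_natCast.1 ⟨_, e2⟩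
  have h5 := Nat.le_of_dvd (by omega) h4
  have h6 : n + 1 < (p + 1) ^ 2 + 3 * (p + 1) := by
    by_contra h6
    have h7 : p ^ 2 + 5 * p + 3 ≤ n := by nlinarith
    have h8 : p * (r + 1) + 1 ≤ l := by nlinarith
    have h9 := Nat.mul_le_mul h7 h8
    rw [← hl] at h9
    have h10 : (p + 1) ^ 3 + 1 ≤ p * (p ^ 2 + 5 * p + 3) := by nlinarith
    nlinarith
  obtain ⟨a, ha⟩ := hs
  have h7 : n + 1 = (p + 1) ^ 2 := by
    have e3 : p + 1 = 3 * (k * a) := by rw [hq, ha]; ring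
    have e4 : n + 1 = 3 * (p + 1) * (a * e) := by rw [he, ha]; ring
    generalize k * a = c at e3
    generalize a * e = d at e4
    have h8 : d < c + 1 := by
      refine Nat.lt_of_mul_lt_mul_left (a := 3 * (p + 1)) ?_
      nlinarith
    have h9 : c < d + 1 := by
      refine Nat.lt_of_mul_lt_mul_left (a := 3 * (p + 1)) ?_
      nlinarith
    obtain rfl : c = d := by omega
    rw [e4, pow_two]; nth_rewrite 3 [e3]; ring
  refine ⟨h7, ?_⟩
  have h8 : (p * (p + 1) + 1) * r = p * l := by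
    refine Nat.eq_of_mul_eq_mul_left (show 0 < p + 2 by omega) ?_
    have : n = p * (p + 2) := by nlinarith
    rw [this] at hl
    linarith
  have h9 : p ∣ r := by
    refine Nat.Coprime.dvd_of_dvd_mul_left ?_ ⟨l, h8⟩
    simp
  have h10 := Nat.le_of_dvd (by omega) h9
  obtain rfl : r = p := by omega
  nlinarith

section main
variable {R : Type*} [Group R] [Finite R] {F : Type*} [Field F] [Fintype F] [CharP F 3] (P : RBN R F)

/-- the centre of the Sylow subgroup -/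
def reeZ : Subgroup R where
  carrier := {g | ∃ w, g = P.X 0 0 w}
  one_mem' := ⟨0, P.X_zero.symm⟩
  mul_mem' := by rintro _ _ ⟨a, rfl⟩ ⟨b, rfl⟩; exact ⟨a + b, by simp [P.mul]⟩
  inv_mem' := by
    rintro _ ⟨a, rfl⟩
    exact ⟨-a, inv_eq_of_mul_eq_one_right (by simp [P.mul, P.X_zero])⟩

/-- the derived group of the Sylow subgroup -/
def reeV : Subgroup R where
  carrier := {g | ∃ v w, g = P.X 0 v w}
  one_mem' := ⟨0, 0, P.X_zero.symm⟩
  mul_mem' := by rintro _ _ ⟨a, a', rfl⟩ ⟨b, b', rfl⟩; exact ⟨a + b, a' + b', by simp [P.mul]⟩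
  inv_mem' := by
    rintro _ ⟨a, b, rfl⟩
    exact ⟨-a, -b, inv_eq_of_mul_eq_one_right (by simp [P.mul, P.X_zero])⟩

theorem card_reeZ : Nat.card (reeZ P) = Nat.card F :=
  RBN.card_eq (p := fun g => g ∈ reeZ P) (fun w => P.X 0 0 w) (fun _ _ e => (P.X_inj e).2.2) fun _ => Iff.rfl

theorem card_reeV : Nat.card (reeV P) = Nat.card F ^ 2 := by
  rw [pow_two, ← Nat.card_prod]
  exact RBN.card_eq (p := fun g => g ∈ reeV P) (fun w : F × F => P.X 0 w.1 w.2)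
    (fun _ _ e => Prod.ext (P.X_inj e).2.1 (P.X_inj e).2.2) fun _ =>
      ⟨fun ⟨v, w, e⟩ => ⟨(v, w), e⟩, fun ⟨w, e⟩ => ⟨_, _, e⟩⟩

theorem ree_comm (t a b v w : F) : ⁅P.X t a b, P.X 0 v w⁆ = P.X 0 0 (t * v) := by
  have : P.X t a b * P.X 0 v w = P.X 0 0 (t * v) * (P.X 0 v w * P.X t a b) := by
    simp only [P.mul, map_zero]; congr 1 <;> ring
  rw [commutatorElement_def, this]; group

theorem ree_heis (K : Subgroup R) (hK : ¬ reeZ P ≤ K) :
    Nat.card F ^ 2 ≤ Nat.card ↥(reeZ P ⊓ K) * K.relIndex P.U := by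
  rw [← card_reeV P]
  refine heis (Y := P.U) (V := reeV P) (V0 := reeZ P) (Z := reeZ P) ?_ le_rfl ?_ ?_ ?_ ?_ ?_ K hK
  · rintro _ ⟨v, w, rfl⟩; exact P.X_mem ..
  · rintro _ ⟨w, rfl⟩; exact ⟨0, w, rfl⟩
  · rintro _ ⟨v, w, rfl⟩ _ ⟨v', w', rfl⟩; simp [P.mul, add_comm]
  · rintro y hy _ ⟨v, w, rfl⟩
    obtain ⟨t, a, b, rfl⟩ := P.mem_U.1 hy
    exact ⟨_, ree_comm P ..⟩
  · rintro y hy _ ⟨w, rfl⟩
    obtain ⟨t, a, b, rfl⟩ := P.mem_U.1 hy
    simp [P.mul, add_comm]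
  · rintro _ ⟨v, w, rfl⟩ hv _ ⟨z, rfl⟩
    have h0 : v ≠ 0 := by rintro rfl; exact hv ⟨w, rfl⟩
    exact ⟨P.X (z / v) 0 0, P.X_mem .., by rw [ree_comm, div_mul_cancel₀ _ h0]⟩

theorem reeZ_norm : ∀ g ∈ P.B, ∀ a ∈ (reeZ P : Set R), g * a * g⁻¹ ∈ (reeZ P : Set R) := by
  rintro g hg _ ⟨w, rfl⟩
  obtain ⟨u, hu, s, rfl⟩ := P.mem_B.1 hg
  obtain ⟨t, a, b, rfl⟩ := P.mem_U.1 hu
  refine ⟨s ^ 2 * P.θ s * w, ?_⟩
  have h1 := P.conj s 0 0 w
  rw [mul_zero, mul_zero] at h1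
  have h2 : P.X t a b * P.X 0 0 (s ^ 2 * P.θ s * w) = P.X 0 0 (s ^ 2 * P.θ s * w) * P.X t a b := by
    simp [P.mul, add_comm]
  calc _ = P.X t a b * (P.h s * P.X 0 0 w * (P.h s)⁻¹) * (P.X t a b)⁻¹ := by group
    _ = _ := by rw [h1, h2]; group

variable {Ω : Type*} [MulAction R Ω] [Finite Ω]

include P in
theorem ree_last (hq : ∃ s : F, s ^ 3 ≠ s)
    (hc : ∀ a b : R, a ≠ 1 → a * a = 1 → b ≠ 1 → b * b = 1 → IsConj a b) (h : T2 R Ω)
    (hn : Nat.card Ω = Nat.card F ^ 2) (hZ : ∀ (x : Ω) (w : F), P.X 0 0 w • x = x → w = 0) : False := by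
  classical
  haveI : Fact (Nat.Prime 2) := ⟨Nat.prime_two⟩
  obtain ⟨f, hf0, hf⟩ := Chev.Sys.exists_card_pow F 3
  have hU := h.trans_of_pow (p := 3) (a := f * 2) P.U P.syl.not_dvd_index (by rw [hn, hf, pow_mul])
  have h2 : (2 : F) ≠ 0 := by grind
  obtain ⟨x, hx⟩ : ∃ x : Ω, P.h (-1) • x = x := by
    have h1 := fix_mod (Ω := Ω) (g := P.h (-1)) (r := 2) (j := 1) (by rw [pow_one, pow_two, P.J_sq])
    have h3 : Odd (Nat.card Ω) := by rw [hn, hf]; exact Odd.pow (Odd.pow (by decide))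
    have h4 : fix Ω (P.h (-1)) ≠ 0 := by
      intro e
      rw [e, Nat.ModEq, Nat.odd_iff.1 h3] at h1
      omega
    obtain ⟨⟨x, hx⟩⟩ := (Nat.card_ne_zero.1 h4).1
    exact ⟨x, hx⟩
  have hJ : ∀ t v w, P.h (-1) * P.X t v w * (P.h (-1))⁻¹ = P.X (-t) v (-w) := fun t v w => by
    simp [P.conj]
  have h3 : ∀ {t v w : F}, P.X t v w • x = x → t = 0 := fun {t v w} e => by
    have e1 : P.X t v w ^ 3 ∈ stabilizer R x := pow_mem (show _ ∈ stabilizer R x from e) 3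
    rw [P.cube] at e1
    simpa using hZ x _ e1
  have h4 : ∀ {v w : F}, P.X 0 v w • x = x → w = 0 := fun {v w} e => by
    have e1 : P.X 0 v (-w) ∈ stabilizer R x := by
      have hx' : P.h (-1) ∈ stabilizer R x := hx
      have := mul_mem (mul_mem hx' (show _ ∈ stabilizer R x from e)) (inv_mem hx')
      rwa [hJ, neg_zero] at this
    have e2 := mul_mem (inv_mem e1) (show _ ∈ stabilizer R x from e)
    rw [show P.X 0 v w = P.X 0 v (-w) * P.X 0 0 (2 * w) by simp only [P.mul]; congr 1 <;> ring,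
      inv_mul_cancel_left] at e2
    simpa [h2] using hZ x _ e2
  have h5 : ∀ v, P.X 0 v 0 • x = x := by
    haveI : IsPretransitive P.U Ω := ⟨fun a b => by
      obtain ⟨u, hu, e⟩ := hU a b
      exact ⟨⟨u, hu⟩, e⟩⟩
    have e1 := (stabilizer P.U x).card_mul_index
    rw [index_stabilizer_of_transitive, hn, P.card_U, pow_succ' _ 2,
      Nat.mul_left_inj (pow_pos Nat.card_pos 2).ne'] at e1
    have e2 : {v : F | P.X 0 v 0 • x = x} = Set.univ := by
      refine Set.eq_of_subset_of_ncard_le (Set.subset_univ _) ?_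
      rw [Set.ncard_univ, ← e1, ← Nat.card_coe_set_eq]
      refine Nat.card_le_card_of_surjective (fun v => ⟨⟨_, P.X_mem 0 v.1 0⟩, v.2⟩) ?_
      rintro ⟨⟨u, hu⟩, e⟩
      obtain ⟨t, v, w, rfl⟩ := P.mem_U.1 hu
      obtain rfl := h3 e
      obtain rfl := h4 e
      exact ⟨⟨v, e⟩, rfl⟩
    intro v
    have : v ∈ {v : F | P.X 0 v 0 • x = x} := e2 ▸ trivial
    exact this
  have h6 : ∀ y, P.h (-1) • y = y → y = x := fun y e => by
    obtain ⟨u, hu, rfl⟩ := hU x y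
    obtain ⟨t, v, w, rfl⟩ := P.mem_U.1 hu
    have e1 : ((P.X t v w)⁻¹ * P.X (-t) v (-w)) • x = x := by
      rw [← hJ, mul_smul, mul_smul, mul_smul, inv_smul_eq_iff.2 hx.symm, e, inv_smul_smul]
    obtain ⟨a, b, c, e2⟩ := P.mem_U.1 (mul_mem (inv_mem hu) (P.X_mem (-t) v (-w)))
    rw [e2] at e1
    obtain rfl := h3 e1
    obtain rfl := h4 e1
    rw [inv_mul_eq_iff_eq_mul, P.mul] at e2
    obtain ⟨e3, -, e4⟩ := P.X_inj e2
    obtain rfl : t = 0 := by grind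
    obtain rfl : w = 0 := by grind
    exact h5 v
  have h7 : ∀ t : R, orderOf t = 2 → ∀ y z : Ω, t • y = y → t • z = z → y = z := fun t ht y z e1 e2 => by
    obtain ⟨a1, a2⟩ := orderOf_eq_prime_iff.1 ht
    obtain ⟨c, rfl⟩ := isConj_iff.1 (hc _ t P.J_ne_one P.J_sq a2 (by rwa [pow_two] at a1))
    rw [mul_smul, mul_smul, smul_eq_iff_eq_inv_smul] at e1 e2
    exact smul_left_cancel c⁻¹ ((h6 _ e1).trans (h6 _ e2).symm)
  have h8 : ∀ g : R, g * P.h (-1) = P.h (-1) * g → g • x = x := fun g e =>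
    h6 _ (by rw [← mul_smul, ← e, mul_smul, hx])
  have hnJ : P.n * P.h (-1) = P.h (-1) * P.n := by
    rw [← mul_inv_eq_iff_eq_mul, P.n_inv, P.n_h, inv_neg_one]
  have hn2 : ∀ s, orderOf (P.h s * P.n) = 2 := fun s => orderOf_eq_prime (by rw [pow_two, P.hn_sq])
    fun e => P.cell_notMem (P.h_mem s) (one_mem _) (by simp [e])
  obtain ⟨c, hc'⟩ := isConj_iff.1 (hc _ P.n P.J_ne_one P.J_sq (fun e => P.n_notMem (e ▸ one_mem _)) P.n_sq)
  have hcx : c • x = x := h7 P.n (by simpa using hn2 1) _ _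
    (by rw [← hc', mul_smul, mul_smul, inv_smul_smul, hx]) (h8 _ hnJ)
  obtain ⟨s, hs⟩ := (AH.sbRee P hq).big
  have hhn : ∀ s, P.h s * P.n * P.h (-1) = P.h (-1) * (P.h s * P.n) := fun s => by
    rw [mul_assoc, hnJ, ← mul_assoc, ← mul_assoc, ← map_mul, ← map_mul, mul_comm s]
  have hcm : ∀ (v : F) (s : Fˣ), P.X 0 v 0 * P.h s * P.n * (P.X 0 v 0)⁻¹ * P.h (-1) =
      P.h (-1) * (P.X 0 v 0 * P.h s * P.n * (P.X 0 v 0)⁻¹) := fun v s => by
    have e : P.h (-1) * P.X 0 v 0 = P.X 0 v 0 * P.h (-1) := by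
      rw [← mul_inv_eq_iff_eq_mul, hJ]; simp
    calc _ = P.X 0 v 0 * (P.h s * P.n) * (P.X 0 v 0)⁻¹ * (P.h (-1) * P.X 0 v 0) * (P.X 0 v 0)⁻¹ := by group
      _ = P.X 0 v 0 * (P.h s * P.n * P.h (-1)) * (P.X 0 v 0)⁻¹ := by rw [e]; group
      _ = (P.X 0 v 0 * P.h (-1)) * (P.h s * P.n) * (P.X 0 v 0)⁻¹ := by rw [hhn]; group
      _ = _ := by rw [← e]; group
  have hnc : c⁻¹ * (P.h s * P.n) * c * P.h (-1) ≠ P.h (-1) * (c⁻¹ * (P.h s * P.n) * c) := fun e => by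
    have e1 : P.h s * P.n * P.n = P.n * (P.h s * P.n) := by
      calc _ = c * (c⁻¹ * (P.h s * P.n) * c * P.h (-1)) * c⁻¹ := by
            nth_rewrite 2 [← hc']; group
        _ = _ := by rw [e]; nth_rewrite 2 [← hc']; group
    rw [mul_assoc, P.n_sq, mul_one, ← mul_assoc, P.n_h] at e1
    have := (P.inj' (one_mem _) (one_mem _) (s := s) (s' := s⁻¹) (by rw [e1])).2
    exact hs (by nth_rewrite 2 [this]; exact mul_inv_cancel s)
  have h0 : ∀ (v : F) s, P.X 0 v 0 * P.h s * P.n * (P.X 0 v 0)⁻¹ ∉ P.B := fun v s =>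
    P.cell_notMem (P.mem_B.2 ⟨_, P.X_mem .., s, rfl⟩) (inv_mem (P.X_mem ..))
  have h9 : Nat.card F * (Nat.card F - 1) + 2 ≤ {t ∈ {t : R | orderOf t = 2} | t • x = x}.ncard := by
    rw [← Nat.card_coe_set_eq, show Nat.card F * (Nat.card F - 1) + 2 = Nat.card ((F × Fˣ) ⊕ Bool) by
      rw [Nat.card_sum, Nat.card_prod, Nat.card_units]; simp]
    refine Nat.card_le_card_of_injective (Sum.elim
      (fun p => ⟨P.X 0 p.1 0 * P.h p.2 * P.n * (P.X 0 p.1 0)⁻¹, ?_, h8 _ (hcm _ _)⟩)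
      fun b => if b then ⟨P.h (-1), orderOf_eq_prime (by rw [pow_two, P.J_sq]) P.J_ne_one, hx⟩ else
        ⟨c⁻¹ * (P.h s * P.n) * c, ?_, ?_⟩) ?_
    · rw [mul_assoc (P.X 0 p.1 0)]
      exact ((MulAut.conj _).orderOf_eq _).trans (hn2 _)
    · have := ((MulAut.conj c⁻¹).orderOf_eq (P.h s * P.n)).trans (hn2 _)
      simpa using this
    · rw [mul_smul, mul_smul, hcx, h8 _ (hhn s), inv_smul_eq_iff, hcx]
    · rintro (a | _ | _) (b | _ | _) e <;> replace e := congrArg Subtype.val e <;>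
        simp only [Sum.elim_inl, Sum.elim_inr, Bool.false_eq_true, ↓reduceIte] at e
      · have := P.inj' (P.X_mem ..) (P.X_mem ..) (P.cell_inj (P.mem_B.2 ⟨_, P.X_mem .., _, rfl⟩)
          (P.mem_B.2 ⟨_, P.X_mem .., _, rfl⟩) (inv_mem (P.X_mem ..)) (inv_mem (P.X_mem ..)) e).1
        exact congrArg _ (Prod.ext (P.X_inj this.1).2.1 this.2)
      · exact absurd (e ▸ hcm _ _) hnc
      · exact absurd (e ▸ P.h_mem _) (h0 _ _)
      · exact absurd (e ▸ hcm _ _) hnc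
      · rfl
      · exact absurd (e ▸ rfl) hnc
      · exact absurd (e ▸ P.h_mem _) (h0 _ _)
      · exact absurd (e ▸ rfl) hnc
      · rfl
  have h10 := R3.dc_le (Set.univ : Set Ω) {t : R | orderOf t = 2} (fun y t => t • y = y)
    (a := Nat.card F * (Nat.card F - 1) + 2) (b := 1) (fun y _ => h9.trans_eq
      (r1_const (B := ⊤) (fun g _ a ha => ((MulAut.conj g).orderOf_eq a).trans ha)
        (fun a b => (h.trans a b).imp fun _ e => ⟨trivial, e⟩) x y))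
    fun t ht => (Set.ncard_le_one_iff).2 fun ha hb => h7 t ht _ _ ha.2 hb.2
  rw [Set.ncard_univ, hn, ← Nat.card_coe_set_eq, mul_one] at h10
  have h11 := h10.trans_eq P.count2
  have : 0 < Nat.card F ^ 2 := pow_pos Nat.card_pos 2
  rw [pow_succ _ 2] at h11
  nlinarith

include P in
theorem ree_main (hq : ∃ s : F, s ^ 3 ≠ s) (h4 : ¬ 4 ∣ Fintype.card F * (Fintype.card F - 1))
    (hc : ∀ a b : R, a ≠ 1 → a * a = 1 → b ≠ 1 → b * b = 1 → IsConj a b)
    (hf : ∀ g : R, (∀ x : Ω, g • x = x) → g = 1) (h : T2 R Ω) : Nat.card Ω = Nat.card F ^ 3 + 1 := by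
  classical
  have hi : P.B.index = Nat.card F ^ 3 + 1 := P.card_U ▸ (AH.sbRee P hq).card_pts
  have hΔ : T2 R (R ⧸ P.B) := ⟨(AH.sbRee P hq).two_trans, by
    rw [← Finite.one_lt_card_iff_nontrivial, ← Subgroup.index, hi]
    exact Nat.lt_add_of_pos_left (pow_pos Nat.card_pos 3)⟩
  rcases rank_one h hΔ with h1 | h1
  · exact h1.trans hi
  exfalso
  have hB : ∀ x y : Ω, ∃ g ∈ P.B, g • x = y := fun x y => by
    obtain ⟨g, g1, g2⟩ := r1_flip h h1 ((1 : R) : R ⧸ P.B) x y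
    refine ⟨g, ?_, g2⟩
    rw [MulAction.Quotient.smul_mk, QuotientGroup.eq] at g1
    simpa using g1
  have := h.nt
  obtain ⟨x0⟩ : Nonempty Ω := inferInstance
  have hk := fun x => r1_const (reeZ_norm P) hB x x0
  have hk' : ∀ x : Ω, Nat.card ↥(reeZ P ⊓ stabilizer R x) = {a ∈ (reeZ P : Set R) | a • x0 = x0}.ncard :=
    fun x => by rw [← hk x, ← Nat.card_coe_set_eq]; rfl
  generalize {a ∈ (reeZ P : Set R) | a • x0 = x0}.ncard = k at hk hk'
  obtain ⟨f, hf0, hF⟩ := Chev.Sys.exists_card_pow F 3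
  obtain ⟨b, hb, hkb⟩ : ∃ b ≤ f, k = 3 ^ b := (Nat.dvd_prime_pow Nat.prime_three).1 (by
    rw [← hF, ← card_reeZ P, ← hk' x0]; exact Subgroup.card_dvd_of_le inf_le_left)
  have hZ : ∀ x : Ω, ¬ reeZ P ≤ stabilizer R x := fun x e => by
    have e1 : ∀ y : Ω, reeZ P ≤ stabilizer R y := fun y => by
      rw [← inf_eq_left]
      refine Subgroup.eq_of_le_of_card_ge inf_le_left ?_
      rw [hk', ← hk' x, inf_eq_left.2 e]
    exact one_ne_zero (P.X_eq_one.1 (hf _ fun y => e1 y ⟨1, rfl⟩)).2.2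
  have hbf : b < f := lt_of_le_of_ne hb fun e => hZ x0 (by
    rw [← inf_eq_left]
    refine Subgroup.eq_of_le_of_card_ge inf_le_left ?_
    rw [hk', card_reeZ, hF, hkb, e])
  obtain ⟨a, rfl⟩ := Nat.exists_eq_add_of_lt hbf
  have h5 : 3 ^ (b + a + 1 + (a + 1)) ∣ Nat.card Ω := pow_dvd_card P.isPGroup_U fun x => by
    have := ree_heis P _ (hZ x)
    rw [hk', hF, hkb] at this
    refine Nat.le_of_mul_le_mul_left (le_trans (le_of_eq ?_) this) (pow_pos three_pos b)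
    ring
  have h6 := h.dvd (reeZ P) P.B (reeZ_norm P) k hk
  rw [hi, ← Nat.card_coe_set_eq] at h6
  have h7 : Nat.card F * (Nat.card F - 1) + 1 ≤ Nat.card Ω := by
    have := Fintype.ofFinite Ω
    have h7 := Forms.ree_bound P hq h4 hc (ρ := CharLib.permRep (toPermHom R Ω)) fun e => by
      obtain ⟨s, hs⟩ := (AH.sbRee P hq).big
      have e1 : P.n * P.h s = P.h s * P.n := by
        rw [← inv_mul_eq_one]
        refine hf _ fun x => ?_
        have := congrFun (e (P.n)⁻¹ (P.h s)⁻¹ (Pi.single ((P.h s * P.n) • x) 1)) x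
        simp only [CharLib.permRep, MonoidHom.coe_mk, OneHom.coe_mk, LinearMap.funLeft_apply, inv_inv,
          toPermHom_apply, toPerm_apply, ← mul_smul, Pi.single_eq_same, Pi.single_apply] at this
        rw [mul_smul, inv_smul_eq_iff]
        by_contra e2
        rw [if_neg (Ne.symm e2)] at this
        exact one_ne_zero this
      rw [← mul_inv_eq_iff_eq_mul, P.n_inv, P.n_h] at e1
      have := (P.inj' (one_mem _) (one_mem _) (s := s) (s' := s⁻¹) (by rw [e1])).2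
      exact hs (by nth_rewrite 2 [this]; exact mul_inv_cancel s)
    simpa [Nat.card_eq_fintype_card] using h7
  obtain ⟨h8, h9⟩ := ree_arith (q := Nat.card F) (k := k) (s := 3 ^ (a + 1)) (n := Nat.card Ω)
    (by rw [hF, hkb]; ring) (dvd_pow_self 3 (by omega)) Nat.card_pos (by
      rw [hkb]
      refine Nat.Coprime.pow_right _ ((Nat.Prime.coprime_iff_not_dvd Nat.prime_three).2 fun e => ?_).symm
      have h8 := (dvd_pow_self 3 (by omega)).trans h5
      have := h.two_le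
      omega) (by rw [hF, ← pow_add]; exact h5) (card_reeZ P ▸ h6) h7
  refine ree_last P hq hc h h8 fun x w e => ?_
  have h10 := hk' x
  rw [h9, Subgroup.card_eq_one] at h10
  have h11 : P.X 0 0 w ∈ reeZ P ⊓ stabilizer R x := ⟨⟨w, rfl⟩, e⟩
  rw [h10, Subgroup.mem_bot] at h11
  exact (P.X_eq_one.1 h11).2.2

end main

variable {G Ω : Type*} [Group G] [Finite G] [MulAction G Ω] [FaithfulSMul G Ω] [Finite Ω]

theorem fam_Ree (hG : Lie.IsoRee G) (h2 : MulAction.IsMultiplyPretransitive G Ω 2) :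
    Concl G (Nat.card Ω) := by
  obtain ⟨K, _, _, m, hm, hK, ⟨e⟩⟩ := hG
  have h : Nat.card K = 3 ^ (2 * m + 1) := by rw [Nat.card_eq_fintype_card, hK]
  have := charP_of_card_eq_prime_pow hK
  haveI := Finite.of_equiv _ e.toEquiv
  obtain ⟨P⟩ := Tw.exists_rbn h
  haveI : Nontrivial G := ⟨e.symm P.n, 1, fun h1 => P.n_notMem (by
    rw [show P.n = 1 by simpa using h1]; exact one_mem _)⟩
  have ht := (T2.of_faithful h2).comp e.symm.toMonoidHom e.symm.surjective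
  letI := MulAction.compHom Ω e.symm.toMonoidHom
  refine Or.inr (Or.inr (Or.inr (Or.inr (Or.inl ⟨K, inferInstance, inferInstance, m, hm, hK, ⟨e⟩, ?_⟩))))
  rw [← Nat.card_eq_fintype_card (α := K)]
  refine ree_main P (Tw.exists_pow_ne K (by norm_num) (h ▸ lt_self_pow₀ (by norm_num) (by omega)))
    (by
      have : (3 ^ 2) ^ m % 4 = 1 := by simp [Nat.pow_mod]
      rw [hK, pow_succ, pow_mul]
      obtain ⟨n, hn⟩ : ∃ n, (3 ^ 2) ^ m = 4 * n + 1 := ⟨(3 ^ 2) ^ m / 4, by omega⟩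
      rw [hn, show (4 * n + 1) * 3 - 1 = 12 * n + 2 by omega]
      ring_nf; omega)
    (fun a b => Forms.ree_conj h) (fun g hg => ?_) ht
  have : e.symm g = 1 := eq_of_smul_eq_smul (α := Ω) fun x => (hg x).trans (one_smul _ x).symm
  simpa using this

end Cfsg.Agent.TT
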