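import Cfsg.Agent.TT.Def
import Cfsg.Agent.Tw.BN
import Cfsg.Agent.Chev.Gauss1
/-!
# The split BN-pair of a (twisted) Chevalley group
-/
set_option autoImplicit false

namespace Cfsg.Agent.TT
open Cfsg Cfsg.Lie Cfsg.Agent.Chev Cfsg.Agent.Tw Equiv

variable {D : ChevalleyDatum} {C : Cert D} {F : Type*} [Field F] {G : Type*} [Group G] {S : Sys C F G}

/-- representatives of the orbits of nodes -/
def Rep (T : Stb S) : Type := {i : Nd D // ∀ j ∈ T.orb i, i ≤ j}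

instance instFiniteRep (T : Stb S) : Finite (Rep T) := inferInstanceAs (Finite {i : Nd D // ∀ j ∈ T.orb i, i ≤ j})

theorem exists_rep (T : Stb S) (i : Nd D) : ∃ j : Rep T, T.orb j.1 = T.orb i := by
  obtain ⟨j, hj, h⟩ := (Set.toFinite (T.orb i)).exists_minimalFor id _ ⟨i, T.mem_orb i⟩
  refine ⟨⟨j, fun k hk => ?_⟩, Stb.orb_eq hj⟩
  rw [Stb.orb_eq hj] at hk
  by_contra h1
  exact h1 (h hk (le_of_not_ge h1))

theorem Rep.eq_of {T : Stb S} {i j : Rep T} {k : Nd D} (hi : k ∈ T.orb i.1) (hj : k ∈ T.orb j.1) : i = j := by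
  have e : T.orb i.1 = T.orb j.1 := (Stb.orb_eq hi).symm.trans (Stb.orb_eq hj)
  exact Subtype.ext (le_antisymm (i.2 _ (e ▸ T.mem_orb _)) (j.2 _ (e ▸ T.mem_orb _)))

variable {T : Stb S} {K : Subgroup G}

theorem over_fix (hK : T.Good K) {m : G} (hm : m ∈ K) {w : Perm (Rt D)} (h : S.Over m w) : T.cj w = w :=
  Stb.cj_eq_of_cell (hK.fix m hm) h.cell

theorem desc_orb {w : Perm (Rt D)} (h : T.cj w = w) (i : Nd D) :
    (∀ j ∈ T.orb i, C.Pos (w (C.sp j))) ∨ ∀ j ∈ T.orb i, ¬ C.Pos (w (C.sp j)) := by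
  by_cases h1 : C.Pos (w (C.sp i))
  · exact Or.inl fun j hj => ((Stb.stable_desc h).orb_iff hj).2 h1
  · exact Or.inr fun j hj h2 => h1 (((Stb.stable_desc h).orb_iff hj).1 h2)

/-- the chosen monomial element over the longest element of an orbit -/
noncomputable def nK (hK : T.Good K) (i : Nd D) : K := ⟨(hK.ex_orb i).choose, (hK.ex_orb i).choose_spec.1⟩

theorem nK_over (hK : T.Good K) (i : Nd D) : S.Over (nK hK i : G) (C.w0 (T.orb i)) := (hK.ex_orb i).choose_spec.2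

/-- the split BN-pair -/
noncomputable def sb (hK : T.BN K) : SB K (Rep T) where
  U := S.Up.subgroupOf K
  H := S.H.subgroupOf K
  N := S.N.subgroupOf K
  X i := (S.U {r | C.Pos r ∧ C.InJ (T.orb i.1) r}).subgroupOf K
  V i := (S.UJ (T.orb i.1)).subgroupOf K
  n i := nK hK.toGood i.1
  H_le := Subgroup.comap_mono S.H_le_N
  n_mem i := (nK_over hK.toGood i.1).mem_N
  H_U a ha u hu := Sys.H_conj_U ha hu
  N_H m hm a ha := by
    have := S.N_conj_H (inv_mem hm) ha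
    rwa [inv_inv] at this
  X_le i := Subgroup.comap_mono (S.U_le_Up fun _ h => h.1)
  X_ne i h := by
    obtain ⟨v, hv, h1⟩ := hK.ne i.1
    have : (⟨v, hv.2⟩ : K) ∈ (S.U {r | C.Pos r ∧ C.InJ (T.orb i.1) r}).subgroupOf K := hv.1
    rw [h, Subgroup.mem_bot] at this
    exact h1 (congrArg Subtype.val this)
  V_le i := Subgroup.comap_mono (S.UJ_le_Up _)
  V_n i v hv := by
    have := S.P_conj_UJ ((Stb.over_w0_inv (nK_over hK.toGood i.1)).mem_P (C.w0_mem _)) hv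
    rwa [inv_inv] at this
  V_norm i u hu v hv := S.P_conj_UJ (S.Up_le_P _ hu) hv
  X_V i j hij := Subgroup.comap_mono (S.U_mono fun r hr => ⟨hr.1, fun h => C.not_inJ_empty r fun k _ => by
    by_contra h1
    exact hij (Rep.eq_of (k := k) (by_contra fun h2 => h1 (hr.2 k h2)) (by_contra fun h2 => h1 (h k h2)))⟩)
  split i u hu := by
    obtain ⟨a, ha, ha', b, hb, hb', e⟩ := Sys.split_Up hK.toGood (T.stable_orb i.1) u.2 hu
    refine ⟨⟨a, ha⟩, ha', ?_⟩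
    change a⁻¹ * (u : G) ∈ S.UJ _
    rw [e, inv_mul_cancel_left]; exact hb'
  n_sq i := by
    have := (nK_over hK.toGood i.1).mul (nK_over hK.toGood i.1)
    rw [Cert.w0_mul_self] at this
    exact this.mem_H
  nxn i x hx h1 := by
    have hn := nK_over hK.toGood i.1
    set n := nK hK.toGood i.1
    have h2 : (n : G) * n ∈ S.H := by
      have := hn.mul hn
      rw [Cert.w0_mul_self] at this
      exact this.mem_H
    obtain ⟨u, hu, m, hm, hm', u', hu', e⟩ := hK.toGood.cell_Xm (Stb.conj_Xp n.2 hn ⟨hx, x.2⟩) (fun h => h1 (by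
      apply Subtype.ext
      simpa using h))
    refine ⟨⟨u, hu.2⟩, Stb.Xp_le_Up _ hu, ⟨m, hm⟩ * (n * n) * n⁻¹, (hm'.mul_H h2).mul_inv_mem_H hn,
      (n * n)⁻¹ * ⟨u', hu'.2⟩ * (n * n), Sys.H_inv_conj_U h2 (Stb.Xp_le_Up _ hu'), Subtype.ext ?_⟩
    have : (n : G) * x * n = (n * x * (n : G)⁻¹) * (n * n) := by group
    simp only [Subgroup.coe_mul, InvMemClass.coe_inv]
    rw [this, show (n : G) * x * (n : G)⁻¹ = _ from e]; group
  bruhat g := by
    obtain ⟨w, -, hw⟩ := S.exists_cell (g : G)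
    obtain ⟨-, u, hu, hu', m, hm, hm', u', h1, h2, e⟩ := hK.toGood.nf g.2 hw
    exact ⟨⟨u, hu⟩, hu', ⟨m, hm⟩, hm'.mem_N, ⟨u', h1⟩, S.Uw_le_Up w h2, Subtype.ext e⟩
  dich i m hm := by
    obtain ⟨w, hw⟩ := Sys.exists_over_of_mem_N hm
    have hw' := hw.inv
    rcases desc_orb (over_fix hK.toGood (inv_mem m.2) hw') i.1 with h | h
    · exact Or.inl fun x hx => hw.acts.inv_conj_mem (T' := {r | C.Pos r})
        (fun r hr => Cert.pos_of_min hw'.mem_Aut h hr.1 hr.2) hx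
    · refine Or.inr fun x hx => ?_
      have hn := nK_over hK.toGood i.1
      have h1 := (Stb.over_w0_inv hn).mul hw
      refine h1.acts.inv_conj_mem (T' := {r | C.Pos r}) (fun r hr => ?_) hx
      have h2 := (Cert.inJ_map (C.w0_mem (T.orb i.1)) r).2 hr.2
      change C.Pos ((C.w0 (T.orb i.1) * w)⁻¹ r)
      rw [mul_inv_rev, Cert.w0_inv, Perm.mul_apply, Cert.neg_iff_of_max hw'.mem_Aut h h2, Cert.pos_w0_iff hr.2]
      exact not_not.2 hr.1
  base m hm h := by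
    obtain ⟨w, hw⟩ := Sys.exists_over_of_mem_N hm
    have hw' := hw.inv
    by_contra h1
    have h2 : w⁻¹ ≠ 1 := fun e => h1 (by rw [inv_eq_one.1 e] at hw; exact hw.mem_H)
    obtain ⟨j, hj⟩ := Cert.exists_neg_of_ne_one hw'.mem_W h2
    obtain ⟨i, hi⟩ := exists_rep T j
    have h3 := (desc_orb (over_fix hK.toGood (inv_mem m.2) hw') j).resolve_left fun h => hj (h j (T.mem_orb j))
    obtain ⟨v, hv, h4⟩ := hK.ne i.1
    have h5 : (m : G)⁻¹ * v * m ∈ S.Up := h i ⟨v, hv.2⟩ hv.1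
    have h6 : (m : G)⁻¹ * v * m ∈ S.Um := hw.acts.inv_conj_mem (T' := {r | ¬ C.Pos r})
      (fun r hr h => (Cert.neg_iff_of_max hw'.mem_Aut h3 (hi ▸ hr.2)).1 h hr.1) hv.1
    have := S.eq_one_of_mem_Um_B h6 (S.Up_le_B h5)
    exact h4 (by rw [show v = m * ((m : G)⁻¹ * v * m) * (m : G)⁻¹ by group, this]; group)
  ne i m hm u hu a ha u' hu' e := by
    obtain ⟨w, hw⟩ := Sys.exists_over_of_mem_N hm
    have h1 : S.Cell _ ((nK hK.toGood i.1 : G) * m) := ((nK_over hK.toGood i.1).mul hw).cell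
    have h2 : S.Cell w ((u : G) * a * m * u') :=
      Sys.cell_of (mul_mem (S.Up_le_B hu) (S.H_le_B ha)) hw (S.Up_le_B hu')
    have e' : (nK hK.toGood i.1 : G) * m = u * a * m * u' := congrArg Subtype.val e
    rw [e'] at h1
    exact Stb.w0_orb_ne_one i.1 (mul_eq_right.1 (h1.unique h2))

theorem sb_U (hK : T.BN K) : (sb hK).U = S.Up.subgroupOf K := rfl
theorem sb_H (hK : T.BN K) : (sb hK).H = S.H.subgroupOf K := rfl
theorem sb_N (hK : T.BN K) : (sb hK).N = S.N.subgroupOf K := rfl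
theorem sb_X (hK : T.BN K) (i : Rep T) :
    (sb hK).X i = (S.U {r | C.Pos r ∧ C.InJ (T.orb i.1) r}).subgroupOf K := rfl
theorem sb_n (hK : T.BN K) (i : Rep T) : (sb hK).n i = nK hK.toGood i.1 := rfl

theorem NJ_over (hK : T.BN K) (i : Rep T) {m : K} (hm : m ∈ (sb hK).NJ {i}ᶜ) :
    ∃ w ∈ C.WJ (T.orb i.1)ᶜ, S.Over (m : G) w := by
  induction hm using Subgroup.closure_induction with
  | mem x hx =>
    rcases hx with hx | ⟨j, hj, rfl⟩
    · exact ⟨1, one_mem _, Sys.over_of_mem_H hx⟩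
    · exact ⟨_, C.WJ_mono (fun k hk h => hj (Rep.eq_of hk h)) (C.w0_mem _), nK_over hK.toGood j.1⟩
  | one => exact ⟨1, one_mem _, S.over_one⟩
  | mul x y _ _ hx hy =>
    obtain ⟨w, hw, h⟩ := hx
    obtain ⟨w', hw', h'⟩ := hy
    exact ⟨_, mul_mem hw hw', h.mul h'⟩
  | inv x _ hx =>
    obtain ⟨w, hw, h⟩ := hx
    exact ⟨_, inv_mem hw, h.inv⟩

/-- consequence of the rank two condition on a maximal parabolic subgroup -/
theorem par_elim (hK : T.BN K) (i : Rep T) (h : ∀ m ∈ (sb hK).N, m ∈ (sb hK).NJ {i}ᶜ ∨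
    ∃ a ∈ (sb hK).NJ {i}ᶜ, ∃ b ∈ (sb hK).NJ {i}ᶜ, m = a * (sb hK).n i * b) {w : Perm (Rt D)} (hw : w ∈ C.W)
    (e : T.cj w = w) : ∃ b ∈ C.WJ (T.orb i.1)ᶜ, T.cj b = b ∧ ∀ r, 0 < Cert.lev (T.orb i.1)ᶜ (C.rc r) →
      Cert.lev (T.orb i.1)ᶜ (C.rc (w r)) < 0 → C.Pos (b r) ∧ C.InJ (T.orb i.1) (b r) := by
  obtain ⟨m, hm, hm'⟩ := hK.ex_over w hw e
  rcases h ⟨m, hm⟩ hm'.mem_N with h | ⟨a, ha, b, hb, h⟩
  · obtain ⟨v, hv, h1⟩ := NJ_over hK i h
    refine ⟨1, one_mem _, T.cj_one, fun r h2 h3 => ?_⟩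
    rw [hm'.unique h1, Cert.lev_map hv] at h3
    omega
  · obtain ⟨a', ha', h1⟩ := NJ_over hK i ha
    obtain ⟨b', hb', h2⟩ := NJ_over hK i hb
    have h3 := (h1.mul (nK_over hK.toGood i.1)).mul h2
    have h4 : m = a * nK hK.toGood i.1 * b := congrArg Subtype.val h
    rw [← h4] at h3
    refine ⟨b', hb', over_fix hK.toGood b.2 h2, fun r h5 h6 => ?_⟩
    rw [hm'.unique h3, Perm.mul_apply, Perm.mul_apply, Cert.lev_map ha'] at h6
    rw [← Cert.lev_map hb', Cert.lev_pos_iff] at h5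
    refine ⟨h5.1, by_contra fun h7 => ?_⟩
    have := Cert.lev_nonneg (T.orb i.1)ᶜ (Cert.pos_map_of_not_inJ (C.w0_mem _) h5.1 h7)
    omega

end Cfsg.Agent.TT
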