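import Cfsg.Agent.TT.SB2
import Cfsg.Agent.StB.SLBN
/-!
# The split BN-pair of `SL` and transitivity of the Borel subgroup
-/
set_option autoImplicit false
set_option linter.unusedSectionVars false

namespace Cfsg.Agent.TT
open Cfsg Cfsg.Agent.GLn Cfsg.Agent.StB Matrix Equiv MulAction

variable {F : Type*} [Field F] {m : ℕ}

local notation "SLm" => Matrix.SpecialLinearGroup (Fin (m + 1)) F
local notation "tv" => Matrix.SpecialLinearGroup.transvection

theorem ut_mul_sup {u v : SLm} (hu : u ∈ utSL (m + 1) F) (hv : v ∈ utSL (m + 1) F) (i : Fin m) :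
    (u * v).1 i.castSucc i.succ = u.1 i.castSucc i.succ + v.1 i.castSucc i.succ := by
  rw [Matrix.SpecialLinearGroup.coe_mul, mul_apply, Finset.sum_eq_add i.castSucc i.succ (cs_ne i), hu.2,
    hv.2, one_mul, mul_one, add_comm]
  · intro k _ hk
    rcases lt_or_gt_of_ne hk.1 with h | h
    · rw [hu.1 h, zero_mul]
    · rw [hv.1 (Fin.lt_def.1 (lt_of_le_of_ne (Fin.castSucc_lt_iff_succ_le.1 h) hk.2.symm)), mul_zero]
  · simp
  · simp

/-- the superdiagonal entry -/
def supH (i : Fin m) : utSL (m + 1) F →* Multiplicative F :=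
  MonoidHom.mk' (fun u => Multiplicative.ofAdd (u.1.1 i.castSucc i.succ)) fun u v =>
    congrArg Multiplicative.ofAdd (ut_mul_sup u.2 v.2 i)

/-- a root subgroup -/
def Xs {i j : Fin (m + 1)} (h : i ≠ j) : Subgroup SLm where
  carrier := Set.range (tv h)
  mul_mem' := by
    rintro _ _ ⟨a, rfl⟩ ⟨b, rfl⟩
    exact ⟨_, Matrix.SpecialLinearGroup.transvection_add _ _ _⟩
  one_mem' := ⟨0, tv_zero h⟩
  inv_mem' := by
    rintro _ ⟨a, rfl⟩
    exact ⟨_, (Matrix.SpecialLinearGroup.transvection_inv _ _).symm⟩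

theorem mem_V {i : Fin m} {u : SLm} : u ∈ (supH (F := F) i).ker.map (utSL (m + 1) F).subtype ↔
    u ∈ utSL (m + 1) F ∧ u.1 i.castSucc i.succ = 0 :=
  ⟨by rintro ⟨u, h, rfl⟩; exact ⟨u.2, h⟩, fun h => ⟨⟨u, h.1⟩, h.2, rfl⟩⟩

variable (F m) in
/-- the split BN-pair of the special linear group -/
noncomputable def sbSL : SB SLm (Fin m) where
  U := utSL (m + 1) F
  H := (sbnSL m F).H
  N := (sbnSL m F).N
  X i := Xs (cs_ne i)
  V i := (supH i).ker.map (utSL (m + 1) F).subtype
  n := (sbnSL m F).n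
  H_le := (sbnSL m F).H_le
  n_mem := (sbnSL m F).n_mem
  H_U := (sbnSL m F).H_U
  N_H := (sbnSL m F).N_H
  X_le i := by rintro _ ⟨a, rfl⟩; exact (sbnSL m F).x_mem i a
  X_ne i h := by
    have := congrArg (fun g : SLm => g.1 i.castSucc i.succ)
      (Subgroup.mem_bot.1 (h.le (⟨1, rfl⟩ : tv (cs_ne i) (1 : F) ∈ Xs (cs_ne i))))
    simp [tv_coe, one_apply_ne (cs_ne i)] at this
  V_le i := Subgroup.map_subtype_le _
  V_n i v hv := by
    rw [mem_V] at hv ⊢
    refine ⟨(mono_nSL _).conj_mem hv.1.2 fun k l h => ?_, ?_⟩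
    · rcases swap_lt h with h | ⟨rfl, rfl⟩
      · exact hv.1.1 h
      · exact hv.2
    · have := (mono_nSL (F := F) (cs_ne i)).conj_apply v i.succ i.castSucc
      rw [swap_apply_left, swap_apply_right, hv.1.1 Fin.castSucc_lt_succ, mul_zero, zero_mul] at this
      exact this
  V_norm i u hu v hv := by
    obtain ⟨v, hv, rfl⟩ := hv
    exact ⟨_, (MonoidHom.normal_ker _).conj_mem v hv ⟨u, hu⟩, rfl⟩
  X_V i j h := by
    rintro _ ⟨a, rfl⟩
    refine mem_V.2 ⟨(sbnSL m F).x_mem j a, ?_⟩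
    rw [tv_coe, Matrix.add_apply, one_apply_ne (cs_ne i), single_apply_of_ne, add_zero]
    exact fun e => h (Fin.succ_injective _ e.2)
  split i u hu := by
    have h0 := (sbnSL m F).x_mem i (u.1 i.castSucc i.succ)
    refine ⟨_, ⟨u.1 i.castSucc i.succ, rfl⟩, mem_V.2 ⟨mul_mem (inv_mem h0) hu, ?_⟩⟩
    rw [Matrix.SpecialLinearGroup.transvection_inv, Matrix.SpecialLinearGroup.coe_mul, tv_coe, add_mul,
      one_mul, Matrix.add_apply, single_mul_apply_same, hu.2]
    simp
  n_sq := (sbnSL m F).n_sq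
  nxn i x hx h1 := by
    obtain ⟨a, rfl⟩ := hx
    have ha : a ≠ 0 := fun e => h1 (e ▸ tv_zero _)
    obtain ⟨u, hu, u', hu', e⟩ := (sbnSL m F).nxn i (Units.mk0 (-a) (neg_ne_zero.2 ha))⁻¹
    refine ⟨u, hu, _, (sbnSL m F).h_mem i _, u', hu', Eq.trans ?_ e⟩
    simp [sbnSL]
  bruhat := (sbnSL m F).bruhat
  dich i g hg := ((sbnSL m F).dich i g hg).imp (by rintro h _ ⟨a, rfl⟩; exact h a)
    (by rintro h _ ⟨a, rfl⟩; exact h a)
  base g hg h := (sbnSL m F).base g hg fun i t => h i _ ⟨t, rfl⟩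
  ne := (sbnSL m F).ne

theorem trv_mem {ι : Type*} [Fintype ι] [DecidableEq ι] {K : Subgroup (Matrix.SpecialLinearGroup ι F)}
    {k : ι} {w : ι → F} (h : w ⬝ᵥ Pi.single k 1 = 0) (hK : ∀ j, w j ≠ 0 → RootIn K k j) :
    trv (Pi.single k 1) w h ∈ K := by
  let A : AddSubgroup (ι → F) :=
    { carrier := {w | ∃ h, trv (Pi.single k 1) w h ∈ K}
      add_mem' := fun ⟨a, ha⟩ ⟨b, hb⟩ => ⟨by rw [add_dotProduct, a, b, add_zero], by
        rw [trv_add_right a b]; exact mul_mem ha hb⟩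
      zero_mem' := ⟨by simp, by rw [trv_zero_right]; exact one_mem _⟩
      neg_mem' := fun ⟨a, ha⟩ => ⟨_, trv_inv a ▸ inv_mem ha⟩ }
  have : ∑ j, Pi.single j (w j) ∈ A := sum_mem fun j _ => by
    by_cases hj : w j = 0
    · rw [hj, Pi.single_zero]; exact zero_mem _
    · have hk : k ≠ j := by rintro rfl; exact hj (by simpa using h)
      exact ⟨_, tv_eq_trv hk (w j) ▸ hK j hj hk _⟩
  rw [Finset.univ_sum_single] at this
  exact this.2

theorem ut_le {K : Subgroup SLm} (hK : ∀ i : Fin m, RootIn K i.castSucc i.succ) : utSL (m + 1) F ≤ K := by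
  have h1 : ∀ (d : ℕ) (i j : Fin (m + 1)), j.val = i.val + d → RootIn K i j := fun d => by
    induction d with
    | zero => intro i j h; rw [show j = i from Fin.ext h]; exact rootIn_refl K i
    | succ d ih =>
      intro i j h
      obtain ⟨j, rfl⟩ := Fin.exists_succ_eq.2 (show j ≠ 0 by rintro rfl; simp at h)
      exact (ih i j.castSucc (by simp at h ⊢; omega)).trans (hK j)
  have h2 : ∀ (r : ℕ) (u : SLm), u ∈ utSL (m + 1) F →
      (∀ i : Fin (m + 1), r ≤ i.val → ∀ j, u.1 i j = (1 : Matrix _ _ F) i j) → u ∈ K := fun r => by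
    induction r with
    | zero =>
      intro u _ h
      rw [show u = 1 from Subtype.ext (Matrix.ext fun i j => h i (Nat.zero_le _) j)]
      exact one_mem _
    | succ r ih =>
      intro u hu h
      by_cases hr : r < m + 1
      · let k : Fin (m + 1) := ⟨r, hr⟩
        have h0 : (Pi.single k 1 - u.1 k) ⬝ᵥ Pi.single k 1 = 0 := by simp [hu.2]
        have h3 : ∀ j, (Pi.single k 1 - u.1 k : Fin (m + 1) → F) j ≠ 0 → k ≤ j := fun j hj => by
          by_contra e
          rw [not_le] at e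
          exact hj (by simp [hu.1 e, e.ne])
        refine (K.mul_mem_cancel_right (trv_mem h0 fun j hj => h1 (j - k) k j (by
          have := h3 j hj; rw [Fin.le_def] at this; omega))).1 (ih _ (mul_mem hu
            (trv_mem h0 fun j hj => rootIn_utSL (h3 j hj))) fun i hi j => ?_)
        change (u.1 i ᵥ* (trv _ _ h0).1) j = _
        rw [vecMul_trv]
        by_cases e : i = k
        · simp [e, hu.2, one_apply, Pi.single_apply, eq_comm]
        · have h4 : r + 1 ≤ i.val := by rw [Fin.ext_iff] at e; simp only [k] at e; omega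
          simp [h i h4, one_apply_ne e]
      · exact ih u hu fun i hi => h i (by omega)
  exact fun u hu => h2 (m + 1) u hu fun i hi => by omega

variable [Nontrivial (Fin (m + 1))]

theorem sl_normal {K : Subgroup SLm} (hK : K.Normal) (hle : utSL (m + 1) F ≤ K) : K = ⊤ := by
  refine eq_top_of_tv_mem fun i j hij a => ?_
  rcases lt_or_gt_of_ne hij with h | h
  · exact hle (rootIn_utSL h.le hij a)
  · have h1 := mono_nSL (F := F) hij
    have := hK.conj_mem' _ (hle (rootIn_utSL h.le hij.symm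
      ((nSL (F := F) hij).1 j i * a * ((nSL (F := F) hij).1 i j)⁻¹))) (nSL hij)
    rw [h1.conj_tv] at this
    have h2 := h1.ne_zero i
    have h3 := h1.ne_zero j
    simp only [swap_apply_left, swap_apply_right] at this h2 h3
    convert this using 2
    field_simp

theorem sl_borel [Finite F] {p : ℕ} [Fact p.Prime] [CharP F p] {Ω : Type*} [MulAction SLm Ω] [Finite Ω]
    (h : T2 SLm Ω) (hU : ∀ x : Ω, ¬ utSL (m + 1) F ≤ stabilizer SLm x) (x y : Ω) :
    ∃ g : SLm, g.1.BlockTriangular Fin.val ∧ g • x = y := by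
  rcases (sbSL F m).main (isPGroup_utSL p) (le_antisymm (iSup_le (sbSL F m).X_le)
    (ut_le fun i _ a => le_iSup (sbSL F m).X i ⟨a, rfl⟩)) (fun _ => sl_normal) h with ⟨x, i, e, -⟩ | ⟨-, h⟩
  · exact (hU x ((SB.U_le_P (S := sbSL F m) _).trans e.ge)).elim
  · obtain ⟨u, hu, a, ha, e⟩ := h x y
    exact ⟨_, hu.1.mul fun i j h => ha i j (Fin.lt_def.2 h).ne, e⟩

end Cfsg.Agent.TT
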