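import Cfsg.Agent.R3.PPrime
/-!
# No subgroup of index `q ^ 3` in `SL₃(q)` is transitive on points, for `q > 2`
-/
set_option autoImplicit false

namespace Cfsg.Agent.TT
open Module Matrix Finset Cfsg.Agent.R3

variable {F : Type*} [Field F] [Fintype F]

theorem ker_inf_ne (φ ψ : (Fin 3 → F) →ₗ[F] F) : LinearMap.ker φ ⊓ LinearMap.ker ψ ≠ ⊥ := fun h => by
  have := LinearMap.finrank_le_finrank_of_injective (f := φ.prod ψ)
    (LinearMap.ker_eq_bot.1 (by rw [LinearMap.ker_prod, h]))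
  simp at this

theorem no_polarity (Φ : (Fin 3 → F) → (Fin 3 → F) →ₗ[F] F) (h1 : ∀ x, x ≠ 0 → Φ x x = 1)
    (h2 : ∀ x y, x ≠ 0 → y ≠ 0 → Φ x y = 0 → Φ y x = 0) : False := by
  classical
  have cnt : ∀ (T : Submodule F (Fin 3 → F)), T ≠ ⊥ →
      ∑ y : {x : Fin 3 → F // x ≠ 0}, (if y.1 ∈ T then (1 : F) else 0) = -1 := fun T hT => by
    have := Fintype.sum_eq_add_sum_subtype_ne (fun y => if y ∈ T then (1 : F) else 0) 0
    rw [sum_boole, ← Fintype.card_subtype, ← Nat.card_eq_fintype_card, card_sub_cast T hT,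
      if_pos T.zero_mem] at this
    exact eq_neg_of_add_eq_zero_right this.symm
  let A : Matrix {x : Fin 3 → F // x ≠ 0} {x : Fin 3 → F // x ≠ 0} F :=
    fun x y => (if Φ x y = 0 then 1 else 0) - 1
  have hA : A * A = 0 := by
    ext x z
    have e : ∀ y : {x : Fin 3 → F // x ≠ 0}, A x y * A y z =
        (if y.1 ∈ LinearMap.ker (Φ x) ⊓ LinearMap.ker (Φ z) then (1 : F) else 0) -
          (if y.1 ∈ LinearMap.ker (Φ x) then 1 else 0) - (if y.1 ∈ LinearMap.ker (Φ z) then 1 else 0) +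
          (if y.1 ∈ (⊤ : Submodule F (Fin 3 → F)) then 1 else 0) := fun y => by
      have : Φ y z = 0 ↔ Φ z y = 0 := ⟨h2 _ _ y.2 z.2, h2 _ _ z.2 y.2⟩
      by_cases a : Φ x y = 0 <;> by_cases b : Φ z y = 0 <;> simp [A, a, b, this]
    simp only [Matrix.mul_apply, e, sum_add_distrib, sum_sub_distrib]
    rw [cnt _ (ker_inf_ne _ _), cnt _ fun h => ker_inf_ne (Φ x) 0 (by rw [h, bot_inf_eq]),
      cnt _ fun h => ker_inf_ne (Φ z) 0 (by rw [h, bot_inf_eq]), cnt ⊤ top_ne_bot]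
    simp
  have htr := (Matrix.isNilpotent_trace_of_isNilpotent (M := A) ⟨2, by rw [pow_two, hA]⟩).eq_zero
  have : A.trace = - ∑ y : {x : Fin 3 → F // x ≠ 0},
      (if y.1 ∈ (⊤ : Submodule F (Fin 3 → F)) then (1 : F) else 0) := by
    rw [← sum_neg_distrib]
    exact sum_congr rfl fun y _ => by simp [A, Matrix.diag, h1 y y.2]
  rw [this, cnt ⊤ top_ne_bot] at htr
  simp at htr

theorem eq_one_of_fix {φ ψ : (Fin 3 → F) →ₗ[F] F} {x y : Fin 3 → F} (h1 : φ x = 1) (h2 : φ y = 0)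
    (h3 : ψ y = 1) {k : SpecialLinearGroup (Fin 3) F} (hx : k • x = x) (hy : k • y = y)
    (hφ : ∀ v, φ (k • v) = φ v) (hψ : ∀ v, ψ (k • v) = ψ v) : k = 1 := by
  obtain ⟨z, ⟨a1, a2⟩, hz⟩ := Submodule.exists_mem_ne_zero_of_ne_bot (ker_inf_ne φ ψ)
  have b1 : φ z = 0 := a1
  have b2 : ψ z = 0 := a2
  let M : Matrix (Fin 3) (Fin 3) F := (of ![x, y, z])ᵀ
  have hM : ∀ v, M *ᵥ v = v 0 • x + v 1 • y + v 2 • z := fun v => by
    ext i; simp [M, mulVec, dotProduct, Fin.sum_univ_three, mul_comm]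
  have h0 : ∀ v, φ (M *ᵥ v) = 0 → ψ (M *ᵥ v) = 0 → M *ᵥ v = v 2 • z ∧ v 0 = 0 ∧ v 1 = 0 := fun v e1 e2 => by
    simp [hM, h1, h2, b1] at e1
    simp [hM, e1, h3, b2] at e2
    simp [hM, e1, e2]
  have hd : M.det ≠ 0 := fun e => by
    obtain ⟨v, hv, e⟩ := exists_mulVec_eq_zero_iff.2 e
    obtain ⟨c1, c2, c3⟩ := h0 v (by simp [e]) (by simp [e])
    refine hv (funext fun i => ?_)
    fin_cases i
    · exact c2
    · exact c3
    · exact (smul_eq_zero.1 (c1.symm.trans e)).resolve_right hz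
  have e1 : M *ᵥ (M⁻¹ *ᵥ (k • z)) = k • z := by
    rw [mulVec_mulVec, mul_nonsing_inv _ (Ne.isUnit hd), one_mulVec]
  obtain ⟨c, hc⟩ : ∃ c : F, k • z = c • z :=
    ⟨_, e1.symm.trans (h0 _ (by rw [e1, hφ, b1]) (by rw [e1, hψ, b2])).1⟩
  have e2 : k.1 * M = M * diagonal ![1, 1, c] := by
    ext i j
    rw [mul_diagonal]
    fin_cases j
    · exact (congrFun hx i).trans (mul_one _).symm
    · exact (congrFun hy i).trans (mul_one _).symm
    · exact (congrFun hc i).trans (mul_comm _ _)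
  have e3 := congrArg det e2
  rw [det_mul, det_mul, k.2, one_mul, det_diagonal, Fin.prod_univ_three, left_eq_mul₀ hd] at e3
  obtain rfl : c = 1 := by simpa using e3
  rw [show diagonal ![(1 : F), 1, 1] = 1 from by rw [← diagonal_one]; congr 1; ext i; fin_cases i <;> rfl,
    mul_one] at e2
  exact Subtype.ext (((Ne.isUnit hd |> (isUnit_iff_isUnit_det _).2).mul_eq_right).1 e2)

theorem sl3_false (H : Subgroup (SpecialLinearGroup (Fin 3) F))
    (hc : Nat.card H = (Fintype.card F ^ 3 - 1) * (Fintype.card F ^ 2 - 1)) (hq : 2 < Fintype.card F)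
    (ht : ∀ v w : Fin 3 → F, v ≠ 0 → w ≠ 0 → ∃ g ∈ H, ∃ c : F, c ≠ 0 ∧ g • v = c • w) : False := by
  classical
  have p3 : 0 < Fintype.card F ^ 3 := by positivity
  have p2 : 0 < Fintype.card F ^ 2 := by positivity
  obtain ⟨Φ, h1, h2⟩ := exists_corr (ρ := Representation.ofDistribMulAction F H (Fin 3 → F)) (by
    rw [hc, Nat.cast_mul, Nat.cast_pred p3, Nat.cast_pred p2]
    simp [FiniteField.cast_card_eq_zero]) fun A B hA hB => by
      obtain ⟨v, hv, v0⟩ := Submodule.exists_mem_ne_zero_of_ne_bot (p := A) (by rintro rfl; simp at hA)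
      obtain ⟨w, hw, w0⟩ := Submodule.exists_mem_ne_zero_of_ne_bot (p := B) (by rintro rfl; simp at hB)
      obtain ⟨g, hg, c, c0, e⟩ := ht v w v0 w0
      refine ⟨⟨g, hg⟩, ?_⟩
      rw [eq_span_singleton_of_mem_of_finrank_eq_one hA hv v0,
        eq_span_singleton_of_mem_of_finrank_eq_one hB hw w0, Submodule.map_span, Set.image_singleton,
        ← Submodule.span_singleton_smul_eq (Ne.isUnit c0) w, ← e]
      rfl
  have h3 : ∀ (k : H) (u v : Fin 3 → F), u ≠ 0 → Φ (k • u) (k • v) = Φ u v := fun k u v hu => by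
    simpa using LinearMap.congr_fun (h2 u k 1 hu one_ne_zero) (k • v)
  have h4 : ∀ (c : F) (u v : Fin 3 → F), u ≠ 0 → c ≠ 0 → Φ (c • u) v = c⁻¹ * Φ u v := fun c u v hu hc => by
    simpa using LinearMap.congr_fun (h2 u 1 c hu hc) v
  refine no_polarity Φ h1 fun x y hx hy e => ?_
  by_contra e'
  have := Fintype.ofFinite H
  have h5 := card_le_mul_card_image_of_maps_to (s := (univ : Finset (H × Fˣ))) (t := univ.erase 0)
    (f := fun t => t.1 • x) (fun t _ => by simpa using (smul_ne_zero_iff_ne _).2 hx) (Fintype.card F ^ 2 - 1) fun a ha => by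
      have a0 : a ≠ 0 := ne_of_mem_erase ha
      have b1 := Module.Dual.finrank_ker_add_one_of_ne_zero (f := Φ a) fun e => by simpa [e] using h1 a a0
      have b2 : #{b | Φ a b = 0} = Fintype.card F ^ 2 := by
        rw [← Fintype.card_subtype]
        exact (Module.card_eq_pow_finrank (K := F) (V := LinearMap.ker (Φ a))).trans (by
          congr 1; simpa using b1)
      rw [← b2, ← card_erase_of_mem (a := 0) (by simp)]
      refine card_le_card_of_injOn (fun t => (t.2 : F) • t.1 • y) (fun t ht => ?_) fun t ht t' ht' e1 => ?_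
      · simp only [coe_filter, mem_univ, true_and, Set.mem_ofPred_eq] at ht
        simpa [← ht, h3 _ _ _ hx, e] using (smul_ne_zero_iff_ne _).2 hy
      · simp only [coe_filter, mem_univ, true_and, Set.mem_ofPred_eq] at ht ht' e1
        have c1 : (t'.1⁻¹ * t.1) • x = x := by rw [mul_smul, ht, ← ht', inv_smul_smul]
        have c2 : (t'.1⁻¹ * t.1) • y = ((t.2⁻¹ * t'.2 : Fˣ) : F) • y := by
          rw [mul_smul, inv_smul_eq_iff, smul_comm, Units.val_mul, mul_smul, ← e1, smul_smul]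
          simp
        have c3 := h3 (t'.1⁻¹ * t.1) y x hy
        rw [c1, c2, h4 _ _ _ hy (Units.ne_zero _), mul_eq_right₀ e', inv_eq_one, Units.val_eq_one] at c3
        rw [c3, Units.val_one, one_smul] at c2
        have c4 := eq_one_of_fix (k := (t'.1⁻¹ * t.1 : H)) (h1 x hx) e (h1 y hy) c1 c2
          (fun v => by have := h3 (t'.1⁻¹ * t.1) x v hx; rwa [c1] at this)
          (fun v => by have := h3 (t'.1⁻¹ * t.1) y v hy; rwa [c2] at this)
        exact Prod.ext (inv_mul_eq_one.1 (Subtype.ext c4)).symm (inv_mul_eq_one.1 c3)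
  rw [card_erase_of_mem (mem_univ _), card_univ, card_univ, Fintype.card_prod, Fintype.card_units,
    ← Nat.card_eq_fintype_card, hc, Fintype.card_fun, Fintype.card_fin, mul_comm (_ ^ 2 - 1)] at h5
  have h6 : 1 < Fintype.card F ^ 3 := Nat.one_lt_pow (by omega) (by omega)
  have h7 : 1 < Fintype.card F ^ 2 := Nat.one_lt_pow (by omega) (by omega)
  have h8 := Nat.le_of_mul_le_mul_left (h5.trans (mul_one _).ge) (Nat.mul_pos (by omega) (by omega))
  omega

end Cfsg.Agent.TT
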