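import Cfsg.Agent.TT.SLa
import Cfsg.Agent.TT.SLb
import Cfsg.Agent.TT.R1
import Cfsg.Agent.TT.L32
import Cfsg.Agent.GLn.PermMin
import Cfsg.Agent.GLn.AutRed
/-!
# Two-transitive actions of `PSL_l(q)`, `l ≥ 3`
-/
set_option autoImplicit false
set_option linter.unusedSectionVars false

namespace Cfsg.Agent.TT
open Cfsg Cfsg.Agent.GLn Matrix MulAction
open scoped commutatorElement

theorem heis' {G : Type*} [Group G] [Finite G] {U V Z : Subgroup G} (hU : V ≤ U) (hZ : Z ≤ V)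
    (hc : ∀ a ∈ V, ∀ b ∈ V, a * b = b * a)
    (hnd : ∀ v ∈ V, v ∉ Z → ∀ z ∈ Z, ∃ y ∈ U, (∀ z ∈ Z, y * z = z * y) ∧ (∀ v ∈ V, ⁅y, v⁆ ∈ Z) ∧ ⁅y, v⁆ = z)
    (K : Subgroup G) (hK : ¬ Z ≤ K) : Nat.card V ≤ Nat.card ↥(Z ⊓ K) * K.relIndex U := by
  let Y : Subgroup G :=
    { carrier := {y | y ∈ U ∧ (∀ z ∈ Z, y * z = z * y) ∧ ∀ v ∈ V, ⁅y, v⁆ ∈ Z}
      mul_mem' := fun {a b} ha hb => ⟨mul_mem ha.1 hb.1, fun z hz => by
        rw [mul_assoc, hb.2.1 z hz, ← mul_assoc, ha.2.1 z hz, mul_assoc], fun v hv => by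
        convert mul_mem (hb.2.2 v hv) (ha.2.2 v hv) using 1
        rw [commutatorElement_def a, ← mul_assoc, ← mul_assoc, ← mul_assoc, ← ha.2.1 _ (hb.2.2 v hv)]
        simp only [commutatorElement_def]
        group⟩
      one_mem' := ⟨one_mem _, by simp, by simp⟩
      inv_mem' := fun {a} ha => ⟨inv_mem ha.1, fun z hz => by
        rw [inv_mul_eq_iff_eq_mul, ← mul_assoc, ha.2.1 z hz, mul_inv_cancel_right], fun v hv => by
        convert inv_mem (ha.2.2 v hv) using 1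
        rw [← mul_right_inj a, ha.2.1 _ (inv_mem (ha.2.2 v hv))]
        simp only [commutatorElement_def]
        group⟩ }
  refine (heis (Y := Y) (fun v hv => ⟨hU hv, fun z hz => hc v hv z (hZ hz), fun w hw => ?_⟩) le_rfl hZ hc
    (fun y hy => hy.2.2) (fun y hy => hy.2.1) (fun v hv h z hz => ?_) K hK).trans
    (Nat.mul_le_mul_left _ (Subgroup.relIndex_le_of_le_right (fun y hy => hy.1)
      Subgroup.index_ne_zero_of_finite))
  · rw [commutatorElement_eq_one_iff_mul_comm.2 (hc v hv w hw)]; exact one_mem _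
  · obtain ⟨y, a, b, c, d⟩ := hnd v hv h z hz
    exact ⟨y, ⟨a, b, c⟩, d⟩

theorem sl_arith {r N Q n l : ℕ} (hr : 1 ≤ r) (hN : 1 ≤ N) (hQ : Q = r * N + 1) (h1 : Q ∣ n) (h2 : 2 ≤ n)
    (h : (Q + N) * (Q - 1) = (n - 1) * l) : n = Q ∨ n = (r + 1) * Q := by
  obtain ⟨s, rfl⟩ := h1
  have h3 : N < Q := by nlinarith
  have hs : 1 ≤ s := Nat.pos_of_ne_zero (by rintro rfl; omega)
  zify [show 1 ≤ Q by omega, show 1 ≤ Q * s by omega] at h hQ h3 hN hs ⊢
  obtain ⟨j, hj⟩ : ∃ j : ℤ, l = N + Q * j := ⟨l * s - Q + 1 - N, by linarith⟩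
  rcases lt_trichotomy j 0 with h4 | rfl | h4
  · nlinarith
  · right
    refine mul_left_cancel₀ (show (N : ℤ) ≠ 0 by omega) ?_
    rw [hj] at h
    linear_combination -h + N * hQ + (Q + N) * hQ - N * hQ - N * hQ * 0 - (N : ℤ) * hQ
  · left
    by_contra h5
    have h6 : (2 : ℤ) ≤ s := by
      rcases hs.eq_or_lt with e | e
      · exact (h5 (by rw [← e, mul_one])).elim
      · omega
    have h7 : (Q : ℤ) + N ≤ l := by nlinarith
    have h8 : (Q : ℤ) - 1 < Q * s - 1 := by nlinarith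
    nlinarith

section
variable {F : Type*} [Field F] {ι : Type*} [Fintype ι] [DecidableEq ι]

theorem conj_trv' {g : SpecialLinearGroup ι F} {v v' w : ι → F} {c : F} (hg : g.1 *ᵥ v = c • v')
    (h : w ⬝ᵥ v = 0) : ∃ h', g * trv v w h * g⁻¹ = trv v' (c • w ᵥ* (g⁻¹).1) h' :=
  ⟨by rw [smul_dotProduct, ← dotProduct_smul, ← hg, vecMul_inv_dot_mulVec, h], by
    rw [conj_trv]; exact trv_congr _ _ (by rw [hg, smul_vecMulVec, vecMulVec_smul])⟩

theorem comm_trv {u φ v w : ι → F} (h1 : φ ⬝ᵥ u = 0) (h2 : w ⬝ᵥ v = 0) (h3 : φ ⬝ᵥ v = 0) :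
    ⁅trv u φ h1, trv v w h2⁆ = trv v (-(w ⬝ᵥ u) • φ) (by simp [h3]) := by
  rw [commutatorElement_def, conj_trv, mul_inv_eq_iff_eq_mul, ← trv_add_right _ _ (by simp [h2, h3])]
  exact trv_congr _ _ (by rw [trv_mulVec, trv_inv, vecMul_trv, h3]; simp [add_comm])

/-- transvections with given centre and axes in `W` -/
def RW (v : ι → F) (W : Submodule F (ι → F)) (hW : ∀ w ∈ W, w ⬝ᵥ v = 0) :
    Subgroup (SpecialLinearGroup ι F) where
  carrier := Set.range fun w : W => trv v w (hW w w.2)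
  mul_mem' := by
    rintro _ _ ⟨a, rfl⟩ ⟨b, rfl⟩
    exact ⟨a + b, trv_add_right _ _ _⟩
  one_mem' := ⟨0, trv_zero_right _ _⟩
  inv_mem' := by
    rintro _ ⟨a, rfl⟩
    exact ⟨-a, (trv_inv _).symm⟩

theorem card_RW [Fintype F] (i : ι) (W : Submodule F (ι → F)) (hW) :
    Nat.card (RW (Pi.single i 1) W hW) = Fintype.card F ^ Module.finrank F W := by
  rw [← Nat.card_eq_fintype_card, ← Module.natCard_eq_pow_finrank]
  refine Nat.card_range_of_injective fun a b e => Subtype.ext (funext fun j => ?_)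
  simpa [trv_coe, vecMulVec_apply] using congrArg (fun g : SpecialLinearGroup ι F => g.1 i j) e

end

variable {F : Type*} [Field F] [Fintype F] {m : ℕ}

local notation "SLm" => Matrix.SpecialLinearGroup (Fin (m + 3)) F
local notation "tv" => Matrix.SpecialLinearGroup.transvection
local notation "e[" i "]" => (Pi.single i 1 : Fin (m + 3) → F)
local notation "q" => Fintype.card F
local notation "L" => Fin.last (m + 2)

variable (F m) in
/-- transvections with centre the first basis vector -/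
def R0 : Subgroup SLm := RW e[0] (LinearMap.ker (LinearMap.proj 0)) fun w hw => by simpa using hw

theorem mem_R0 {g : SLm} : g ∈ R0 F m ↔ ∃ w h, trv e[0] w h = g :=
  ⟨fun ⟨w, h⟩ => ⟨w, _, h⟩, fun ⟨w, h, e⟩ => ⟨⟨w, by simpa using h⟩, e⟩⟩

theorem card_R0 : Nat.card (R0 F m) = q ^ (m + 2) := by
  have := Module.Dual.finrank_ker_add_one_of_ne_zero (f := (LinearMap.proj 0 : (Fin (m + 3) → F) →ₗ[F] F))
    fun e => by simpa using LinearMap.congr_fun e e[0]
  rw [R0, card_RW]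
  congr 1
  simpa using this

theorem conj_R0 {g r : SLm} {c : F} (hg : g.1 *ᵥ e[0] = c • e[0]) (hr : r ∈ R0 F m) :
    g * r * g⁻¹ ∈ R0 F m := by
  obtain ⟨w, h, rfl⟩ := mem_R0.1 hr
  obtain ⟨h', e⟩ := conj_trv' hg h
  exact mem_R0.2 ⟨_, _, e.symm⟩

theorem tri_e0 {g : SLm} (hg : g.1.BlockTriangular Fin.val) : g.1 *ᵥ e[0] = g.1 0 0 • e[0] := by
  ext i
  by_cases h : i = 0
  · simp [h]
  · simp [h, hg (Fin.pos_iff_ne_zero.2 h)]

theorem R0_le : R0 F m ≤ utSL _ F := fun g hg => by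
  obtain ⟨w, h, rfl⟩ := mem_R0.1 hg
  exact trv_mem h fun j _ => rootIn_utSL (Fin.zero_le j)

variable {Ω : Type*} [Finite Ω] [MulAction (Matrix.SpecialLinearGroup (Fin (m + 3)) F) Ω]

/-- axes of the transvections with centre the first basis vector fixing `x` -/
def Ax (x : Ω) : AddSubgroup (Fin (m + 3) → F) where
  carrier := {w | ∃ h, trv e[0] w h • x = x}
  add_mem' := fun ⟨a, ha⟩ ⟨b, hb⟩ => ⟨by rw [add_dotProduct, a, b, add_zero], by
    rw [trv_add_right a b, mul_smul, hb, ha]⟩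
  zero_mem' := ⟨by simp, by rw [trv_zero_right, one_smul]⟩
  neg_mem' := fun ⟨a, ha⟩ => ⟨_, trv_inv a ▸ inv_smul_eq_iff.2 ha.symm⟩

theorem kap_eq {g : SLm} {c d : F} {w w' : Fin (m + 3) → F} (hg : g.1 *ᵥ e[0] = c • e[0])
    (hw : w ⬝ᵥ e[0] = 0) (hd : d ≠ 0) (e : c • w = d • w' ᵥ* g.1) (x : Ω) :
    Nat.card {t : F // t • w ∈ Ax x} = Nat.card {t : F // t • w' ∈ Ax (g • x)} := by
  refine Nat.card_congr ((Equiv.mulRight₀ d hd).subtypeEquiv fun t => ?_)
  have h0 : (t • w) ⬝ᵥ e[0] = 0 := by rw [smul_dotProduct, hw, smul_zero]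
  obtain ⟨h1, h2⟩ := conj_trv' hg h0
  have h3 : c • (t • w) ᵥ* (g⁻¹).1 = (t * d) • w' := by
    rw [← smul_vecMul, smul_comm, e, smul_smul, smul_vecMul, vecMul_vecMul,
      ← Matrix.SpecialLinearGroup.coe_mul, mul_inv_cancel]
    simp
  rw [Equiv.mulRight₀_apply, ← h3]
  exact ⟨fun ⟨_, h⟩ => ⟨h1, by rw [← h2, mul_smul, mul_smul, inv_smul_smul, h]⟩, fun ⟨_, h⟩ => ⟨h0, by
    rwa [← h2, mul_smul, mul_smul, inv_smul_smul, smul_left_cancel_iff] at h⟩⟩

theorem kap_L {w : Fin (m + 3) → F} (hw : w ⬝ᵥ e[0] = 0) (h0 : w ≠ 0) (x : Ω) :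
    ∃ y : Ω, Nat.card {t : F // t • w ∈ Ax x} = Nat.card {t : F // t • e[L] ∈ Ax y} := by
  by_cases h : ∀ j, j ≠ L → w j = 0
  · have e : w = w L • e[L] := funext fun j => by by_cases hj : j = L <;> simp [hj, h]
    exact ⟨_, kap_eq (g := 1) (c := 1) (d := w L) (by rw [one_smul]; exact one_mulVec _) hw (fun e' => h0 (by rw [e, e', zero_smul]))
      (by simpa using e) x⟩
  · push Not at h
    obtain ⟨j, h1, h2⟩ := h
    refine ⟨_, kap_eq (g := trv (e[L] + ((1 - w L) / w j) • e[j]) (w - e[L]) ?_) (c := 1) ?_ hw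
      one_ne_zero ?_ x⟩
    · simp [h1.symm]; field_simp; ring
    · rw [trv_mulVec, sub_dotProduct, hw]; simp
    · rw [vecMul_trv]; simp [h1.symm]

variable (h : T2 (Matrix.SpecialLinearGroup (Fin (m + 3)) F) Ω)
  (ht : ∀ (x : Ω) (v w : Fin (m + 3) → F), v ≠ 0 → w ≠ 0 →
    ∃ g ∈ stabilizer (Matrix.SpecialLinearGroup (Fin (m + 3)) F) x, ∃ c : F, c ≠ 0 ∧ g • v = c • w)
include h ht

theorem not_R0 (x : Ω) : ¬ R0 F m ≤ stabilizer SLm x := fun hR => h.stab_ne_top x <|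
  eq_top_of_tv_mem fun i j hij a => by
    obtain ⟨g, hg, c, -, e⟩ := ht x e[i] e[0] (by simp) (by simp)
    obtain ⟨h1, h2⟩ := conj_trv' (w := Pi.single j a) e (by simp [hij])
    rw [tv_eq_trv, ← Subgroup.mul_mem_cancel_left _ hg, ← Subgroup.mul_mem_cancel_right _ (inv_mem hg), h2]
    exact hR (mem_R0.2 ⟨_, _, rfl⟩)

variable {p : ℕ} [Fact p.Prime] [CharP F p]
include p

theorem R0_free (x : Ω) {r : SLm} (hr : r ∈ R0 F m) (e : r • x = x) : r = 1 := by
  have h1 : ∀ x y : Ω, Nat.card {t : F // t • e[L] ∈ Ax x} = Nat.card {t : F // t • e[L] ∈ Ax y} := by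
    intro x y
    obtain ⟨g, hg, rfl⟩ := sl_borel (p := p) h (fun x e => not_R0 h ht x (R0_le.trans e)) x y
    have h2 : ∀ i, g.1 i i ≠ 0 := fun i => (Finset.prod_ne_zero_iff (f := fun i => g.1 i i)).1 (by
      rw [← det_of_isUpperTriangular (M := g.1) fun _ _ h => hg h, g.2]; exact one_ne_zero) i (Finset.mem_univ i)
    refine kap_eq (tri_e0 hg) (by simp) (div_ne_zero (h2 0) (h2 L)) (funext fun j => ?_) x
    by_cases hj : j = L
    · simp [hj, h2]
    · simp [hj, hg (show j.val < (L).val from Fin.val_lt_last hj)]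
  have h2 : ∀ (y : Ω) w, w ⬝ᵥ e[0] = 0 → w ≠ 0 →
      Nat.card {t : F // t • w ∈ Ax y} = Nat.card {t : F // t • e[L] ∈ Ax x} := fun y w a b =>
    (kap_L a b y).elim fun z hz => hz.trans (h1 _ _)
  let φ : F × F →ₗ[F] Fin (m + 3) → F := 
    LinearMap.coprod (LinearMap.single F (fun _ => F) 1) (LinearMap.single F (fun _ => F) L)
  have h3 : (1 : Fin (m + 3)) ≠ L := by simp [Fin.ext_iff]
  rcases line ((Ax x).comap φ.toAddMonoidHom) _ (fun v hv => by
    refine Eq.trans ?_ (h2 x (φ v) (by simp [φ]) fun e => hv (Prod.ext ?_ ?_))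
    · simp only [AddSubgroup.mem_comap, LinearMap.toAddMonoidHom_coe, map_smul]
    · simpa [φ, h3] using congrFun e 1
    · simpa [φ, h3.symm] using congrFun e L) with h4 | h4
  · obtain ⟨w, hw, rfl⟩ := mem_R0.1 hr
    by_cases h0 : w = 0
    · subst h0; exact trv_zero_right _ _
    · have := (Nat.card_eq_one_iff_unique.1 ((h2 x w hw h0).trans h4)).1.elim ⟨0, by simp⟩
        ⟨1, by rw [one_smul]; exact ⟨hw, e⟩⟩
      simp at this
  · refine (not_R0 h ht x fun r hr => ?_).elim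
    obtain ⟨w, hw, rfl⟩ := mem_R0.1 hr
    by_cases h0 : w = 0
    · subst h0; rw [trv_zero_right]; exact one_mem _
    · by_contra h5
      exact (Finite.card_subtype_lt (p := fun t : F => t • w ∈ Ax x) (x := 1) (by
        rw [one_smul]; exact fun ⟨_, e⟩ => h5 e)).ne ((h2 x w hw h0).trans h4)

theorem sl_deg : Nat.card Ω = q ^ (m + 2) ∨ Nat.card Ω = q ^ (m + 3) := by
  have h1 : q ^ (m + 2) ∣ Nat.card Ω := by
    rw [Nat.card_congr (selfEquivOrbitsQuotientProd (G := R0 F m) fun x => eq_bot_iff.2 fun r hr =>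
      Subtype.ext (R0_free h ht x r.2 hr)), Nat.card_prod, card_R0]
    exact dvd_mul_left _ _
  obtain ⟨l, hl⟩ := h.dvd (R0 F m) (stabilizer SLm (Projectivization.mk F e[0] (by simp)))
    (fun g hg a ha => by
      obtain ⟨c, hc⟩ := (Projectivization.mk_eq_mk_iff' _ _ _ _ _).1 hg
      exact conj_R0 hc.symm ha) 1 fun x => Set.ncard_eq_one.2 ⟨1, Set.eq_singleton_iff_unique_mem.2
        ⟨⟨one_mem _, one_smul _ _⟩, fun r hr => R0_free h ht x hr.1 hr.2⟩⟩
  rw [index_stabilizer_of_transitive, card_proj, Finset.sum_range_succ, add_comm, ← Nat.card_coe_set_eq,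
    SetLike.coe_sort_coe, card_R0, Nat.card_eq_fintype_card] at hl
  have h2 : 1 < q := Fintype.one_lt_card
  have h3 := pred_mul_geom q (m + 2) h2.le
  have h4 : 0 < q ^ (m + 2) := by positivity
  refine (sl_arith (r := q - 1) (by omega) ?_ (by omega) h1 h.two_le hl).imp_right fun e => ?_
  · rw [Finset.sum_range_succ', pow_zero]; omega
  · rw [e, Nat.sub_add_cancel h2.le, ← pow_succ']

theorem sl_big (hm : m ≠ 0) : Nat.card Ω ≠ q ^ (m + 3) := fun hn => by
  have h2 : 1 < q := Fintype.one_lt_card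
  let N : Subgroup SLm :=
    { carrier := {g | ∀ x : Ω, ∃ r ∈ R0 F m, g • x = r • x}
      mul_mem' := fun {a b} ha hb x => by
        obtain ⟨s, hs, e⟩ := hb x
        obtain ⟨r, hr, e'⟩ := ha (s • x)
        exact ⟨_, mul_mem hr hs, by rw [mul_smul, e, e', mul_smul]⟩
      one_mem' := fun x => ⟨1, one_mem _, rfl⟩
      inv_mem' := fun {a} ha x => by
        obtain ⟨r, hr, e⟩ := ha (a⁻¹ • x)
        exact ⟨_, inv_mem hr, by rw [eq_inv_smul_iff, ← e, smul_inv_smul]⟩ }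
  have hN : ∀ {i j : Fin (m + 3)} (hij : i ≠ j), j ≠ 0 → ∀ a : F, ∀ n ∈ N, tv hij a * n * (tv hij a)⁻¹ ∈ N :=
    fun hij hj a n hn x => by
      obtain ⟨r, hr, e⟩ := hn ((tv hij a)⁻¹ • x)
      exact ⟨_, conj_R0 (g := tv hij a) (c := 1) (by rw [tv_eq_trv, trv_mulVec]; simp [hj.symm]) hr, by
        simp only [mul_smul, e]⟩
  have h3 : (1 : Fin (m + 3)) ≠ L := by simp [Fin.ext_iff]
  let φ : (Fin (m + 3) → F) →ₗ[F] F × F := (LinearMap.proj 0).prod (LinearMap.proj 1)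
  have hφ : ∀ w, w ∈ LinearMap.ker φ ↔ w 0 = 0 ∧ w 1 = 0 := fun w => by simp [φ]
  have hV : ∀ w ∈ LinearMap.ker φ, w ⬝ᵥ e[1] = 0 := fun w hw => by simpa using ((hφ w).1 hw).2
  have hW : (F ∙ e[L]) ≤ LinearMap.ker φ := by simp [hφ, h3]
  have hZ : RootIn N 1 L := fun _ a x => by
    let K : Subgroup SLm :=
      { carrier := {g | g ∈ utSL _ F ∧ ∃ r ∈ R0 F m, g • x = r • x}
        mul_mem' := fun {a b} ⟨ha, r, hr, e⟩ ⟨hb, s, hs, e'⟩ => ⟨mul_mem ha hb, _,
          mul_mem (conj_R0 (tri_e0 ha.1) hs) hr, by simp only [mul_smul, e', ← e, inv_smul_smul]⟩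
        one_mem' := ⟨one_mem _, 1, one_mem _, rfl⟩
        inv_mem' := fun {a} ⟨ha, r, hr, e⟩ => ⟨inv_mem ha, _, conj_R0 (tri_e0 (inv_mem ha).1) (inv_mem hr),
          by simp only [mul_smul, inv_inv, e, inv_smul_smul]⟩ }
    have k1 : K.relIndex (utSL _ F) ≤ q := by
      have a1 := Subgroup.relIndex_mul_relIndex (stabilizer SLm x ⊓ utSL _ F) K (utSL _ F)
        (fun g hg => ⟨hg.2, 1, one_mem _, hg.1.trans (one_smul _ _).symm⟩) fun g hg => hg.1
      have a2 : (stabilizer SLm x ⊓ utSL _ F).relIndex (utSL _ F) ≤ q ^ (m + 3) := by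
        rw [Subgroup.inf_relIndex_right, ← hn, ← h.index_stab x, ← Subgroup.relIndex_top_right]
        exact Subgroup.relIndex_le_of_le_right le_top Subgroup.index_ne_zero_of_finite
      have a3 : q ^ (m + 2) ≤ (stabilizer SLm x ⊓ utSL _ F).relIndex K := by
        refine le_trans ?_ (Subgroup.relIndex_le_of_le_right (K := R0 F m)
          (fun r hr => ⟨R0_le hr, r, hr, rfl⟩) Subgroup.index_ne_zero_of_finite)
        rw [Subgroup.relIndex, (Subgroup.subgroupOf_eq_bot.2 (Subgroup.disjoint_def.2 fun a b =>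
          R0_free h ht x b (Subgroup.mem_inf.1 a).1)), Subgroup.index_bot, card_R0]
      rw [← a1, pow_succ] at a2
      exact Nat.le_of_mul_le_mul_left ((Nat.mul_le_mul_right _ a3).trans a2) (by positivity)
    by_contra h4
    have k2 : ¬ RW e[1] (F ∙ e[L]) (fun w hw => hV w (hW hw)) ≤ K := fun e => h4 (e
      ⟨⟨Pi.single L a, Submodule.mem_span_singleton.2 ⟨a, by rw [← Pi.single_smul]; simp⟩⟩,
        (tv_eq_trv _ _).symm⟩).2
    have k3 := heis' (U := utSL _ F) (V := RW e[1] _ hV) ?_ ?_ ?_ ?_ K k2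
    · have k4 : Nat.card ↥(RW e[1] (F ∙ e[L]) (fun w hw => hV w (hW hw)) ⊓ K) < q := by
        have := lt_of_not_ge fun e => k2 (inf_eq_left.1 (Subgroup.eq_of_le_of_card_ge inf_le_left e))
        rwa [card_RW, finrank_span_singleton (by simp), pow_one] at this
      have k5 := φ.finrank_range_add_finrank_ker
      have k6 := (LinearMap.range φ).finrank_le
      simp only [Module.finrank_prod, Module.finrank_self, Module.finrank_fin_fun] at k5 k6
      rw [card_RW] at k3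
      have := Nat.pow_le_pow_right h2.le (show 2 ≤ Module.finrank F (LinearMap.ker φ) by omega)
      nlinarith
    · rintro _ ⟨w, rfl⟩
      exact trv_mem _ fun j hj => rootIn_utSL (Fin.one_le_of_ne_zero fun e => hj (e ▸ ((hφ w).1 w.2).1))
    · rintro _ ⟨w, rfl⟩
      exact ⟨⟨w, hW w.2⟩, rfl⟩
    · rintro _ ⟨w, rfl⟩ _ ⟨w', rfl⟩
      exact (trv_add_right _ _ (hV _ (w + w').2)).symm.trans
        ((trv_congr _ _ (by rw [add_comm w.1])).trans (trv_add_right _ _ (hV _ (w' + w).2)))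
    · rintro _ ⟨w, rfl⟩ h5 _ ⟨z, rfl⟩
      obtain ⟨j, j1, j2⟩ : ∃ j, j ≠ L ∧ w.1 j ≠ 0 := by
        by_contra h6
        push Not at h6
        exact h5 ⟨⟨w, Submodule.mem_span_singleton.2 ⟨w.1 L, funext fun j => by
          by_cases hj : j = L <;> simp [hj, h6]⟩⟩, rfl⟩
      obtain ⟨z, hz⟩ := z
      obtain ⟨c, rfl⟩ := Submodule.mem_span_singleton.1 hz
      have j3 : ((-c / w.1 j) • e[L]) ⬝ᵥ e[j] = 0 := by simp [j1]
      have j4 : ((-c / w.1 j) • e[L]) ⬝ᵥ e[1] = 0 := by simp [h3]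
      refine ⟨trv _ _ j3, trv_mem _ fun k hk => rootIn_utSL ?_, ?_, ?_, ?_⟩
      · rw [show k = L from by_contra fun e => hk (by simp [e])]; exact Fin.le_last j
      · rintro _ ⟨⟨_, hd⟩, rfl⟩
        obtain ⟨d, rfl⟩ := Submodule.mem_span_singleton.1 hd
        rw [← commutatorElement_eq_one_iff_mul_comm, comm_trv _ _ j4, ← trv_zero_right e[1] (by simp)]
        exact trv_congr _ _ (by simp [j1])
      · rintro _ ⟨v, rfl⟩
        rw [comm_trv _ _ j4]
        exact ⟨⟨_, Submodule.smul_mem _ _ (Submodule.smul_mem _ _ (Submodule.mem_span_singleton_self _))⟩, rfl⟩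
      · rw [comm_trv _ _ j4]
        refine trv_congr _ _ (congrArg _ ?_)
        rw [smul_smul, dotProduct_single, mul_one, neg_div, neg_mul_neg, mul_div_cancel₀ _ j2]
  have hU : utSL _ F ≤ N := by
    have a1 : ∀ i, RootIn N i L := fun i hi a => by
      by_cases e : i = 1
      · subst e; exact hZ _ _
      · rw [← mul_one a, ← tv_commutator e h3]
        exact mul_mem (hN e (by simp) _ _ (hZ _ _)) (inv_mem (hZ _ _))
    refine ut_le fun i hi a => ?_
    by_cases e : i.succ = L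
    · exact (e ▸ a1 i.castSucc) hi a
    · have a2 := (Fin.castSucc_lt_last i).ne
      rw [← mul_one a, ← tv_commutator a2 (Ne.symm e), mul_assoc, mul_assoc, ← mul_assoc (tv _ 1)]
      exact mul_mem (a1 _ _ _) (hN _ (Fin.succ_ne_zero i) _ _ (inv_mem (a1 _ _ _)))
  obtain ⟨S, hS⟩ := exists_sylow_utSL (n := m + 3) (F := F) p
  obtain ⟨f, -, hf⟩ := FiniteField.card F p
  obtain ⟨x, -⟩ := h.nt
  have h5 := Nat.card_le_card_of_surjective (fun r : R0 F m => r • x) fun y => by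
    obtain ⟨u, hu, rfl⟩ := h.trans_of_pow (utSL _ F) (hS ▸ S.not_dvd_index) (by rw [hn, hf, ← pow_mul]) x y
    obtain ⟨r, hr, e⟩ := hU hu x
    exact ⟨⟨r, hr⟩, e.symm⟩
  rw [hn, card_R0, Nat.pow_le_pow_iff_right h2] at h5
  omega

omit ht in
theorem sl_main : Nat.card Ω = ∑ i ∈ Finset.range (m + 3), q ^ i ∨ (q = 2 ∧ Nat.card Ω = 8 ∧ m ≤ 1) := by
  have h2 : 1 < q := Fintype.one_lt_card
  have hP : T2 SLm (Projectivization F (Fin (m + 3) → F)) :=
    ⟨fun a b c d h h' => is_two_pretransitive_iff.1 inferInstance h h', by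
      rw [← Finite.one_lt_card_iff_nontrivial, card_proj, Finset.sum_range_succ', pow_zero,
        Finset.sum_range_succ', Nat.card_eq_fintype_card, zero_add, pow_one]
      omega⟩
  refine (rank_one h hP).imp (fun e => by rw [e, card_proj, Nat.card_eq_fintype_card]) fun h1 => ?_
  have ht : ∀ (x : Ω) (v w : Fin (m + 3) → F), v ≠ 0 → w ≠ 0 →
      ∃ g ∈ stabilizer SLm x, ∃ c : F, c ≠ 0 ∧ g • v = c • w := fun x v w hv hw => by
    obtain ⟨g, a, b⟩ := h1 x (Projectivization.mk F v hv) (Projectivization.mk F w hw)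
    obtain ⟨c, hc⟩ := (Projectivization.mk_eq_mk_iff _ _ _ _ _).1 b
    exact ⟨g, a, c, c.ne_zero, hc.symm⟩
  rcases sl_deg (p := p) h ht with hn | hn
  · by_contra h3
    have := h.nt
    have : IsPretransitive SLm Ω := ⟨h.trans⟩
    have := le_card_of_pretransitive (F := F) (m := m) (fun e => h3 ⟨e.2, by rw [hn, e.1, e.2]; rfl, e.1.le⟩) Ω
    rw [Finset.sum_range_succ, Finset.sum_range_succ', pow_zero, hn, Nat.card_eq_fintype_card (α := F)] at this
    omega
  · obtain rfl : m = 0 := by_contra fun e => sl_big (p := p) h ht e hn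
    obtain ⟨x, -⟩ := h.nt
    have h3 : q = 2 := by_contra fun e => sl3_false (stabilizer _ x) (by
      have := (stabilizer (SpecialLinearGroup (Fin 3) F) x).card_mul_index
      rw [h.index_stab, hn, card_SL_eq, mul_comm] at this
      refine (Nat.eq_of_mul_eq_mul_left (by positivity) this).trans ?_
      rw [show Finset.Icc 2 3 = {2, 3} from rfl, Finset.prod_pair (by decide), mul_comm]) (by omega) (ht x)
    exact ⟨h3, by rw [hn, h3]; rfl, by omega⟩

omit h ht in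
theorem fam_L3 {G Ω : Type*} [Group G] [Finite G] [MulAction G Ω] [FaithfulSMul G Ω] [Finite Ω]
    {F : Type} [Field F] [Fintype F] [CharP F p] {l : ℕ} (hl : 3 ≤ l)
    (e : G ≃* Matrix.ProjectiveSpecialLinearGroup (Fin l) F) (h2 : IsMultiplyPretransitive G Ω 2) :
    Concl G (Nat.card Ω) := by
  obtain ⟨m, rfl⟩ := Nat.exists_eq_add_of_le' hl
  have : Nontrivial G := ⟨_, 1, fun h => one_ne_zero (mk_tv_eq_one (F := F) (i := 0) (j := 1) (by simp)
    (a := 1) ((map_eq_one_iff _ e.symm.injective).1 h))⟩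
  let φ := e.symm.toMonoidHom.comp (QuotientGroup.mk' (Subgroup.center _))
  let _ := MulAction.compHom Ω φ
  rcases sl_main (p := p) ((T2.of_faithful h2).comp φ (e.symm.surjective.comp
    (QuotientGroup.mk'_surjective _))) with h | ⟨h1, h3, h4⟩
  · exact Or.inl ⟨F, _, _, _, hl, ⟨e⟩, by rw [h, mul_comm, pred_mul_geom _ _ Fintype.card_pos]⟩
  · rcases Nat.le_one_iff_eq_zero_or_eq_one.1 h4 with rfl | rfl
    · obtain ⟨e'⟩ := l32 h1
      exact Or.inr (Or.inl ⟨ZMod 7, _, inferInstance, by simp, ⟨e.trans e'⟩, by simp [h3]⟩)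
    · iterate 7 right
      exact Or.inl ⟨F, _, _, h1, ⟨e⟩, h3⟩

end Cfsg.Agent.TT
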