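import Cfsg.Agent.TT.Tv
import Cfsg.Agent.U3.Main
import Cfsg.Agent.Polar.MinU

set_option autoImplicit false

/-! Two-transitive actions of unitary groups. -/

namespace Cfsg.Agent.TT
open MulAction Module Cfsg.Agent.Polar Cfsg.Agent.Polar.PQ Cfsg.Agent.Cl Cfsg.Agent.Forms

theorem su_ar1 {q A μ n N : ℕ} (hq : 2 ≤ q) (hA : 2 ≤ A) (h : μ * (n - 1) = N * (A - 1)) (h1 : q ^ 2 ∣ n)
    (h2 : q ^ 2 ∣ (q ^ 2 - 1) * N + 1) (hn : 1 ≤ n) : q ^ 2 + 1 ≤ μ + A := by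
  obtain ⟨c, hc⟩ := h1
  obtain ⟨d, hd⟩ := h2
  have h3 : (q : ℤ) ^ 2 ∣ μ + A - 1 := ⟨μ * c + (A - 1) * (d - N), by
    zify [Nat.one_le_pow 2 q (by omega), hn, hA.trans' one_le_two] at h hc hd
    linear_combination -h + μ * hc + (A - 1) * hd⟩
  have := Int.le_of_dvd (by omega) h3
  zify; omega

theorem su_ar2 {q A μ n N M X t : ℕ} (hq : 2 ≤ q) (hA : 2 ≤ A) (hA' : A ≤ q) (h : μ * (n - 1) = N * (A - 1))
    (h1 : q ^ 2 + 1 ≤ μ + A) (h2 : (q ^ 2 - 1) * N + 1 = M) (h3 : q * M ≤ X ^ 2 + t * X) (ht : t ≤ q) (hn : 1 ≤ n) :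
    (q ^ 3 + 1) * q * n ≤ X ^ 2 + q * X + (q ^ 3 + 1) * q := by
  obtain ⟨n, rfl⟩ : ∃ m, n = m + 1 := ⟨n - 1, by omega⟩
  obtain ⟨q, rfl⟩ : ∃ m, q = m + 1 := ⟨q - 1, by omega⟩
  rw [Nat.add_sub_cancel] at h
  rw [show (q + 1) ^ 2 - 1 = q * (q + 2) from Nat.sub_eq_of_eq_add (by ring)] at h2
  have h4 : (q ^ 2 + q + 1) * n ≤ N * q :=
    (Nat.mul_le_mul_right n (by nlinarith)).trans (h.le.trans (Nat.mul_le_mul_left N (by omega)))
  have h5 := Nat.mul_le_mul_left ((q + 1) * (q + 2)) h4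
  have h6 := Nat.mul_le_mul_right X ht
  nlinarith

theorem su_ar3 {q n : ℕ} (hq : 2 ≤ q) (h : (q + 1) * (q ^ 3 + 1) ≤ n)
    (h1 : (q ^ 3 + 1) * q * n ≤ (q ^ (2 + 2)) ^ 2 + q * q ^ (2 + 2) + (q ^ 3 + 1) * q) : False := by
  have h2 := (Nat.mul_le_mul_left _ h).trans h1
  have h3 : (q ^ 3 + 1) * q * ((q + 1) * (q ^ 3 + 1)) =
    (q ^ (2 + 2)) ^ 2 + q * q ^ (2 + 2) + (q ^ 3 + 1) * q + (q ^ 7 + q ^ 5 + q ^ 4 + q ^ 2) := by ring
  have : 0 < q ^ 2 := by positivity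
  omega

theorem su_ar4 {q A μ n N : ℕ} (hq : 2 ≤ q) (hA : 2 ≤ A) (hA' : A ≤ q) (h : μ * (n - 1) = N * (A - 1))
    (h1 : q ^ 2 + 1 ≤ μ + A) (h2 : N ≤ n) (h3 : q ^ 2 ≤ n) : False := by
  have hq2 : 2 * q ≤ q ^ 2 := by nlinarith
  obtain ⟨n, rfl⟩ : ∃ m, n = m + 1 := ⟨n - 1, by omega⟩
  obtain ⟨A, rfl⟩ : ∃ m, A = m + 1 := ⟨A - 1, by omega⟩
  rw [Nat.add_sub_cancel, Nat.add_sub_cancel] at h
  have := Nat.mul_le_mul_right A h2
  have := Nat.mul_le_mul_right n (show A + 2 ≤ μ by omega)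
  nlinarith

theorem su_ar5 {q n i Y s t : ℕ} (hq : 2 ≤ q) (h : q * (i * (q + 1)) + s * Y = Y ^ 2 + t * Y) (hs : s ≤ 1)
    (hi : i ≤ n) (hY : q ^ 4 ≤ Y) (h1 : (q ^ 3 + 1) * q * n ≤ Y ^ 2 + q * Y + (q ^ 3 + 1) * q) : False := by
  have h2 := Nat.mul_le_mul_right Y hs
  have h3 := Nat.mul_le_mul_left (q * (q + 1)) hi
  have h4 : Y ^ 2 ≤ q * (q + 1) * n + Y := by nlinarith [Nat.zero_le (t * Y)]
  have h5 : 8 ≤ q ^ 3 := Nat.pow_le_pow_left hq 3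
  have h6 : 3 * (q + 1) ≤ q ^ 3 + 1 := by
    obtain ⟨r, rfl⟩ := Nat.exists_eq_add_of_le hq
    nlinarith [Nat.zero_le (r ^ 3), Nat.zero_le (r ^ 2)]
  have h7 := Nat.mul_le_mul_right (q * n) h6
  have h8 : 8 * q ≤ Y := (Nat.mul_le_mul_right q h5).trans (pow_succ q 3 ▸ hY)
  have h9 := Nat.mul_le_mul_right Y h8
  have h10 := Nat.mul_le_mul_right Y (show 16 ≤ Y by omega)
  nlinarith

theorem su_ar6 {q n X : ℕ} (hq : 2 ≤ q) (h : (q + 1) * (X * X) ≤ n) (hX : q ^ 2 ≤ X)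
    (h1 : (q ^ 3 + 1) * q * n ≤ (X * q ^ 2) ^ 2 + q * (X * q ^ 2) + (q ^ 3 + 1) * q) : False := by
  have h2 := (Nat.mul_le_mul_left _ h).trans h1
  have h3 : (q ^ 3 + 1) * q * ((q + 1) * (X * X)) =
    (X * q ^ 2) ^ 2 + q ^ 5 * (X * X) + (q ^ 2 + q) * (X * X) := by ring
  have h4 : 4 ≤ q ^ 2 := Nat.pow_le_pow_left hq 2
  have h5 := Nat.mul_le_mul_left (q ^ 3 * X) (show 3 ≤ q ^ 2 * X by nlinarith)
  have h6 := Nat.mul_le_mul_left (q ^ 3) (show q + 1 ≤ X by nlinarith)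
  have h7 : q ≤ q ^ 3 := Nat.le_self_pow three_ne_zero q
  have h8 : 0 < (q ^ 2 + q) * (X * X) := by have : 0 < X := (by omega); positivity
  nlinarith

variable {F : Type*} [Field F] [Fintype F] {q : ℕ} {hF : Fintype.card F = q ^ 2}
variable {V : Type*} [AddCommGroup V] [Module F V] [Finite V] {P : PQ (uFP hF) V}
variable {Ω : Type*} [MulAction P.EG Ω] [Finite Ω] {p : ℕ} [Fact p.Prime] [CharP F p]

theorem su_q (hF : Fintype.card F = q ^ 2) (p : ℕ) [Fact p.Prime] [CharP F p] : ∃ f, 1 ≤ f ∧ q = p ^ f := by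
  obtain ⟨f, -, hf⟩ := card_pow_char F p
  obtain ⟨j, -, rfl⟩ := (Nat.dvd_prime_pow Fact.out).1 ⟨q, hf.symm.trans ((u_card hF).trans (sq q))⟩
  exact ⟨j, Nat.pos_of_ne_zero (by rintro rfl; simpa using two_le_q hF), rfl⟩

theorem su_big (p : ℕ) [Fact p.Prime] [CharP F p] (hP : P.ND) (h4 : 4 ≤ finrank F V) (h : T2 P.EG Ω)
    (hk : Ker P Ω) : False := by
  obtain ⟨e, f, w, w', ⟨hf, -⟩, ht⟩ := cl_trans' p hP u_rich u_hmin (r := 2) (fun W hW => by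
    obtain ⟨x, h0, hx⟩ := u_exists_sing (P.res W) hW
    exact ⟨x, x.2, by simpa using h0, hx⟩) h4 (Or.inl (u_exists_lam hF)) h
  obtain ⟨c, hc, h0⟩ := u_exists_lam hF
  obtain ⟨k, a, μ, h1, h2, h3, h5, -, h6⟩ := tv_core (p := p) hP h hk hf hc h0 fun x y => by
    obtain ⟨g, h1, -, h2⟩ := ht x y
    exact ⟨g, h1, h2⟩
  obtain ⟨j, -, hj⟩ := su_q hF p
  obtain ⟨d, hd⟩ : ∃ d, finrank F V = d + 2 := ⟨finrank F V - 2, by omega⟩
  have hq := two_le_q hF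
  have hA : 2 ≤ p ^ a := Nat.one_lt_pow (by omega) (Fact.out : p.Prime).one_lt
  rw [card_lam] at h1
  have hA' : p ^ a ≤ q := Nat.le_of_dvd (by omega) (Dvd.intro_left _ h1)
  have h7 : q ^ 2 ∣ Nat.card Ω := by
    rw [hj, ← pow_mul]
    refine pow_dvd_card (G := P.EG) (isPGroup_Ue hf).comap_subtype fun x => ?_
    obtain ⟨i, l, φ, e1, e2, e3, -⟩ := hf.u_local hP hd (by omega) (H := Hx P x) fun hT => by
      have := h5 x
      rw [Subgroup.relIndex_eq_one.2 (by rintro z ⟨c, hc, e⟩; exact mem_Hx.1 ((show z.1 = _ from e) ▸ hT c hc))] at this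
      omega
    have e4 := Nat.eq_of_mul_eq_mul_left (relIndex_pos _ _) ((hf.relIndex_Gam _).symm.trans e3)
    have e5 : 0 < l * i := e4 ▸ relIndex_pos _ _
    have e6 : q ^ d ≤ l := Nat.le_of_mul_le_mul_right (e1.ge.trans (Nat.mul_le_mul_left _ e2)) (by positivity)
    rw [pow_mul, ← hj]
    exact ((Nat.pow_le_pow_right (by omega) (by omega)).trans e6).trans
      ((Nat.le_mul_of_pos_right _ (Nat.pos_of_mul_pos_left e5)).trans (e4.symm.trans (Hx_rel x hf.U_le_EG).symm).le)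
  have h8 := u_sing_index hP hf.left hf.left_ne_zero
  have hn := h.two_le
  obtain ⟨s, t, s', t', hst, c1, c2⟩ : ∃ s t s' t', (s ≤ q ∧ t ≤ q ∧ s' ≤ 1) ∧ q * P.nq 0 + s * q ^ (d + 2) =
      (q ^ (d + 2)) ^ 2 + t * q ^ (d + 2) ∧ ∀ c ∉ (uFP hF).Λ, q * P.nq c + s' * q ^ (d + 2) =
      (q ^ (d + 2)) ^ 2 + t' * q ^ (d + 2) := by
    rcases Nat.even_or_odd (d + 2) with e | e
    · exact ⟨_, _, _, _, by omega, (u_count _ V P hP hd).1 e⟩
    · exact ⟨_, _, _, _, by omega, (u_count _ V P hP hd).2 e⟩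
  have d3 : q * q ^ 2 ∣ q ^ (d + 2) := pow_succ' q 2 ▸ pow_dvd_pow q (show 3 ≤ d + 2 by omega)
  have h9 := su_ar1 hq hA h6 h7 (by
    rw [h8]
    refine Nat.dvd_of_mul_dvd_mul_left (show 0 < q by omega) ((Nat.dvd_add_left (d3.mul_left s)).1 ?_)
    rw [c1]
    exact dvd_add (d3.trans (dvd_pow_self _ two_ne_zero)) (d3.mul_left _)) (by omega)
  have h10 := su_ar2 hq hA hA' h6 h9 h8 (Nat.le.intro c1) hst.2.1 (by omega)
  obtain ⟨x⟩ := h.nt.to_nonempty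
  rcases (show d = 2 ∨ 3 ≤ d by omega) with rfl | hd3
  · exact su_ar3 hq (h.Hx_index x ▸ u4_min_index hP hd (h.Hx_not x)) h10
  by_cases hn : (Hx P x).relIndex P.EG < (q + 1) * (q ^ d * q ^ d)
  · obtain ⟨v, hv, h12⟩ := u_fix_point hP hd hd3 (h.Hx_not x) hn
    have h13 := relIndex_anti_left P.EG (inf_le_left.trans h12)
    rw [h.Hx_index] at h13
    by_cases hs : P.Sing v
    · rw [Nat.eq_of_mul_eq_mul_left (Nat.sub_pos_of_lt (Nat.one_lt_pow two_ne_zero hq))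
        (Nat.add_right_cancel ((u_sing_index hP hs hv).trans h8.symm))] at h13
      exact su_ar4 hq hA hA' h6 h9 h13 (Nat.le_of_dvd (by omega) h7)
    · have h14 := c2 _ (mt (sing_iff_of_QEq (QEq.self v)).2 hs)
      rw [u_nonsing_index hP (by omega) hs] at h14
      exact su_ar5 hq h14 hst.2.2 h13 (Nat.pow_le_pow_right (by omega) (by omega)) h10
  · rw [h.Hx_index, not_lt] at hn
    exact su_ar6 hq hn (Nat.pow_le_pow_right (by omega) (by omega)) (pow_add q d 2 ▸ h10)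

theorem su_t2 (hP : P.ND) (h3 : finrank F V = 3) {e f : V} (hf : P.Hyp e f) :
    T2 P.EG (P.EG ⧸ (P.pst e).subgroupOf P.EG) := by
  have k : ∀ a b : P.EG, (a : P.EG ⧸ (P.pst e).subgroupOf P.EG) ≠ b → P.B (a.1 • e) (b.1 • e) ≠ 0 :=
    fun a b h h0 => by
    obtain ⟨t, ht⟩ := Submodule.mem_span_singleton.1 (u3_mem_span hP h3 (hf.left.act b.1)
      (act_ne_zero _ hf.left_ne_zero) (hf.left.act a.1) h0)
    refine h (Eq.symm (QuotientGroup.eq.2 (mem_pst_of_eq hf.left_ne_zero (g := b.1⁻¹ * a.1) (t := t) ?_)))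
    simp [mul_smul, ← ht, act_smul]
  refine ⟨fun a b c d h1 h2 => ?_, ?_⟩
  · obtain ⟨a, rfl⟩ := QuotientGroup.mk_surjective a
    obtain ⟨b, rfl⟩ := QuotientGroup.mk_surjective b
    obtain ⟨c, rfl⟩ := QuotientGroup.mk_surjective c
    obtain ⟨d, rfl⟩ := QuotientGroup.mk_surjective d
    obtain ⟨g, hg, e1, e2⟩ := (u_vTrans hP h3.ge).exists_hyp (hyp_of_ne (hf.left.act _) (hf.left.act _) (k a b h1))
      (hyp_of_ne (hf.left.act _) (hf.left.act _) (k c d h2))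
    refine ⟨⟨g, hg⟩, QuotientGroup.eq.2 (mem_pst_of_fix ?_), QuotientGroup.eq.2 ((span_eq_iff e _ _).1 ?_)⟩
    · simp [mul_smul, ← e1]
    · rw [act_smul] at e2
      have := congrArg (fun x => F ∙ x) e2
      rw [Submodule.span_singleton_smul_eq (IsUnit.mk0 _ ((map_ne_zero _).2 (inv_ne_zero (k a b h1 : _ ≠ (0 : F))))),
        Submodule.span_singleton_smul_eq (IsUnit.mk0 _ ((map_ne_zero _).2 (inv_ne_zero (k c d h2)))),
        ← mul_smul] at this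
      exact this
  · obtain ⟨g, hg, e1⟩ := u_vTrans hP h3.ge e f hf.left hf.right hf.left_ne_zero hf.right_ne_zero
    refine ⟨(1 : P.EG), (⟨g, hg⟩ : P.EG), fun h => ?_⟩
    obtain ⟨t, -, ht⟩ := QuotientGroup.eq.1 h
    have := hf.pair
    rw [← e1, show g • e = t • e by simpa using ht, B_smul_right, hf.left.B_self, mul_zero] at this
    exact zero_ne_one this

theorem su_three (p : ℕ) [Fact p.Prime] [CharP F p] (hP : P.ND) (h3 : finrank F V = 3) (hq : 3 ≤ q)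
    (h : T2 P.EG Ω) (hk : Ker P Ω) : Nat.card Ω = q ^ 3 + 1 := by
  obtain ⟨e, h0, he⟩ := u_exists_sing P (by omega)
  obtain ⟨f, hf⟩ := hP.exists_hyp he h0
  have hq2 : 0 < q ^ 2 - 1 := Nat.sub_pos_of_lt (Nat.one_lt_pow two_ne_zero (by omega))
  have hN : (P.pst e).relIndex P.EG = q ^ 3 + 1 := Nat.eq_of_mul_eq_mul_left hq2 (by
    rw [← u3_sing0 hP h3, sing_index_eq hP u_rich he h0, u_card hF])
  refine (rank_one h (su_t2 hP h3 hf)).elim (fun e => e.trans hN) fun ht => False.elim ?_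
  obtain ⟨c, hc, hc0⟩ := u_exists_lam hF
  obtain ⟨k, a, μ, h1, h2, -, h5, h7, h6⟩ := tv_core (p := p) hP h hk hf hc hc0 fun x y => by
    obtain ⟨g, h1, h2⟩ := r1_flip h ht ((1 : P.EG) : P.EG ⧸ _) x y
    exact ⟨g, (stabilizer_quotient _).le h1, h2⟩
  obtain ⟨w, hw, hw0⟩ := Submodule.exists_mem_ne_zero_of_ne_bot (p := P.perp {e, f}) fun e => by
    have := hf.finrank_perp
    rw [e, finrank_bot] at this; omega
  have h8 := more_U hP u_hmin hf hw hw0 h2 h5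
  obtain ⟨j, hj1, hj⟩ := su_q hF p
  obtain ⟨x⟩ := h.nt.to_nonempty
  rw [card_lam] at h1
  rw [hN] at h6
  have hA' : p ^ a ≤ q := Nat.le_of_dvd (by omega) (Dvd.intro_left _ h1)
  have k : ∀ d, d ∣ q ^ 3 → q ^ 3 + 1 ≡ 1 [MOD d] := fun d hd => by
    rw [add_comm]; exact ((Nat.modEq_iff_dvd' (by omega)).2 (by simpa using hd)).symm
  rcases U3.u3_index hP h3 hq (h.Hx_not x) with h9 | ⟨rfl, h9⟩ <;> rw [h.Hx_index] at h9
  · refine pow_ar h1 (Or.inl (k _ ?_)) ⟨j, hj⟩ h8 (core_ar h6 h7 (k _ ?_) h9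
      (Nat.one_lt_pow (by omega) (Fact.out : p.Prime).one_lt) ?_)
    · rw [pow_succ]
      exact mul_dvd_mul_right ((hj ▸ dvd_pow_self p (by omega) : p ∣ q).trans (dvd_pow_self _ two_ne_zero)) _
    · exact (Dvd.intro_left _ h1).trans (dvd_pow_self _ three_ne_zero)
    · exact Nat.lt_succ_of_le (hA'.trans (Nat.le_self_pow three_ne_zero _))
  · obtain ⟨rfl, -⟩ := (Nat.Prime.pow_eq_iff Nat.prime_five).1 hj.symm
    obtain rfl : a = 1 := by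
      by_contra e
      have := Nat.pow_le_pow_right (show 0 < 5 by omega) (show 2 ≤ a by omega)
      omega
    obtain ⟨c, hc⟩ := h8
    have h10 := Nat.le_of_dvd (by norm_num) (Dvd.intro_left _ h6)
    have h11 := Dvd.intro_left _ h6
    rw [hc] at h9 h10 h11
    have : c ≤ 21 := by omega
    interval_cases c <;> omega

theorem fam_PSU {G Ω : Type*} [Group G] [Finite G] [MulAction G Ω] [FaithfulSMul G Ω] [Finite Ω] {p : ℕ}
    [Fact p.Prime] (hG : IsPSUChar p G) (h2 : MulAction.IsMultiplyPretransitive G Ω 2) : Concl G (Nat.card Ω) := by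
  obtain ⟨F, _, _, _, n, q, hF, h3, h4, ⟨ψ⟩⟩ := hG
  have hP := uStd_nd hF n
  have hfr : finrank F (Fin n → F) = n := by simp
  obtain ⟨e, h0, he⟩ := u_exists_sing (uStd hF n) (by omega)
  obtain ⟨f, hf⟩ := hP.exists_hyp he h0
  refine transport hP u_rich hf ψ (suEquiv hF n) h2 fun h hk => ?_
  rcases h3.eq_or_lt with rfl | h3
  · have hq : 3 ≤ q := by have := two_le_q hF; omega
    exact Or.inr (Or.inr (Or.inl ⟨F, _, _, q, hq, hF, ⟨ψ⟩, su_three p hP hfr hq h hk⟩))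
  · exact (su_big p hP (by omega) h hk).elim

end Cfsg.Agent.TT
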