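import Cfsg.Agent.TT.Tv
import Cfsg.Agent.Polar.SpTwo

set_option autoImplicit false

/-! Two-transitive actions of symplectic groups over the field with two elements. -/

namespace Cfsg.Agent.TT
open MulAction Module Cfsg.Agent.Polar Cfsg.Agent.Polar.PQ Finset

theorem gram {Ω V : Type*} [Fintype Ω] [Fintype V] [DecidableEq Ω] [DecidableEq V] (o : V) (f : Ω → V → ℚ)
    (ε : V → V → ℚ) {k μ α β γ t : ℚ} (f0 : ∀ x, f x o = 0) (ff : ∀ x a, f x a * f x a = f x a)
    (hK : ∀ x y, ∑ a, f x a * f y a = if x = y then k else μ)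
    (hS : ∀ a ≠ o, ∀ b ≠ o, ∑ x, f x a * f x b = (if a = b then α else 0) + β * ε a b + γ)
    (e1 : ∀ a ≠ o, ∑ c, ε a c = 0) (e2 : ∀ a b, ∑ c, ε a c * ε c b = if a = b then t ^ 2 else 0)
    (e3 : ∀ a, ε a o = 1) (e4 : ∀ a, ε a a = 1) (e5 : ∀ a b, ε a b = ε b a) (hV : (Fintype.card V : ℚ) = t ^ 2)
    {a b b' : V} (ha : a ≠ o) (hb : b ≠ o) (hab : a ≠ b) (h1 : ε a b = 1) (h2 : ε a b' = -1)
    (hn : 1 < Fintype.card Ω) :
    k = μ ∨ (Fintype.card Ω : ℚ) + 1 = t ^ 2 ∨ 2 * (Fintype.card Ω : ℚ) = t ^ 2 + t ∨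
      2 * (Fintype.card Ω : ℚ) + t = t ^ 2 := by
  have hb' : b' ≠ o := by rintro rfl; rw [e3] at h2; norm_num at h2
  have hab' : a ≠ b' := by rintro rfl; rw [e4] at h2; norm_num at h2
  have hR : ∀ a ≠ o, ∑ x, f x a = α + β + γ := fun a ha => by
    simpa [ff, e4] using hS a ha a ha
  have hC : ∀ x, ∑ a, f x a = k := fun x => by simpa [ff] using hK x x
  have sp : ∀ g g' : V → ℚ, g o = 0 → (∀ c ≠ o, g c = g' c) → ∑ c, g c = ∑ c, g' c - g' o := fun g g' h h' => by
    rw [← add_sum_erase _ _ (mem_univ o), ← add_sum_erase _ g' (mem_univ o), h,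
      sum_congr rfl fun c hc => h' c (ne_of_mem_erase hc)]
    ring
  have key : ∀ a ≠ o, ∀ b ≠ o, (if a = b then α ^ 2 + β ^ 2 * t ^ 2 else 0) + 2 * α * β * ε a b + 2 * α * γ +
      γ ^ 2 * t ^ 2 - (β + γ) ^ 2 = (k - μ) * ((if a = b then α else 0) + β * ε a b + γ) +
      μ * (α + β + γ) ^ 2 := fun a ha b hb => by
    have l1 : ∑ c, (∑ x, f x a * f x c) * (∑ y, f y c * f y b) =
        ∑ x, ∑ y, f x a * (∑ c, f x c * f y c) * f y b := by
      simp only [sum_mul_sum]
      rw [sum_comm]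
      refine sum_congr rfl fun x _ => ?_
      rw [sum_comm]
      refine sum_congr rfl fun y _ => ?_
      rw [mul_sum, sum_mul]
      exact sum_congr rfl fun c _ => by ring
    have l2 : ∀ x y, f x a * (∑ c, f x c * f y c) * f y b =
        (if x = y then (k - μ) * (f x a * f y b) else 0) + μ * (f x a * f y b) := fun x y => by
      rw [hK]; split_ifs <;> ring
    simp only [l2, sum_add_distrib, sum_ite_eq, mem_univ, if_true, ← mul_sum, ← sum_mul, hR a ha, hR b hb,
      hS a ha b hb] at l1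
    rw [sp _ (fun c => ((if a = c then α else 0) + β * ε a c + γ) * ((if c = b then α else 0) + β * ε c b + γ))
      (by simp [f0]) fun c hc => by rw [hS a ha c hc, hS c hc b hb]] at l1
    have l3 : ∀ c, ((if a = c then α else 0) + β * ε a c + γ) * ((if c = b then α else 0) + β * ε c b + γ) =
        (if a = c then α * ((if c = b then α else 0) + β * ε c b + γ) else 0) +
        (if c = b then α * (β * ε a c + γ) else 0) + β ^ 2 * (ε a c * ε c b) + β * γ * ε a c +
        β * γ * ε b c + γ ^ 2 := fun c => by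
      rw [e5 b c]; split_ifs <;> ring
    simp only [l3, sum_add_distrib, sum_ite_eq, sum_ite_eq', mem_univ, if_true, ← mul_sum, e1 a ha, e1 b hb, e2,
      sum_const, card_univ, nsmul_eq_mul, hV, if_neg ha, if_neg hb.symm, e3, e5 o] at l1
    split_ifs at l1 ⊢ <;> linear_combination l1
  have k1 := key a ha a ha
  have k2 := key a ha b hb
  have k3 := key a ha b' hb'
  simp only [if_true, if_neg hab, if_neg hab', h1, h2, e4] at k1 k2 k3
  have t1 : (Fintype.card Ω : ℚ) * k = (t ^ 2 - 1) * (α + β + γ) := by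
    have := sum_comm (s := univ) (t := univ) (f := f)
    rw [sp (fun a => ∑ x, f x a) (fun _ => α + β + γ) (by simp [f0]) hR] at this
    simp only [hC, sum_const, card_univ, nsmul_eq_mul, hV] at this
    linear_combination this
  have t2 : (α + β + γ) * k = α - β + γ * (t ^ 2 - 1) := by
    have := sum_comm (s := univ) (t := univ) (f := fun x c => f x a * f x c)
    rw [sp (fun c => ∑ x, f x a * f x c) _ (by simp [f0]) (hS a ha)] at this
    simp only [← mul_sum, hC, ← sum_mul, hR a ha, sum_add_distrib, sum_ite_eq, mem_univ, if_true, e1 a ha,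
      sum_const, card_univ, nsmul_eq_mul, hV, if_neg ha, e3] at this
    linear_combination this
  have t3 : k + μ * (Fintype.card Ω - 1) = (α + β + γ) * k := by
    obtain ⟨x⟩ : Nonempty Ω := Fintype.card_pos_iff.1 (by omega)
    have := sum_comm (s := univ) (t := univ) (f := fun y c => f x c * f y c)
    have l2 : ∀ y, (if x = y then k else μ) = (if x = y then k - μ else 0) + μ := fun y => by
      split_ifs <;> ring
    rw [sum_congr rfl fun y _ => (hK x y).trans (l2 y), sum_congr rfl (g := fun c => f x c * (α + β + γ))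
      fun c _ => by
        by_cases hc : c = o
        · simp [hc, f0]
        · rw [← mul_sum, hR c hc]] at this
    simp only [sum_add_distrib, sum_ite_eq, mem_univ, if_true, sum_const, card_univ, nsmul_eq_mul, ← sum_mul,
      hC] at this
    linear_combination this
  have hn' : (Fintype.card Ω : ℚ) - 1 ≠ 0 := sub_ne_zero.2 (by exact_mod_cast hn.ne')
  generalize (Fintype.card Ω : ℚ) = n at *
  have u1 : α ^ 2 + β ^ 2 * t ^ 2 = (k - μ) * α := by linear_combination k1 - k2
  have u2 : β * (2 * α - (k - μ)) = 0 := by linear_combination (k2 - k3) / 2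
  have u3 : (k - μ) * (n - 1) = α * (t ^ 2 - 2) + β * t ^ 2 := by linear_combination t1 - t2 - t3
  refine or_iff_not_imp_left.2 fun hc => ?_
  have hc := sub_ne_zero.2 hc
  generalize k - μ = c at *
  rcases mul_eq_zero.1 u2 with rfl | u2
  · rcases mul_eq_zero.1 (show α * (α - c) = 0 by linear_combination u1) with rfl | h
    · exact absurd (by linear_combination u3) (mul_ne_zero hc hn')
    · exact Or.inl (mul_left_cancel₀ hc (by linear_combination u3 + (t ^ 2 - 2) * h))
  obtain rfl : c = 2 * α := by linear_combination -u2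
  have hα : α ≠ 0 := right_ne_zero_of_mul hc
  rcases mul_eq_zero.1 (show (β * t - α) * (β * t + α) = 0 by linear_combination u1) with h | h
  · exact Or.inr (Or.inl (mul_left_cancel₀ hα (by linear_combination u3 + t * h)))
  · exact Or.inr (Or.inr (mul_left_cancel₀ hα (by linear_combination u3 + t * h)))
variable {F : Type*} [Field F] {V : Type*} [AddCommGroup V] [Module F V] {P : PQ (spFP F) V}

theorem sp2_span (hq : Nat.card F = 2) {a b : V} (hb : b ≠ 0) (h : a ≠ b) : b ∉ F ∙ a := fun e => by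
  obtain ⟨c, rfl⟩ := Submodule.mem_span_singleton.1 e
  rcases eq_zero_or_one hq c with rfl | rfl <;> simp at hb h

theorem sp2_pair [FiniteDimensional F V] (hP : P.ND) (hq : Nat.card F = 2) {a b a' b' : V} (ha : a ≠ 0)
    (hb : b ≠ 0) (h : a ≠ b) (ha' : a' ≠ 0) (hb' : b' ≠ 0) (h' : a' ≠ b') (e : P.B a b = P.B a' b') :
    ∃ g : P.EG, g.1 • a = a' ∧ g.1 • b = b' := by
  obtain ⟨g, -, rfl⟩ := sp_vTrans hP a a' trivial trivial ha ha'
  obtain ⟨k, h1, h2⟩ := sp_step hP (F ∙ g • a) (u := g • b) (u' := b')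
    (sp2_span hq (act_ne_zero g hb) ((MulAction.injective g).ne h)) (sp2_span hq hb' h')
    (B_eq_of_span (by rintro _ rfl; rw [B_smul_smul, e]))
  exact ⟨⟨k * g, sp_mem_EG hP _⟩, by rw [mul_smul, h1 _ (Submodule.mem_span_singleton_self _)],
    by rw [mul_smul, h2]⟩

theorem sp2_conj (g : P.EG) (a : V) : g * ee P a 0 1 * g⁻¹ = ee P (g.1 • a) 0 1 :=
  Subtype.ext (((sp_eOk (by simp) 1).conj_eich g.1).trans (by rw [smul_zero]; rfl))

theorem sp2_smul (a x : V) : (ee P a 0 1).1 • x = x + P.B x a • a :=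
  ((sp_eOk (by simp) 1).eich_smul x).trans (by simp)

theorem sp2_sq (hq : Nat.card F = 2) (a : V) : ee P a 0 1 * ee P a 0 1 = 1 :=
  Subtype.ext (((sp_eOk (by simp) 1).eich_mul (sp_eOk (by simp) 1)).trans (by
    rw [add_zero, map_zero, add_zero, one_add_one_eq_two, two_eq_zero_of_card hq, eich_zero]; rfl))

theorem sp2_three (hq : Nat.card F = 2) {a b : V} (h : P.B a b = 1) :
    ((ee P a 0 1)⁻¹ * ee P b 0 1) ^ 3 ^ 1 = 1 := by
  have h1 := sp2_conj (ee P a 0 1) b
  have h2 := sp2_conj (ee P b 0 1) a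
  have h3 : P.B b a = 1 := by rw [sp_swap, h]; linear_combination -two_eq_zero_of_card hq
  rw [sp2_smul, h3, one_smul, add_comm] at h1
  rw [sp2_smul, h, one_smul] at h2
  have h4 := sp2_sq (P := P) hq (a + b)
  nth_rw 1 [← h1] at h4
  rw [← h2, inv_eq_of_mul_eq_one_right (sp2_sq hq a), inv_eq_of_mul_eq_one_right (sp2_sq hq b)] at h4
  rw [inv_eq_of_mul_eq_one_right (sp2_sq hq a), ← h4, pow_one, pow_three]
  simp only [mul_assoc]

variable [Finite F] [Finite V] {Ω : Type*} [Finite Ω] [MulAction P.EG Ω]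

theorem sp2_card (hq : Nat.card F = 2) {m : ℕ} (hm : finrank F V = 2 * m) : Nat.card V = (2 ^ m) ^ 2 := by
  rw [Module.natCard_eq_pow_finrank (K := F), hq, hm, mul_comm, pow_mul]

theorem sp2_index (hP : P.ND) (hq : Nat.card F = 2) {e : V} (he : e ≠ 0) :
    (P.pst e).relIndex P.EG + 1 = Nat.card V := by
  have := sing_index_eq hP sp_rich (sp_sing e) he
  rw [hq, show P.sing0 Set.univ = Set.univ \ {0} by ext; simp [mem_sing0, sp_sing],
    Set.ncard_sdiff_singleton_of_mem (Set.mem_univ _), Set.ncard_univ] at this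
  have := Nat.card_pos (α := V)
  omega

theorem sp2_fpf (hP : P.ND) (hq : Nat.card F = 2) {m : ℕ} (hm : finrank F V = 2 * m) (h3 : 3 ≤ m)
    (h : T2 P.EG Ω) {e : V} (he : e ≠ 0) : ∃ x : Ω, ee P e 0 1 • x = x := by
  have : FiniteDimensional F V := Module.Finite.of_finite
  by_contra! hx
  have hA : ∀ g ∈ (P.pst e).subgroupOf P.EG, ∀ a ∈ ({ee P e 0 1} : Set P.EG), g * a * g⁻¹ ∈
      ({ee P e 0 1} : Set P.EG) := by
    rintro g ⟨t, ht, hg⟩ _ rfl
    rw [sp2_conj, show g.1 • e = _ from hg, (eq_zero_or_one hq t).resolve_left ht, one_smul]; rfl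
  obtain ⟨l, hl⟩ := h.dvd _ _ hA 0 fun x => by
    rw [Set.ncard_eq_zero]; exact Set.eq_empty_of_forall_notMem fun a ha => hx x (ha.1 ▸ ha.2)
  have h4 := sp2_index hP hq he
  obtain ⟨x, -⟩ := h.nt.exists_pair_ne
  have h5 := sp_two_min_index hP hq hm h3 (h.Hx_not x)
  rw [h.Hx_index] at h5
  rw [Set.ncard_singleton, Nat.sub_zero, mul_one, ← Subgroup.relIndex] at hl
  rw [sp2_card hq hm] at h4
  obtain ⟨f, hf⟩ := hP.exists_eq he 1
  have hf0 : f ≠ 0 := by rintro rfl; simp at hf
  obtain ⟨w, hw, rfl⟩ := sp_vTrans hP e f trivial trivial he hf0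
  have h6 : (2 ^ m) ^ 2 ≡ 1 [MOD 3] := by
    rw [← pow_mul, mul_comm, pow_mul]; simpa using (show 2 ^ 2 ≡ 1 [MOD 3] by decide).pow m
  obtain ⟨s, h7, h8⟩ : ∃ s, 2 ^ m = 2 * s ∧ 4 ≤ s := ⟨2 ^ (m - 1), by rw [← pow_succ']; congr 1; omega,
    (Nat.pow_le_pow_right two_pos (show 2 ≤ m - 1 by omega))⟩
  have h9 := h.two_le
  obtain rfl : l = 1 := by
    rw [h7] at h4 h5
    obtain ⟨n, hn⟩ : ∃ n, Nat.card Ω = n + 1 := ⟨Nat.card Ω - 1, by omega⟩
    rw [hl, hn, Nat.add_sub_cancel] at h4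
    rw [hn] at h5
    have : l < 3 := by by_contra! h; nlinarith [Nat.mul_le_mul_left n h]
    have : (2 * s) ^ 2 = 4 * (s * s) := by ring
    interval_cases l <;> omega
  have := h.pair _ _ hA (by rintro _ rfl; exact hx) (lam := 1) (by
    rw [Set.ncard_singleton, mul_one, ← Subgroup.relIndex, hl, mul_comm]) rfl ⊥ bot_le (by simp)
    (w := ⟨w, hw⟩) (by
      rintro ⟨t, -, ht⟩
      rw [show w • e = _ from ht, B_smul_right, sp_B_self, mul_zero] at hf
      exact zero_ne_one hf) (by simp) {ee P e 0 1} (by simp)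
  have h10 := fix_mod (Ω := Ω) (sp2_three hq hf)
  simp only [sum_singleton, sp2_conj, Subgroup.card_bot] at this
  unfold Nat.ModEq at h6 h10
  omega

theorem sp2_main (hP : P.ND) (hq : Nat.card F = 2) {m : ℕ} (hm : finrank F V = 2 * m) (h3 : 3 ≤ m)
    (h : T2 P.EG Ω) (hk : Ker P Ω) :
    Nat.card Ω = 2 ^ (m - 1) * (2 ^ m + 1) ∨ Nat.card Ω = 2 ^ (m - 1) * (2 ^ m - 1) := by
  classical
  have : FiniteDimensional F V := Module.Finite.of_finite
  have := Fintype.ofFinite V
  have := Fintype.ofFinite Ω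
  have h01 := eq_zero_or_one hq
  have h2 := two_eq_zero_of_card hq
  have : Nontrivial V := Module.nontrivial_of_finrank_pos (R := F) (by omega)
  obtain ⟨a, ha⟩ := exists_ne (0 : V)
  obtain ⟨b', hb'⟩ := hP.exists_hyp (sp_sing a) ha
  have h4 := hb'.finrank_perp
  have : Nontrivial (P.perp {a, b'}) := Module.nontrivial_of_finrank_pos (R := F) (by omega)
  obtain ⟨⟨b, hb⟩, hb0⟩ := exists_ne (0 : P.perp {a, b'})
  rw [mem_perp_pair] at hb
  have hb0 : b ≠ 0 := fun e => hb0 (Subtype.ext e)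
  have hab : a ≠ b := by rintro rfl; exact zero_ne_one (hb.2.symm.trans hb'.pair)
  have hab' : a ≠ b' := by rintro rfl; exact zero_ne_one ((sp_B_self _).symm.trans hb'.pair)
  obtain ⟨x, hx⟩ := sp2_fpf hP hq hm h3 h ha
  obtain ⟨y, hy⟩ := hk.move hP sp_rich hb' (g := ee P a 0 1)
    (ee_ne hb' (sp_eOk (by simp) 1) (by simp) (Or.inr one_ne_zero)) ha (sp_eOk (by simp) 1).eich_smul_e
  have hxy : x ≠ y := by rintro rfl; exact hy hx
  let f : Ω → V → ℚ := fun x c => if c ≠ 0 ∧ ee P c 0 1 • x = x then 1 else 0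
  let ε : V → V → ℚ := fun c d => if P.B c d = 0 then 1 else -1
  have fi : ∀ (g : P.EG) x c, f (g • x) (g.1 • c) = f x c := fun g x c => by
    simp only [f, ← sp2_conj, mul_smul, inv_smul_smul, smul_left_cancel_iff, Ne, smul_eq_zero_iff_eq]
  have hK : ∀ (g : P.EG) x y, ∑ c, f (g • x) c * f (g • y) c = ∑ c, f x c * f y c := fun g x y =>
    (Fintype.sum_equiv (MulAction.toPerm g.1) _ _ fun c => by simp only [MulAction.toPerm_apply, fi]).symm
  have hS : ∀ (g : P.EG) c d, ∑ x, f x (g.1 • c) * f x (g.1 • d) = ∑ x, f x c * f x d := fun g c d =>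
    (Fintype.sum_equiv (MulAction.toPerm g) _ _ fun c => by simp only [MulAction.toPerm_apply, fi]).symm
  have ff : ∀ x c, f x c * f x c = f x c := fun x c => by simp only [f]; split_ifs <;> simp
  have e0 : ∀ c d d', ε c (d + d') = ε c d * ε c d' := fun c d d' => by
    simp only [ε, map_add]
    rcases h01 (P.B c d) with e | e <;> rcases h01 (P.B c d') with e' | e' <;>
      simp [e, e', one_add_one_eq_two, h2]
  have e5 : ∀ c d, ε c d = ε d c := fun c d => by simp only [ε, B_eq_zero_comm (x := c)]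
  have e1 : ∀ c ≠ 0, ∑ d, ε c d = 0 := fun c hc => by
    obtain ⟨d', hd'⟩ := hP.exists_eq hc 1
    have := Fintype.sum_equiv (Equiv.addRight d') (fun d => ε c d * ε c d') (ε c) fun d => (e0 _ _ _).symm
    rw [← sum_mul, show ε c d' = -1 by simp [ε, hd']] at this
    linarith
  have hV : (Fintype.card V : ℚ) = (2 ^ m) ^ 2 := by
    rw [← Nat.card_eq_fintype_card, sp2_card hq hm]; push_cast; rfl
  have key := gram 0 f ε (k := ∑ c, f x c * f x c) (μ := ∑ c, f x c * f y c)
    (α := ∑ x, f x a * f x a - ∑ x, f x a * f x b) (β := (∑ x, f x a * f x b - ∑ x, f x a * f x b') / 2)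
    (γ := (∑ x, f x a * f x b + ∑ x, f x a * f x b') / 2) (t := 2 ^ m) (fun x => by simp [f]) ff
    (fun u v => ?_) (fun c hc d hd => ?_) e1 (fun c d => ?_) (fun c => by simp [ε])
    (fun c => by simp [ε, sp_B_self]) e5 hV ha hb0 hab (b' := b') (by simp [ε, B_swap_zero hb.1])
    (by simp [ε, hb'.pair]) (by rw [← Nat.card_eq_fintype_card]; exact h.two_le)
  · rw [← Nat.card_eq_fintype_card] at key
    obtain ⟨s, rfl⟩ : ∃ s, m = s + 1 := ⟨m - 1, by omega⟩
    rcases key with key | key | key | key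
    · have k1 : ∑ c, (f x c - f y c) ^ 2 = 0 := by
        obtain ⟨g, rfl⟩ := h.trans x y
        rw [sum_congr rfl (g := fun c => f x c * f x c + f (g • x) c * f (g • x) c - 2 * (f x c * f (g • x) c))
          fun c _ => by ring, sum_sub_distrib, sum_add_distrib, hK, ← mul_sum, key]
        ring
      have := (sum_eq_zero_iff_of_nonneg fun c _ => sq_nonneg _).1 k1 a (mem_univ _)
      simp [f, ha, hx, hy] at this
    · obtain ⟨g1, hg1, e1⟩ := sp_vTrans hP a b trivial trivial ha hb0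
      obtain ⟨g2, hg2, e2⟩ := sp_vTrans hP a b' trivial trivial ha hb'.right_ne_zero
      have k1 : ∀ (g : P.Iso), a ≠ g • a → g ∉ P.pst a := fun g e ⟨t, ht, e'⟩ =>
        e (by rw [e', (h01 t).resolve_left ht, one_smul])
      rcases h.fish_pt (v := a) (g1 := ⟨g1, hg1⟩) (g2 := ⟨g2, hg2⟩) (k1 _ (e1 ▸ hab)) (k1 _ (e2 ▸ hab'))
        (e1 ▸ hb.1) (e2 ▸ B_swap_ne (by simp [hb'.pair])) with k2 | k2
      · obtain ⟨g, hg, rfl⟩ := k2 x y
        have := fi g x a
        rw [← not_not.1 fun e => k1 g.1 e hg] at this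
        simp [f, ha, hx, hy] at this
      · have k3 := sp2_index hP hq ha
        rw [sp2_card hq hm] at k3
        have : Nat.card Ω + 1 = (2 ^ (s + 1)) ^ 2 := by exact_mod_cast key
        omega
    · have : 2 * Nat.card Ω = (2 ^ (s + 1)) ^ 2 + 2 ^ (s + 1) := by exact_mod_cast key
      exact Or.inl (by rw [pow_succ 2 s] at *; simp only [Nat.add_sub_cancel]; nlinarith)
    · have : 2 * Nat.card Ω + 2 ^ (s + 1) = (2 ^ (s + 1)) ^ 2 := by exact_mod_cast key
      refine Or.inr ?_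
      zify [Nat.one_le_two_pow (n := s + 1)] at this ⊢
      rw [pow_succ 2 s] at *; simp only [Nat.add_sub_cancel]; nlinarith
  · split_ifs with e
    · obtain ⟨g, rfl⟩ := h.trans x u
      rw [← e, hK]
    · obtain ⟨g, rfl, rfl⟩ := h.two x y u v hxy e
      rw [hK]
  · by_cases e : c = d
    · obtain ⟨g, hg, rfl⟩ := sp_vTrans hP a c trivial trivial ha hc
      rw [← e, hS ⟨g, hg⟩]; simp [ε, sp_B_self]; ring
    rcases h01 (P.B c d) with e' | e'
    · obtain ⟨g, rfl, rfl⟩ := sp2_pair hP hq ha hb0 hab hc hd e ((B_swap_zero hb.1).trans e'.symm)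
      rw [hS]; simp only [ε, e, e', if_true, if_false]; ring
    · obtain ⟨g, rfl, rfl⟩ := sp2_pair hP hq ha hb'.right_ne_zero hab' hc hd e (hb'.pair.trans e'.symm)
      rw [hS]; simp only [ε, e, e', one_ne_zero, if_false]; ring
  · simp only [e5 c, ← e0, e5 _ (c + d)]
    have k1 : c + c = 0 := by rw [← two_smul F, h2, zero_smul]
    split_ifs with e
    · simp [← e, k1, ε, hV]
    · exact e1 _ fun e' => e (add_left_cancel (k1.trans e'.symm))

/-- the case `PSp_{2m}(2)` -/
theorem sp2_concl {G Ω : Type*} [Group G] [MulAction G Ω] [FaithfulSMul G Ω] [Finite Ω] {F : Type} [Field F]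
    [Fintype F] (hF : Fintype.card F = 2) {m : ℕ} (hm : 3 ≤ m) (e : G ≃* Cfsg.PSp m F)
    (h2 : IsMultiplyPretransitive G Ω 2) : Concl G (Nat.card Ω) := by
  have hP := spStd_nd (F := F) m
  have hfr := finrank_spStd (F := F) m
  have : Nontrivial (Fin m ⊕ Fin m → F) := Module.nontrivial_of_finrank_pos (R := F) (by omega)
  obtain ⟨v, hv⟩ := exists_ne (0 : Fin m ⊕ Fin m → F)
  obtain ⟨f, h⟩ := hP.exists_hyp (sp_sing v) hv
  iterate 8 right
  exact ⟨F, _, _, m, hm, hF, ⟨e⟩, transport hP sp_rich h e (spEquivEG m) h2 fun k1 k2 =>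
    sp2_main hP (by rw [Nat.card_eq_fintype_card, hF]) hfr hm k1 k2⟩

end Cfsg.Agent.TT
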