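import Cfsg.Agent.TT.Tv
import Cfsg.Agent.TT.Sp2
import Cfsg.Agent.Polar.MinSp

set_option autoImplicit false

/-! Two-transitive actions of symplectic groups over fields with at least three elements. -/

namespace Cfsg.Agent.TT
open MulAction Module Cfsg.Agent.Polar Cfsg.Agent.Polar.PQ Cfsg.Agent.Cl
open scoped commutatorElement

theorem fix_sq_even {G Ω : Type*} [Group G] [MulAction G Ω] [Finite Ω] {g : G} (hg : g ^ 4 = 1) :
    Even ((Nat.card Ω - fix Ω (g ^ 2)) / 2) := by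
  classical
  have := Fintype.ofFinite Ω
  have h := Equiv.Perm.sign_of_pow_two_eq_one (σ := toPermHom G Ω (g ^ 2)) (by rw [← map_pow, ← pow_mul, hg, map_one])
  rw [← Nat.card_eq_fintype_card, ← Nat.card_eq_fintype_card] at h
  conv_lhs at h => rw [map_pow, map_pow, Int.units_sq]
  exact (neg_one_pow_eq_one_iff_even (R := ℤˣ) (by decide)).1 h.symm

variable {F : Type*} [Field F] {V : Type*} [AddCommGroup V] [Module F V] {P : PQ (spFP F) V}

theorem sp_tv (x v : V) (c : F) : P.eich x 0 c • v = v + (c * P.B v x) • x := by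
  rw [transvec_smul_vec (sp_sing x) trivial]; simp

theorem sp_g {e f : V} (h : P.Hyp e f) (b : F) : ∃ g : P.EG, g = ee P e 0 1 * ee P f 0 b ∧
    g.1 • e = (1 - b) • e + b • f ∧ g.1 • f = f - e ∧ ∀ w ∈ P.perp {e, f}, g.1 • w = w := by
  refine ⟨_, rfl, ?_, ?_, fun w hw => ?_⟩ <;> simp only [ee, Subgroup.coe_mul, mul_smul, sp_tv]
  · simp [h.pair, h.pair', sp_B_self]; module
  · simp [h.pair', sp_B_self]; module
  · simp [(mem_perp_pair.1 hw).1, (mem_perp_pair.1 hw).2]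

theorem sp_g4 {e f : V} (h : P.Hyp e f) {g : P.EG} (h1 : g.1 • e = (1 - 2 : F) • e + (2 : F) • f)
    (h2 : g.1 • f = f - e) (h3 : ∀ w ∈ P.perp {e, f}, g.1 • w = w) :
    g ^ 4 = 1 ∧ (g ^ 2).1 • e = -e ∧ (g ^ 2).1 • f = -f := by
  have k1 : g.1 • g.1 • e = -e := by rw [h1, smul_add, act_smul, act_smul, h1, h2]; module
  have k2 : g.1 • g.1 • f = -f := by rw [h2, smul_sub, h1, h2]; module
  clear h1 h2
  refine ⟨Subtype.ext (h.iso_ext ?_ ?_ fun w hw => ?_), ?_, ?_⟩ <;> simp [pow_succ, mul_smul, *]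

theorem sp_g3 {e f : V} (h : P.Hyp e f) (h0 : (2 : F) = 0) {g : P.EG} (h1 : g.1 • e = (1 - 1 : F) • e + (1 : F) • f)
    (h2 : g.1 • f = f - e) (h3 : ∀ w ∈ P.perp {e, f}, g.1 • w = w) : g ^ 3 = 1 := by
  rw [sub_self, zero_smul, zero_add, one_smul] at h1
  have k : ∀ x : V, -x = x := fun x => by rw [neg_eq_iff_add_eq_zero, ← two_smul F, h0, zero_smul]
  have k2 : e - (f - e) = f := by rw [← k (e - _), neg_sub, sub_sub, ← two_smul F, h0, zero_smul, sub_zero]
  refine Subtype.ext (h.iso_ext ?_ ?_ fun w hw => ?_) <;> simp [pow_succ, mul_smul, smul_sub, *]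

variable [Finite F] [Finite V] {Ω : Type*} [MulAction P.EG Ω] [Finite Ω] {p : ℕ} [Fact p.Prime] [CharP F p]

theorem sp_more (hP : P.ND) (hq : 3 ≤ Nat.card F) {e f w : V} (hf : P.Hyp e f)
    (hw : w ∈ P.perp {e, f}) (h0 : w ≠ 0) {a : ℕ} (ha : 1 ≤ a)
    (h : ∀ x : Ω, (stabilizer P.EG x).relIndex ((TZ hf.left).subgroupOf P.EG) = p ^ a) :
    p ^ (a + 1) ∣ Nat.card Ω := by
  obtain ⟨w', hw'⟩ := hP.exists_hyp (sp_sing w) h0
  have k : TZ (P := P) (sp_sing w) ≤ stabilizer P.Iso e := by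
    rintro _ ⟨c, -, rfl⟩
    rw [mem_stabilizer_iff, sp_tv, B_swap_zero (mem_perp_pair.1 hw).1, mul_zero, zero_smul, add_zero]
  refine more (Y := (P.U e ⊔ TZ (sp_sing w)).subgroupOf P.EG) ((isPGroup_Ue hf).to_sup_of_normal_left'
    ((isPGroup_Ue hw').to_le (TZ_le_U _)) fun g hg => Subgroup.mem_normalizer_iff.2 fun u =>
      ⟨conj_mem_U_of_pst (mem_pst_of_fix (k hg)), fun h => by
        simpa [mul_assoc] using conj_mem_U_of_pst (inv_mem (mem_pst_of_fix (k hg))) h⟩).comap_subtype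
    (Subgroup.comap_mono ((TZ_le_U _).trans le_sup_left))
    (fun y hy z hz => TZ_comm _ (sup_le (fun _ h => h.1) k hy) hz) (fun K hK => ?_) ha h
  have k2 : ∀ β c : F, P.eich e ((c * β) • w) (-(c * β * β)) ∈ K.map P.EG.subtype := fun β c => by
    obtain ⟨u, hu, e1⟩ := hf.exists_ne_perp hP hw h0 (-β)
    have := (comm_eich_fix (sp_eOk (mem_perp_pair.1 hu).1 0) (k ⟨c, trivial, rfl⟩)).2
    rw [sp_swap u w, neg_inj] at e1
    rw [sp_tv, e1, add_sub_cancel_left, map_add, B_smul_right, e1, sub_add_cancel_left] at this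
    exact ⟨_, hK (ee P w 0 c) (Subgroup.mem_sup_right ⟨c, trivial, rfl⟩) (ee P e u 0)
      (Subgroup.mem_sup_left (eich_mem_U _ _ _)), this⟩
  obtain ⟨t, t0, t1⟩ : ∃ t : F, t ≠ 0 ∧ t ≠ 1 := by
    have := Fintype.ofFinite F
    classical
    obtain ⟨t, -, ht⟩ := Finset.exists_mem_notMem_of_card_lt_card (s := ({0, 1} : Finset F)) (t := Finset.univ)
      (Finset.card_le_two.trans_lt (by rwa [Finset.card_univ, ← Nat.card_eq_fintype_card]))
    exact ⟨t, by simpa using ht⟩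
  rintro z ⟨c, -, e1⟩
  have h1 := k2 1 (c / (t - 1))
  have h2 := k2 t (c / (t - 1) / t)
  rw [div_mul_cancel₀ _ t0] at h2
  rw [mul_one] at h1
  have o := fun c' => sp_eOk (P := P) (e := e) (w := (c / (t - 1)) • w) (by simp [(mem_perp_pair.1 hw).1]) c'
  have := (sub_mem_Dv (o _) (o _) h1 h2).2
  rw [show -(c / (t - 1) * 1) - -(c / (t - 1) * t) = c by field_simp [sub_ne_zero.2 t1]; ring,
    ← show z.1 = _ from e1] at this
  exact map_mem.1 this

theorem sp_kill (hP : P.ND) (h : T2 P.EG Ω) {e f : V} (hf : P.Hyp e f) {m : ℕ}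
    (h1 : ∀ x : Ω, Nat.card ↥(stabilizer P.EG x ⊓ (TZ hf.left).subgroupOf P.EG) = 1)
    (h2 : Nat.card Ω = (P.pst e).relIndex P.EG * (Nat.card F - 1) + 1) (h3 : Nat.card Ω = p ^ (2 * m)) :
    False := by
  obtain ⟨w, hw, e1⟩ := sp_vTrans hP e f trivial trivial hf.left_ne_zero hf.right_ne_zero
  have k : ∀ b : F, b ≠ 0 → fix Ω (ee P e 0 1 * ee P f 0 b) = 0 := fun b hb => by
    have := h.kill (TZ_conj hf.left) (fun z hz h0 x hx => h0 (Subgroup.mem_bot.1
      ((Subgroup.eq_bot_of_card_eq _ (h1 x)).le ⟨hx, hz⟩))) (by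
        rw [card_subEG ((TZ_le_U _).trans hf.U_le_EG), card_TZ hf, sp_card_lam, h2, Nat.add_sub_cancel]; rfl)
      (d := ee P e 0 (-1)) (z := ee P e 0 b) (w := ⟨w, hw⟩) ⟨_, trivial, rfl⟩
      (ee_ne hf (sp_eOk (by simp) _) (by simp) (by simp)) ⟨_, trivial, rfl⟩
      (ee_ne hf (sp_eOk (by simp) _) (by simp) (Or.inr hb)) (fun ⟨t, _, ht⟩ => by
        have := hf.pair
        rw [← e1, show w • e = _ from ht, B_smul_right, sp_B_self, mul_zero] at this
        exact zero_ne_one this)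
    convert this using 3
    · exact Subtype.ext (by simpa [ee] using (transvec_inv hf.left (c := -1) trivial).symm)
    · exact Subtype.ext (by
        have := (EOk.lam hf.left (c := b) trivial).conj_eich w
        rw [e1, smul_zero] at this
        exact this.symm)
  by_cases h0 : (2 : F) = 0
  · obtain ⟨g, e2, g1, g2, g3⟩ := sp_g hf 1
    have : Fact (Nat.Prime 3) := ⟨Nat.prime_three⟩
    have h4 := fix_mod (Ω := Ω) (r := 3) (j := 1) (sp_g3 hf h0 g1 g2 g3)
    obtain rfl : p = 2 := (Nat.prime_dvd_prime_iff_eq Fact.out Nat.prime_two).1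
      ((CharP.cast_eq_zero_iff F p 2).1 (by exact_mod_cast h0))
    rw [e2, k 1 one_ne_zero, h3, pow_mul, Nat.ModEq, Nat.pow_mod] at h4
    simp at h4
  · obtain ⟨g, e2, g1, g2, g3⟩ := sp_g hf 2
    have h4 := fix_mod (Ω := Ω) (r := 2) (j := 2) (sp_g4 hf g1 g2 g3).1
    rw [e2, k 2 h0, h3] at h4
    obtain rfl := (Nat.prime_dvd_prime_iff_eq Nat.prime_two Fact.out).1
      (Nat.prime_two.dvd_of_dvd_pow ((Nat.modEq_zero_iff_dvd).1 h4.symm))
    exact h0 (by exact_mod_cast CharP.cast_eq_zero F 2)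

theorem sp_nine (hP : P.ND) (hk : Ker P Ω) {e f w : V} (hf : P.Hyp e f) (hw : w ∈ P.perp {e, f})
    (h0 : w ≠ 0) [CharP F 3] (h1 : ∀ x : Ω, (stabilizer P.EG x).relIndex ((TZ hf.left).subgroupOf P.EG) = 3 ^ 1)
    (h2 : Nat.card Ω = 9) : False := by
  have : Fact (Nat.Prime 3) := ⟨Nat.prime_three⟩
  obtain ⟨w', hw', h3⟩ := hf.exists_hyp_perp hP hw h0 trivial
  have k : ∀ x ∈ P.perp {e, f}, P.B e x = 0 ∧ P.B f x = 0 := fun x hx =>
    ⟨B_swap_zero (mem_perp_pair.1 hx).1, B_swap_zero (mem_perp_pair.1 hx).2⟩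
  obtain ⟨g, -, g1, g2, g3⟩ := sp_g h3 2
  obtain ⟨g4, g5, -⟩ := sp_g4 h3 g1 g2 g3
  have g6 : (g ^ 2).1 • e = e := by
    simp [pow_succ, mul_smul, g3 e (mem_perp_pair.2 ⟨(k _ hw).1, (k _ hw').1⟩)]
  have h4 := pow_dvd_fix ((isPGroup_Ue (p := 3) hf).to_le (TZ_le_U _)).comap_subtype (fun x => (h1 x).ge)
    fun y hy => (TZ_comm _ g6 hy).symm
  have h5 := fix_sq_even (Ω := Ω) g4
  have h6 := fix_mod (Ω := Ω) (g := g ^ 2) (r := 2) (j := 1) (by rw [← pow_mul]; exact g4)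
  obtain ⟨x, hx⟩ := hk.move hP sp_rich hf (g := g ^ 2) (fun e => by
    rw [e, Subgroup.coe_one, one_smul, eq_neg_iff_add_eq_zero, ← two_smul F, smul_eq_zero] at g5
    exact absurd ((CharP.cast_eq_zero_iff F 3 2).1 (by exact_mod_cast g5.resolve_right h0)) (by decide))
    hf.left_ne_zero g6
  have h7 : fix Ω (g ^ 2) < 9 := by
    rw [← h2, fix, Nat.card_coe_set_eq, ← Set.ncard_univ]
    exact Set.ncard_lt_ncard (Set.ssubset_univ_iff.2 fun e => hx (e.ge (Set.mem_univ x)))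
  rw [h2] at h5 h6
  generalize fix Ω (g ^ 2) = n at *
  interval_cases n <;> simp_all (config := { decide := true })

theorem sp_big (p : ℕ) [Fact p.Prime] [CharP F p] (hP : P.ND) {m : ℕ} (hm : finrank F V = 2 * m) (h2 : 2 ≤ m)
    (hq : 3 ≤ Nat.card F) (h : T2 P.EG Ω) (hk : Ker P Ω) : False := by
  obtain ⟨x⟩ := h.nt.to_nonempty
  have kw : ∀ {e f : V}, P.Hyp e f → ∃ w ∈ P.perp {e, f}, w ≠ 0 := fun hf =>
    Submodule.exists_mem_ne_zero_of_ne_bot fun e => by
      have := hf.finrank_perp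
      rw [e, finrank_bot] at this; omega
  obtain ⟨j, hj1, hj⟩ := card_pow_char F p
  have hp := (Fact.out : p.Prime)
  by_cases hx : m = 2 ∧ Nat.card F = 3
  · obtain ⟨rfl, hx⟩ := hx
    obtain ⟨rfl, -⟩ := (Nat.Prime.pow_eq_iff Nat.prime_three).1 (hj.symm.trans hx)
    obtain ⟨e, f, w, w', ⟨hf, -⟩, ht⟩ := cl_trans' 3 hP sp_rich (fun c _ => ⟨-c, by
      have : (3 : F) = 0 := by exact_mod_cast CharP.cast_eq_zero F 3
      simp only [spFP_eps, RingHom.id_apply]; linear_combination c * this⟩) (r := 1) (fun W hW => by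
      obtain ⟨z, hz, h0⟩ := Submodule.exists_mem_ne_zero_of_ne_bot (p := W) (by rintro rfl; simp at hW)
      exact ⟨z, hz, h0, trivial⟩) (by omega) (Or.inl ⟨1, trivial, one_ne_zero⟩) h
    obtain ⟨k, a, μ, h1, h3, h4, h5, -, h6⟩ := tv_core (p := 3) hP h hk hf (c := 1) trivial one_ne_zero fun x y => by
      obtain ⟨g, h1, -, h2⟩ := ht x y
      exact ⟨g, h1, h2⟩
    obtain ⟨u, hu, h0⟩ := kw hf
    have h7 := sp_more hP hq hf hu h0 h3 h5
    have h8 := sp_pst_index hP hf.left_ne_zero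
    rw [sp_card_lam, hx] at h1
    obtain rfl : a = 1 := by
      have := (Nat.pow_le_pow_iff_right (by omega)).1 ((Nat.le_of_dvd (by omega) (Dvd.intro_left _ h1)).trans_eq
        (pow_one 3).symm)
      omega
    obtain rfl : k = 1 := by omega
    rw [hx, hm] at h8
    have h9 := Dvd.intro_left _ (h6.trans h8)
    have h10 := Nat.le_of_dvd (by norm_num) h9
    obtain ⟨c, hc⟩ := h7
    have h11 : Nat.card Ω = 9 ∨ Nat.card Ω = 81 := by
      have := h.two_le
      rw [hc] at h9 h10 this ⊢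
      have : c ≤ 9 := by omega
      interval_cases c <;> omega
    rcases h11 with h11 | h11
    · exact sp_nine hP hk hf hu h0 h5 h11
    · exact sp_kill (p := 3) hP h hf h4 (by rw [hx, h8, h11]; rfl) (m := 2) h11
  have : Nontrivial V := Module.nontrivial_of_finrank_pos (R := F) (by omega)
  obtain ⟨e, h0⟩ := exists_ne (0 : V)
  obtain ⟨f, hf⟩ := hP.exists_hyp (sp_sing e) h0
  obtain ⟨w, hw, hw0⟩ := kw hf
  have h8 := sp_pst_index hP h0
  have h9 : (P.pst e).relIndex P.EG ≤ Nat.card Ω := Nat.le_of_mul_le_mul_right (by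
    rw [h8, hm, ← h.Hx_index x]; exact sp_min_index hP hm h2 hq hx (h.Hx_not x)) (show 0 < Nat.card F - 1 by omega)
  obtain ⟨g1, hg1, e1⟩ := sp_vTrans hP e w trivial trivial h0 hw0
  obtain ⟨g2, hg2, e2⟩ := sp_vTrans hP e f trivial trivial h0 hf.right_ne_zero
  have ht := (h.fish_pt (v := e) (g1 := ⟨g1, hg1⟩) (g2 := ⟨g2, hg2⟩) (fun ⟨t, h1, ht⟩ => h1 (by
      have := (mem_perp_pair.1 hw).2
      rwa [← e1, show g1 • e = _ from ht, B_smul_left, hf.pair, mul_one] at this)) (fun ⟨t, _, ht⟩ => by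
      have := hf.pair
      rw [← e2, show g2 • e = _ from ht, B_smul_right, sp_B_self, mul_zero] at this
      exact zero_ne_one this) (e1.symm ▸ (mem_perp_pair.1 hw).1)
      (e2.symm ▸ B_swap_ne (hf.pair ▸ one_ne_zero))).resolve_right (not_lt.2 h9)
  obtain ⟨k, a, μ, h1, h3, h4, h5, h7, h6⟩ := tv_core (p := p) hP h hk hf (c := 1) trivial one_ne_zero ht
  rw [sp_card_lam] at h1
  rw [hm] at h8
  generalize hN : (P.pst e).relIndex P.EG = N at *
  generalize hq' : Nat.card F = q at *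
  have h10 : 1 ≤ q ^ (2 * m) := Nat.one_le_pow _ _ (by omega)
  have h11 : N ≡ 1 [MOD q] := Nat.modEq_iff_dvd.2 (by
    have h : (q : ℤ) ∣ N - 1 := by
      have : (N : ℤ) - 1 = q * N - q ^ (2 * m) := by zify [h10, show 1 ≤ q by omega] at h8; linear_combination -h8
      rw [this]; exact dvd_sub (dvd_mul_right _ _) (dvd_pow_self _ (by omega))
    exact_mod_cast dvd_sub_comm.1 h)
  have h12 : q < N := by
    by_contra h12
    have := Nat.mul_le_mul_right (q - 1) (not_lt.1 h12)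
    have h13 := Nat.pow_le_pow_right (show 0 < q by omega) (show 3 ≤ 2 * m by omega)
    obtain ⟨r, rfl⟩ := Nat.exists_eq_add_of_le' (show 1 ≤ q by omega)
    rw [Nat.add_sub_cancel] at this h8
    have : (r + 1) ^ 3 ≤ (r + 1) * r + 1 := by omega
    nlinarith [Nat.zero_le (r ^ 3)]
  have h13 := core_ar h6 h7 (h11.of_dvd (Dvd.intro_left _ h1)) h9 (Nat.one_lt_pow (by omega) hp.one_lt)
    ((Nat.le_of_dvd (by omega) (Dvd.intro_left _ h1)).trans_lt h12)
  by_cases hk1 : k = 1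
  · subst hk1
    rw [one_mul] at h1
    rw [h1] at h13
    exact sp_kill (p := p) hP h hf h4 (by rw [hN, hq', h13]) (m := j * m) (by
      rw [h13, h8, Nat.sub_add_cancel h10, hj, ← pow_mul]; ring_nf)
  · exact pow_ar h1 (Or.inr ⟨hk1, h11⟩) ⟨j, hj⟩ (sp_more hP (hq' ▸ hq) hf hw hw0 h3 h5) h13

theorem fam_PSp {G Ω : Type*} [Group G] [Finite G] [MulAction G Ω] [FaithfulSMul G Ω] [Finite Ω] {p : ℕ}
    [Fact p.Prime] (hG : IsPSpChar p G) (h2 : MulAction.IsMultiplyPretransitive G Ω 2) : Concl G (Nat.card Ω) := by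
  obtain ⟨F, _, _, _, m, h3, h4, ⟨ψ⟩⟩ := hG
  by_cases hF : Fintype.card F = 2
  · exact sp2_concl hF (by omega) ψ h2
  have hP := spStd_nd (F := F) m
  have hfr := finrank_spStd (F := F) m
  have : Nontrivial (Fin m ⊕ Fin m → F) := Module.nontrivial_of_finrank_pos (R := F) (by omega)
  obtain ⟨e, h0⟩ := exists_ne (0 : Fin m ⊕ Fin m → F)
  obtain ⟨f, hf⟩ := hP.exists_hyp (sp_sing e) h0
  have := Fintype.one_lt_card (α := F)
  exact transport hP sp_rich hf ψ (spEquivEG m) h2 fun h hk =>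
    (sp_big p hP hfr h3 (by rw [Nat.card_eq_fintype_card]; omega) h hk).elim

end Cfsg.Agent.TT
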