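import Cfsg.Agent.TT.R1
import Cfsg.Agent.Sz.Sub
import Cfsg.Agent.Sz.Inst
/-!
# Two-transitive actions of the Suzuki groups
-/
set_option autoImplicit false
set_option linter.unusedSectionVars false

namespace Cfsg.Agent.TT
open Cfsg MulAction

theorem sz_t2 {G F : Type*} [Group G] [Field F] {m : ℕ} (M : Sz.Model G F m) : T2 G M.Ω where
  two := fun a b c d h1 h2 => by
    obtain ⟨g, g1, g2⟩ := M.exists_smul_pair h1
    obtain ⟨k, k1, k2⟩ := M.exists_smul_pair h2
    exact ⟨k * g⁻¹, by rw [mul_smul, ← g1, inv_smul_smul, k1], by rw [mul_smul, ← g2, inv_smul_smul, k2]⟩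
  nt := by
    rw [← Finite.one_lt_card_iff_nontrivial, M.card_Ω]
    have := M.eight_le_card
    nlinarith

theorem sz_cop (q : ℕ) (h : Even q) (h0 : 1 ≤ q) : (q ^ 2 + 1).Coprime (q ^ 2 * (q - 1)) := by
  refine Nat.Coprime.mul_right (Nat.coprime_self_add_left.2 (Nat.coprime_one_left _)) ?_
  obtain ⟨r, rfl⟩ := Nat.exists_eq_add_of_le' h0
  rw [Nat.add_sub_cancel, show (r + 1) ^ 2 + 1 = 2 + r * (r + 2) by ring, Nat.coprime_add_mul_left_left]
  rw [Nat.coprime_two_left]
  rcases Nat.even_or_odd r with h1 | h1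
  · exact absurd h (Nat.not_even_iff_odd.2 h1.add_one)
  · exact h1

/-- no proper subgroup of a Suzuki group has order divisible by `q ^ 2 + 1` -/
theorem sz_top {G F : Type*} [Group G] [Field F] {m : ℕ} (M : Sz.Model G F m) (L : Subgroup G)
    (hL : Nat.card F ^ 2 + 1 ∣ Nat.card L) : L = ⊤ := by
  haveI := M.finF
  haveI := M.finG
  have h8 := M.eight_le_card
  have hpos : 0 < Nat.card L := Nat.card_pos
  rcases M.classify L with h | ⟨t, K, hK, rfl⟩
  · exfalso
    rcases M.le_of_isSolvable h with ⟨t, ht⟩ | ⟨U, hU, h⟩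
    · have h1 := hL.trans (Subgroup.card_dvd_of_le ht)
      rw [(M.conj t).card_B] at h1
      have := (sz_cop _ M.even_card (by omega)).eq_one_of_dvd h1
      nlinarith
    · have h1 := hL.trans (Subgroup.card_dvd_of_le h)
      have hm := M.hm
      have hq := M.card
      obtain ⟨r, hr⟩ : ∃ r, r = 2 ^ m := ⟨_, rfl⟩
      have hr2 : 2 ≤ r := by
        rw [hr]; exact Nat.le_self_pow (by omega) 2
      have e1 : 2 ^ (2 * m + 1) = 2 * r ^ 2 := by rw [hr]; ring
      have e2 : 2 ^ (m + 1) = 2 * r := by rw [hr]; ring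
      have h2 : Nat.card U ≤ 2 * r ^ 2 + 2 * r + 1 := by
        have := Sz.Model.IsTorus.card_mem M hU
        rw [e1, e2] at this
        simp only [Set.mem_insert_iff, Set.mem_singleton_iff] at this
        rcases this with h | h | h <;> omega
      have h3 : Nat.card (Sz.Nor U) ≤ 4 * Nat.card U := by
        rcases Sz.Model.IsTorus.card_Nor M hU with h | h <;> omega
      have h4 := Nat.le_of_dvd Nat.card_pos h1
      rw [hq, e1] at h4
      have h5 : 4 ≤ r ^ 2 := by nlinarith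
      nlinarith
  · obtain ⟨k, hk, hd, hc⟩ := M.subfield_param hK
    haveI : Fact (Nat.Prime 2) := ⟨Nat.prime_two⟩
    haveI := Fintype.ofFinite (GaloisField 2 (2 * k + 1))
    have h1 : Nat.card (GaloisField 2 (2 * k + 1)) = 2 ^ (2 * k + 1) := GaloisField.card 2 _ (by omega)
    obtain ⟨e⟩ := M.exists_equiv_sub (Sz.ovoidModel hk h1) hd hc
    by_cases hkm : k = m
    · subst hkm
      have h3 : K = ⊤ := Sz.subfield_eq_of_card (by
        rw [hc, ← M.card]; exact (Nat.card_congr Subfield.topEquiv.toEquiv).symm)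
      rw [h3, M.sub_top]
      exact Subgroup.map_top_of_surjective _ (MulAut.conj t).surjective
    exfalso
    rw [Subgroup.card_map_of_injective (MulAut.conj t).injective, Nat.card_congr e.toEquiv,
      (Sz.ovoidModel hk h1).card_G, h1, M.card] at hL
    obtain ⟨d, hd⟩ := hd
    have hd3 : 3 ≤ d := by
      rcases d with _ | _ | _ | d
      · omega
      · omega
      · omega
      · omega
    rw [hd, pow_mul] at hL
    obtain ⟨s, hs⟩ : ∃ s, s = 2 ^ (2 * k + 1) := ⟨_, rfl⟩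
    have hs1 : 1 ≤ s := by rw [hs]; exact Nat.one_le_two_pow
    have hs2 : 2 ≤ s := by
      rw [hs]; exact Nat.le_self_pow (by omega) 2
    rw [← hs] at hL
    have h4 := Nat.le_of_dvd (by
      have : 0 < s - 1 := by omega
      positivity) hL
    have h5 : s ^ 3 ≤ s ^ d := Nat.pow_le_pow_right hs1 hd3
    obtain ⟨u, rfl⟩ := Nat.exists_eq_add_of_le' hs1
    rw [Nat.add_sub_cancel] at h4
    have h6 : ((u + 1) ^ 3) ^ 2 ≤ ((u + 1) ^ d) ^ 2 := Nat.pow_le_pow_left h5 2
    have h7 : (u + 1) ^ 2 * u * ((u + 1) ^ 2 + 1) ≤ ((u + 1) ^ 3) ^ 2 := by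
      have : ((u + 1) ^ 3) ^ 2 = (u + 1) ^ 2 * u * ((u + 1) ^ 2 + 1) +
        (u + 1) ^ 2 * (u ^ 4 + 3 * u ^ 3 + 4 * u ^ 2 + 2 * u + 1) := by ring
      omega
    omega

variable {G Ω : Type*} [Group G] [Finite G] [MulAction G Ω] [FaithfulSMul G Ω] [Finite Ω]

theorem fam_Sz (hG : Lie.IsoSuzuki G) (h2 : MulAction.IsMultiplyPretransitive G Ω 2) :
    Concl G (Nat.card Ω) := by
  obtain ⟨F, _, _, m, hm, hF, ⟨e⟩⟩ := hG
  have M := (Sz.lieModel hm (Nat.card_eq_fintype_card.trans hF)).map e.symm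
  have hΔ := sz_t2 M
  haveI : Nontrivial G := by
    rw [← Finite.one_lt_card_iff_nontrivial]
    have h1 := Nat.le_of_dvd Nat.card_pos hΔ.dvd_card
    have := hΔ.two_le
    obtain ⟨r, hr⟩ := Nat.exists_eq_add_of_le' this
    rw [hr] at h1
    simp only [Nat.add_succ_sub_one] at h1
    nlinarith
  have h := T2.of_faithful h2
  refine Or.inr (Or.inr (Or.inr (Or.inl ⟨F, inferInstance, inferInstance, m, hm, hF, ⟨e⟩, ?_⟩)))
  rcases rank_one h hΔ with h1 | h1
  · rw [h1, M.card_Ω, Nat.card_eq_fintype_card]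
  · have := h.nt
    have := hΔ.nt
    obtain ⟨x⟩ : Nonempty Ω := inferInstance
    have h3 := r1_dvd (h1 x)
    rw [M.card_Ω] at h3
    exact absurd (sz_top M _ h3) (h.stab_ne_top x)

end Cfsg.Agent.TT
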