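import Cfsg.Agent.TT.SB2
import Cfsg.Agent.TT.SBc
import Cfsg.Agent.TT.Abs
import Cfsg.Agent.TT.Ar
import Cfsg.Agent.TwC.F4
import Cfsg.Agent.TwM.F4a
import Cfsg.Agent.Forms.LieD4
import Cfsg.Agent.Chev.Over2
/-!
# The groups `²F₄(q)`, `q ≥ 8`, have no two-transitive action
-/
set_option autoImplicit false
set_option linter.unusedSectionVars false

namespace Cfsg.Agent.TT
open Cfsg Cfsg.Lie Cfsg.Agent.Chev Cfsg.Agent.Tw Cfsg.Agent.TwM Equiv Finset MulAction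
open scoped commutatorElement

section gen
variable {D : ChevalleyDatum} {C : Cert D} {F : Type*} [Field F] {G : Type*} [Group G] (S : Sys C F G)

theorem normal_top {T : Stb S} {K : Subgroup G} (hK : T.Good K)
    (hg : ∀ M : Subgroup G, (∀ g ∈ K, g ∈ S.Up ∨ g ∈ S.Um → g ∈ M) → K ≤ M) {M : Subgroup K} (hM : M.Normal)
    (h1 : S.Up.subgroupOf K ≤ M) : M = ⊤ := by
  obtain ⟨n, hn, h2⟩ := hK.ex_w0
  refine eq_top_iff.2 fun g _ => ?_
  obtain ⟨_, h3, e⟩ := hg (M.map K.subtype) (fun g hg h => ⟨⟨g, hg⟩, h.elim (fun h => h1 h) fun h => by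
    simpa only [inv_mul_cancel_left, SetLike.mem_coe] using hM.mem_comm (a := ⟨n, hn⟩ * ⟨g, hg⟩) (b := ⟨n, hn⟩⁻¹) (h1 (h2.acts.conj_mem
      (fun r hr => Cert.pos_w0_univ_iff.2 hr) h)), rfl⟩) g.2
  exact Subtype.ext e ▸ h3

theorem cd_comm_lead (f : (Nd D → ℤ) →ₗ[ℤ] ℤ) {k : ℤ} (hk : 0 < k) {β γ δ : Rt D} (hγ : 0 < f (C.rc γ))
    (hβ : f (C.rc β) = k) (e : C.rc δ = C.rc β + C.rc γ) (c : F) {a z : G}
    (ha : a ∈ S.U {r | f (C.rc γ) + 1 ≤ f (C.rc r)}) (hz : z ∈ S.U {r | k ≤ f (C.rc r)}) :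
    S.cd δ ⁅S.x γ c * a, z⁆ = C.N γ β * c * S.cd β z := by
  have hδ : f (C.rc δ) = k + f (C.rc γ) := by rw [e, map_add, hβ]
  have h1 := S.conj_ge f (k := k + (f (C.rc γ) + 1)) (by omega) (Subgroup.mem_sup_left (S.x_mem_U hγ.le c))
    (comm_ge S f (by omega) hk ha hz)
  rw [show ⁅S.x γ c * a, z⁆ = S.x γ c * ⁅a, z⁆ * (S.x γ c)⁻¹ * (S.x γ c * z * (S.x γ c)⁻¹ * z⁻¹) by
    simp only [commutatorElement_def]; group,
    S.cd_mul (f := f) (k := k + f (C.rc γ)) (by omega) (fun r hr => hr) (by omega)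
      (S.U_mono (fun r (hr : _ ≤ f _) => show _ ≤ f _ by omega) h1) (S.comm_level f hk hγ.le c hz),
    S.cd_eq_zero (by omega) (fun r hr => hr) (by omega) h1, S.cd_comm_of_add f hk hγ hβ e c hz, zero_add]

end gen

namespace TF

variable {F : Type*} [Field F] [Finite F] [CharP F 2] {φ : F ≃+* F}

omit [Finite F] in
theorem abF {G : Type*} [Group G] (S : Sys certF4 F G) (s t s' t' : F) :
    xi S 46 s * xi S 40 s' * (xi S 24 t * xi S 33 t') =
      xi S 24 t * xi S 33 t' * (xi S 46 s * xi S 40 s') * (xi S 47 (s * t) * xi S 44 (s' * t')) := by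
  rw [← mul_one (xi _ 33 t'), ← mul_one (xi _ 44 _)]
  simp only [mul_assoc, one_mul]
  rw [xi_comm _ (r := 24) (s := 40) (by decide +kernel), Forms.sw2 _ (r := 24) (s := 46) (b := 47) (by decide +kernel),
    Forms.sw2 _ (r := 33) (s := 40) (b := 44) (by decide +kernel), xi_comm _ (r := 33) (s := 46) (by decide +kernel),
    xi_comm _ (r := 33) (s := 47) (by decide +kernel), xi_comm _ (r := 46) (s := 47) (by decide +kernel),
    xi_comm _ (r := 40) (s := 44) (by decide +kernel), xi_comm _ (r := 40) (s := 47) (by decide +kernel),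
    mul_comm s, mul_comm s']

section
variable {G : Type*} [Group G] {S : Sys certF4 F G}
omit [Finite F]

/-- the roots of the abelian normal subgroup -/
abbrev lV : List ℕ := [36, 38, 39, 40, 42, 43, 44, 45, 46, 47]

/-- the roots of the unipotent radical -/
abbrev lY : List ℕ := [24, 26, 29, 31, 32, 33, 34, 35, 36, 37, 38, 39, 40, 41, 42, 43, 44, 45, 46, 47]

theorem comm_in {A B : List ℕ} (h : (∀ r ∈ B, r ∈ lV) ∧ (∀ r ∈ lV, r ∈ A) ∧ ∀ a ∈ A, ∀ b ∈ lV, commIn chevF4 2 B a b = true)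
    {y v : G} (hy : y ∈ S.U {r | r.1 ∈ A}) (hv : v ∈ S.U {r | r.1 ∈ lV}) : ⁅y, v⁆ ∈ S.U {r | r.1 ∈ B} := by
  have := inv_mem (S.conj_comm_mem (T' := {r | r.1 ∈ B}) (fun r hr => h.1 _ hr)
    (fun r hr s hs t u => S.comm_mem_of_in 2 (h.2.2 _ hr _ hs) t u) (fun r hr => h.2.1 _ hr) (inv_mem hy) (inv_mem hv))
  rwa [show (v⁻¹⁻¹ * (y⁻¹⁻¹ * v⁻¹ * y⁻¹))⁻¹ = ⁅y, v⁆ by rw [commutatorElement_def]; group] at this

omit [CharP F 2] in
theorem cd_z {u v : G} (hu : u ∈ S.U {r | r.1 ∈ [44, 47]}) (hv : v ∈ S.U {r | r.1 ∈ [44, 47]}) (r : Rt chevF4) :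
    S.cd r (u * v) = S.cd r u + S.cd r v :=
  S.cd_mul (f := fF) (k := 29) (by decide) (by simp only [Set.mem_ofPred_eq]; decide +kernel)
    (by revert r; decide +kernel) hu hv

omit [CharP F 2] in
theorem U_list {A B : List ℕ} (h : ∀ r ∈ A, r ∈ B) : S.U {r | r.1 ∈ A} ≤ S.U {r | r.1 ∈ B} := S.U_mono fun _ hr => h _ hr

theorem cd_nd {a b : Rt chevF4} (h : a.1 ∈ lY ∧ 0 < wf chevF4 [0, 0, 0, 1] (certF4.rc a) ∧
    wf chevF4 [0, 0, 0, 1] (certF4.rc b) = 1 ∧ (∀ i, certF4.rc (TwM.rF 47) i = certF4.rc b i + certF4.rc a i) ∧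
    (certF4.N a b = 1 ∨ certF4.N a b = -1)) (s : F) {y v : G} (hy : y ∈ S.U {r | r.1 ∈ [33, 34, 35, 36, 37, 40, 42, 46]})
    (hv : v ∈ S.U {r | r.1 ∈ lV}) : S.x a s * y ∈ S.U {r | r.1 ∈ lY} ∧ S.cd (TwM.rF 47) ⁅S.x a s * y, v⁆ = s * S.cd b v := by
  obtain ⟨a2, a3, a4, a5, a6⟩ := h
  have m1 := S.x_mem_U (T := {r | r.1 ∈ lY}) (r := a) a2 s
  have m3 := comm_in (A := [33, 34, 35, 37] ++ lV) (B := [44]) (by decide +kernel) (U_list (by decide) hy) hv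
  have m4 := U_list (B := [44, 47]) (by decide) m3
  refine ⟨mul_mem m1 (U_list (by decide) hy), ?_⟩
  have e := S.cd_comm_of_add (wf chevF4 [0, 0, 0, 1]) one_pos a3 a4 (funext a5) s
    (S.U_mono (fun r hr => (by decide +kernel : ∀ r : Rt chevF4, r.1 ∈ lV →
      1 ≤ wf chevF4 [0, 0, 0, 1] (certF4.rc r)) r hr) hv)
  rw [← commutatorElement_def] at e
  rw [show ∀ x : G, ⁅x * y, v⁆ = x * ⁅y, v⁆ * x⁻¹ * ⁅x, v⁆ from fun x => by simp only [commutatorElement_def]; group,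
    (commute_Up 2 (B := [44, 47]) (by decide +kernel) m1 m4).eq, mul_inv_cancel_right,
    cd_z m4 (comm_in (by decide +kernel) m1 hv), e,
    S.cd_eq_zero_of_notMem (f := fF) (k := 29) (by decide) (by simp only [Set.mem_ofPred_eq]; decide +kernel)
      (by decide +kernel) (by rw [Set.mem_ofPred_eq]; decide) m3, zero_add]
  rcases a6 with a6 | a6 <;> simp [a6, CharTwo.neg_eq]

end

/-- the relative Weyl group -/
def wF4 (i : Fin 16) : List (Nd chevF4) :=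
  Cert.toNd chevF4 ((List.range ((i.1 + 1) / 2)).flatMap fun k : ℕ => if (k + i.1) % 2 = 1 then [0, 3] else [1, 2, 1, 2])

theorem cj_wF4 (i : Fin 16) : (stbF4 φ).cj (certF4.wd (wF4 i)) = certF4.wd (wF4 i) := by
  rw [Stb.cj_wd, Forms.wd_eq_iff ssF4]
  change ∀ j : Nd chevF4, actN _ (((wF4 i).map Fin.revPerm).map _) _ = _
  revert i; decide +kernel

theorem exists_wF4 {w : Perm (Rt chevF4)} (hw : w ∈ certF4.W) (h : (stbF4 φ).cj w = w) :
    ∃ i, w = certF4.wd (wF4 i) := by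
  refine Stb.fix_induction (P := fun w => ∃ i, w = certF4.wd (wF4 i)) ⟨0, rfl⟩ ?_ hw h
  rintro _ - - i - ⟨j, rfl⟩
  obtain ⟨l, h1, h2, h3⟩ := (by decide +kernel : ∀ i : Nd chevF4, ∃ l, (∀ a ∈ wF4 l, Fin.revPerm.SameCycle i a) ∧
    (¬ ∀ j : Nd chevF4, actN reflF4 ((wF4 l).map Fin.val) (chevF4.simple j) = chevF4.simple j) ∧ l.1 < 3) i
  rw [← Stb.eq_w0_orb (certF4.wd_mem_WJ h1) (cj_wF4 l) fun e => h2 ((Forms.wd_eq_iff ssF4 (b := [])).1 e),
    ← certF4.wd_append]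
  simp only [Forms.wd_eq_iff ssF4]
  clear h1 h2; revert j l; decide +kernel

variable {K : Subgroup (chevF4.group F)} (hK : (stbF4 φ).Good K) (h3 : ∀ t, φ (φ t) ^ 2 = t)
include hK h3

theorem index_P : (((certF4.sys F).P ((stbF4 φ).orb ⟨2, by decide⟩)).subgroupOf K).index =
    (Nat.card F ^ 6 + 1) * (Nat.card F ^ 3 + 1) * (Nat.card F + 1) := by
  classical
  have h := hK.card_P Set.univ
  rw [Sys.P_univ, top_inf_eq,
    show univ.filter (fun w => w ∈ certF4.WJ Set.univ ∧ (stbF4 φ).cj w = w) = univ.image fun i => certF4.wd (wF4 i) by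
      ext w
      simp only [mem_filter, mem_univ, true_and, mem_image]
      exact ⟨fun h => (exists_wF4 h.1 h.2).imp fun _ => Eq.symm, by
        rintro ⟨i, rfl⟩; exact ⟨certF4.wd_mem_W _, cj_wF4 i⟩⟩,
    sum_image fun a _ b _ e => (by simp only [Forms.wd_eq_iff ssF4]; decide +kernel :
      ∀ a b, certF4.wd (wF4 a) = certF4.wd (wF4 b) → a = b) a b e,
    sum_congr rfl fun i _ => Nat.pow_left_injective two_ne_zero ((cardUw_F4 hK h3 (certF4.wd_mem_W _) (cj_wF4 i)).trans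
      ((congrArg _ ((by simp only [Forms.ln_wd ssF4]; decide +kernel :
        ∀ i, certF4.ln (certF4.wd (wF4 i)) = ![0, 1, 2, 3, 3, 4, 5, 6, 6, 7, 8, 9, 9, 10, 11, 12] i * 2) i)).trans
        (pow_mul _ _ _)))] at h
  have h1 := hK.card_P_orb ⟨2, by decide⟩
  rw [Stb.Xp, orbF4] at h1
  have h2 := (((certF4.sys F).P ((stbF4 φ).orb ⟨2, by decide⟩)).subgroupOf K).card_mul_index
  rw [← Subgroup.inf_subgroupOf_right, Nat.card_congr (Subgroup.subgroupOfEquivOfLe inf_le_right).toEquiv, h1, h,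
    Subgroup.inf_subgroupOf_right, mul_assoc, show [[24, 33], [25, 27, 28, 30], [25, 27, 28, 30], [24, 33]].getD
      (⟨2, by decide⟩ : Nd chevF4) [] = [25, 27, 28, 30] from rfl, cardF4_1 hK h3] at h2
  have h4 := Nat.eq_of_mul_eq_mul_left Nat.card_pos h2
  generalize Nat.card F = q at h4 ⊢
  generalize Subgroup.index (G := K) _ = n at h4 ⊢
  refine Nat.eq_of_mul_eq_mul_left (Nat.add_pos_left one_pos (q ^ 2)) (h4.trans ?_)
  simp [Fin.sum_univ_succ]; ring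

variable (φ) in
omit hK h3 in
/-- the elements of the root groups of type `A₁ × A₁` -/
noncomputable def pr (r : Rt chevF4) (t : F) : chevF4.group F := (certF4.sys F).x r t * (certF4.sys F).x (barF4 r) (φ t)

omit hK h3 in
theorem σ_long {r : Rt chevF4} (h : lamF4 r = 1) (t : F) :
    (stbF4 φ).σ ((certF4.sys F).x r t) = (certF4.sys F).x (barF4 r) (φ t) :=
  (isogF4.stb_x isogF4_ok φ r t).trans (by rw [show isogF4.lam r = 1 from h, pow_one]; rfl)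

omit hK h3 in
theorem pr_conj {g : chevF4.group F} (hg : (stbF4 φ).σ g = g) {r s : Rt chevF4} (hr : lamF4 r = 1) (hs : lamF4 s = 1)
    {d : F} (h : ∀ t, g * (certF4.sys F).x r t * g⁻¹ = (certF4.sys F).x s (d * t)) (t : F) :
    g * pr φ r t * g⁻¹ = pr φ s (d * t) := by
  have := congrArg (stbF4 φ).σ (h t)
  rw [map_mul, map_mul, map_inv, hg, σ_long hr, σ_long hs] at this
  rw [pr, pr, ← this, ← h]; group

omit hK h3 in
theorem x_comm {r s : Rt chevF4} (h : commIn chevF4 2 [] r s = true) (t u : F) :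
    Commute ((certF4.sys F).x r t) ((certF4.sys F).x s u) :=
  commute_Up 2 (A := [r]) (B := [s]) (by simpa using h) ((certF4.sys F).x_mem_U (by simp) t)
    ((certF4.sys F).x_mem_U (by simp) u)

omit hK h3 in
theorem pr_add {r : Rt chevF4} (h : commIn chevF4 2 [] r (barF4 r) = true) (s t : F) :
    pr φ r (s + t) = pr φ r s * pr φ r t := by
  rw [pr, pr, pr, map_add, Sys.x_add, Sys.x_add, (x_comm h t (φ s)).mul_mul_mul_comm]

omit hK h3 in
theorem pr_mem {r : Rt chevF4} {A : Set (Rt chevF4)} (h : r ∈ A) (h' : barF4 r ∈ A) (t : F) :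
    pr φ r t ∈ (certF4.sys F).U A := mul_mem ((certF4.sys F).x_mem_U h _) ((certF4.sys F).x_mem_U h' _)

omit hK h3 in
theorem pr_memL {r : Rt chevF4} {A : List ℕ} (h : r.1 ∈ A ∧ (barF4 r).1 ∈ A) (t : F) :
    pr φ r t ∈ (certF4.sys F).U {s | s.1 ∈ A} := pr_mem h.1 h.2 t

theorem pr_K {r : Rt chevF4} (h : 24 ≤ r.1 ∧ 24 ≤ (barF4 r).1 ∧ lamF4 r = 1 ∧ lamF4 (barF4 r) = 2 ∧ barF4 (barF4 r) = r ∧
    commIn chevF4 2 [] r (barF4 r) = true) (t : F) : pr φ r t ∈ K := by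
  obtain ⟨h1, h2, h4, h5, h6, h7⟩ := h
  refine hK.up _ (pr_mem ((certF4.pos_iff_val _).2 (by change 48 ≤ _; omega))
    ((certF4.pos_iff_val _).2 (by change 48 ≤ _; omega)) t) ?_
  rw [pr, map_mul, σ_long h4, (x_comm h7 t _).eq]
  congr 1
  exact (isogF4.stb_x isogF4_ok φ _ _).trans (by rw [show isogF4.lam _ = 2 from h5, h3, show isogF4.bar _ = r from h6])

/-- the Heisenberg triple -/
noncomputable def a2 : A2 F K where
  a s := ⟨pr φ (TwM.rF 46) s, pr_K hK h3 (by decide +kernel) s⟩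
  b s := ⟨pr φ (TwM.rF 24) s, pr_K hK h3 (by decide +kernel) s⟩
  c s := ⟨pr φ (TwM.rF 47) s, pr_K hK h3 (by decide +kernel) s⟩
  a_add s t := Subtype.ext (pr_add (by decide +kernel) s t)
  b_add s t := Subtype.ext (pr_add (by decide +kernel) s t)
  c_add s t := Subtype.ext (pr_add (by decide +kernel) s t)
  ab s t := Subtype.ext (by
    simp only [Subgroup.coe_mul, pr, ← xi_val, map_mul]
    exact abF _ ..)
  ac s t := Subtype.ext (commute_Up 2 (A := [40, 46]) (B := [44, 47]) (by decide +kernel)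
    (pr_memL (by decide) s) (pr_memL (by decide) t)).eq
  bc s t := Subtype.ext (commute_Up 2 (A := [24, 33]) (B := [44, 47]) (by decide +kernel)
    (pr_memL (by decide) s) (pr_memL (by decide) t)).eq

theorem over_w (i : Fin 16) : ∃ m ∈ K, (certF4.sys F).Over m (certF4.wd (wF4 i)) :=
  hK.ex_over _ (certF4.wd_mem_W _) (cj_wF4 i)

theorem a_conj : ∃ g : K, ∃ d ≠ 0, ∀ t, g * (a2 hK h3).a t * g⁻¹ = (a2 hK h3).c (d * t) := by
  obtain ⟨m, hm, h⟩ := over_w hK h3 1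
  obtain ⟨d, hd⟩ := h.acts (TwM.rF 46)
  rw [show certF4.wd _ _ = TwM.rF 47 from Fin.ext (by rw [Cert.wd_table ssF4]; decide +kernel)] at hd
  exact ⟨⟨m, hm⟩, d, d.ne_zero, fun t => Subtype.ext (pr_conj (hK.fix m hm) rfl rfl hd t)⟩

theorem P_conj {g : K} (hg : g.1 ∈ (certF4.sys F).P ((stbF4 φ).orb ⟨2, by decide⟩)) :
    ∃ d ≠ 0, ∀ t, g * (a2 hK h3).c t * g⁻¹ = (a2 hK h3).c (d * t) := by
  obtain ⟨w, hw, u, hu, m, hm, u', hu', e⟩ : ∃ w : Perm (Rt chevF4), w (TwM.rF 47) = TwM.rF 47 ∧ (certF4.sys F).Cell w g := by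
    rcases hK.cell_P g.2 hg with h | h
    · exact ⟨1, rfl, Sys.cell_one_iff.2 h⟩
    · exact ⟨_, (DFunLike.congr_fun TwC.swF4_a (TwM.rF 47)).trans
        (Fin.ext ((Cert.wd_table ssF4 _ _).trans (by decide +kernel))), h⟩
  obtain ⟨d, hd⟩ := hm.acts (TwM.rF 47)
  refine ⟨d, d.ne_zero, fun t => Subtype.ext (pr_conj (hK.fix g g.2) rfl rfl (fun t => ?_) t)⟩
  have k : ∀ v ∈ (certF4.sys F).Up, ∀ s, v * (certF4.sys F).x (TwM.rF 47) s * v⁻¹ = (certF4.sys F).x (TwM.rF 47) s :=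
    fun v hv s => top_commute hv s
  rw [hw] at hd
  have e1 := k u hu (d * t)
  have e2 := k u' hu' t
  have e3 := hd t
  rw [e]
  generalize (certF4.sys F).x (TwM.rF 47) t = y at e2 e3 ⊢
  generalize (certF4.sys F).x (TwM.rF 47) (d * t) = z at e1 e3 ⊢
  rw [← e1, ← e3, show u * m * u' * y * (u * m * u')⁻¹ = u * (m * (u' * y * u'⁻¹) * m⁻¹) * u⁻¹ by group, e2]

/-- the subgroup `M` covers the section of the root `r` -/
def Cv (M : Subgroup K) (r : Rt chevF4) : Prop :=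
  ∀ t, ∃ a ∈ M, a.1 ∈ (certF4.sys F).U {x | fF (certF4.rc r) ≤ fF (certF4.rc x)} ∧ (certF4.sys F).cd r a = t

omit hK h3 in
theorem cd_comm {r s u : Rt chevF4} (h : 0 < fF (certF4.rc r) ∧ 0 < fF (certF4.rc s) ∧
    (∀ i, certF4.rc u i = certF4.rc s i + certF4.rc r i) ∧ (certF4.N r s = 1 ∨ certF4.N r s = -1))
    {a b : chevF4.group F} (ha : a ∈ (certF4.sys F).U {x | fF (certF4.rc r) ≤ fF (certF4.rc x)})
    (hb : b ∈ (certF4.sys F).U {x | fF (certF4.rc s) ≤ fF (certF4.rc x)}) :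
    ⁅a, b⁆ ∈ (certF4.sys F).U {x | fF (certF4.rc u) ≤ fF (certF4.rc x)} ∧
      (certF4.sys F).cd u ⁅a, b⁆ = (certF4.sys F).cd r a * (certF4.sys F).cd s b := by
  obtain ⟨h1, h2, h4, h5⟩ := h
  refine ⟨by rw [funext h4, ← Pi.add_def, map_add]; exact comm_ge _ fF h1.le h2 ha hb, ?_⟩
  have m := (certF4.sys F).x_mem_U (T := {x | fF (certF4.rc r) ≤ fF (certF4.rc x)}) (r := r) (le_refl (fF _))
    (-(certF4.sys F).cd r a)
  have := cd_comm_lead (certF4.sys F) fF h2 h1 rfl (funext h4) ((certF4.sys F).cd r a)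
    ((Ul_ker (θ := MonoidHom.id _) (admF (φ := RingEquiv.refl F)).1 h1 (mul_mem m ha)).1 (by
      rw [MonoidHom.id_apply, Sys.cd_mul _ h1.le (fun _ h => h) (by omega) m ha, Sys.cd_x_self, neg_add_cancel])) hb
  rw [Sys.x_neg, mul_inv_cancel_left] at this
  rw [this]
  rcases h5 with h5 | h5 <;> simp [h5, CharTwo.neg_eq]

omit hK h3 in
theorem Cv.step {M : Subgroup K} {r s u : Rt chevF4} (h1 : Cv M r) (h2 : Cv M s)
    (h : 0 < fF (certF4.rc r) ∧ 0 < fF (certF4.rc s) ∧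
    (∀ i, certF4.rc u i = certF4.rc s i + certF4.rc r i) ∧ (certF4.N r s = 1 ∨ certF4.N r s = -1)) : Cv M u := fun t => by
  obtain ⟨a, a1, a2, a3⟩ := h1 1
  obtain ⟨b, b1, b2, b3⟩ := h2 t
  have := cd_comm h a2 b2
  exact ⟨⁅a, b⁆, mul_mem (mul_mem (mul_mem a1 b1) (inv_mem a1)) (inv_mem b1), this.1,
    this.2.trans (by rw [a3, b3, one_mul])⟩

omit hK h3 in
theorem cd_pr {r s : Rt chevF4} (h : barF4 r = s ∧ 0 < fF (certF4.rc s) ∧ fF (certF4.rc s) < fF (certF4.rc r)) (t : F) :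
    pr φ r t ∈ (certF4.sys F).U {x | fF (certF4.rc s) ≤ fF (certF4.rc x)} ∧ (certF4.sys F).cd s (pr φ r t) = φ t := by
  obtain ⟨h0, h1, h2⟩ := h
  rw [pr, h0]
  have m1 := (certF4.sys F).x_mem_U (T := {x | fF (certF4.rc s) ≤ fF (certF4.rc x)}) (r := r) h2.le t
  have m2 := (certF4.sys F).x_mem_U (T := {x | fF (certF4.rc s) ≤ fF (certF4.rc x)}) (r := s) (le_refl (fF _)) (φ t)
  exact ⟨mul_mem m1 m2, by
    rw [Sys.cd_mul _ h1.le (fun _ h => h) (lt_two_mul_self h1) m1 m2, Sys.cd_x_self,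
      Sys.cd_x_ne _ (fun e => by rw [e] at h2; exact h2.false), zero_add]⟩

omit hK h3 in
theorem cd_29 (s w : F) : ⁅pr φ (TwM.rF 24) s, pr φ (TwM.rF 30) w⁆ ∈ (certF4.sys F).U {x | fF (certF4.rc (TwM.rF 35)) ≤ fF (certF4.rc x)} ∧
    (certF4.sys F).cd (TwM.rF 35) ⁅pr φ (TwM.rF 24) s, pr φ (TwM.rF 30) w⁆ = φ (s * w) ∧
      (certF4.sys F).cd (TwM.rF 29) ⁅pr φ (TwM.rF 24) s, pr φ (TwM.rF 30) w⁆ = s * φ w := by
  have a1 := cd_pr (φ := φ) (r := TwM.rF 24) (s := TwM.rF 33) (by decide +kernel) s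
  have b1 := cd_pr (φ := φ) (r := TwM.rF 30) (s := TwM.rF 28) (by decide +kernel) w
  have k1 := cd_comm (u := TwM.rF 35) (by decide +kernel) a1.1 b1.1
  refine ⟨k1.1, by rw [k1.2, a1.2, b1.2, map_mul], ?_⟩
  have := cd_comm_lead (certF4.sys F) (wf chevF4 [3, 4, 5, 2]) (k := 9) (β := TwM.rF 28) (γ := TwM.rF 24) (δ := TwM.rF 29)
    (by decide) (by decide +kernel) (by decide +kernel) (funext (by decide +kernel)) s
    (Sys.x_mem_U _ (r := barF4 (TwM.rF 24)) (by rw [Set.mem_ofPred_eq]; decide +kernel) (φ s))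
    (pr_mem (φ := φ) (r := TwM.rF 30) (by rw [Set.mem_ofPred_eq]; decide +kernel) (by rw [Set.mem_ofPred_eq]; decide +kernel) w)
  rwa [show certF4.N (TwM.rF 24) (TwM.rF 28) = 1 by decide +kernel, b1.2, Int.cast_one, one_mul] at this

omit hK h3 in
theorem Cv.le {M : Subgroup K} (hK : ∀ g : K, (stbF4 φ).σ g = g)
    (c : ∀ r : Rt chevF4, r.1 ∈ [27, 28, 29, 33, 34, 35, 36, 37, 38, 39, 40, 44] → Cv M r) :
    (certF4.sys F).Up.subgroupOf K ≤ M := by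
  refine le_trans (Subgroup.comap_mono (Sys.U_mono _ fun r hr => (by decide +kernel : ∀ r : Rt chevF4,
    48 ≤ 2 * r.1 → 1 ≤ fF (certF4.rc r)) r ((certF4.pos_iff_val r).1 hr)))
    (down_ind (C := certF4) (f := fF) (P := fun k => Ul (certF4.sys F) K.subtype fF k ≤ M)
      (fun k hk => by rw [Ul_top hk, K.ker_subtype]; exact bot_le) (fun k hk ih => ?_) 1 one_pos)
  by_cases h1 : ∃ r, fF (certF4.rc r) = k
  · obtain ⟨r, rfl⟩ := h1
    by_cases h2 : Live (stbF4 φ) fF r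
    · exact (Covers.le_sup (A := M ⊓ _) (admF (φ := φ)).1 hk ⟨inf_le_right, fun u _ =>
        (c r ((liveF r).1 h2) _).imp fun a h => ⟨⟨h.1, h.2.1⟩, h.2.2⟩⟩).trans (sup_le inf_le_left ih)
    · exact (Covers.le_sup (admF (φ := φ)).1 hk (admF.covers_dead hK hk h2)).trans (sup_le bot_le ih)
  · rwa [Ul_succ (not_exists.1 h1)]

theorem up_le (hq : ∃ s : F, s ^ 2 ≠ s) {M : Subgroup K} (h : ∀ i, ∀ g : K, g.1 ∈ (stbF4 φ).Xp K i → g ∈ M) :
    (certF4.sys F).Up.subgroupOf K ≤ M := by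
  obtain ⟨a, ha, ea⟩ : ∃ a : F → K, (∀ t, a t ∈ M) ∧ ∀ t, (a t).1 = pr φ (TwM.rF 24) t :=
    have k := pr_K hK h3 (r := TwM.rF 24) (by decide +kernel)
    ⟨fun t => ⟨_, k t⟩, fun t => h ⟨3, by decide⟩ _ ⟨by rw [orbF4]; exact pr_memL (by decide) t, k t⟩, fun _ => rfl⟩
  obtain ⟨b, hb, eb⟩ : ∃ a : F → K, (∀ t, a t ∈ M) ∧ ∀ t, (a t).1 = pr φ (TwM.rF 30) t :=
    have k := pr_K hK h3 (r := TwM.rF 30) (by decide +kernel)
    ⟨fun t => ⟨_, k t⟩, fun t => h ⟨2, by decide⟩ _ ⟨by rw [orbF4]; exact pr_memL (by decide) t, k t⟩, fun _ => rfl⟩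
  have c33 : Cv M (TwM.rF 33) := fun t => ⟨_, ha (φ.symm t), by
    simpa only [ea, φ.apply_symm_apply] using cd_pr (φ := φ) (r := TwM.rF 24) (s := TwM.rF 33) (by decide +kernel) (φ.symm t)⟩
  have c28 : Cv M (TwM.rF 28) := fun t => ⟨_, hb (φ.symm t), by
    simpa only [eb, φ.apply_symm_apply] using cd_pr (φ := φ) (r := TwM.rF 30) (s := TwM.rF 28) (by decide +kernel) (φ.symm t)⟩
  have c27 : Cv M (TwM.rF 27) := fun t => by
    have h1 := (xpF4_2 hK h3).2 ⟨φ.symm t, 0, rfl⟩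
    have h2 := cd_wd (certF4.sys F) (f := fF) (k := fF (certF4.rc (TwM.rF 27))) (r := TwM.rF 27) (by decide +kernel) (fun _ h => h)
      (by decide +kernel) (w := [(25, φ.symm t), (27, φ (φ.symm t)), (28, 0), (30, φ.symm t * φ (φ.symm t) ^ 2 + φ 0 ^ 2)])
      fun p hp => (by decide +kernel : ∀ r ∈ [25, 27, 28, 30], ∀ h, fF (certF4.rc (TwM.rF 27)) ≤ fF (certF4.rc ⟨r, h⟩)) p.1
        (List.mem_map_of_mem hp)
    exact ⟨⟨_, h1.2⟩, h _ _ h1, h2.1, h2.2.trans (by simp)⟩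
  have c29 : Cv M (TwM.rF 29) := fun t => by
    obtain ⟨s, hs⟩ := hq
    have h1 : s + φ s ≠ 0 := fun e => hs (by
      have e1 : φ s = s := by grind
      have := h3 s
      rwa [e1, e1] at this)
    obtain ⟨w, hw⟩ := φ.surjective (t / (s + φ s))
    have k1 := cd_29 (φ := φ) s w
    have k2 := cd_29 (φ := φ) 1 (s * w)
    have e : ((⁅a s, b w⁆ * ⁅a 1, b (s * w)⁆ : K) : chevF4.group F) =
        ⁅pr φ (TwM.rF 24) s, pr φ (TwM.rF 30) w⁆ * ⁅pr φ (TwM.rF 24) 1, pr φ (TwM.rF 30) (s * w)⁆ := by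
      simp only [commutatorElement_def, Subgroup.coe_mul, Subgroup.coe_inv, ea, eb]
    refine ⟨⁅a s, b w⁆ * ⁅a 1, b (s * w)⁆, mul_mem (mul_mem (mul_mem (mul_mem (ha _) (hb _)) (inv_mem (ha _))) (inv_mem (hb _)))
        (mul_mem (mul_mem (mul_mem (ha _) (hb _)) (inv_mem (ha _))) (inv_mem (hb _))), ?_⟩
    rw [e, show fF (certF4.rc (TwM.rF 29)) = fF (certF4.rc (TwM.rF 35)) + 1 by decide +kernel]
    refine ⟨(Ul_ker (θ := MonoidHom.id _) (admF (φ := φ)).1 (by decide +kernel) (mul_mem k1.1 k2.1)).1 ?_, ?_⟩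
    · rw [MonoidHom.id_apply, Sys.cd_mul _ (by decide +kernel) (fun _ h => h) (by decide +kernel) k1.1 k2.1, k1.2.1,
        k2.2.1, one_mul, CharTwo.add_self_eq_zero]
    · rw [Sys.cd_mul _ (by decide +kernel) (fun _ h => h) (by decide +kernel) k1.1 k2.1, k1.2.2, k2.2.2, map_mul, one_mul,
        ← add_mul, hw, mul_div_cancel₀ _ h1]
  have c34 : Cv M (TwM.rF 34) := c33.step c27 (by decide +kernel)
  have c35 : Cv M (TwM.rF 35) := c33.step c28 (by decide +kernel)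
  have c36 : Cv M (TwM.rF 36) := c33.step c29 (by decide +kernel)
  have c37 : Cv M (TwM.rF 37) := c27.step c35 (by decide +kernel)
  have c38 : Cv M (TwM.rF 38) := c27.step c36 (by decide +kernel)
  have c39 : Cv M (TwM.rF 39) := c28.step c36 (by decide +kernel)
  have c40 : Cv M (TwM.rF 40) := c27.step c39 (by decide +kernel)
  have c44 : Cv M (TwM.rF 44) := c33.step c40 (by decide +kernel)
  refine Cv.le (fun g => hK.fix _ g.2) fun ⟨r, h⟩ hr => ?_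
  simp only [List.mem_cons, List.not_mem_nil, or_false] at hr
  rcases hr with rfl | rfl | rfl | rfl | rfl | rfl | rfl | rfl | rfl | rfl | rfl | rfl
  exacts [c27, c28, c29, c33, c34, c35, c36, c37, c38, c39, c40, c44]

omit h3 in
theorem not_par (hB : (stbF4 φ).BN K) (Ω : Type*) [MulAction K Ω] : ¬ (sb hB).Par Ω := by
  rintro ⟨-, i, -, h⟩
  obtain ⟨b, -, -, h1⟩ := par_elim hB i h (certF4.w0_mem_W _) (stbF4 φ).stable_univ.cj_w0
  have h2 : ∀ r : Rt chevF4, r.1 ∈ [36, 38, 39, 40, 42] →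
      (b r).1 ∈ [[24, 33], [25, 27, 28, 30], [25, 27, 28, 30], [24, 33]].getD i.1 [] := fun r hr => by
    obtain ⟨a1, a2⟩ := (by decide +kernel : ∀ r : Rt chevF4, r.1 ∈ [36, 38, 39, 40, 42] → 48 ≤ 2 * r.1 ∧
      ∀ j, certF4.rc r j ≠ 0) r hr
    have h3 : 0 < Cert.lev ((stbF4 φ).orb i.1)ᶜ (certF4.rc r) :=
      Cert.lev_pos_iff.2 ⟨(certF4.pos_iff_val r).2 a1, fun h => a2 _ (h _ (not_not.2 ((stbF4 φ).mem_orb _)))⟩
    exact (Set.ext_iff.1 (orbF4 i.1) _).1 (h1 r h3 (by rw [w0F4, certF4.rc_neg, map_neg]; omega))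
  have h3 := card_le_card_of_injOn (s := {r : Rt chevF4 | r.1 ∈ [36, 38, 39, 40, 42]})
    (t := {r : Rt chevF4 | r.1 ∈ [[24, 33], [25, 27, 28, 30], [25, 27, 28, 30], [24, 33]].getD i.1 []}) b
    (fun r hr => mem_coe.2 (mem_filter.2 ⟨mem_univ _, h2 r (mem_filter.1 hr).2⟩)) b.injective.injOn
  revert h3
  generalize i.1 = j
  revert j
  decide +kernel

/-- elements of `K` with a prescribed first factor -/
def Ld (K : Subgroup (chevF4.group F)) (a : Rt chevF4) (l : List ℕ) : Prop :=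
  ∀ s, ∃ y ∈ (certF4.sys F).U {r | r.1 ∈ l}, (certF4.sys F).x a s * y ∈ K

theorem Ld.conj {a b : Rt chevF4} {l l' : List ℕ} (h : Ld K a l) (i : Fin 16)
    (h1 : actN reflF4 ((wF4 i).map Fin.val) a = b ∧ ∀ r ∈ l, actN reflF4 ((wF4 i).map Fin.val) r ∈ l') : Ld K b l' := by
  obtain ⟨m, hm, h2⟩ := over_w hK h3 i
  obtain ⟨d, hd⟩ := h2.acts a
  rw [show certF4.wd _ _ = b from Fin.ext ((Cert.wd_table ssF4 _ _).trans h1.1)] at hd
  intro s
  obtain ⟨y, hy, h4⟩ := h (d⁻¹ * s)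
  refine ⟨m * y * m⁻¹, h2.acts.conj_mem (fun r hr => by
    rw [Set.mem_ofPred_eq, Cert.wd_table ssF4]; exact h1.2 _ hr) hy, ?_⟩
  have := mul_mem (mul_mem hm h4) (inv_mem hm)
  rwa [show ∀ x, m * (x * y) * m⁻¹ = m * x * m⁻¹ * (m * y * m⁻¹) from fun x => by group, hd, Units.val_inv_eq_inv_val,
    mul_inv_cancel_left₀ d.ne_zero] at this

theorem ld (a : Rt chevF4) (h : a.1 ∈ [24, 26, 31, 32]) : Ld K a [33, 34, 35, 36, 37, 40, 42, 46] := by
  have h1 : Ld K (TwM.rF 24) [33] := fun s => ⟨_, Sys.x_mem_U _ (r := barF4 (TwM.rF 24)) (by rw [Set.mem_ofPred_eq]; decide) (φ s),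
    pr_K hK h3 (r := TwM.rF 24) (by decide +kernel) s⟩
  have h2 : Ld K (TwM.rF 25) [27, 28, 30] := fun s => ⟨_, wd_mem_list (S := certF4.sys F)
    (w := [(27, φ s), (28, 0), (30, s * φ s ^ 2 + φ 0 ^ 2)]) (by simp), by
      rw [← xi_val, ← wd_cons]; exact ((xpF4_2 hK h3).2 ⟨s, 0, rfl⟩).2⟩
  rcases (by decide +kernel : ∀ a : Rt chevF4, a.1 ∈ [24, 26, 31, 32] → a = TwM.rF 24 ∨ a = TwM.rF 26 ∨ a = TwM.rF 31 ∨ a = TwM.rF 32) a h
    with rfl | rfl | rfl | rfl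
  exacts [h1.conj hK h3 0 (by decide +kernel), h2.conj hK h3 1 (by decide +kernel), h2.conj hK h3 4 (by decide +kernel),
    h1.conj hK h3 2 (by decide +kernel)]

theorem c_mem (t : F) : ((a2 hK h3).c t).1 ∈ (certF4.sys F).U {r | r.1 ∈ [44, 47]} := pr_memL (by decide) t

theorem cd_c (t : F) : (certF4.sys F).cd (TwM.rF 47) ((a2 hK h3).c t) = t :=
  (cd_z (Sys.x_mem_U _ (r := TwM.rF 47) (by rw [Set.mem_ofPred_eq]; decide) t)
    (Sys.x_mem_U _ (r := barF4 (TwM.rF 47)) (by rw [Set.mem_ofPred_eq]; decide) (φ t)) _).trans (by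
      rw [Sys.cd_x_self, Sys.cd_x_ne _ (by decide), add_zero])

theorem exists_c {z : K} (hz : z.1 ∈ (certF4.sys F).U {r | r.1 ∈ [44, 47]}) : ∃ t, (a2 hK h3).c t = z := by
  obtain ⟨t, ht⟩ := φ.surjective (-(certF4.sys F).cd (TwM.rF 44) z)
  refine ⟨-t, ?_⟩
  rw [Stein.add_hom_neg (a2 hK h3).c_add, inv_eq_iff_mul_eq_one]
  refine Subtype.ext (Top.eq_one (T := stbF4 φ) (f := fF) (r := TwM.rF 44) (A := [44, 47])
    (show Top certF4 fF _ (barF4 _) _ _ by decide +kernel) admF (mul_mem (c_mem hK h3 t) hz) (hK.fix _ (Subtype.prop _)) ?_)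
  rw [Subgroup.coe_mul, cd_z (c_mem hK h3 t) hz]
  exact (congrArg (· + _) ((cd_pr (r := TwM.rF 47) (s := TwM.rF 44) (by decide +kernel) t).2.trans ht)).trans (neg_add_cancel _)

omit h3 in
theorem mem_z {v : K} (hv : v.1 ∈ (certF4.sys F).U {r | r.1 ∈ lV})
    (h : ∀ b : Rt chevF4, b.1 ∈ [42, 43, 45, 46] → (certF4.sys F).cd b v = 0) :
    v.1 ∈ (certF4.sys F).U {r | r.1 ∈ [44, 47]} := by
  have a1 : ∀ r ∈ {r : Rt chevF4 | r.1 ∈ lV}, 2 ≤ wf chevF4 [1, 0, 0, 1] (certF4.rc r) := by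
    simp only [Set.mem_ofPred_eq]; decide +kernel
  refine peel zero_le_two (fun a ha b hb u e => (by decide +kernel : ∀ a : Rt chevF4, a.1 ∈ lV → ∀ b : Rt chevF4, b.1 ∈ lV →
    ∀ u : Rt chevF4, (∀ i, certF4.rc u i = certF4.rc a i + certF4.rc b i) → u.1 ∈ lV) a ha b hb u (congrFun e))
    (Cert.nil_of_fun _ fun r hr => two_pos.trans_le (a1 r hr)) a1 hv fun r hr => ?_
  rcases (by decide +kernel : ∀ r : Rt chevF4, r.1 ∈ lV → r.1 ∈ [44, 47] ∨ wf chevF4 [1, 0, 0, 1] (certF4.rc r) < 2 * 2 ∧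
    (r.1 ∈ [42, 43, 45, 46] ∨ ∃ b : Rt chevF4, b.1 ∈ [42, 43, 45, 46] ∧ r = barF4 b ∧
      wf chevF4 [1, 0, 0, 1] (certF4.rc b) < 2 * 2)) r hr with h1 | ⟨h1, h2 | ⟨b, h2, rfl, h4⟩⟩
  · exact Or.inl h1
  · exact Or.inr ⟨h1, h r h2⟩
  · have := (stbF4 φ).cd_σ zero_le_two zero_le_two a1 (fun r hr => a1 (barF4 r) ((by decide +kernel :
      ∀ r : Rt chevF4, r.1 ∈ lV → (barF4 r).1 ∈ lV) r hr)) h4 h1 hv
    rw [hK.fix _ v.2, h b h2, map_zero, mul_zero] at this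
    exact Or.inr ⟨h1, this⟩

theorem nondeg {v : K} (hv : v.1 ∈ (certF4.sys F).U {r | r.1 ∈ lV}) (h : v ∉ rg _ (a2 hK h3).c_add) (t : F) :
    ∃ y : K, y.1 ∈ (certF4.sys F).U {r | r.1 ∈ lY} ∧ ⁅y, v⁆ = (a2 hK h3).c t := by
  obtain ⟨b, h1, h2⟩ : ∃ b : Rt chevF4, b.1 ∈ [42, 43, 45, 46] ∧ (certF4.sys F).cd b v ≠ 0 := by
    by_contra! h1
    exact h (exists_c hK h3 (mem_z hK hv h1))
  obtain ⟨a, a1, a3⟩ := (by decide +kernel : ∀ b : Rt chevF4, b.1 ∈ [42, 43, 45, 46] → ∃ a : Rt chevF4,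
    a.1 ∈ [24, 26, 31, 32] ∧ a.1 ∈ lY ∧ 0 < wf chevF4 [0, 0, 0, 1] (certF4.rc a) ∧ wf chevF4 [0, 0, 0, 1] (certF4.rc b) = 1 ∧
    (∀ i, certF4.rc (TwM.rF 47) i = certF4.rc b i + certF4.rc a i) ∧ (certF4.N a b = 1 ∨ certF4.N a b = -1)) b h1
  obtain ⟨y, hy, h4⟩ := ld hK h3 a a1 (t / (certF4.sys F).cd b v)
  obtain ⟨m, e⟩ := cd_nd a3 (t / (certF4.sys F).cd b v) hy hv
  rw [div_mul_cancel₀ _ h2] at e
  generalize (certF4.sys F).x a (t / (certF4.sys F).cd b v) * y = z at h4 m e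
  obtain ⟨s, hs⟩ := exists_c hK h3 (z := ⁅(⟨z, h4⟩ : K), v⁆) (comm_in (B := [44, 47]) (by decide +kernel) m hv)
  exact ⟨⟨z, h4⟩, m, by rw [← hs, ← e, ← cd_c hK h3 s, hs]; rfl⟩

theorem card_V : Nat.card F ^ 5 ≤ Nat.card (((certF4.sys F).U {r | r.1 ∈ lV}).subgroupOf K) := by
  let p : Fin 5 → Rt chevF4 := ![TwM.rF 42, TwM.rF 43, TwM.rF 45, TwM.rF 46, TwM.rF 47]
  have m : ∀ i t, pr φ (p i) t ∈ (certF4.sys F).U {r | r.1 ∈ lV} := fun i => pr_memL (by revert i; decide +kernel)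
  have k : ∀ i t, pr φ (p i) t ∈ K := fun i => pr_K hK h3 (by revert i; decide +kernel)
  have a1 : ∀ r ∈ {r : Rt chevF4 | r.1 ∈ lV}, 2 ≤ wf chevF4 [1, 0, 0, 1] (certF4.rc r) := by
    simp only [Set.mem_ofPred_eq]; decide +kernel
  have c : ∀ i, i ≠ 4 → ∀ u ∈ (certF4.sys F).U {r | r.1 ∈ lV}, ∀ v ∈ (certF4.sys F).U {r | r.1 ∈ lV},
      (certF4.sys F).cd (p i) (u * v) = (certF4.sys F).cd (p i) u + (certF4.sys F).cd (p i) v := fun i hi u hu v hv =>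
    Sys.cd_mul _ zero_le_two a1 (by revert i; decide +kernel) hu hv
  have d : ∀ i, i ≠ 4 → ∀ j t, (certF4.sys F).cd (p i) (pr φ (p j) t) = if j = i then t else 0 := fun i hi j t => by
    rw [pr, c i hi _ (Sys.x_mem_U _ (by rw [Set.mem_ofPred_eq]; revert j; decide +kernel) _) _
      (Sys.x_mem_U _ (by rw [Set.mem_ofPred_eq]; revert j; decide +kernel) _), Sys.cd_x,
      Sys.cd_x_ne _ (by revert i j; decide +kernel), add_zero]
    exact if_congr (by revert i j; decide +kernel) rfl rfl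
  have e : ∀ t, (certF4.sys F).cd (p 4) (pr φ (p 4) t) = t := cd_c hK h3
  obtain ⟨q, hq⟩ : ∃ q : Fin 5 → F → chevF4.group F, ∀ i t, pr φ (p i) t = q i t := ⟨_, fun _ _ => rfl⟩
  simp only [hq] at m k d e
  have m4 := fun t : Fin 5 → F => mul_mem (m 3 (t 3)) (m 4 (t 4))
  have m3 := fun t : Fin 5 → F => mul_mem (m 2 (t 2)) (m4 t)
  have m2 := fun t : Fin 5 → F => mul_mem (m 1 (t 1)) (m3 t)
  have f : ∀ i, i ≠ 4 → ∀ t : Fin 5 → F,
      (certF4.sys F).cd (p i) (q 0 (t 0) * (q 1 (t 1) * (q 2 (t 2) * (q 3 (t 3) * q 4 (t 4))))) = t i := fun i hi t => by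
    rw [c i hi _ (m _ _) _ (m2 t), c i hi _ (m _ _) _ (m3 t), c i hi _ (m _ _) _ (m4 t), c i hi _ (m _ _) _ (m _ _)]
    simp only [d i hi]
    fin_cases i <;> simp at hi ⊢
  refine le_of_eq_of_le (by rw [Nat.card_fun, Nat.card_fin]) (Nat.card_le_card_of_injective (α := Fin 5 → F) (fun t => ⟨⟨_,
    mul_mem (k _ _) (mul_mem (k _ _) (mul_mem (k _ _) (mul_mem (k _ _) (k _ _))))⟩, mul_mem (m 0 (t 0)) (m2 t)⟩)
    fun s t h => ?_)
  have h1 : q 0 (s 0) * _ = q 0 (t 0) * _ := congrArg (fun x => x.1.1) h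
  have h2 : ∀ i, i ≠ 4 → s i = t i := fun i hi => by rw [← f i hi s, h1, f i hi]
  rw [h2 0 (by decide), h2 1 (by decide), h2 2 (by decide), h2 3 (by decide)] at h1
  simp only [mul_right_inj] at h1
  funext i
  by_cases hi : i = 4
  · rw [hi, ← e (s 4), h1, e]
  · exact h2 i hi

theorem not_t2 {m : ℕ} (hF : Nat.card F = 2 ^ m) (hq : 2 < Nat.card F) (hfix : ∀ g, (stbF4 φ).σ g = g → g ∈ K)
    (hg : ∀ M : Subgroup (chevF4.group F), (∀ g ∈ K, g ∈ (certF4.sys F).Up ∨ g ∈ (certF4.sys F).Um → g ∈ M) → K ≤ M)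
    {Ω : Type*} [MulAction K Ω] [FaithfulSMul K Ω] [Finite Ω] (h : T2 K Ω) : False := by
  have hs := exists_pow_ne F one_lt_two hq
  have hB := hK.bn (nodeF4 hK h3 hfix hs)
  have hp : IsPGroup 2 ((certF4.sys F).Up.subgroupOf K) := ((certF4.sys F).isPGroup_Up 2).comap_subtype
  obtain ⟨-, h1⟩ := ((sb hB).main hp (le_antisymm (iSup_le (sb hB).X_le) (up_le hK h3 hs fun i g hg => by
    obtain ⟨j, hj⟩ := exists_rep (stbF4 φ) i
    exact Subgroup.mem_iSup_of_mem j (show g.1 ∈ Sys.U _ _ by rw [hj]; exact hg.1))) (fun M hM => normal_top _ hK hg hM) h).resolve_left (not_par hK hB Ω)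
  have nf : ∀ t ≠ 0, ∀ x : Ω, (a2 hK h3).c t • x ≠ x := fun t ht => (a2 hK h3).nofix (fun x y => by
    obtain ⟨u, hu, a, ha, e⟩ := h1 x y
    exact ⟨_, e, P_conj hK h3 (mul_mem (Sys.Up_le_P _ _ hu) (Sys.B_le_P _ _ (Sys.H_le_B _ ha)))⟩) (a_conj hK h3)
    (fun e => one_ne_zero ((cd_c hK h3 1).symm.trans (by rw [e]; exact Sys.cd_one ..))) ht
  obtain ⟨-, lam, h2⟩ := h.dvd_root (a2 hK h3).c_add (((certF4.sys F).P ((stbF4 φ).orb ⟨2, by decide⟩)).subgroupOf K)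
    (fun g hg => P_conj hK h3 hg) nf
  rw [index_P hK h3] at h2
  refine ar_TF4 hq ?_ h.two_le h2
  rw [hF, ← pow_mul]
  have p := fun (l : List ℕ) (h : ∀ r ∈ l, 48 ≤ 2 * r) => (certF4.sys F).U_le_Up (T := {r | r.1 ∈ l})
    fun r hr => (certF4.pos_iff_val r).2 (h _ hr)
  refine pow_dvd_card (Y := ((certF4.sys F).U {r | r.1 ∈ lY}).subgroupOf K)
    (hp.to_le (Subgroup.comap_mono (p _ (by decide)))) fun x => ?_
  have h4 : rg _ (a2 hK h3).c_add ⊓ stabilizer K x = ⊥ := eq_bot_iff.2 (by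
    rintro _ ⟨⟨t, rfl⟩, h⟩
    rw [by_contra fun e => nf t e x h, Stein.add_hom_zero (a2 hK h3).c_add]; exact one_mem _)
  have := heis (Y := ((certF4.sys F).U {r | r.1 ∈ lY}).subgroupOf K) (V := ((certF4.sys F).U {r | r.1 ∈ lV}).subgroupOf K)
    (V0 := rg _ (a2 hK h3).c_add) (Z := rg _ (a2 hK h3).c_add) (Subgroup.comap_mono (U_list (by decide))) le_rfl
    (by rintro _ ⟨t, rfl⟩; exact U_list (by decide) (c_mem hK h3 t))
    (fun a ha b hb => Subtype.ext (commute_Up 2 (by decide +kernel) ha hb).eq)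
    (fun y hy v hv => exists_c hK h3 (comm_in (B := [44, 47]) (by decide +kernel) hy hv))
    (by rintro y hy _ ⟨t, rfl⟩; exact Subtype.ext (commute_Up 2 (by decide +kernel) hy (c_mem hK h3 t)).eq)
    (by rintro v hv h _ ⟨t, rfl⟩; exact nondeg hK h3 hv h t) (stabilizer K x) fun h => nf 1 one_ne_zero x (h ⟨1, rfl⟩)
  rw [h4, Subgroup.card_bot, one_mul] at this
  rw [pow_mul, ← hF]
  exact (card_V hK h3).trans this

end TF

variable {G Ω : Type*} [Group G] [Finite G] [MulAction G Ω] [FaithfulSMul G Ω] [Finite Ω]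

theorem fam_TF4 (hG : Lie.Iso2F4 G) (h2 : MulAction.IsMultiplyPretransitive G Ω 2) : Concl G (Nat.card Ω) := by
  obtain ⟨F, _, _, m, hm, hF, ⟨e⟩⟩ := hG
  have hF' := Nat.card_eq_fintype_card.trans hF
  have : CharP F 2 := charP_of_card_eq_prime_pow hF
  obtain ⟨φ, -, h3, hK⟩ := goodTF4 hF'
  let f := (eqF4 F (2 ^ m)).trans e.symm
  have : Nontrivial G := ⟨f ((TF.a2 hK h3).c 1), 1, fun h => one_ne_zero ((TF.cd_c hK h3 1).symm.trans (by
    rw [f.map_eq_one_iff.1 h]; exact Sys.cd_one ..))⟩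
  let _ := MulAction.compHom Ω f.toMonoidHom
  have : FaithfulSMul (gen (certF4.sys F) (f4Words F (2 ^ m))) Ω :=
    ⟨fun h => f.injective (eq_of_smul_eq_smul (α := Ω) h)⟩
  exact (TF.not_t2 hK h3 hF' (by
    have := Nat.pow_le_pow_right two_pos (show 3 ≤ 2 * m + 1 by omega)
    omega) (fun _ => fixF4 hK) (fun M h => (gen_le _).2 fun w hw => h _ (wd_mem_gen _ hw) (f4Words_sign _ w hw))
    ((T2.of_faithful h2).comp f.toMonoidHom f.surjective)).elim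

end Cfsg.Agent.TT
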